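import Mathlib
import Cfsg.Agent.Helper6.Isolated

set_option autoImplicit false

namespace Cfsg.Agent.Helper6

variable {G : Type*} [Group G]

/-- In the dihedral group generated by involutions `z`, `w`, the element `z (zw)^k` is conjugate to `z`
(`k` even) or to `w` (`k` odd). -/
theorem dihedral_reflection_conj {z w : G} (hz : z * z = 1) (hw : w * w = 1) (k : ℕ) :
    (∃ a : G, a * z * a⁻¹ = z * (z * w) ^ k) ∨ (∃ a : G, a * w * a⁻¹ = z * (z * w) ^ k) := by
  set r := z * w with hr
  rcases Nat.even_or_odd k with ⟨j, hj⟩ | ⟨j, hj⟩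
  · left
    refine ⟨(r ^ j)⁻¹, ?_⟩
    rw [inv_inv, hj, pow_add, ← mul_assoc, hr, inv_mul_pow_comm hz hw j]
  · right
    refine ⟨(r ^ j)⁻¹, ?_⟩
    have e2 : w = z * r := by rw [hr, ← mul_assoc, hz, one_mul]
    rw [inv_inv, hj, pow_succ, two_mul, pow_add]
    calc (r ^ j)⁻¹ * w * r ^ j = (r ^ j)⁻¹ * (z * r) * r ^ j := by rw [← e2]
      _ = ((r ^ j)⁻¹ * z) * r * r ^ j := by group
      _ = (z * r ^ j) * r * r ^ j := by rw [hr, ← inv_mul_pow_comm hz hw j]
      _ = z * (r ^ j * r ^ j * r) := by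
          have : r ^ j * r = r * r ^ j := (Commute.pow_self r j).eq
          calc z * r ^ j * r * r ^ j = z * (r ^ j * (r * r ^ j)) := by group
            _ = z * (r ^ j * (r ^ j * r)) := by rw [this]
            _ = z * (r ^ j * r ^ j * r) := by group

/-- the second generator also inverts powers of `z * w` -/
theorem inv_mul_inverts_pow' {z w : G} (hz : z * z = 1) (hw : w * w = 1) (j : ℕ) :
    w * (z * w) ^ j * w = ((z * w) ^ j)⁻¹ := by
  have h := conj_pow (a := w) (b := z * w) (i := j)
  have e : w * (z * w) * w⁻¹ = (z * w)⁻¹ := by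
    rw [inv_eq_self hw, mul_inv_rev, inv_eq_self hz, inv_eq_self hw]
    calc w * (z * w) * w = w * z * (w * w) := by group
      _ = w * z := by rw [hw, mul_one]
  rw [e, inv_eq_self hw, inv_pow] at h
  exact h.symm

/-- if `(zw)^k` is an involution then both generators commute with it -/
theorem dihedral_center_comm {z w : G} (hz : z * z = 1) (hw : w * w = 1) (k : ℕ)
    (hc : (z * w) ^ k * (z * w) ^ k = 1) :
    z * (z * w) ^ k = (z * w) ^ k * z ∧ w * (z * w) ^ k = (z * w) ^ k * w := by
  have hci : ((z * w) ^ k)⁻¹ = (z * w) ^ k := inv_eq_self hc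
  constructor
  · rw [inv_mul_pow_comm hz hw k, hci]
  · have h := inv_mul_inverts_pow' hz hw k
    rw [hci] at h
    calc w * (z * w) ^ k = w * (z * w) ^ k * (w * w) := by rw [hw, mul_one]
      _ = (w * (z * w) ^ k * w) * w := by group
      _ = (z * w) ^ k * w := by rw [h]

end Cfsg.Agent.Helper6
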