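import Mathlib
import Cfsg.Prelude.Def_LieRecognition
import Cfsg.Agent.Helper6.Isolated
import Cfsg.Agent.Helper6.Dihedral

set_option autoImplicit false

namespace Cfsg.Agent.Helper6
namespace RankOne

open MulAction

/-- if `D` normalizes `Q` then every element of `Q ⊔ D` is a product `q * d` -/
theorem mem_sup_of_conj {G : Type*} [Group G] {Q D : Subgroup G}
    (hn : ∀ d ∈ D, ∀ q ∈ Q, d * q * d⁻¹ ∈ Q) {g : G} (hg : g ∈ Q ⊔ D) :
    ∃ q ∈ Q, ∃ d ∈ D, g = q * d := by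
  let K : Subgroup G :=
    { carrier := {g | ∃ q ∈ Q, ∃ d ∈ D, g = q * d}
      one_mem' := ⟨1, Q.one_mem, 1, D.one_mem, by simp⟩
      mul_mem' := by
        rintro _ _ ⟨q₁, hq₁, d₁, hd₁, rfl⟩ ⟨q₂, hq₂, d₂, hd₂, rfl⟩
        exact ⟨q₁ * (d₁ * q₂ * d₁⁻¹), Q.mul_mem hq₁ (hn d₁ hd₁ q₂ hq₂), d₁ * d₂,
          D.mul_mem hd₁ hd₂, by group⟩
      inv_mem' := by
        rintro _ ⟨q, hq, d, hd, rfl⟩
        exact ⟨d⁻¹ * q⁻¹ * d⁻¹⁻¹, hn d⁻¹ (D.inv_mem hd) q⁻¹ (Q.inv_mem hq), d⁻¹,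
          D.inv_mem hd, by group⟩ }
  have hQ : Q ≤ K := fun q hq => ⟨q, hq, 1, D.one_mem, by simp⟩
  have hD : D ≤ K := fun d hd => ⟨1, Q.one_mem, d, hd, by simp⟩
  exact (sup_le hQ hD) hg

/-- an element of a subgroup of odd order whose square is one is trivial -/
theorem eq_one_of_sq_of_odd {G : Type*} [Group G] {D : Subgroup G} (hD : Odd (Nat.card D)) {d : G}
    (hd : d ∈ D) (h : d * d = 1) : d = 1 := by
  have h1 : orderOf d ∣ Nat.card D := Subgroup.orderOf_dvd_natCard D hd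
  have h2 : orderOf d ∣ 2 := orderOf_dvd_of_pow_eq_one (by rw [pow_two, h])
  have h3 : orderOf d ∣ Nat.gcd (Nat.card D) 2 := Nat.dvd_gcd h1 h2
  have h4 : Nat.gcd (Nat.card D) 2 = 1 := Nat.coprime_two_right.mpr hD
  rw [h4, Nat.dvd_one] at h3
  exact orderOf_eq_one_iff.mp h3

variable {G Ω : Type*} [Group G] [MulAction G Ω] {a : Ω} {t : G} {Q : Subgroup G}

theorem t_inv (hS : Cfsg.IsRankOneSetup G Ω a t Q) : t⁻¹ = t :=
  inv_eq_of_mul_eq_one_left hS.mul_self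

theorem ta_ne (hS : Cfsg.IsRankOneSetup G Ω a t Q) : t • a ≠ a :=
  fun h => hS.not_mem (mem_stabilizer_iff.mpr h)

theorem t_ta (hS : Cfsg.IsRankOneSetup G Ω a t Q) : t • t • a = a := by
  rw [← mul_smul, hS.mul_self, one_smul]

theorem exists_fix_map (hS : Cfsg.IsRankOneSetup G Ω a t Q) {c d : Ω} (hc : c ≠ a) (hd : d ≠ a) :
    ∃ h : G, h • a = a ∧ h • c = d := by
  have := hS.two_transitive
  rw [MulAction.is_two_pretransitive_iff] at this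
  exact this (Ne.symm hc) (Ne.symm hd)

theorem D_le (_hS : Cfsg.IsRankOneSetup G Ω a t Q) {d : G}
    (hd : d ∈ stabilizer G a ⊓ stabilizer G (t • a)) : d ∈ stabilizer G a :=
  (Subgroup.mem_inf.mp hd).1

theorem D_conj (hS : Cfsg.IsRankOneSetup G Ω a t Q) {d : G}
    (hd : d ∈ stabilizer G a ⊓ stabilizer G (t • a)) {q : G} (hq : q ∈ Q) : d * q * d⁻¹ ∈ Q :=
  hS.conj_mem d (Subgroup.mem_inf.mp hd).1 q hq

theorem D_conj' (hS : Cfsg.IsRankOneSetup G Ω a t Q) {d : G}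
    (hd : d ∈ stabilizer G a ⊓ stabilizer G (t • a)) {q : G} (hq : q ∈ Q) : d⁻¹ * q * d ∈ Q := by
  have := hS.conj_mem d⁻¹ (Subgroup.inv_mem _ (Subgroup.mem_inf.mp hd).1) q hq
  rwa [inv_inv] at this

/-- `Q` acts semiregularly off `a` -/
theorem semireg (hS : Cfsg.IsRankOneSetup G Ω a t Q) {x : G} (hx : x ∈ Q) {c : Ω} (hc : c ≠ a)
    (hxc : x • c = c) : x = 1 := by
  obtain ⟨h, ha, hc'⟩ := exists_fix_map hS hc (ta_ne hS)
  have h1 : h * x * h⁻¹ ∈ Q := hS.conj_mem h (mem_stabilizer_iff.mpr ha) x hx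
  have h2 : h * x * h⁻¹ ∈ stabilizer G (t • a) := by
    rw [mem_stabilizer_iff, mul_smul, mul_smul, ← hc', inv_smul_smul, hxc]
  have h3 : h * x * h⁻¹ ∈ Q ⊓ stabilizer G (t • a) := Subgroup.mem_inf.mpr ⟨h1, h2⟩
  rw [hS.inf_eq_bot, Subgroup.mem_bot] at h3
  have : x = h⁻¹ * (h * x * h⁻¹) * h := by group
  rw [this, h3]; group

theorem mem_QD (hS : Cfsg.IsRankOneSetup G Ω a t Q) {g : G} (hg : g ∈ stabilizer G a) :
    ∃ q ∈ Q, ∃ d ∈ stabilizer G a ⊓ stabilizer G (t • a), g = q * d := by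
  have hmem : g ∈ Q ⊔ (stabilizer G a ⊓ stabilizer G (t • a)) := by rw [hS.sup_eq]; exact hg
  exact mem_sup_of_conj (fun d hd q hq => D_conj hS hd hq) hmem

theorem QD_unique (hS : Cfsg.IsRankOneSetup G Ω a t Q) {q₁ q₂ d₁ d₂ : G} (hq₁ : q₁ ∈ Q)
    (hq₂ : q₂ ∈ Q) (hd₁ : d₁ ∈ stabilizer G a ⊓ stabilizer G (t • a))
    (hd₂ : d₂ ∈ stabilizer G a ⊓ stabilizer G (t • a)) (h : q₁ * d₁ = q₂ * d₂) :
    q₁ = q₂ ∧ d₁ = d₂ := by
  have e : q₂⁻¹ * q₁ = d₂ * d₁⁻¹ := by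
    calc q₂⁻¹ * q₁ = q₂⁻¹ * (q₁ * d₁) * d₁⁻¹ := by group
      _ = q₂⁻¹ * (q₂ * d₂) * d₁⁻¹ := by rw [h]
      _ = d₂ * d₁⁻¹ := by group
  have hm : q₂⁻¹ * q₁ ∈ Q ⊓ stabilizer G (t • a) :=
    Subgroup.mem_inf.mpr ⟨Q.mul_mem (Q.inv_mem hq₂) hq₁, by
      rw [e]
      exact Subgroup.mul_mem _ (Subgroup.mem_inf.mp hd₂).2
        (Subgroup.inv_mem _ (Subgroup.mem_inf.mp hd₁).2)⟩
  rw [hS.inf_eq_bot, Subgroup.mem_bot] at hm
  have hq : q₂ = q₁ := inv_mul_eq_one.mp hm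
  rw [hm] at e
  have hd : d₂ = d₁ := mul_inv_eq_one.mp e.symm
  exact ⟨hq.symm, hd.symm⟩

/-- `t` normalizes `D` -/
theorem t_conj_mem (hS : Cfsg.IsRankOneSetup G Ω a t Q) {d : G}
    (hd : d ∈ stabilizer G a ⊓ stabilizer G (t • a)) :
    t * d * t ∈ stabilizer G a ⊓ stabilizer G (t • a) := by
  obtain ⟨h1, h2⟩ := Subgroup.mem_inf.mp hd
  rw [mem_stabilizer_iff] at h1 h2
  refine Subgroup.mem_inf.mpr ⟨?_, ?_⟩
  · rw [mem_stabilizer_iff, mul_smul, mul_smul, h2, t_ta hS]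
  · rw [mem_stabilizer_iff, mul_smul, mul_smul, t_ta hS, h1]

theorem exists_Q_map_ta (hS : Cfsg.IsRankOneSetup G Ω a t Q) {c : Ω} (hc : c ≠ a) :
    ∃ x ∈ Q, x • t • a = c := by
  obtain ⟨h, ha, hc'⟩ := exists_fix_map hS (ta_ne hS) hc
  obtain ⟨q, hq, d, hd, rfl⟩ := mem_QD hS (mem_stabilizer_iff.mpr ha)
  refine ⟨q, hq, ?_⟩
  have hd2 := (Subgroup.mem_inf.mp hd).2
  rw [mem_stabilizer_iff] at hd2
  rw [mul_smul, hd2] at hc'
  exact hc'

theorem exists_Q_map (hS : Cfsg.IsRankOneSetup G Ω a t Q) {b c : Ω} (hb : b ≠ a) (hc : c ≠ a) :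
    ∃ x ∈ Q, x • b = c := by
  obtain ⟨x₁, hx₁, rfl⟩ := exists_Q_map_ta hS hb
  obtain ⟨x₂, hx₂, rfl⟩ := exists_Q_map_ta hS hc
  exact ⟨x₂ * x₁⁻¹, Q.mul_mem hx₂ (Q.inv_mem hx₁), by rw [mul_smul, inv_smul_smul]⟩

theorem Q_map_unique (hS : Cfsg.IsRankOneSetup G Ω a t Q) {b : Ω} (hb : b ≠ a) {x y : G}
    (hx : x ∈ Q) (hy : y ∈ Q) (h : x • b = y • b) : x = y := by
  have : y⁻¹ * x = 1 :=
    semireg hS (Q.mul_mem (Q.inv_mem hy) hx) hb (by rw [mul_smul, h, inv_smul_smul])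
  exact (inv_mul_eq_one.mp this).symm

theorem stab_smul_ne (_hS : Cfsg.IsRankOneSetup G Ω a t Q) {h : G} (hh : h ∈ stabilizer G a) {c : Ω}
    (hc : c ≠ a) : h • c ≠ a := by
  intro e
  apply hc
  have ha : h • a = a := mem_stabilizer_iff.mp hh
  calc c = h⁻¹ • h • c := (inv_smul_smul h c).symm
    _ = h⁻¹ • a := by rw [e]
    _ = a := by rw [inv_smul_eq_iff, ha]

theorem canon_smul (hS : Cfsg.IsRankOneSetup G Ω a t Q) {h : G} (hh : h ∈ stabilizer G a) (y : G) :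
    (h * t * y)⁻¹ • a = y⁻¹ • t • a := by
  have : h⁻¹ • a = a := mem_stabilizer_iff.mp (Subgroup.inv_mem _ hh)
  rw [mul_inv_rev, mul_inv_rev, mul_smul, mul_smul, t_inv hS, this]

theorem exists_canon (hS : Cfsg.IsRankOneSetup G Ω a t Q) {g : G} (hg : g ∉ stabilizer G a) :
    ∃ h ∈ stabilizer G a, ∃ y ∈ Q, g = h * t * y := by
  have hne : g⁻¹ • a ≠ a := by
    intro h; apply hg; rw [mem_stabilizer_iff]
    calc g • a = g • g⁻¹ • a := by rw [h]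
      _ = a := smul_inv_smul g a
  obtain ⟨q, hq, hqa⟩ := exists_Q_map_ta hS hne
  refine ⟨g * q * t, ?_, q⁻¹, Q.inv_mem hq, ?_⟩
  · rw [mem_stabilizer_iff, mul_smul, mul_smul, hqa, smul_inv_smul]
  · have := hS.mul_self
    calc g = g * q * (t * t) * q⁻¹ := by rw [this]; group
      _ = g * q * t * t * q⁻¹ := by group

theorem canon_unique (hS : Cfsg.IsRankOneSetup G Ω a t Q) {h₁ h₂ y₁ y₂ : G}
    (hh₁ : h₁ ∈ stabilizer G a) (hh₂ : h₂ ∈ stabilizer G a) (hy₁ : y₁ ∈ Q) (hy₂ : y₂ ∈ Q)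
    (h : h₁ * t * y₁ = h₂ * t * y₂) : h₁ = h₂ ∧ y₁ = y₂ := by
  have key : y₁⁻¹ • t • a = y₂⁻¹ • t • a := by
    rw [← canon_smul hS hh₁, ← canon_smul hS hh₂, h]
  have hy : y₁⁻¹ = y₂⁻¹ := Q_map_unique hS (ta_ne hS) (Q.inv_mem hy₁) (Q.inv_mem hy₂) key
  have hy' : y₁ = y₂ := inv_injective hy
  subst hy'
  exact ⟨mul_right_cancel (mul_right_cancel h), rfl⟩

theorem canon_unique' (hS : Cfsg.IsRankOneSetup G Ω a t Q) {q₁ q₂ d₁ d₂ f₁ f₂ : G} (hq₁ : q₁ ∈ Q)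
    (hq₂ : q₂ ∈ Q) (hd₁ : d₁ ∈ stabilizer G a ⊓ stabilizer G (t • a))
    (hd₂ : d₂ ∈ stabilizer G a ⊓ stabilizer G (t • a)) (hf₁ : f₁ ∈ Q) (hf₂ : f₂ ∈ Q)
    (h : q₁ * d₁ * t * f₁ = q₂ * d₂ * t * f₂) : q₁ = q₂ ∧ d₁ = d₂ ∧ f₁ = f₂ := by
  obtain ⟨e1, e2⟩ := canon_unique hS (Subgroup.mul_mem _ (hS.le hq₁) (D_le hS hd₁))
    (Subgroup.mul_mem _ (hS.le hq₂) (D_le hS hd₂)) hf₁ hf₂ h
  obtain ⟨e3, e4⟩ := QD_unique hS hq₁ hq₂ hd₁ hd₂ e1
  exact ⟨e3, e4, e2⟩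

/-- elements of `G_a` of order at most two lie in `Q` -/
theorem sq_one_mem_Q (hS : Cfsg.IsRankOneSetup G Ω a t Q) {s : G} (hs : s ∈ stabilizer G a)
    (h2 : s * s = 1) : s ∈ Q := by
  obtain ⟨q, hq, d, hd, rfl⟩ := mem_QD hS hs
  have hdd : d * d = (q * (d * q * d⁻¹))⁻¹ := by
    have : q * (d * q * d⁻¹) * (d * d) = 1 := by rw [← h2]; group
    exact eq_inv_of_mul_eq_one_right this
  have hm : d * d ∈ Q ⊓ stabilizer G (t • a) :=
    Subgroup.mem_inf.mpr ⟨by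
      rw [hdd]; exact Q.inv_mem (Q.mul_mem hq (D_conj hS hd hq)),
      Subgroup.mul_mem _ (Subgroup.mem_inf.mp hd).2 (Subgroup.mem_inf.mp hd).2⟩
  rw [hS.inf_eq_bot, Subgroup.mem_bot] at hm
  have hd1 : d = 1 := eq_one_of_sq_of_odd hS.odd_card hd hm
  rw [hd1, mul_one]; exact hq

theorem exists_Q_ne_one (hS : Cfsg.IsRankOneSetup G Ω a t Q) [Finite G] : ∃ x ∈ Q, x ≠ 1 := by
  by_contra hcon
  push Not at hcon
  have hbot : Q = ⊥ := (Subgroup.eq_bot_iff_forall Q).mpr hcon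
  have h1 : Nat.card Q = 1 := by rw [hbot]; exact Subgroup.card_bot
  have := hS.even_card
  rw [h1] at this
  exact absurd this (by decide)

theorem card_Omega (hS : Cfsg.IsRankOneSetup G Ω a t Q) [Finite G] :
    Nat.card Ω = Nat.card Q + 1 := by
  let f : Option Q → Ω := fun o => o.elim a (fun x => (x : G) • t • a)
  have hf : Function.Bijective f := by
    constructor
    · rintro (_ | x) (_ | y) h
      · rfl
      · exact absurd h.symm (stab_smul_ne hS (hS.le y.2) (ta_ne hS))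
      · exact absurd h (stab_smul_ne hS (hS.le x.2) (ta_ne hS))
      · congr 1; exact Subtype.ext (Q_map_unique hS (ta_ne hS) x.2 y.2 h)
    · intro c
      by_cases hc : c = a
      · exact ⟨none, hc.symm⟩
      · obtain ⟨x, hx, rfl⟩ := exists_Q_map_ta hS hc
        exact ⟨some ⟨x, hx⟩, rfl⟩
  rw [← Nat.card_congr (Equiv.ofBijective f hf), Finite.card_option]

theorem finite_Omega (hS : Cfsg.IsRankOneSetup G Ω a t Q) [Finite G] : Finite Ω :=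
  Nat.finite_of_card_ne_zero (by rw [card_Omega hS]; omega)

theorem card_stab (hS : Cfsg.IsRankOneSetup G Ω a t Q) [Finite G] :
    Nat.card (stabilizer G a) =
      Nat.card Q * Nat.card ↥(stabilizer G a ⊓ stabilizer G (t • a)) := by
  let f : Q × ↥(stabilizer G a ⊓ stabilizer G (t • a)) → stabilizer G a :=
    fun p => ⟨(p.1 : G) * (p.2 : G), Subgroup.mul_mem _ (hS.le p.1.2) (D_le hS p.2.2)⟩
  have hf : Function.Bijective f := by
    constructor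
    · rintro ⟨⟨q₁, hq₁⟩, ⟨d₁, hd₁⟩⟩ ⟨⟨q₂, hq₂⟩, ⟨d₂, hd₂⟩⟩ h
      have h' : q₁ * d₁ = q₂ * d₂ := congrArg Subtype.val h
      obtain ⟨e1, e2⟩ := QD_unique hS hq₁ hq₂ hd₁ hd₂ h'
      subst e1; subst e2; rfl
    · rintro ⟨g, hg⟩
      obtain ⟨q, hq, d, hd, rfl⟩ := mem_QD hS hg
      exact ⟨(⟨q, hq⟩, ⟨d, hd⟩), rfl⟩
  rw [← Nat.card_congr (Equiv.ofBijective f hf), Nat.card_prod]

theorem card_G (hS : Cfsg.IsRankOneSetup G Ω a t Q) [Finite G] :
    Nat.card G = Nat.card Q * Nat.card ↥(stabilizer G a ⊓ stabilizer G (t • a)) *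
      (Nat.card Q + 1) := by
  have := hS.two_transitive
  have : IsPretransitive G Ω := isPretransitive_of_is_two_pretransitive
  rw [← Subgroup.card_mul_index (stabilizer G a), index_stabilizer_of_transitive, card_stab hS,
    card_Omega hS]

theorem exists_sylow_le (hS : Cfsg.IsRankOneSetup G Ω a t Q) [Finite G] :
    ∃ P : Sylow 2 G, (P : Subgroup G) ≤ Q := by
  obtain ⟨P₀⟩ : Nonempty (Sylow 2 Q) := inferInstance
  have hcard : Nat.card (P₀ : Subgroup Q) = 2 ^ (Nat.card Q).factorization 2 :=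
    Sylow.card_eq_multiplicity P₀
  have hQ0 : Nat.card Q ≠ 0 := Nat.card_pos.ne'
  have hD0 : Nat.card ↥(stabilizer G a ⊓ stabilizer G (t • a)) ≠ 0 := Nat.card_pos.ne'
  have hH : Nat.card ((P₀ : Subgroup Q).map Q.subtype) = 2 ^ (Nat.card G).factorization 2 := by
    rw [Subgroup.card_map_of_injective (Subgroup.subtype_injective Q), hcard, card_G hS,
      Nat.factorization_mul (Nat.mul_ne_zero hQ0 hD0) (by omega),
      Nat.factorization_mul hQ0 hD0]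
    have h1 : (Nat.card ↥(stabilizer G a ⊓ stabilizer G (t • a))).factorization 2 = 0 :=
      Nat.factorization_eq_zero_of_not_dvd (fun h => by
        have := hS.odd_card
        rw [← Nat.not_even_iff_odd] at this
        exact this (even_iff_two_dvd.mpr h))
    have h2 : (Nat.card Q + 1).factorization 2 = 0 :=
      Nat.factorization_eq_zero_of_not_dvd (fun h => by
        have := hS.even_card
        rw [even_iff_two_dvd] at this
        omega)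
    rw [Finsupp.add_apply, Finsupp.add_apply, h1, h2, add_zero, add_zero]
  exact ⟨Sylow.ofCard _ hH, by rw [Sylow.coe_ofCard]; exact Subgroup.map_subtype_le _⟩

/-- the product of an involution of `G_a` with an involution outside `G_a` has odd order -/
theorem odd_order_mul (hS : Cfsg.IsRankOneSetup G Ω a t Q) [Finite G] {s u : G}
    (hs : s ∈ stabilizer G a) (hs1 : s ≠ 1) (hs2 : s * s = 1) (hu : u ∉ stabilizer G a)
    (hu2 : u * u = 1) : Odd (orderOf (s * u)) := by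
  by_contra hodd
  rw [Nat.not_odd_iff_even] at hodd
  obtain ⟨k, hk⟩ := hodd
  have hpos : 0 < orderOf (s * u) := orderOf_pos _
  have hk0 : k ≠ 0 := by omega
  have hz2 : (s * u) ^ k * (s * u) ^ k = 1 := by rw [← pow_add, ← hk, pow_orderOf_eq_one]
  have hz1 : (s * u) ^ k ≠ 1 := pow_ne_one_of_lt_orderOf hk0 (by omega)
  obtain ⟨c1, c2⟩ := dihedral_center_comm hs2 hu2 k hz2
  have hsQ : s ∈ Q := sq_one_mem_Q hS hs hs2
  have hza : (s * u) ^ k • a = a := by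
    by_contra hne
    apply hs1
    apply semireg hS hsQ hne
    rw [← mul_smul, c1, mul_smul, mem_stabilizer_iff.mp hs]
  have hzQ : (s * u) ^ k ∈ Q := sq_one_mem_Q hS (mem_stabilizer_iff.mpr hza) hz2
  apply hu
  rw [mem_stabilizer_iff]
  by_contra hne
  apply hz1
  apply semireg hS hzQ hne
  rw [← mul_smul, ← c2, mul_smul, hza]

theorem exists_fixed_of_sq_one (hS : Cfsg.IsRankOneSetup G Ω a t Q) [Finite G] {u : G}
    (hu2 : u * u = 1) : ∃ c : Ω, u • c = c := by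
  have : Finite Ω := finite_Omega hS
  have hp : IsPGroup 2 (Subgroup.zpowers u) := by
    rintro ⟨g, hg⟩
    obtain ⟨i, rfl⟩ := Subgroup.mem_zpowers_iff.mp hg
    refine ⟨1, Subtype.ext ?_⟩
    show (u ^ i) ^ 2 ^ 1 = 1
    rw [pow_one, ← zpow_natCast, ← zpow_mul, mul_comm, zpow_mul, zpow_natCast, pow_two, hu2,
      one_zpow]
  have hnd : ¬ 2 ∣ Nat.card Ω := by
    rw [card_Omega hS]
    have := hS.even_card
    rw [even_iff_two_dvd] at this
    omega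
  obtain ⟨c, hc⟩ := hp.nonempty_fixed_point_of_prime_not_dvd_card Ω hnd
  exact ⟨c, hc ⟨u, Subgroup.mem_zpowers u⟩⟩

/-- every involution is conjugate to `t` -/
theorem conj_t (hS : Cfsg.IsRankOneSetup G Ω a t Q) [Finite G] {u : G} (hu1 : u ≠ 1)
    (hu2 : u * u = 1) : ∃ g : G, g * u * g⁻¹ = t := by
  obtain ⟨c, hc⟩ := exists_fixed_of_sq_one hS hu2
  have := hS.two_transitive
  have : IsPretransitive G Ω := isPretransitive_of_is_two_pretransitive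
  obtain ⟨g, hg⟩ := exists_smul_eq G c a
  have hs : g * u * g⁻¹ ∈ stabilizer G a := by
    rw [mem_stabilizer_iff, mul_smul, mul_smul, ← hg, inv_smul_smul, hc]
  have hs2 := conj_sq_one hu2 g
  have hs1 : g * u * g⁻¹ ≠ 1 := by
    intro h; apply hu1
    have : u = g⁻¹ * (g * u * g⁻¹) * g := by group
    rw [this, h]; group
  obtain ⟨m, hm⟩ := odd_order_mul hS hs hs1 hs2 hS.not_mem hS.mul_self
  have := conj_of_odd hs2 hS.mul_self m (by rw [← hm]; exact pow_orderOf_eq_one _)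
  refine ⟨((g * u * g⁻¹) * t) ^ m * g, ?_⟩
  rw [mul_inv_rev]
  calc ((g * u * g⁻¹) * t) ^ m * g * u * (g⁻¹ * (((g * u * g⁻¹) * t) ^ m)⁻¹)
      = ((g * u * g⁻¹) * t) ^ m * (g * u * g⁻¹) * (((g * u * g⁻¹) * t) ^ m)⁻¹ := by
        simp only [mul_assoc]
    _ = t := this

end RankOne
end Cfsg.Agent.Helper6
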