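import Mathlib
import Cfsg.Prelude.Def_Involutions
import Cfsg.Agent.Helper2.Inv
import Cfsg.Agent.Helper6.Isolated
import Cfsg.Agent.Helper6.Dihedral

set_option autoImplicit false

namespace Cfsg.Agent.Helper6
namespace SE

variable {G : Type*} [Group G]

theorem orderOf_conj_inv (g t : G) : orderOf (g⁻¹ * t * g) = orderOf t := by
  have := orderOf_conj_eq g⁻¹ t
  rwa [inv_inv] at this

theorem smul_mk_eq_iff {H : Subgroup G} {t g : G} :
    t • (QuotientGroup.mk g : G ⧸ H) = QuotientGroup.mk g ↔ g⁻¹ * t * g ∈ H := by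
  rw [MulAction.Quotient.smul_mk, QuotientGroup.eq, smul_eq_mul]
  constructor
  · intro h
    have := H.inv_mem h
    have e : ((t * g)⁻¹ * g)⁻¹ = g⁻¹ * t * g := by group
    rwa [e] at this
  · intro h
    have := H.inv_mem h
    have e : (g⁻¹ * t * g)⁻¹ = (t * g)⁻¹ * g := by group
    rwa [e] at this

theorem card_fix {H : Subgroup G} (y : G ⧸ H) :
    Nat.card {v : G // orderOf v = 2 ∧ v • y = y} = Nat.card {t : G // orderOf t = 2 ∧ t ∈ H} := by
  induction y using QuotientGroup.induction_on with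
  | H g =>
    symm
    refine Nat.card_congr (Equiv.subtypeEquiv (MulAut.conj g).toEquiv (fun t => ?_))
    show orderOf t = 2 ∧ t ∈ H ↔ orderOf (g * t * g⁻¹) = 2 ∧
      (g * t * g⁻¹) • (QuotientGroup.mk g : G ⧸ H) = QuotientGroup.mk g
    rw [orderOf_conj_eq, smul_mk_eq_iff]
    have : g⁻¹ * (g * t * g⁻¹) * g = t := by group
    rw [this]

variable [Finite G] {H : Subgroup G}

/-- an element conjugating an involution of `H` into `H` lies in `H` -/
theorem mem_of_conj_mem (hH : Cfsg.IsStronglyEmbedded H) {t g : G} (ht : t ∈ H)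
    (ht2 : orderOf t = 2) (hg : g⁻¹ * t * g ∈ H) : g ∈ H := by
  by_contra hgH
  exact ((Cfsg.Agent.Helper2.stronglyEmbedded_iff H).mp hH).2.2 g hgH t ht ht2 hg

theorem mem_of_conj_mem' (hH : Cfsg.IsStronglyEmbedded H) {t g : G} (ht : t ∈ H)
    (ht2 : orderOf t = 2) (hg : g * t * g⁻¹ ∈ H) : g ∈ H := by
  have : g⁻¹ ∈ H := mem_of_conj_mem hH ht ht2 (by rw [inv_inv]; exact hg)
  simpa using H.inv_mem this

theorem odd_mul (hH : Cfsg.IsStronglyEmbedded H) {t v : G} (ht : t ∈ H) (ht2 : orderOf t = 2)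
    (hv2 : orderOf v = 2) (hv : v ∉ H) : Odd (orderOf (t * v)) := by
  have tt := inv_sq_one ht2
  have vv := inv_sq_one hv2
  by_contra hodd
  rw [Nat.not_odd_iff_even] at hodd
  obtain ⟨k, hk⟩ := hodd
  have hpos : 0 < orderOf (t * v) := orderOf_pos _
  have hk0 : k ≠ 0 := by omega
  have hz2 : (t * v) ^ k * (t * v) ^ k = 1 := by rw [← pow_add, ← hk, pow_orderOf_eq_one]
  have hz1 : (t * v) ^ k ≠ 1 := pow_ne_one_of_lt_orderOf hk0 (by omega)
  have hzo : orderOf ((t * v) ^ k) = 2 := orderOf_eq_prime (by rw [pow_two]; exact hz2) hz1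
  obtain ⟨c1, c2⟩ := dihedral_center_comm tt vv k hz2
  have hzH : (t * v) ^ k ∈ H := by
    apply mem_of_conj_mem hH ht ht2
    have : ((t * v) ^ k)⁻¹ * t * (t * v) ^ k = t := by
      rw [mul_assoc, c1, ← mul_assoc, inv_mul_cancel, one_mul]
    rw [this]; exact ht
  apply hv
  apply mem_of_conj_mem hH hzH hzo
  have : v⁻¹ * (t * v) ^ k * v = (t * v) ^ k := by
    rw [mul_assoc, ← c2, ← mul_assoc, inv_mul_cancel, one_mul]
  rw [this]; exact hzH

/-- an involution of `H` and an involution outside `H` are conjugate by an involution -/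
theorem exists_inv_conj (hH : Cfsg.IsStronglyEmbedded H) {t v : G} (ht : t ∈ H)
    (ht2 : orderOf t = 2) (hv2 : orderOf v = 2) (hv : v ∉ H) :
    ∃ w : G, orderOf w = 2 ∧ w * t * w⁻¹ = v := by
  have tt := inv_sq_one ht2
  have vv := inv_sq_one hv2
  obtain ⟨m, hm⟩ := odd_mul hH ht ht2 hv2 hv
  have hc := conj_of_odd tt vv m (by rw [← hm]; exact pow_orderOf_eq_one _)
  have hw2 : ((t * v) ^ m * t) * ((t * v) ^ m * t) = 1 := by
    have := inv_mul_inverts_pow tt vv m
    calc (t * v) ^ m * t * ((t * v) ^ m * t) = (t * v) ^ m * (t * (t * v) ^ m * t) := by group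
      _ = 1 := by rw [this, mul_inv_cancel]
  have hw1 : (t * v) ^ m * t ≠ 1 := by
    intro h1
    apply hv
    have e : (t * v) ^ m = t⁻¹ := eq_inv_of_mul_eq_one_left h1
    have : v = t := by
      rw [← hc, e]; group
    rw [this]; exact ht
  refine ⟨(t * v) ^ m * t, orderOf_eq_prime (by rw [pow_two]; exact hw2) hw1, ?_⟩
  rw [mul_inv_rev, inv_eq_self tt]
  calc (t * v) ^ m * t * t * (t * ((t * v) ^ m)⁻¹)
      = (t * v) ^ m * (t * t) * t * ((t * v) ^ m)⁻¹ := by group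
    _ = v := by rw [tt, mul_one]; exact hc

theorem fixed_unique (hH : Cfsg.IsStronglyEmbedded H) {v : G} (hv2 : orderOf v = 2)
    {x y : G ⧸ H} (hx : v • x = x) (hy : v • y = y) : x = y := by
  induction x using QuotientGroup.induction_on with
  | H g =>
    induction y using QuotientGroup.induction_on with
    | H g' =>
      rw [smul_mk_eq_iff] at hx hy
      rw [QuotientGroup.eq]
      apply mem_of_conj_mem hH hx (by rw [orderOf_conj_inv]; exact hv2)
      have : (g⁻¹ * g')⁻¹ * (g⁻¹ * v * g) * (g⁻¹ * g') = g'⁻¹ * v * g' := by group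
      rw [this]; exact hy

theorem exists_fixed (hH : Cfsg.IsStronglyEmbedded H) {v : G} (hv2 : orderOf v = 2) :
    ∃ x : G ⧸ H, v • x = x := by
  obtain ⟨t, ht, ht2⟩ := Cfsg.Agent.Helper2.exists_involution_of_even H hH.2.1
  by_cases hv : v ∈ H
  · exact ⟨QuotientGroup.mk 1, by rw [smul_mk_eq_iff]; simpa using hv⟩
  · obtain ⟨w, hw2, hw⟩ := exists_inv_conj hH ht ht2 hv2 hv
    refine ⟨QuotientGroup.mk w, ?_⟩
    rw [smul_mk_eq_iff, ← hw]
    have : w⁻¹ * (w * t * w⁻¹) * w = t := by group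
    rw [this]; exact ht

theorem exists_inv_conj_at (hH : Cfsg.IsStronglyEmbedded H) {x : G ⧸ H} {t v : G}
    (ht2 : orderOf t = 2) (htx : t • x = x) (hv2 : orderOf v = 2) (hvx : v • x ≠ x) :
    ∃ w : G, orderOf w = 2 ∧ w * t * w⁻¹ = v := by
  induction x using QuotientGroup.induction_on with
  | H g =>
    rw [smul_mk_eq_iff] at htx
    rw [Ne, smul_mk_eq_iff] at hvx
    obtain ⟨w, hw2, hw⟩ := exists_inv_conj hH htx (by rw [orderOf_conj_inv]; exact ht2)
      (by rw [orderOf_conj_inv]; exact hv2) hvx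
    refine ⟨g * w * g⁻¹, by rw [orderOf_conj_eq]; exact hw2, ?_⟩
    calc g * w * g⁻¹ * t * (g * w * g⁻¹)⁻¹ = g * (w * (g⁻¹ * t * g) * w⁻¹) * g⁻¹ := by group
      _ = g * (g⁻¹ * v * g) * g⁻¹ := by rw [hw]
      _ = v := by group

theorem card_swap_ge (hH : Cfsg.IsStronglyEmbedded H) {x y : G ⧸ H} (hxy : x ≠ y) :
    Nat.card {t : G // orderOf t = 2 ∧ t ∈ H} ≤ Nat.card {i : G // orderOf i = 2 ∧ i • x = y} := by
  rw [← card_fix y]
  obtain ⟨t, ht, ht2⟩ := Cfsg.Agent.Helper2.exists_involution_of_even H hH.2.1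
  obtain ⟨t₀, ht₀2, ht₀x⟩ : ∃ t₀ : G, orderOf t₀ = 2 ∧ t₀ • x = x := by
    induction x using QuotientGroup.induction_on with
    | H g =>
      refine ⟨g * t * g⁻¹, by rw [orderOf_conj_eq]; exact ht2, ?_⟩
      rw [smul_mk_eq_iff]
      have : g⁻¹ * (g * t * g⁻¹) * g = t := by group
      rw [this]; exact ht
  let f : {i : G // orderOf i = 2 ∧ i • x = y} → {v : G // orderOf v = 2 ∧ v • y = y} :=
    fun w => ⟨(w : G) * t₀ * (w : G)⁻¹, by rw [orderOf_conj_eq]; exact ht₀2, by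
      have hw := w.2.2
      have hwi : (w : G)⁻¹ • y = x := by rw [inv_smul_eq_iff, hw]
      rw [mul_smul, mul_smul, hwi, ht₀x, hw]⟩
  apply Nat.card_le_card_of_surjective f
  rintro ⟨v, hv2, hvy⟩
  have hvx : v • x ≠ x := fun h => hxy (fixed_unique hH hv2 h hvy)
  obtain ⟨w, hw2, hw⟩ := exists_inv_conj_at hH ht₀2 ht₀x hv2 hvx
  have hwx : w • x = y := by
    apply fixed_unique hH hv2 _ hvy
    rw [← hw, mul_smul, mul_smul, inv_smul_smul, ht₀x]
  exact ⟨⟨w, hw2, hwx⟩, Subtype.ext hw⟩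

/-- S1224: the number of involutions taking `x` to `y ≠ x` is the number of involutions of `H` -/
theorem card_swap (hH : Cfsg.IsStronglyEmbedded H) {x y : G ⧸ H} (_hxy : x ≠ y) :
    Nat.card {i : G // orderOf i = 2 ∧ i • x = y} = Nat.card {t : G // orderOf t = 2 ∧ t ∈ H} := by
  classical
  have : Fintype G := Fintype.ofFinite G
  have : Fintype (G ⧸ H) := Fintype.ofFinite _
  let s : Finset G := Finset.univ.filter (fun i : G => orderOf i = 2)
  have hA : ∀ z : G ⧸ H, Nat.card {i : G // orderOf i = 2 ∧ i • x = z} =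
      (s.filter (fun i => i • x = z)).card := by
    intro z
    apply Nat.subtype_card
    intro i
    simp [s]
  have hB : ∀ z : G ⧸ H, Nat.card {i : G // orderOf i = 2 ∧ i • z = z} =
      (s.filter (fun i => i • z = z)).card := by
    intro z
    apply Nat.subtype_card
    intro i
    simp [s]
  have h1 : s.card = ∑ z : G ⧸ H, (s.filter (fun i => i • x = z)).card :=
    Finset.card_eq_sum_card_fiberwise (fun i _ => Finset.mem_univ _)
  have h2 : s.card = ∑ z : G ⧸ H, (s.filter (fun i => i • z = z)).card := by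
    have key := Finset.sum_card_bipartiteAbove_eq_sum_card_bipartiteBelow (s := s)
      (t := (Finset.univ : Finset (G ⧸ H))) (r := fun (i : G) (z : G ⧸ H) => i • z = z)
    have hone : ∀ i ∈ s, ((Finset.univ : Finset (G ⧸ H)).bipartiteAbove
        (fun (i : G) (z : G ⧸ H) => i • z = z) i).card = 1 := by
      intro i hi
      have hi2 : orderOf i = 2 := by simpa [s] using hi
      rw [Finset.card_eq_one]
      obtain ⟨z, hz⟩ := exists_fixed hH hi2
      refine ⟨z, ?_⟩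
      ext z'
      simp only [Finset.bipartiteAbove, Finset.mem_filter, Finset.mem_univ, true_and,
        Finset.mem_singleton]
      exact ⟨fun h => fixed_unique hH hi2 h hz, fun h => h ▸ hz⟩
    rw [Finset.sum_congr rfl hone, Finset.sum_const, smul_eq_mul, mul_one] at key
    exact key
  have hsum : ∑ _z : G ⧸ H, Nat.card {t : G // orderOf t = 2 ∧ t ∈ H} =
      ∑ z : G ⧸ H, (s.filter (fun i => i • x = z)).card := by
    rw [← h1, h2]
    refine Finset.sum_congr rfl (fun z _ => ?_)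
    rw [← hB z, card_fix z]
  have hle : ∀ z ∈ (Finset.univ : Finset (G ⧸ H)),
      Nat.card {t : G // orderOf t = 2 ∧ t ∈ H} ≤ (s.filter (fun i => i • x = z)).card := by
    intro z _
    rw [← hA z]
    by_cases hz : x = z
    · subst hz; rw [card_fix x]
    · exact card_swap_ge hH hz
  have := (Finset.sum_eq_sum_iff_of_le hle).mp hsum y (Finset.mem_univ y)
  rw [hA y, ← this]

/-- S1225 (1) -/
theorem conj_in_D (hH : Cfsg.IsStronglyEmbedded H) {u s t : G} (hu : orderOf u = 2) (huH : u ∉ H)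
    (hs : orderOf s = 2) (hsH : s ∈ H) (ht : orderOf t = 2) (htH : t ∈ H) :
    ∃ d ∈ (H ⊓ H.map (MulAut.conj u).toMonoidHom), d * s * d⁻¹ = t := by
  have uu := inv_sq_one hu
  have hv2 : orderOf (u * s * u⁻¹) = 2 := by rw [orderOf_conj_eq]; exact hs
  have hvH : u * s * u⁻¹ ∉ H := fun h => huH (mem_of_conj_mem' hH hsH hs h)
  obtain ⟨w, hw2, hw⟩ := exists_inv_conj hH htH ht hv2 hvH
  have ww := inv_sq_one hw2
  have e1 : (w⁻¹ * u) * s * (w⁻¹ * u)⁻¹ = t := by
    calc (w⁻¹ * u) * s * (w⁻¹ * u)⁻¹ = w⁻¹ * (u * s * u⁻¹) * w := by group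
      _ = w⁻¹ * (w * t * w⁻¹) * w := by rw [hw]
      _ = t := by group
  have e2 : (w * u) * s * (w * u)⁻¹ = t := by
    calc (w * u) * s * (w * u)⁻¹ = w * (u * s * u⁻¹) * w⁻¹ := by group
      _ = w * (w * t * w⁻¹) * w⁻¹ := by rw [hw]
      _ = (w * w) * t * (w * w)⁻¹ := by group
      _ = t := by rw [ww]; group
  refine ⟨w⁻¹ * u, Subgroup.mem_inf.mpr ⟨mem_of_conj_mem' hH hsH hs (by rw [e1]; exact htH), ?_⟩, e1⟩
  rw [Cfsg.Agent.Helper2.mem_map_conj]
  have hwu : w * u ∈ H := mem_of_conj_mem' hH hsH hs (by rw [e2]; exact htH)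
  have : u⁻¹ * (w⁻¹ * u) * u = (w * u)⁻¹ * (u * u) := by group
  rw [this, uu, mul_one]
  exact H.inv_mem hwu

/-- S1225 (2) -/
theorem all_conj (hH : Cfsg.IsStronglyEmbedded H) {u : G} (hu : orderOf u = 2) (huH : u ∉ H)
    {a : G} (ha : orderOf a = 2) : ∃ c : G, c * a * c⁻¹ = u := by
  by_cases haH : a ∈ H
  · obtain ⟨w, _, hw⟩ := exists_inv_conj hH haH ha hu huH
    exact ⟨w, hw⟩
  · obtain ⟨t, ht, ht2⟩ := Cfsg.Agent.Helper2.exists_involution_of_even H hH.2.1
    obtain ⟨w, _, hw⟩ := exists_inv_conj hH ht ht2 ha haH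
    obtain ⟨w', _, hw'⟩ := exists_inv_conj hH ht ht2 hu huH
    refine ⟨w' * w⁻¹, ?_⟩
    calc w' * w⁻¹ * a * (w' * w⁻¹)⁻¹ = w' * (w⁻¹ * a * w) * w'⁻¹ := by group
      _ = w' * (w⁻¹ * (w * t * w⁻¹) * w) * w'⁻¹ := by rw [hw]
      _ = w' * t * w'⁻¹ := by group
      _ = u := hw'

end SE
end Cfsg.Agent.Helper6
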