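import Mathlib
import Cfsg.Agent.S1226
import Cfsg.Agent.Helper6.StrEmb
import Cfsg.Agent.Helper6.RankOne

set_option autoImplicit false

namespace Cfsg.Agent.Helper6
namespace CIT

variable {G : Type*} [Group G] [Finite G]

/-- the CIT hypotheses -/
def Hyp (T : Sylow 2 G) : Prop :=
  ¬ IsCyclic (T : Subgroup G) ∧ ¬ (T : Subgroup G).Normal ∧
  ∀ t : G, orderOf t = 2 → IsMulCommutative (Subgroup.centralizer ({t} : Set G)) ∧
    ∀ c ∈ Subgroup.centralizer ({t} : Set G), c ^ 2 = 1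

/-- `N_G(T)` -/
abbrev NT (T : Sylow 2 G) : Subgroup G := Subgroup.normalizer ((T : Subgroup G) : Set G)

/-- `H ∩ uHu⁻¹` -/
abbrev DD (T : Sylow 2 G) (u : G) : Subgroup G :=
  NT T ⊓ (NT T).map (MulAut.conj u).toMonoidHom

variable {T : Sylow 2 G}

theorem se (h : Hyp T) : Cfsg.IsStronglyEmbedded (NT T) :=
  Cfsg.Agent.S1226.result T h.1 h.2.1 h.2.2

theorem basic (h : Hyp T) :
    (∀ u ∈ (T : Subgroup G), ∀ v ∈ (T : Subgroup G), u * v = v * u) ∧
    (∀ t ∈ (T : Subgroup G), t * t = 1) ∧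
    (∀ s ∈ (T : Subgroup G), orderOf s = 2 → Subgroup.centralizer ({s} : Set G) = T) ∧
    (∀ x ∈ NT T, orderOf x = 2 → x ∈ (T : Subgroup G)) := by
  classical
  obtain ⟨hnc, hnn, hC⟩ := h
  have hp2 : Fact (Nat.Prime 2) := ⟨Nat.prime_two⟩
  have hTne : (T : Subgroup G) ≠ ⊥ := by
    intro h
    apply hnc
    rw [h]
    infer_instance
  have hT2 : IsPGroup 2 (T : Subgroup G) := T.isPGroup'
  have hnt : Nontrivial (T : Subgroup G) := (Subgroup.nontrivial_iff_ne_bot _).mpr hTne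
  have hcn : Nontrivial (Subgroup.center (T : Subgroup G)) := hT2.center_nontrivial
  have hZ2 : IsPGroup 2 (Subgroup.center (T : Subgroup G)) := hT2.to_subgroup _
  obtain ⟨z, hz⟩ : ∃ z : Subgroup.center (T : Subgroup G), orderOf z = 2 := by
    apply exists_prime_orderOf_dvd_card' 2
    rcases hZ2.card_eq_or_dvd with h | h
    · exfalso
      have := Subgroup.eq_bot_of_card_eq _ h
      exact (Subgroup.nontrivial_iff_ne_bot _).mp hcn this
    · exact h
  have hz'2 : orderOf (((z : (T : Subgroup G)) : G)) = 2 := by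
    rw [Subgroup.orderOf_coe, Subgroup.orderOf_coe]; exact hz
  have hz'c : ∀ t ∈ (T : Subgroup G), t * ((z : (T : Subgroup G)) : G) = ((z : (T : Subgroup G)) : G) * t := by
    intro t ht
    have := Subgroup.mem_center_iff.mp z.2 ⟨t, ht⟩
    exact congrArg Subtype.val this
  have hTC : ∀ s : G, orderOf s = 2 → (T : Subgroup G) ≤ Subgroup.centralizer ({s} : Set G) →
      Subgroup.centralizer ({s} : Set G) = T := by
    intro s hs hle
    have h2 : IsPGroup 2 (Subgroup.centralizer ({s} : Set G)) := by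
      intro c
      refine ⟨1, ?_⟩
      apply Subtype.ext
      simpa using (hC s hs).2 c c.2
    exact T.3 h2 hle
  have h1 : Subgroup.centralizer ({((z : (T : Subgroup G)) : G)} : Set G) = T :=
    hTC _ hz'2 (fun t ht => Subgroup.mem_centralizer_iff.mpr (fun u hu => by
      rw [Set.mem_singleton_iff.mp hu]; exact (hz'c t ht).symm))
  have hTab : ∀ u ∈ (T : Subgroup G), ∀ v ∈ (T : Subgroup G), u * v = v * u := by
    intro u hu v hv
    have hcm := (hC _ hz'2).1
    rw [← h1] at hu hv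
    exact congrArg Subtype.val (hcm.is_comm.comm ⟨u, hu⟩ ⟨v, hv⟩)
  have hA : ∀ s ∈ (T : Subgroup G), orderOf s = 2 → Subgroup.centralizer ({s} : Set G) = T :=
    fun s hs ho => hTC s ho (fun t ht => Subgroup.mem_centralizer_iff.mpr (fun u hu => by
      rw [Set.mem_singleton_iff.mp hu]; exact hTab _ hs _ ht))
  have hinvT : ∀ x ∈ Subgroup.normalizer ((T : Subgroup G) : Set G), orderOf x = 2 → x ∈ (T : Subgroup G) := by
    intro x hx ho
    have hzx : IsPGroup 2 (Subgroup.zpowers x) :=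
      IsPGroup.of_card (n := 1) (by rw [Nat.card_zpowers, ho, pow_one])
    have hle : Subgroup.zpowers x ≤ Subgroup.normalizer ((T : Subgroup G) : Set G) :=
      (Subgroup.zpowers_le).mpr hx
    have h2 : IsPGroup 2 (Subgroup.zpowers x ⊔ T : Subgroup G) :=
      IsPGroup.to_sup_of_normal_right' hzx hT2 hle
    have := T.3 h2 le_sup_right
    rw [← this]
    exact Subgroup.mem_sup_left (Subgroup.mem_zpowers x)
  refine ⟨hTab, ?_, hA, hinvT⟩
  intro t ht
  rw [← h1] at ht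
  have := (hC _ hz'2).2 t ht
  rwa [pow_two] at this

theorem T_comm (h : Hyp T) {a b : G} (ha : a ∈ (T : Subgroup G)) (hb : b ∈ (T : Subgroup G)) :
    a * b = b * a := (basic h).1 a ha b hb

theorem T_sq (h : Hyp T) {t : G} (ht : t ∈ (T : Subgroup G)) : t * t = 1 := (basic h).2.1 t ht

theorem cent_eq (h : Hyp T) {s : G} (hs : s ∈ (T : Subgroup G)) (hs2 : orderOf s = 2) :
    Subgroup.centralizer ({s} : Set G) = T := (basic h).2.2.1 s hs hs2

theorem inv_mem_T (h : Hyp T) {x : G} (hx : x ∈ NT T) (hx2 : orderOf x = 2) :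
    x ∈ (T : Subgroup G) := (basic h).2.2.2 x hx hx2

theorem T_le (T : Sylow 2 G) : (T : Subgroup G) ≤ NT T := Subgroup.le_normalizer

theorem orderOf_two (h : Hyp T) {t : G} (ht : t ∈ (T : Subgroup G)) (ht1 : t ≠ 1) :
    orderOf t = 2 := by
  have := Fact.mk Nat.prime_two
  exact orderOf_eq_prime (by rw [pow_two]; exact T_sq h ht) ht1

/-- membership in `T` from commuting with an involution of `T` -/
theorem mem_T_of_comm (h : Hyp T) {s x : G} (hs : s ∈ (T : Subgroup G)) (hs2 : orderOf s = 2)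
    (hx : x * s = s * x) : x ∈ (T : Subgroup G) := by
  rw [← cent_eq h hs hs2, Subgroup.mem_centralizer_iff]
  intro y hy
  rw [Set.mem_singleton_iff.mp hy]
  exact hx.symm

theorem conj_mem_T {x t : G} (hx : x ∈ NT T) (ht : t ∈ (T : Subgroup G)) :
    x * t * x⁻¹ ∈ (T : Subgroup G) :=
  (Subgroup.mem_normalizer_iff.mp hx t).mp ht

theorem four_le (h : Hyp T) : 4 ≤ Nat.card (T : Subgroup G) := by
  have hp2 : Fact (Nat.Prime 2) := ⟨Nat.prime_two⟩
  obtain ⟨n, hn⟩ := (IsPGroup.iff_card).mp T.isPGroup'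
  rcases n with _ | _ | n
  · exfalso
    apply h.1
    have : Subsingleton (T : Subgroup G) :=
      Finite.card_le_one_iff_subsingleton.mp (by rw [hn]; simp)
    exact isCyclic_of_subsingleton
  · exfalso
    apply h.1
    exact isCyclic_of_prime_card (p := 2) (by rw [hn]; simp)
  · rw [hn]
    calc 4 = 2 ^ 2 := by norm_num
      _ ≤ 2 ^ (n + 1 + 1) := Nat.pow_le_pow_right (by norm_num) (by omega)

theorem exists_inv_T (h : Hyp T) : ∃ s ∈ (T : Subgroup G), orderOf s = 2 := by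
  obtain ⟨t, ht, ht2⟩ := Cfsg.Agent.Helper2.exists_involution_of_even (NT T) (se h).2.1
  exact ⟨t, inv_mem_T h ht ht2, ht2⟩

theorem exists_inv_not_mem (h : Hyp T) : ∃ u : G, orderOf u = 2 ∧ u ∉ NT T := by
  have hSE := se h
  obtain ⟨t, ht, ht2⟩ := Cfsg.Agent.Helper2.exists_involution_of_even (NT T) hSE.2.1
  obtain ⟨g, hg⟩ : ∃ g : G, g ∉ NT T := by
    by_contra hcon
    push_neg at hcon
    exact hSE.1 ((Subgroup.eq_top_iff' _).mpr hcon)
  exact ⟨g * t * g⁻¹, by rw [orderOf_conj_eq]; exact ht2,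
    fun hmem => hg (SE.mem_of_conj_mem' hSE ht ht2 hmem)⟩

theorem card_J (h : Hyp T) :
    Nat.card {t : G // orderOf t = 2 ∧ t ∈ NT T} = Nat.card (T : Subgroup G) - 1 := by
  classical
  have e : {t : G // orderOf t = 2 ∧ t ∈ NT T} ≃ {t : (T : Subgroup G) // t ≠ 1} :=
    { toFun := fun t => ⟨⟨t.1, inv_mem_T h t.2.2 t.2.1⟩, fun h1 => by
          have h2 : (t.1 : G) = 1 := congrArg Subtype.val h1
          have h3 := t.2.1
          rw [h2, orderOf_one] at h3
          exact absurd h3 (by norm_num)⟩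
      invFun := fun t => ⟨(t.1 : G), orderOf_two h t.1.2
          (fun h1 => t.2 (OneMemClass.coe_eq_one.mp h1)), T_le T t.1.2⟩
      left_inv := fun t => rfl
      right_inv := fun t => rfl }
  have h1 := Nat.card_congr (Equiv.optionSubtypeNe (1 : (T : Subgroup G)))
  rw [Finite.card_option] at h1
  rw [Nat.card_congr e]
  omega

section D
variable {u : G}

theorem D_odd (h : Hyp T) (huH : u ∉ NT T) : Odd (Nat.card (DD T u)) := (se h).2.2 u huH

theorem D_inf_T (h : Hyp T) (huH : u ∉ NT T) {d : G} (hd : d ∈ DD T u)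
    (hdT : d ∈ (T : Subgroup G)) : d = 1 :=
  RankOne.eq_one_of_sq_of_odd (D_odd h huH) hd (T_sq h hdT)

theorem D_le (T : Sylow 2 G) (u : G) : DD T u ≤ NT T := inf_le_left

theorem D_conj_inj (h : Hyp T) (huH : u ∉ NT T) {s : G} (hs : s ∈ (T : Subgroup G))
    (hs2 : orderOf s = 2) {d₁ d₂ : G} (hd₁ : d₁ ∈ DD T u) (hd₂ : d₂ ∈ DD T u)
    (e : d₁ * s * d₁⁻¹ = d₂ * s * d₂⁻¹) : d₁ = d₂ := by
  have hc : (d₂⁻¹ * d₁) * s = s * (d₂⁻¹ * d₁) := by
    calc (d₂⁻¹ * d₁) * s = d₂⁻¹ * (d₁ * s * d₁⁻¹) * d₁ := by group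
      _ = d₂⁻¹ * (d₂ * s * d₂⁻¹) * d₁ := by rw [e]
      _ = s * (d₂⁻¹ * d₁) := by group
  have h1 := D_inf_T h huH ((DD T u).mul_mem ((DD T u).inv_mem hd₂) hd₁)
    (mem_T_of_comm h hs hs2 hc)
  calc d₁ = d₂ * (d₂⁻¹ * d₁) := by group
    _ = d₂ := by rw [h1, mul_one]

theorem D_conj_surj (h : Hyp T) (hu : orderOf u = 2) (huH : u ∉ NT T) {s t : G}
    (hs : s ∈ (T : Subgroup G)) (hs2 : orderOf s = 2) (ht : t ∈ (T : Subgroup G))
    (ht2 : orderOf t = 2) : ∃ d ∈ DD T u, d * s * d⁻¹ = t :=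
  SE.conj_in_D (se h) hu huH hs2 (T_le T hs) ht2 (T_le T ht)

theorem card_D (h : Hyp T) (hu : orderOf u = 2) (huH : u ∉ NT T) :
    Nat.card (DD T u) = Nat.card (T : Subgroup G) - 1 := by
  obtain ⟨s, hs, hs2⟩ := exists_inv_T h
  rw [← card_J h]
  let f : DD T u → {t : G // orderOf t = 2 ∧ t ∈ NT T} := fun d =>
    ⟨(d : G) * s * (d : G)⁻¹, by rw [orderOf_conj_eq]; exact hs2,
      (NT T).mul_mem ((NT T).mul_mem (D_le T u d.2) (T_le T hs)) ((NT T).inv_mem (D_le T u d.2))⟩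
  apply Nat.card_congr (Equiv.ofBijective f ⟨?_, ?_⟩)
  · intro d₁ d₂ e
    exact Subtype.ext (D_conj_inj h huH hs hs2 d₁.2 d₂.2 (congrArg Subtype.val e))
  · rintro ⟨t, ht2, htH⟩
    obtain ⟨d, hd, e⟩ := D_conj_surj h hu huH hs hs2 (inv_mem_T h htH ht2) ht2
    exact ⟨⟨d, hd⟩, Subtype.ext e⟩

theorem mem_DT (h : Hyp T) (hu : orderOf u = 2) (huH : u ∉ NT T) {x : G} (hx : x ∈ NT T) :
    ∃ d ∈ DD T u, ∃ t ∈ (T : Subgroup G), x = d * t := by
  obtain ⟨s, hs, hs2⟩ := exists_inv_T h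
  have h1 : x * s * x⁻¹ ∈ (T : Subgroup G) := conj_mem_T hx hs
  have h2 : orderOf (x * s * x⁻¹) = 2 := by rw [orderOf_conj_eq]; exact hs2
  obtain ⟨d, hd, e⟩ := D_conj_surj h hu huH hs hs2 h1 h2
  have hc : (d⁻¹ * x) * s = s * (d⁻¹ * x) := by
    calc (d⁻¹ * x) * s = d⁻¹ * (x * s * x⁻¹) * x := by group
      _ = d⁻¹ * (d * s * d⁻¹) * x := by rw [e]
      _ = s * (d⁻¹ * x) := by group
  exact ⟨d, hd, d⁻¹ * x, mem_T_of_comm h hs hs2 hc, by group⟩

theorem card_NT (h : Hyp T) (hu : orderOf u = 2) (huH : u ∉ NT T) :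
    Nat.card (NT T) = Nat.card (T : Subgroup G) * (Nat.card (T : Subgroup G) - 1) := by
  let f : DD T u × (T : Subgroup G) → NT T := fun p =>
    ⟨(p.1 : G) * (p.2 : G), (NT T).mul_mem (D_le T u p.1.2) (T_le T p.2.2)⟩
  have hf : Function.Bijective f := by
    constructor
    · rintro ⟨d₁, t₁⟩ ⟨d₂, t₂⟩ e
      have e' : (d₁ : G) * (t₁ : G) = (d₂ : G) * (t₂ : G) := congrArg Subtype.val e
      have h1 : (d₂ : G)⁻¹ * (d₁ : G) = (t₂ : G) * (t₁ : G)⁻¹ := by
        calc (d₂ : G)⁻¹ * (d₁ : G) = (d₂ : G)⁻¹ * ((d₁ : G) * (t₁ : G)) * (t₁ : G)⁻¹ := by group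
          _ = (d₂ : G)⁻¹ * ((d₂ : G) * (t₂ : G)) * (t₁ : G)⁻¹ := by rw [e']
          _ = (t₂ : G) * (t₁ : G)⁻¹ := by group
      have h2 : (d₂ : G)⁻¹ * (d₁ : G) = 1 :=
        D_inf_T h huH ((DD T u).mul_mem ((DD T u).inv_mem d₂.2) d₁.2)
          (by rw [h1]; exact (T : Subgroup G).mul_mem t₂.2 ((T : Subgroup G).inv_mem t₁.2))
      have h3 : (d₁ : G) = (d₂ : G) := by
        calc (d₁ : G) = (d₂ : G) * ((d₂ : G)⁻¹ * (d₁ : G)) := by group
          _ = (d₂ : G) := by rw [h2, mul_one]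
      have h4 : (t₁ : G) = (t₂ : G) := by
        rw [h3] at e'
        exact mul_left_cancel e'
      exact Prod.ext (Subtype.ext h3) (Subtype.ext h4)
    · rintro ⟨x, hx⟩
      obtain ⟨d, hd, t, ht, e⟩ := mem_DT h hu huH hx
      exact ⟨(⟨d, hd⟩, ⟨t, ht⟩), Subtype.ext e.symm⟩
  rw [← Nat.card_congr (Equiv.ofBijective f hf), Nat.card_prod, card_D h hu huH, mul_comm]

theorem D_compl (h : Hyp T) (hu : orderOf u = 2) (huH : u ∉ NT T) :
    Subgroup.IsComplement' ((DD T u).subgroupOf (NT T)) ((T : Subgroup G).subgroupOf (NT T)) := by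
  apply Subgroup.isComplement'_of_card_mul_and_disjoint
  · rw [Nat.card_congr (Subgroup.subgroupOfEquivOfLe (D_le T u)).toEquiv,
      Nat.card_congr (Subgroup.subgroupOfEquivOfLe (T_le T)).toEquiv, card_D h hu huH,
      card_NT h hu huH, mul_comm]
  · rw [Subgroup.disjoint_def]
    intro x hx1 hx2
    rw [Subgroup.mem_subgroupOf] at hx1 hx2
    exact OneMemClass.coe_eq_one.mp (D_inf_T h huH hx1 hx2)

theorem D_inv (h : Hyp T) (hu : orderOf u = 2) (huH : u ∉ NT T) {d : G} (hd : d ∈ DD T u) :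
    u * d * u⁻¹ = d⁻¹ := by
  have hSE := se h
  have uu := inv_sq_one hu
  have hui := inv_eq_self uu
  have hne : (QuotientGroup.mk 1 : G ⧸ NT T) ≠ QuotientGroup.mk u := by
    rw [Ne, QuotientGroup.eq]
    intro hmem
    apply huH
    have e : (1 : G)⁻¹ * u = u := by group
    rw [e] at hmem; exact hmem
  have hcard := SE.card_swap hSE hne
  rw [card_J h, ← card_D h hu huH] at hcard
  let f : {i : G // orderOf i = 2 ∧ i • (QuotientGroup.mk 1 : G ⧸ NT T) = QuotientGroup.mk u} →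
      DD T u := fun i => ⟨u⁻¹ * (i : G), by
    have hi := i.2.2
    have ii := inv_sq_one i.2.1
    rw [MulAction.Quotient.smul_mk, QuotientGroup.eq, smul_eq_mul, mul_one] at hi
    have hiu : (i : G) * u ∈ NT T := by rw [inv_eq_self ii] at hi; exact hi
    refine Subgroup.mem_inf.mpr ⟨?_, ?_⟩
    · have := (NT T).inv_mem hiu
      have e : ((i : G) * u)⁻¹ = u⁻¹ * (i : G) := by rw [mul_inv_rev, inv_eq_self ii]
      rwa [e] at this
    · rw [mem_conj_map]
      have e : u⁻¹ * (u⁻¹ * (i : G)) * u = (u * u)⁻¹ * ((i : G) * u) := by group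
      rw [e, uu, inv_one, one_mul]
      exact hiu⟩
  have hf : Function.Injective f := by
    intro i j e
    have : u⁻¹ * (i : G) = u⁻¹ * (j : G) := congrArg Subtype.val e
    exact Subtype.ext (mul_left_cancel this)
  have hbij := hf.bijective_of_nat_card_le (le_of_eq hcard.symm)
  obtain ⟨i, hi⟩ := hbij.2 ⟨d, hd⟩
  have hd' : u⁻¹ * (i : G) = d := congrArg Subtype.val hi
  have ii := inv_sq_one i.2.1
  rw [← hd', mul_inv_rev, inv_inv, inv_eq_self ii]
  rw [hui]
  calc u * (u * (i : G)) * u = (u * u) * (i : G) * u := by group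
    _ = (i : G) * u := by rw [uu, one_mul]

theorem exists_D_ne_one (h : Hyp T) (hu : orderOf u = 2) (huH : u ∉ NT T) :
    ∃ d ∈ DD T u, d ≠ 1 := by
  by_contra hcon
  push_neg at hcon
  have hbot : DD T u = ⊥ := (Subgroup.eq_bot_iff_forall _).mpr hcon
  have hc := card_D h hu huH
  rw [hbot, Subgroup.card_bot] at hc
  have := four_le h
  omega

theorem mem_D_of_normalizes (h : Hyp T) (hu : orderOf u = 2) (huH : u ∉ NT T) {x : G}
    (hx : x ∈ NT T) (hn : ∀ d ∈ DD T u, x * d * x⁻¹ ∈ DD T u) : x ∈ DD T u := by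
  obtain ⟨d₁, hd₁, t₁, ht₁, e⟩ := mem_DT h hu huH hx
  by_cases ht1 : t₁ = 1
  · rw [e, ht1, mul_one]; exact hd₁
  exfalso
  have ht₁2 := orderOf_two h ht₁ ht1
  have hn' : ∀ d ∈ DD T u, t₁ * d * t₁⁻¹ ∈ DD T u := by
    intro d hd
    have h1 := hn d hd
    have h2 : t₁ * d * t₁⁻¹ = d₁⁻¹ * (x * d * x⁻¹) * d₁ := by rw [e]; group
    rw [h2]
    exact (DD T u).mul_mem ((DD T u).mul_mem ((DD T u).inv_mem hd₁) h1) hd₁
  have hcomm : ∀ d ∈ DD T u, d * t₁ = t₁ * d := by
    intro d hd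
    have h1 : t₁ * d * t₁⁻¹ * d⁻¹ ∈ DD T u := (DD T u).mul_mem (hn' d hd) ((DD T u).inv_mem hd)
    have h2 : t₁ * d * t₁⁻¹ * d⁻¹ ∈ (T : Subgroup G) := by
      have h3 : d * t₁⁻¹ * d⁻¹ ∈ (T : Subgroup G) :=
        conj_mem_T (D_le T u hd) ((T : Subgroup G).inv_mem ht₁)
      have h4 : t₁ * d * t₁⁻¹ * d⁻¹ = t₁ * (d * t₁⁻¹ * d⁻¹) := by group
      rw [h4]
      exact (T : Subgroup G).mul_mem ht₁ h3
    have h5 := D_inf_T h huH h1 h2
    calc d * t₁ = (t₁ * d * t₁⁻¹ * d⁻¹)⁻¹ * (t₁ * d) := by group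
      _ = t₁ * d := by rw [h5, inv_one, one_mul]
  obtain ⟨d, hd, hd1⟩ := exists_D_ne_one h hu huH
  exact hd1 (D_inf_T h huH hd (mem_T_of_comm h ht₁ ht₁2 (hcomm d hd)))

theorem no_inverter (h : Hyp T) (hu : orderOf u = 2) (huH : u ∉ NT T) {x : G}
    (hx : x ∈ NT T) (hinv : ∀ d ∈ DD T u, x * d * x⁻¹ = d⁻¹) : False := by
  have hxD : x ∈ DD T u := mem_D_of_normalizes h hu huH hx (fun d hd => by
    rw [hinv d hd]; exact (DD T u).inv_mem hd)
  have h1 := hinv x hxD
  have h2 : x * x = 1 := by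
    calc x * x = (x * x * x⁻¹) * x := by group
      _ = x⁻¹ * x := by rw [h1]
      _ = 1 := by group
  have hx1 := RankOne.eq_one_of_sq_of_odd (D_odd h huH) hxD h2
  obtain ⟨d, hd, hd1⟩ := exists_D_ne_one h hu huH
  have h3 := hinv d hd
  rw [hx1] at h3
  have h4 : d * d = 1 := by
    calc d * d = (1 * d * 1⁻¹) * d := by group
      _ = d⁻¹ * d := by rw [h3]
      _ = 1 := by group
  exact hd1 (RankOne.eq_one_of_sq_of_odd (D_odd h huH) hd h4)

end D

/-- every nontrivial coset contains an involution -/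
theorem exists_inv_rep (h : Hyp T) {g : G} (hg : g ∉ NT T) :
    ∃ v : G, orderOf v = 2 ∧ v ∉ NT T ∧
      (QuotientGroup.mk v : G ⧸ NT T) = QuotientGroup.mk g := by
  have hSE := se h
  have hne : (QuotientGroup.mk 1 : G ⧸ NT T) ≠ QuotientGroup.mk g := by
    rw [Ne, QuotientGroup.eq]
    intro hmem
    apply hg
    have e : (1 : G)⁻¹ * g = g := by group
    rw [e] at hmem; exact hmem
  have hcard := SE.card_swap hSE hne
  rw [card_J h] at hcard
  have h4 := four_le h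
  have hpos : 0 < Nat.card {i : G // orderOf i = 2 ∧
      i • (QuotientGroup.mk 1 : G ⧸ NT T) = QuotientGroup.mk g} := by omega
  obtain ⟨⟨v, hv2, hv⟩⟩ := (Nat.card_pos_iff.mp hpos).1
  rw [MulAction.Quotient.smul_mk, smul_eq_mul, mul_one] at hv
  refine ⟨v, hv2, ?_, hv⟩
  intro hvH
  apply hg
  have := QuotientGroup.eq.mp hv
  have e : g = v * (v⁻¹ * g) := by group
  rw [e]
  exact (NT T).mul_mem hvH this

section D2
variable {u : G}

theorem exists_inverter (h : Hyp T) (hu : orderOf u = 2) (huH : u ∉ NT T) {g : G}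
    (hg : g ∉ NT T)
    (hfix : ∀ d ∈ DD T u, d • (QuotientGroup.mk g : G ⧸ NT T) = QuotientGroup.mk g) :
    ∃ v : G, orderOf v = 2 ∧ v ∉ NT T ∧
      (QuotientGroup.mk v : G ⧸ NT T) = QuotientGroup.mk g ∧
      ∀ d ∈ DD T u, v * d * v⁻¹ = d⁻¹ := by
  obtain ⟨v, hv2, hvH, hv⟩ := exists_inv_rep h hg
  refine ⟨v, hv2, hvH, hv, ?_⟩
  have hle : DD T u ≤ DD T v := by
    intro d hd
    refine Subgroup.mem_inf.mpr ⟨D_le T u hd, ?_⟩
    rw [mem_conj_map]
    have := hfix d hd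
    rw [← hv, SE.smul_mk_eq_iff] at this
    exact this
  have heq : DD T u = DD T v := Subgroup.eq_of_le_of_card_ge hle (by
    rw [card_D h hu huH, card_D h hv2 hvH])
  intro d hd
  exact D_inv h hv2 hvH (hle hd)

theorem fix_coset (h : Hyp T) (hu : orderOf u = 2) (huH : u ∉ NT T) {g : G} (hg : g ∉ NT T)
    (hfix : ∀ d ∈ DD T u, d • (QuotientGroup.mk g : G ⧸ NT T) = QuotientGroup.mk g) :
    (QuotientGroup.mk g : G ⧸ NT T) = QuotientGroup.mk u := by
  obtain ⟨v, hv2, hvH, hv, hvinv⟩ := exists_inverter h hu huH hg hfix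
  rw [← hv]
  have uu := inv_sq_one hu
  have hui := inv_eq_self uu
  have hc : ∀ d ∈ DD T u, (u * v) * d * (u * v)⁻¹ = d := by
    intro d hd
    calc (u * v) * d * (u * v)⁻¹ = u * (v * d * v⁻¹) * u⁻¹ := by group
      _ = u * d⁻¹ * u⁻¹ := by rw [hvinv d hd]
      _ = (u * d * u⁻¹)⁻¹ := by group
      _ = d := by rw [D_inv h hu huH hd, inv_inv]
  have hcH : u * v ∈ NT T := by
    by_contra hcH
    have hfix' : ∀ d ∈ DD T u,
        d • (QuotientGroup.mk (u * v) : G ⧸ NT T) = QuotientGroup.mk (u * v) := by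
      intro d hd
      rw [SE.smul_mk_eq_iff]
      have e : (u * v)⁻¹ * d * (u * v) = d := by
        calc (u * v)⁻¹ * d * (u * v)
            = (u * v)⁻¹ * ((u * v) * d * (u * v)⁻¹) * (u * v) := by rw [hc d hd]
          _ = d := by group
      rw [e]; exact D_le T u hd
    obtain ⟨w, hw2, hwH, hw, hwinv⟩ := exists_inverter h hu huH hcH hfix'
    have ww := inv_sq_one hw2
    have hwi := inv_eq_self ww
    have hx : w⁻¹ * (u * v) ∈ NT T := QuotientGroup.eq.mp hw
    apply no_inverter h hu huH hx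
    intro d hd
    calc w⁻¹ * (u * v) * d * (w⁻¹ * (u * v))⁻¹
        = w⁻¹ * ((u * v) * d * (u * v)⁻¹) * w := by group
      _ = w⁻¹ * d * w := by rw [hc d hd]
      _ = w * d * w⁻¹ := by rw [hwi]
      _ = d⁻¹ := hwinv d hd
  rw [QuotientGroup.eq]
  have e : v⁻¹ * u = (u * v)⁻¹ := by rw [mul_inv_rev, hui]
  rw [e]
  exact (NT T).inv_mem hcH

theorem fix_point (h : Hyp T) (hu : orderOf u = 2) (huH : u ∉ NT T) {y : G ⧸ NT T}
    (hy : y ≠ QuotientGroup.mk 1) (hfix : ∀ d ∈ DD T u, d • y = y) :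
    y = QuotientGroup.mk u := by
  induction y using QuotientGroup.induction_on with
  | H g =>
    apply fix_coset h hu huH _ hfix
    intro hg
    apply hy
    rw [QuotientGroup.eq, mul_one]
    exact (NT T).inv_mem hg

theorem normalizer_D (h : Hyp T) (hu : orderOf u = 2) (huH : u ∉ NT T) :
    Subgroup.normalizer ((DD T u : Subgroup G) : Set G) = DD T u ⊔ Subgroup.zpowers u := by
  have uu := inv_sq_one hu
  have hui := inv_eq_self uu
  have huN : u ∈ Subgroup.normalizer ((DD T u : Subgroup G) : Set G) := by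
    rw [Subgroup.mem_normalizer_iff]
    intro d
    constructor
    · intro hd
      rw [D_inv h hu huH hd]; exact (DD T u).inv_mem hd
    · intro hd
      have h1 := D_inv h hu huH hd
      have h2 : d = (u * d * u⁻¹)⁻¹ := by
        rw [← h1, hui]
        calc d = (u * u) * d * (u * u) := by rw [uu, one_mul, mul_one]
          _ = u * (u * d * u) * u := by group
      rw [h2]; exact (DD T u).inv_mem hd
  have hconj : ∀ {k : G}, k ∈ Subgroup.normalizer ((DD T u : Subgroup G) : Set G) →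
      ∀ d ∈ DD T u, k * d * k⁻¹ ∈ DD T u := fun hk d hd =>
    (Subgroup.mem_normalizer_iff.mp hk d).mp hd
  apply le_antisymm
  · intro g hg
    have hgi : g⁻¹ ∈ Subgroup.normalizer ((DD T u : Subgroup G) : Set G) :=
      Subgroup.inv_mem _ hg
    have hfix : ∀ d ∈ DD T u, d • (QuotientGroup.mk g : G ⧸ NT T) = QuotientGroup.mk g := by
      intro d hd
      rw [SE.smul_mk_eq_iff]
      have := hconj hgi d hd
      rw [inv_inv] at this
      exact D_le T u this
    by_cases hgH : g ∈ NT T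
    · exact Subgroup.mem_sup_left (mem_D_of_normalizes h hu huH hgH (hconj hg))
    · have hmk := fix_coset h hu huH hgH hfix
      have hx : u⁻¹ * g ∈ NT T := QuotientGroup.eq.mp hmk.symm
      have hxN : u⁻¹ * g ∈ Subgroup.normalizer ((DD T u : Subgroup G) : Set G) :=
        Subgroup.mul_mem _ (Subgroup.inv_mem _ huN) hg
      have hxD := mem_D_of_normalizes h hu huH hx (hconj hxN)
      have e : g = u * (u⁻¹ * g) := by group
      rw [e]
      exact Subgroup.mul_mem _ (Subgroup.mem_sup_right (Subgroup.mem_zpowers u))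
        (Subgroup.mem_sup_left hxD)
  · apply sup_le
    · exact Subgroup.le_normalizer
    · exact (Subgroup.zpowers_le).mpr huN

end D2

end CIT
end Cfsg.Agent.Helper6
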