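import Mathlib
import Cfsg.Agent.S0002
import Cfsg.Agent.Helper6.CIT

set_option autoImplicit false

namespace Cfsg.Agent.Helper6
namespace CIT

variable {G : Type*} [Group G] [Finite G] {T : Sylow 2 G}

/-- elements of `H` fix the base point -/
theorem smul_base {x : G} (hx : x ∈ NT T) :
    x • (QuotientGroup.mk 1 : G ⧸ NT T) = QuotientGroup.mk 1 := by
  rw [SE.smul_mk_eq_iff]
  have e : (1 : G)⁻¹ * x * 1 = x := by group
  rw [e]; exact hx

/-- `T` acts semiregularly off the base point -/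
theorem T_semireg (h : Hyp T) {t : G} (ht : t ∈ (T : Subgroup G)) {x : G ⧸ NT T}
    (hx : x ≠ QuotientGroup.mk 1) (hfix : t • x = x) : t = 1 := by
  by_contra ht1
  have ht2 := orderOf_two h ht ht1
  apply hx
  exact SE.fixed_unique (se h) ht2 hfix (smul_base (T_le T ht))

theorem mk_ne_base {g : G} (hg : g ∉ NT T) :
    (QuotientGroup.mk g : G ⧸ NT T) ≠ QuotientGroup.mk 1 := by
  intro hcon
  apply hg
  have := QuotientGroup.eq.mp hcon.symm
  have e : (1 : G)⁻¹ * g = g := by group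
  rw [e] at this; exact this

theorem not_mem_of_ne_base {g : G} (hx : (QuotientGroup.mk g : G ⧸ NT T) ≠ QuotientGroup.mk 1) :
    g ∉ NT T := by
  intro hg
  apply hx
  rw [QuotientGroup.eq, mul_one]
  exact (NT T).inv_mem hg

theorem exists_T_map (h : Hyp T) {u : G} (hu : orderOf u = 2) (huH : u ∉ NT T) {x : G ⧸ NT T}
    (hx : x ≠ QuotientGroup.mk 1) :
    ∃ a ∈ (T : Subgroup G), a • (QuotientGroup.mk u : G ⧸ NT T) = x := by
  induction x using QuotientGroup.induction_on with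
  | H g =>
    have hp2 : Fact (Nat.Prime 2) := ⟨Nat.prime_two⟩
    have hg : g ∉ NT T := not_mem_of_ne_base hx
    obtain ⟨v, hv2, hvH, hv⟩ := exists_inv_rep h hg
    rw [← hv]
    have hc1 := (D_compl h hu huH).symm
    have hc2 := (D_compl h hv2 hvH).symm
    have hcomm : IsMulCommutative ((T : Subgroup G).subgroupOf (NT T)) := ⟨⟨fun a b => by
      apply Subtype.ext; apply Subtype.ext
      exact T_comm h a.2 b.2⟩⟩
    have hnorm : ((T : Subgroup G).subgroupOf (NT T)).Normal := Subgroup.normal_in_normalizer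
    have hidx : ((T : Subgroup G).subgroupOf (NT T)).index = Nat.card (DD T u) := by
      rw [(D_compl h hu huH).index_eq_card]
      exact Nat.card_congr (Subgroup.subgroupOfEquivOfLe (D_le T u)).toEquiv
    have hcop : (Nat.card ((T : Subgroup G).subgroupOf (NT T))).Coprime
        ((T : Subgroup G).subgroupOf (NT T)).index := by
      rw [hidx, Nat.card_congr (Subgroup.subgroupOfEquivOfLe (T_le T)).toEquiv]
      obtain ⟨n, hn⟩ := (IsPGroup.iff_card).mp T.isPGroup'
      rw [hn]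
      exact Nat.Coprime.pow_left n (Nat.coprime_two_left.mpr (D_odd h huH))
    obtain ⟨a, ha, hconj⟩ := Cfsg.Agent.S0002.result ((T : Subgroup G).subgroupOf (NT T)) hcop
      ((DD T u).subgroupOf (NT T)) ((DD T v).subgroupOf (NT T)) hc1 hc2
    have haT : (a : G) ∈ (T : Subgroup G) := ha
    have hmap : ∀ d ∈ DD T u, (a : G) * d * (a : G)⁻¹ ∈ DD T v := by
      intro d hd
      have h1 : (⟨d, D_le T u hd⟩ : NT T) ∈ (DD T u).subgroupOf (NT T) := hd
      have h2 := Subgroup.smul_mem_pointwise_smul _ (MulAut.conj a) _ h1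
      rw [hconj] at h2
      exact h2
    refine ⟨(a : G), haT, ?_⟩
    have hfix : ∀ d ∈ DD T u, d • ((a : G)⁻¹ • (QuotientGroup.mk v : G ⧸ NT T)) =
        (a : G)⁻¹ • (QuotientGroup.mk v : G ⧸ NT T) := by
      intro d hd
      have h1 : ((a : G) * d * (a : G)⁻¹) • (QuotientGroup.mk v : G ⧸ NT T) =
          QuotientGroup.mk v := by
        rw [SE.smul_mk_eq_iff, ← mem_conj_map]
        exact (Subgroup.mem_inf.mp (hmap d hd)).2
      rw [mul_smul, mul_smul] at h1
      rw [eq_inv_smul_iff]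
      exact h1
    have hne : (a : G)⁻¹ • (QuotientGroup.mk v : G ⧸ NT T) ≠ QuotientGroup.mk 1 := by
      intro hcon
      have h1 : (QuotientGroup.mk v : G ⧸ NT T) = (a : G) • (QuotientGroup.mk 1 : G ⧸ NT T) := by
        rw [← hcon, smul_inv_smul]
      rw [smul_base (T_le T haT)] at h1
      exact mk_ne_base hvH h1
    have := fix_point h hu huH hne hfix
    rw [← this, smul_inv_smul]

/-- `T` is regular on the points other than the base point -/
theorem T_regular (h : Hyp T) {x y : G ⧸ NT T} (hx : x ≠ QuotientGroup.mk 1)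
    (hy : y ≠ QuotientGroup.mk 1) : ∃! t : G, t ∈ (T : Subgroup G) ∧ t • x = y := by
  obtain ⟨u, hu, huH⟩ := exists_inv_not_mem h
  obtain ⟨a, ha, hax⟩ := exists_T_map h hu huH hx
  obtain ⟨b, hb, hby⟩ := exists_T_map h hu huH hy
  refine ⟨b * a⁻¹, ⟨(T : Subgroup G).mul_mem hb ((T : Subgroup G).inv_mem ha), ?_⟩, ?_⟩
  · rw [← hax, mul_smul, inv_smul_smul, hby]
  · rintro t ⟨ht, htx⟩
    have h1 : ((b * a⁻¹)⁻¹ * t) • x = x := by
      rw [mul_smul, htx, ← hby, ← hax, inv_smul_eq_iff, mul_smul, inv_smul_smul]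
    have h2 := T_semireg h ((T : Subgroup G).mul_mem ((T : Subgroup G).inv_mem
      ((T : Subgroup G).mul_mem hb ((T : Subgroup G).inv_mem ha))) ht) hx h1
    calc t = (b * a⁻¹) * ((b * a⁻¹)⁻¹ * t) := by group
      _ = b * a⁻¹ := by rw [h2, mul_one]

/-- an element of `H` fixing two further points is trivial -/
theorem three_fix (h : Hyp T) {g : G} {x₂ x₃ : G ⧸ NT T} (hgH : g ∈ NT T)
    (h2 : x₂ ≠ QuotientGroup.mk 1) (h3 : x₃ ≠ QuotientGroup.mk 1) (h23 : x₂ ≠ x₃)
    (hg2 : g • x₂ = x₂) (hg3 : g • x₃ = x₃) : g = 1 := by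
  induction x₂ using QuotientGroup.induction_on with
  | H k =>
    have hk : k ∉ NT T := not_mem_of_ne_base h2
    obtain ⟨v, hv2, hvH, hv⟩ := exists_inv_rep h hk
    rw [← hv] at h2 h23 hg2
    have hgD : g ∈ DD T v := by
      refine Subgroup.mem_inf.mpr ⟨hgH, ?_⟩
      rw [mem_conj_map, ← SE.smul_mk_eq_iff]
      exact hg2
    obtain ⟨t₀, ⟨ht₀, ht₀x⟩, huniq⟩ := T_regular h h2 h3
    have h1 : (g * t₀ * g⁻¹) • (QuotientGroup.mk v : G ⧸ NT T) = x₃ := by
      have hgi : g⁻¹ • (QuotientGroup.mk v : G ⧸ NT T) = QuotientGroup.mk v := by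
        rw [inv_smul_eq_iff, hg2]
      rw [mul_smul, mul_smul, hgi, ht₀x, hg3]
    have h4 := huniq (g * t₀ * g⁻¹) ⟨conj_mem_T hgH ht₀, h1⟩
    have ht₀1 : t₀ ≠ 1 := by
      intro hcon
      rw [hcon, one_smul] at ht₀x
      exact h23 ht₀x
    have hc : g * t₀ = t₀ * g := by
      calc g * t₀ = (g * t₀ * g⁻¹) * g := by group
        _ = t₀ * g := by rw [h4]
    exact D_inf_T h hvH hgD (mem_T_of_comm h ht₀ (orderOf_two h ht₀ ht₀1) hc)

/-- any triple of distinct points can be moved to the reference triple -/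
theorem exists_map_triple (h : Hyp T) {u : G} (hu : orderOf u = 2) (huH : u ∉ NT T) {t₁ : G}
    (ht₁ : t₁ ∈ (T : Subgroup G)) (ht₁1 : t₁ ≠ 1) {x₁ x₂ x₃ : G ⧸ NT T} (h12 : x₁ ≠ x₂)
    (h13 : x₁ ≠ x₃) (h23 : x₂ ≠ x₃) :
    ∃ g : G, g • x₁ = QuotientGroup.mk 1 ∧ g • x₂ = QuotientGroup.mk u ∧
      g • x₃ = t₁ • (QuotientGroup.mk u : G ⧸ NT T) := by
  induction x₁ using QuotientGroup.induction_on with
  | H k =>
    have hk1 : k⁻¹ • (QuotientGroup.mk k : G ⧸ NT T) = QuotientGroup.mk 1 := by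
      rw [MulAction.Quotient.smul_mk, smul_eq_mul, inv_mul_cancel]
    have h2 : k⁻¹ • x₂ ≠ QuotientGroup.mk 1 := by
      intro hcon; apply h12; rw [← hk1] at hcon; exact (smul_left_cancel _ hcon).symm
    have h3 : k⁻¹ • x₃ ≠ QuotientGroup.mk 1 := by
      intro hcon; apply h13; rw [← hk1] at hcon; exact (smul_left_cancel _ hcon).symm
    have hub : (QuotientGroup.mk u : G ⧸ NT T) ≠ QuotientGroup.mk 1 := mk_ne_base huH
    obtain ⟨a, ⟨ha, hax⟩, -⟩ := T_regular h h2 hub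
    have ha1 : a • (QuotientGroup.mk 1 : G ⧸ NT T) = QuotientGroup.mk 1 := smul_base (T_le T ha)
    have h3' : a • k⁻¹ • x₃ ≠ QuotientGroup.mk 1 := by
      intro hcon; apply h3; rw [← ha1] at hcon; exact smul_left_cancel _ hcon
    obtain ⟨t₃, ⟨ht₃, ht₃x⟩, -⟩ := T_regular h hub h3'
    have ht₃1 : t₃ ≠ 1 := by
      intro hcon
      rw [hcon, one_smul, ← hax] at ht₃x
      exact h23 (smul_left_cancel _ (smul_left_cancel _ ht₃x))
    obtain ⟨d, hd, hdt⟩ := D_conj_surj h hu huH ht₃ (orderOf_two h ht₃ ht₃1) ht₁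
      (orderOf_two h ht₁ ht₁1)
    have hdu : d • (QuotientGroup.mk u : G ⧸ NT T) = QuotientGroup.mk u := by
      rw [SE.smul_mk_eq_iff, ← mem_conj_map]; exact (Subgroup.mem_inf.mp hd).2
    refine ⟨d * a * k⁻¹, ?_, ?_, ?_⟩
    · rw [mul_smul, mul_smul, hk1, ha1, smul_base (D_le T u hd)]
    · rw [mul_smul, mul_smul, hax, hdu]
    · rw [mul_smul, mul_smul, ← ht₃x, ← hdt, mul_smul, mul_smul]
      congr 2
      rw [eq_inv_smul_iff, hdu]

end CIT
end Cfsg.Agent.Helper6
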