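import Mathlib
import Cfsg.Agent.Helper6.FusSimple
import Cfsg.Agent.Helper6.WCB

set_option autoImplicit false
set_option linter.unusedSectionVars false

/-!
# Simplicity of the 2-fusion system of a group with wreathed Sylow 2-subgroups

`FS.simple_of_WR`: a finite group with wreathed Sylow 2-subgroup and no subgroup of index 2 has a
simple 2-fusion system.
-/

namespace Cfsg.Agent.Helper6
namespace FS

open Cfsg Cfsg.FusionSystem QD WR Fus WF

/-- a quaternion subgroup of order `8` in a wreathed group -/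
theorem exists_quat {S : Type*} [Group S] {n : ℕ} {x y z : S} (hD : WData S n x y z) :
    ∃ φ : QuaternionGroup 2 →* S, Function.Injective φ := by
  have hn1 := hD.hn1
  have hn2 := hD.hn2
  have e1 := two_hh (n := n) hn1
  have e2 := two_qq (n := n) hn2
  have hz0 : P x y (hh n) (hh n) ≠ 1 := fun h => hh_ne_zero hn1 (P_eq_one hD h).1
  have hz0sq : P x y (hh n) (hh n) * P x y (hh n) (hh n) = 1 := by
    rw [PP hD]
    exact (P_congr (by linear_combination e1) (by linear_combination e1)).trans P_zero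
  have hrr : P x y (qq n) (-qq n) * P x y (qq n) (-qq n) = P x y (hh n) (hh n) := by
    rw [PP hD]
    exact P_congr (by linear_combination e2) (by linear_combination -e2 - e1)
  have hr : orderOf (P x y (qq n) (-qq n)) = 2 * 2 := orderOf_of_sq hrr hz0 hz0sq
  have hw : P x y 0 (hh n) * z * P x y (qq n) (-qq n) * (P x y 0 (hh n) * z)⁻¹ =
      (P x y (qq n) (-qq n))⁻¹ := by
    rw [conj_Pz_P hD, inv_P hD, neg_neg]
  have hww : P x y 0 (hh n) * z * (P x y 0 (hh n) * z) =
      E (P x y (qq n) (-qq n)) ((2 : ℕ) : ZMod (2 * 2)) := by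
    rw [Pz_Pz hD, E_natCast hr, pow_two, hrr]
    exact P_congr (by ring) (by ring)
  have hnot : P x y 0 (hh n) * z ∉ Subgroup.zpowers (P x y (qq n) (-qq n)) := by
    intro h
    obtain ⟨k, hk⟩ := (mem_zpowers_P hD _ _).1 h
    exact P_ne_Pz hD _ _ _ _ hk.symm
  exact ⟨quatHom hr hw hww, quatHom_injective hr hw hww hnot⟩

section WRsec

variable {G : Type*} [Group G] [Finite G] (S : Sylow 2 G)

/-- a finite group with wreathed Sylow `2`-subgroup and no subgroup of index `2` has a simple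
`2`-fusion system. -/
theorem simple_of_WR (hS : Cfsg.IsWreathed (S : Subgroup G))
    (hidx : ∀ H : Subgroup G, H.index ≠ 2) :
    (groupFusionSystem (S : Subgroup G)).IsSimple 2 := by
  obtain ⟨n, x, y, z, hD⟩ := exists_wdata hS
  have hcard : Nat.card (S : Subgroup G) = 2 ^ (2 * n + 1) := hD.2.1
  obtain ⟨U, hUdef⟩ : ∃ U : Subgroup G, U = (AA hD).map (S : Subgroup G).subtype := ⟨_, rfl⟩
  have hUS : U ≤ (S : Subgroup G) := by rw [hUdef]; exact Subgroup.map_subtype_le _
  have hUc : ∀ a ∈ U, ∀ b ∈ U, a * b = b * a := by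
    rw [hUdef]
    rintro _ ⟨a, ha, rfl⟩ _ ⟨b, hb, rfl⟩
    exact congrArg Subtype.val (AA_comm hD ha hb)
  have hUab : IsMulCommutative U := ⟨⟨fun a b => Subtype.ext (hUc a a.2 b b.2)⟩⟩
  have hUcard : Nat.card U = 2 ^ (2 * n) := by
    rw [hUdef, ← Nat.card_congr
      ((AA hD).equivMapOfInjective _ (Subgroup.subtype_injective _)).toEquiv, card_AA hD]
  obtain ⟨φ, hφ⟩ := exists_quat hD
  have hψ : Function.Injective ((S : Subgroup G).subtype.comp φ) :=
    (Subgroup.subtype_injective _).comp hφ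
  obtain ⟨Q, hQdef⟩ : ∃ Q : Subgroup G, Q = ((S : Subgroup G).subtype.comp φ).range := ⟨_, rfl⟩
  have hQS : Q ≤ (S : Subgroup G) := by
    rw [hQdef]; rintro _ ⟨q, rfl⟩; exact (φ q).2
  have eQ : Q ≃* QuaternionGroup 2 :=
    (MulEquiv.subgroupCongr hQdef).trans (MonoidHom.ofInjective hψ).symm
  obtain ⟨p, ζ, C⟩ := WF.exists_WC S hS n hcard U hUS hUab hUcard Q hQS eQ
  have W := C.W
  have hn2 := W.hn
  have e1 := W.e1
  have hne := W.hh_ne
  rcases C.U_main.2 with h₁ | h₁
  · exfalso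
    rcases C.V_main.2 with h' | h'
    · obtain ⟨⟨P₀, N, hNn, hNc⟩, -⟩ := C.case22 h₁ h'
      have := hNn
      have hi : N.index = 2 ^ (2 * n + 1) := by
        rw [hNc.symm.index_eq_card, P₀.card_eq_multiplicity, ← S.card_eq_multiplicity, hcard]
      obtain ⟨H, hH⟩ := exists_index_two_of_normal N (j := 2 * n) hi
      exact hidx H hH
    · obtain ⟨⟨K, hKn, hKi, -⟩, -⟩ := C.case26 h₁ h'
      have := hKn
      obtain ⟨H, hH⟩ := exists_index_two_of_normal K (j := n - 1)
        (by rw [hKi]; congr 1; omega)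
      exact hidx H hH
  rcases C.V_main.2 with h₂ | h₂
  · exfalso
    obtain ⟨⟨K, -, hKi, -⟩, -⟩ := C.case62 h₁ h₂
    exact hidx K hKi
  obtain ⟨m, hmN, hm0, hm1, hm2⟩ := C.U_six h₁
  obtain ⟨g₀, hg₀⟩ := C.V_six_fus h₂
  apply simple_of_sc_inn S
  · intro h
    have h1 : p (hh n) (hh n) ∈ (S : Subgroup G) := W.p_mem _ _
    rw [h, Subgroup.mem_bot] at h1
    exact W.z0_ne_one h1
  · intro T hTS hT1 hsc
    have hSp : IsPGroup 2 (S : Subgroup G) := S.isPGroup'
    have hTp : IsPGroup 2 T := hSp.to_le hTS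
    obtain ⟨k, hk⟩ := IsPGroup.iff_card.1 hTp
    have hk0 : k ≠ 0 := by
      rintro rfl
      rw [pow_zero] at hk
      exact hT1 (Subgroup.card_eq_one.1 hk)
    have hdvd : 2 ∣ Nat.card T := by rw [hk]; exact dvd_pow_self 2 hk0
    obtain ⟨t', ht'⟩ := exists_prime_orderOf_dvd_card' 2 hdvd
    obtain ⟨t, htT, ht2⟩ : ∃ t ∈ T, orderOf t = 2 :=
      ⟨t', t'.2, by rw [Subgroup.orderOf_coe]; exact ht'⟩
    have hcl : ∀ t ∈ T, ∀ (g b : G), b ∈ (S : Subgroup G) → g * t * g⁻¹ = b → b ∈ T := by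
      intro t ht g b hb h
      rw [← h]; exact hsc t ht g (by rw [h]; exact hb)
    have hcl' : ∀ (a b g : G), a ∈ (S : Subgroup G) → g * a * g⁻¹ = b → b ∈ T → a ∈ T := by
      intro a b g ha h hb
      have e : g⁻¹ * b * g⁻¹⁻¹ = a := by rw [← h]; group
      exact hcl _ hb g⁻¹ a ha e
    have ht1 : p (hh n) 0 ∈ T := by
      rcases C.inv_cases ht2 with hc | hc | hc
      · obtain ⟨g, hg⟩ := isConj_iff.1 hc
        exact hcl t htT g _ (W.p_mem _ _) hg
      · obtain ⟨g, hg⟩ := isConj_iff.1 hc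
        have h1 : p (hh n) (hh n) ∈ T := hcl t htT g _ (W.p_mem _ _) hg
        exact hcl _ h1 m _ (W.p_mem _ _) hm0
      · obtain ⟨g, hg⟩ := isConj_iff.1 hc
        have h1 : ζ ∈ T := hcl t htT g _ W.z_mem hg
        exact hcl _ h1 g₀ _ (W.p_mem _ _) hg₀
    have ht2' : p 0 (hh n) ∈ T := hcl _ ht1 m _ (W.p_mem _ _) hm1
    have hζ : ζ ∈ T := hcl' ζ _ g₀ W.z_mem hg₀ ht1
    have hanti : ∀ c : ZMod (2 ^ n), p c (-c) ∈ T := by
      intro c
      have h1 : p c (-c) * ζ ∈ T := hcl _ hζ (p c 0) _ (W.pz_mem _ _) (W.anti_conj c)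
      have h2 := T.mul_mem h1 hζ
      have e : p c (-c) * ζ * ζ = p c (-c) := by rw [mul_assoc, W.zz, mul_one]
      rw [e] at h2; exact h2
    obtain ⟨c, d, hcd⟩ := C.conj_N hmN 1 (-1)
    have hcdT : p c d ∈ T := hcl _ (hanti 1) m _ (W.p_mem _ _) hcd
    have hpow : p c d ^ 2 ^ (n - 1) = p (hh n) 0 := by
      rw [← hcd, conj_pow, W.p_pow, W.hh_cast]
      have e : p (hh n * 1) (hh n * -1) = p (hh n) (hh n) :=
        pc p (by ring) (by linear_combination -e1)
      rw [e, hm0]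
    rw [W.p_pow, W.hh_cast] at hpow
    obtain ⟨hc1, hd1⟩ := W.inj hpow
    obtain ⟨b₁, hb₁⟩ : ∃ b₁, c = 2 * b₁ + 1 := by
      obtain ⟨b, hb | hb⟩ := even_or_odd c
      · exfalso; rw [hb, hh_mul_even W.hn1] at hc1; exact hne hc1.symm
      · exact ⟨b, hb⟩
    obtain ⟨b₂, hb₂⟩ : ∃ b₂, d = 2 * b₂ := by
      obtain ⟨b, hb | hb⟩ := even_or_odd d
      · exact ⟨b, hb⟩
      · exfalso; rw [hb, hh_mul_odd W.hn1] at hd1; exact hne hd1
    have hcd0 : p (c + d) 0 ∈ T := by
      have h1 := T.mul_mem hcdT (hanti d)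
      rw [W.pp] at h1
      have e : p (c + d) (d + -d) = p (c + d) 0 := pc p rfl (by ring)
      rw [e] at h1; exact h1
    obtain ⟨e', he'⟩ := (odd_isUnit (b₁ + b₂)).exists_right_inv
    have hunit : (c + d) * e' = 1 := by rw [hb₁, hb₂]; linear_combination he'
    have hrow : ∀ a : ZMod (2 ^ n), p a 0 ∈ T := by
      intro a
      have h1 := T.pow_mem hcd0 (a * e').val
      rw [W.p_pow, ZMod.natCast_zmod_val] at h1
      have e : p (a * e' * (c + d)) (a * e' * 0) = p a 0 :=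
        pc p (by linear_combination a * hunit) (by ring)
      rw [e] at h1; exact h1
    have hall : ∀ a b : ZMod (2 ^ n), p a b ∈ T := by
      intro a b
      have h1 := T.mul_mem (hrow (a + b)) (hanti (-b))
      rw [W.pp] at h1
      have e : p (a + b + -b) (0 + - -b) = p a b := pc p (by ring) (by ring)
      rw [e] at h1; exact h1
    apply le_antisymm hTS
    intro s hs
    rcases (W.mem s).1 hs with ⟨a, b, rfl⟩ | ⟨a, b, rfl⟩
    · exact hall a b
    · exact T.mul_mem (hall a b) hζ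
  · apply inn_of_odd_cent S
    intro h hhN hodd
    have hconjS : ∀ s ∈ (S : Subgroup G), h * s * h⁻¹ ∈ (S : Subgroup G) :=
      fun s hs => (Subgroup.mem_normalizer_iff.1 hhN s).1 hs
    have hconjS' : ∀ s ∈ (S : Subgroup G), h⁻¹ * s * h ∈ (S : Subgroup G) := by
      intro s hs
      have h1 := (Subgroup.mem_normalizer_iff.1 (Subgroup.inv_mem _ hhN) s).1 hs
      rwa [inv_inv] at h1
    have hhU : h ∈ Subgroup.normalizer (U : Set G) :=
      C.wc h (fun u hu => hconjS u (hUS hu))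
    have hcomm : ζ * (h * p (hh n) (hh n) * h⁻¹) = (h * p (hh n) (hh n) * h⁻¹) * ζ := by
      have h2 := W.p_diag_comm (hh n) (hconjS' ζ W.z_mem)
      calc ζ * (h * p (hh n) (hh n) * h⁻¹)
          = h * ((h⁻¹ * ζ * h) * p (hh n) (hh n)) * h⁻¹ := by group
        _ = h * (p (hh n) (hh n) * (h⁻¹ * ζ * h)) * h⁻¹ := by rw [h2]
        _ = (h * p (hh n) (hh n) * h⁻¹) * ζ := by group
    have hz0 : h * p (hh n) (hh n) * h⁻¹ = p (hh n) (hh n) := by
      rcases C.conj_invol hhU W.z0_sq W.z0_ne_one with h1 | h1 | h1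
      · exfalso
        rw [h1, W.zp] at hcomm
        exact hne (W.inj (mul_right_cancel hcomm)).2
      · exfalso
        rw [h1, W.zp] at hcomm
        exact hne (W.inj (mul_right_cancel hcomm)).1
      · exact h1
    have ht1 : h * p (hh n) 0 * h⁻¹ = p (hh n) 0 := by
      rcases C.conj_invol hhU W.t1_sq W.t1_ne_one with h1 | h1 | h1
      · exact h1
      · have e : h * p (hh n) 0 * h⁻¹ = p (hh n) (hh n) * p (hh n) 0 := by
          rw [h1, W.pp]; exact pc p (by linear_combination -e1) (by ring)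
        exact odd_fix e hz0 hodd (k := 1) (by rw [pow_one, pow_two]; exact W.z0_sq)
      · exfalso
        have e : p (hh n) 0 = p (hh n) (hh n) := by
          have e3 : p (hh n) 0 = h⁻¹ * (h * p (hh n) 0 * h⁻¹) * h := by group
          rw [e3, h1]
          calc h⁻¹ * p (hh n) (hh n) * h = h⁻¹ * (h * p (hh n) (hh n) * h⁻¹) * h := by rw [hz0]
            _ = p (hh n) (hh n) := by group
        exact W.t1_ne_z0 e
    have hhC : h ∈ Subgroup.centralizer (U : Set G) := C.U_main.1 h hhU ht1 hz0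
    have hU : ∀ a b : ZMod (2 ^ n), h * p a b * h⁻¹ = p a b := by
      intro a b
      have h1 := Subgroup.mem_centralizer_iff.1 hhC (p a b) (C.p_mem_U a b)
      rw [← h1, mul_inv_cancel_right]
    have hζ : h * ζ * h⁻¹ = ζ := by
      rcases (W.mem _).1 (hconjS ζ W.z_mem) with ⟨a, b, hab⟩ | ⟨a, b, hab⟩
      · exfalso
        have e : ζ = p a b := by
          have e3 : ζ = h⁻¹ * (h * ζ * h⁻¹) * h := by group
          rw [e3, hab]
          calc h⁻¹ * p a b * h = h⁻¹ * (h * p a b * h⁻¹) * h := by rw [hU a b]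
            _ = p a b := by group
        exact W.z_ne a b e
      · exact odd_fix hab (hU a b) hodd (k := n) (W.p_pow_card a b)
    intro s hs
    rcases (W.mem s).1 hs with ⟨a, b, rfl⟩ | ⟨a, b, rfl⟩
    · exact hU a b
    · calc h * (p a b * ζ) * h⁻¹ = (h * p a b * h⁻¹) * (h * ζ * h⁻¹) := by group
        _ = p a b * ζ := by rw [hU a b, hζ]

end WRsec

end FS
end Cfsg.Agent.Helper6
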