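import Mathlib
import Cfsg.Agent.Helper6.FusSimpleWR

set_option autoImplicit false
set_option linter.unusedSectionVars false

/-!
# Simplicity criteria for 2-fusion systems in terms of conjugacy of involutions

* `FS.all_invol_conj`: if every involution commuting with `t₀` is conjugate to `t₀`, all involutions
  are conjugate to `t₀`.
* `FS.simple_of_WR_classes`: wreathed Sylow `2`-subgroup and one class of involutions.
* `FS.simple_of_QD_sq`: quasi-dihedral Sylow `2`-subgroup, one class of involutions, and every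
  square root of a central involution of `S` is (up to inversion) a square.
-/

namespace Cfsg.Agent.Helper6
namespace FS

open Cfsg Cfsg.FusionSystem QD WR Fus WF

/-- if every involution commuting with the involution `t₀` is conjugate to `t₀`, then all
involutions are conjugate to `t₀`. -/
theorem all_invol_conj {G : Type*} [Group G] [Finite G] (t₀ : G) (ht₀ : orderOf t₀ = 2)
    (hX : ∀ τ : G, orderOf τ = 2 → τ * t₀ = t₀ * τ → IsConj τ t₀) :
    ∀ τ : G, orderOf τ = 2 → IsConj τ t₀ := by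
  obtain ⟨S⟩ := (inferInstance : Nonempty (Sylow 2 G))
  have hdvd : 2 ∣ Nat.card G := by rw [← ht₀]; exact orderOf_dvd_natCard _
  have hSne : (S : Subgroup G) ≠ ⊥ := S.ne_bot_of_dvd_card hdvd
  have hnt : Nontrivial ↥(S : Subgroup G) := (Subgroup.nontrivial_iff_ne_bot _).2 hSne
  have hcnt : Nontrivial ↥(Subgroup.center ↥(S : Subgroup G)) :=
    IsPGroup.center_nontrivial S.isPGroup'
  have hcp : IsPGroup 2 ↥(Subgroup.center ↥(S : Subgroup G)) := S.isPGroup'.to_subgroup _
  obtain ⟨k, hk⟩ := IsPGroup.iff_card.1 hcp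
  have hk0 : k ≠ 0 := by
    rintro rfl
    rw [pow_zero] at hk
    exact (Subgroup.nontrivial_iff_ne_bot _).1 hcnt (Subgroup.card_eq_one.1 hk)
  obtain ⟨z', hz'⟩ := exists_prime_orderOf_dvd_card'
    (G := ↥(Subgroup.center ↥(S : Subgroup G))) 2 (by rw [hk]; exact dvd_pow_self 2 hk0)
  obtain ⟨z, hzdef⟩ : ∃ z : G, z = ((z' : ↥(S : Subgroup G)) : G) := ⟨_, rfl⟩
  have hz2 : orderOf z = 2 := by
    rw [hzdef, Subgroup.orderOf_coe, Subgroup.orderOf_coe]; exact hz'
  have hzc : ∀ s ∈ (S : Subgroup G), s * z = z * s := by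
    intro s hs
    rw [hzdef]
    have h1 := Subgroup.mem_center_iff.1 z'.2 ⟨s, hs⟩
    exact congrArg Subtype.val h1
  have hinto : ∀ τ : G, orderOf τ = 2 → ∃ g : G, g * τ * g⁻¹ ∈ (S : Subgroup G) := by
    intro τ hτ
    have hp : IsPGroup 2 (Subgroup.zpowers τ) :=
      IsPGroup.of_card (n := 1) (by rw [Nat.card_zpowers, hτ, pow_one])
    obtain ⟨g, hg⟩ := exists_conj_le_sylow S _ hp
    exact ⟨g, hg (Subgroup.mem_map_of_mem _ (Subgroup.mem_zpowers τ))⟩
  have hz : IsConj z t₀ := by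
    obtain ⟨g, hg⟩ := hinto t₀ ht₀
    have hcomm := hzc _ hg
    have h1 : IsConj (g⁻¹ * z * g) t₀ := by
      apply hX
      · have e : g⁻¹ * z * g = g⁻¹ * z * g⁻¹⁻¹ := by rw [inv_inv]
        rw [e]; exact ((MulAut.conj g⁻¹).orderOf_eq z).trans hz2
      · calc g⁻¹ * z * g * t₀ = g⁻¹ * (z * (g * t₀ * g⁻¹)) * g := by group
          _ = g⁻¹ * (g * t₀ * g⁻¹ * z) * g := by rw [hcomm]
          _ = t₀ * (g⁻¹ * z * g) := by group
    exact (isConj_iff.2 ⟨g⁻¹, by rw [inv_inv]⟩ : IsConj z (g⁻¹ * z * g)).trans h1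
  obtain ⟨c, hc⟩ := isConj_iff.1 hz
  intro τ hτ
  obtain ⟨g, hg⟩ := hinto τ hτ
  have hcomm := hzc _ hg
  have h1 : IsConj (c * (g * τ * g⁻¹) * c⁻¹) t₀ := by
    apply hX
    · exact ((MulAut.conj c).orderOf_eq _).trans (((MulAut.conj g).orderOf_eq τ).trans hτ)
    · rw [← hc]
      calc c * (g * τ * g⁻¹) * c⁻¹ * (c * z * c⁻¹) = c * (g * τ * g⁻¹ * z) * c⁻¹ := by group
        _ = c * (z * (g * τ * g⁻¹)) * c⁻¹ := by rw [hcomm]
        _ = c * z * c⁻¹ * (c * (g * τ * g⁻¹) * c⁻¹) := by group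
  have h2 : IsConj τ (c * (g * τ * g⁻¹) * c⁻¹) := isConj_iff.2 ⟨c * g, by group⟩
  exact h2.trans h1

section cls

variable {G : Type*} [Group G] [Finite G] (S : Sylow 2 G)

/-- a finite group with wreathed Sylow `2`-subgroup and a single class of involutions has a simple
`2`-fusion system. -/
theorem simple_of_WR_classes (hS : Cfsg.IsWreathed (S : Subgroup G))
    (hinv : ∀ a b : G, orderOf a = 2 → orderOf b = 2 → IsConj a b) :
    (groupFusionSystem (S : Subgroup G)).IsSimple 2 := by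
  apply simple_of_WR S hS
  obtain ⟨n, x, y, z, hD⟩ := exists_wdata hS
  have hcard : Nat.card (S : Subgroup G) = 2 ^ (2 * n + 1) := hD.2.1
  obtain ⟨U, hUdef⟩ : ∃ U : Subgroup G, U = (AA hD).map (S : Subgroup G).subtype := ⟨_, rfl⟩
  have hUS : U ≤ (S : Subgroup G) := by rw [hUdef]; exact Subgroup.map_subtype_le _
  have hUc : ∀ a ∈ U, ∀ b ∈ U, a * b = b * a := by
    rw [hUdef]
    rintro _ ⟨a, ha, rfl⟩ _ ⟨b, hb, rfl⟩
    exact congrArg Subtype.val (AA_comm hD ha hb)
  have hUab : IsMulCommutative U := ⟨⟨fun a b => Subtype.ext (hUc a a.2 b b.2)⟩⟩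
  have hUcard : Nat.card U = 2 ^ (2 * n) := by
    rw [hUdef, ← Nat.card_congr
      ((AA hD).equivMapOfInjective _ (Subgroup.subtype_injective _)).toEquiv, card_AA hD]
  obtain ⟨φ, hφ⟩ := exists_quat hD
  have hψ : Function.Injective ((S : Subgroup G).subtype.comp φ) :=
    (Subgroup.subtype_injective _).comp hφ
  obtain ⟨Q, hQdef⟩ : ∃ Q : Subgroup G, Q = ((S : Subgroup G).subtype.comp φ).range := ⟨_, rfl⟩
  have hQS : Q ≤ (S : Subgroup G) := by
    rw [hQdef]; rintro _ ⟨q, rfl⟩; exact (φ q).2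
  have eQ : Q ≃* QuaternionGroup 2 :=
    (MulEquiv.subgroupCongr hQdef).trans (MonoidHom.ofInjective hψ).symm
  obtain ⟨p, ζ, C⟩ := WF.exists_WC S hS n hcard U hUS hUab hUcard Q hQS eQ
  have hsub : Subsingleton
      {c : ConjClasses G // ∃ t : G, orderOf t = 2 ∧ ConjClasses.mk t = c} := by
    constructor
    rintro ⟨_, t, ht, rfl⟩ ⟨_, t', ht', rfl⟩
    exact Subtype.ext (ConjClasses.mk_eq_mk_iff_isConj.2 (hinv t t' ht ht'))
  have hle : Nat.card {c : ConjClasses G // ∃ t : G, orderOf t = 2 ∧ ConjClasses.mk t = c} ≤ 1 :=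
    Finite.card_le_one_iff_subsingleton.2 hsub
  rcases C.U_main.2 with h₁ | h₁
  · exfalso
    rcases C.V_main.2 with h' | h'
    · have h3 := (C.case22 h₁ h').2
      exact absurd (h3.symm.le.trans hle) (by norm_num)
    · have h3 := (C.case26 h₁ h').2.2
      exact absurd (h3.symm.le.trans hle) (by norm_num)
  rcases C.V_main.2 with h₂ | h₂
  · exfalso
    have h3 := (C.case62 h₁ h₂).2
    exact absurd (h3.symm.le.trans hle) (by norm_num)
  exact (C.case66 h₁ h₂).1

open QDF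

set_option quotPrecheck false in
local notation "ι" => (Subtype.val : ↥(S : Subgroup G) → G)

/-- a finite group with quasi-dihedral Sylow `2`-subgroup `S`, a single class of involutions, and
in which every square root in `S` of a central involution of `S` is a square up to inversion, has
a simple `2`-fusion system. -/
theorem simple_of_QD_sq (hS : Cfsg.IsQuasiDihedral (S : Subgroup G))
    (hinv : ∀ a b : G, orderOf a = 2 → orderOf b = 2 → IsConj a b)
    (hsq : ∀ a z : G, a ∈ (S : Subgroup G) → z ∈ (S : Subgroup G) → orderOf z = 2 →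
      (∀ s ∈ (S : Subgroup G), s * z = z * s) → a * a = z → ∃ s : G, s * s = a ∨ s * s = a⁻¹) :
    (groupFusionSystem (S : Subgroup G)).IsSimple 2 := by
  obtain ⟨n, x, y, hD⟩ := exists_data hS
  have hn3 := hD.hn3
  have hn1 := hD.hn1
  have hT : ∃ (u : G) (c : ZMod (2 ^ n)),
      u * ι (E x (hh n)) * u⁻¹ = ι (E x (2 * c) * y) := by
    have h1 : orderOf (ι (E x (hh n))) = 2 := by
      rw [Subgroup.orderOf_coe]; exact orderOf_E_hh hD
    have h2 : orderOf (ι (E x (2 * (0 : ZMod (2 ^ n))) * y)) = 2 := by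
      rw [Subgroup.orderOf_coe]; exact orderOf_Ey_even hD 0
    obtain ⟨u, hu⟩ := isConj_iff.1 (hinv _ _ h1 h2)
    exact ⟨u, 0, hu⟩
  have hQ : ∃ (u : G) (c : ZMod (2 ^ n)),
      u * ι (E x (qq n)) * u⁻¹ = ι (E x (2 * c + 1) * y) := by
    by_contra hcon
    have hQf : ∀ (g : G) (d : ZMod (2 ^ n)), g * ι (E x (qq n)) * g⁻¹ ≠ ι (E x d * y) := by
      intro g d hgd
      obtain ⟨c, hc | hc⟩ := even_or_odd d
      · have h2 : orderOf (ι (E x d * y)) = 2 := by
          rw [hc, Subgroup.orderOf_coe]; exact orderOf_Ey_even hD c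
        have h4 : orderOf (g * ι (E x (qq n)) * g⁻¹) = 4 := by
          rw [orderOf_conj', Subgroup.orderOf_coe]; exact orderOf_E_qq hD
        rw [hgd, h2] at h4
        omega
      · exact hcon ⟨g, c, by rw [hgd, hc]⟩
    have hfoc := focal_MM0 hD hQf hT
    obtain ⟨K, hKn, hKi, hKS⟩ := exists_K hD 0 hfoc
    obtain ⟨a, hadef⟩ : ∃ a : ↥(S : Subgroup G),
        a = E x (2 * (0 : ZMod (2 ^ n)) + 1) * y := ⟨_, rfl⟩
    have haa : a * a = E x (hh n) := by
      rw [hadef, sq_Ey hD, hh_mul_odd hn1]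
    have hzc : ∀ s ∈ (S : Subgroup G), s * ι (E x (hh n)) = ι (E x (hh n)) * s := by
      intro s hs
      exact congrArg Subtype.val (E_hh_comm hD ⟨s, hs⟩)
    obtain ⟨s, hs⟩ := hsq (ι a) (ι (E x (hh n))) a.2 (E x (hh n)).2
      (by rw [Subgroup.orderOf_coe]; exact orderOf_E_hh hD) hzc (congrArg Subtype.val haa)
    have hsK : s * s ∈ K := Subgroup.mul_self_mem_of_index_two hKi s
    have haK : ι a ∈ K := by
      rcases hs with hs | hs
      · rw [← hs]; exact hsK
      · have h1 : (ι a)⁻¹ ∈ K := by rw [← hs]; exact hsK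
        exact (Subgroup.inv_mem_iff K).1 h1
    have h3 : ι a ∈ K ⊓ (S : Subgroup G) := Subgroup.mem_inf.2 ⟨haK, a.2⟩
    rw [hKS] at h3
    obtain ⟨w, hw, hwa⟩ := Subgroup.mem_map.1 h3
    have hwa' : w = a := Subtype.ext hwa
    rw [hwa', hadef] at hw
    obtain ⟨b, hb⟩ := (Ey_mem_MM_iff hD 0 _).1 hw
    exact even_ne_odd hn1 b 0 (by linear_combination -hb)
  exact simple_of_QD S hS
    (Fus.no_index_two _ (odd_index_sylow S) (S_le_commutator hD hT hQ))

end cls

end FS
end Cfsg.Agent.Helper6
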