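import Mathlib

/-! Piece [F] of helper21's plan for S1011. -/

set_option autoImplicit false

namespace Cfsg.Agent.Helper6.O504F

theorem psl_congr {F F' : Type*} [Field F] [Fintype F] [Field F'] [Fintype F']
    (hcard : Fintype.card F = Fintype.card F') :
    Nonempty (Matrix.ProjectiveSpecialLinearGroup (Fin 2) F ≃*
      Matrix.ProjectiveSpecialLinearGroup (Fin 2) F') := by
  obtain ⟨e⟩ : Nonempty (F ≃+* F') := ⟨FiniteField.ringEquivOfCardEq hcard⟩
  let f : Matrix.SpecialLinearGroup (Fin 2) F →* Matrix.SpecialLinearGroup (Fin 2) F' :=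
    Matrix.SpecialLinearGroup.map (e : F →+* F')
  let g : Matrix.SpecialLinearGroup (Fin 2) F' →* Matrix.SpecialLinearGroup (Fin 2) F :=
    Matrix.SpecialLinearGroup.map (e.symm : F' →+* F)
  have h1 : g.comp f = MonoidHom.id _ := by
    refine MonoidHom.ext fun x => ?_
    apply Matrix.SpecialLinearGroup.ext
    intro i j
    simp [f, g]
  have h2 : f.comp g = MonoidHom.id _ := by
    refine MonoidHom.ext fun x => ?_
    apply Matrix.SpecialLinearGroup.ext
    intro i j
    simp [f, g]
  let φ : Matrix.SpecialLinearGroup (Fin 2) F ≃* Matrix.SpecialLinearGroup (Fin 2) F' :=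
    MonoidHom.toMulEquiv f g h1 h2
  have hc : (Subgroup.center (Matrix.SpecialLinearGroup (Fin 2) F)).map φ.toMonoidHom =
      Subgroup.center (Matrix.SpecialLinearGroup (Fin 2) F') := by
    ext x
    rw [Subgroup.mem_map_equiv, Subgroup.mem_center_iff, Subgroup.mem_center_iff]
    constructor
    · intro h g'
      have h3 := congrArg φ (h (φ.symm g'))
      simpa using h3
    · intro h g'
      have h3 := h (φ g')
      apply φ.injective
      simpa using h3
  exact ⟨QuotientGroup.congr _ _ φ hc⟩

end Cfsg.Agent.Helper6.O504F
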