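import Mathlib
import Cfsg.Prelude.Def_LieRecognition

set_option autoImplicit false
open scoped commutatorElement

namespace Cfsg.Agent.Helper6.SuzU

variable {F : Type*} [Field F]

/-- The group of pairs `(a, b)` with `b + σ b = a σ a` and
`(a, b) (a', b') = (a + a', b + b' + σ a a')`. -/
structure UG (σ : F →+* F) (hσ : ∀ x, σ (σ x) = x) where
  a : F
  b : F
  h : b + σ b = a * σ a

namespace UG

variable {σ : F →+* F} {hσ : ∀ x, σ (σ x) = x}

theorem ext' {x y : UG σ hσ} (ha : x.a = y.a) (hb : x.b = y.b) : x = y := by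
  obtain ⟨xa, xb, xh⟩ := x
  obtain ⟨ya, yb, yh⟩ := y
  dsimp only at ha hb
  subst ha
  subst hb
  rfl

instance : Group (UG σ hσ) where
  mul x y := ⟨x.a + y.a, x.b + y.b + σ x.a * y.a, by
    simp only [map_add, map_mul, hσ]
    linear_combination x.h + y.h⟩
  one := ⟨0, 0, by simp⟩
  inv x := ⟨-x.a, -x.b + σ x.a * x.a, by
    simp only [map_add, map_neg, map_mul, hσ]
    linear_combination -x.h⟩
  mul_assoc x y z := by
    apply ext'
    · show x.a + y.a + z.a = x.a + (y.a + z.a)
      ring
    · show x.b + y.b + σ x.a * y.a + z.b + σ (x.a + y.a) * z.a =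
        x.b + (y.b + z.b + σ y.a * z.a) + σ x.a * (y.a + z.a)
      rw [map_add]
      ring
  one_mul x := by
    apply ext'
    · show 0 + x.a = x.a
      ring
    · show 0 + x.b + σ 0 * x.a = x.b
      rw [map_zero]
      ring
  mul_one x := by
    apply ext'
    · show x.a + 0 = x.a
      ring
    · show x.b + 0 + σ x.a * 0 = x.b
      ring
  inv_mul_cancel x := by
    apply ext'
    · show -x.a + x.a = 0
      ring
    · show -x.b + σ x.a * x.a + x.b + σ (-x.a) * x.a = 0
      rw [map_neg]
      ring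

theorem mul_a (x y : UG σ hσ) : (x * y).a = x.a + y.a := rfl
theorem mul_b (x y : UG σ hσ) : (x * y).b = x.b + y.b + σ x.a * y.a := rfl
theorem one_a : (1 : UG σ hσ).a = 0 := rfl
theorem one_b : (1 : UG σ hσ).b = 0 := rfl
theorem inv_a (x : UG σ hσ) : (x⁻¹).a = -x.a := rfl
theorem inv_b (x : UG σ hσ) : (x⁻¹).b = -x.b + σ x.a * x.a := rfl

theorem comm_iff (x y : UG σ hσ) : x * y = y * x ↔ σ x.a * y.a = σ y.a * x.a := by
  constructor
  · intro h
    have hb := congrArg UG.b h
    rw [mul_b, mul_b] at hb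
    linear_combination hb
  · intro h
    apply ext'
    · rw [mul_a, mul_a]; ring
    · rw [mul_b, mul_b]; linear_combination h

theorem comm_a (x y : UG σ hσ) : (⁅x, y⁆).a = 0 := by
  rw [commutatorElement_def, mul_a, mul_a, mul_a, inv_a, inv_a]
  ring

theorem comm_b (x y : UG σ hσ) : (⁅x, y⁆).b = σ x.a * y.a - σ y.a * x.a := by
  simp only [commutatorElement_def, mul_b, mul_a, inv_a, inv_b, map_add, map_neg]
  ring

theorem mem_center_iff' (h2 : (2 : F) = 0) (hx : ∃ x : F, σ x ≠ x)
    (hs : ∀ t : F, σ t = t → ∃ b, b + σ b = t) (g : UG σ hσ) :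
    g ∈ Subgroup.center (UG σ hσ) ↔ g.a = 0 := by
  rw [Subgroup.mem_center_iff]
  constructor
  · intro hg
    obtain ⟨x, hx⟩ := hx
    obtain ⟨s1, hs1⟩ := hs 1 (map_one σ)
    obtain ⟨sx, hsx⟩ := hs (x * σ x) (by rw [map_mul, hσ]; ring)
    have e1 := (comm_iff _ _).mp (hg ⟨1, s1, by rw [hs1, map_one, mul_one]⟩)
    have e2 := (comm_iff _ _).mp (hg ⟨x, sx, hsx⟩)
    dsimp only at e1 e2
    rw [map_one] at e1
    have hga : σ g.a = g.a := by linear_combination -e1
    rw [hga] at e2
    have h0 : g.a * (σ x - x) = 0 := by linear_combination e2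
    rcases mul_eq_zero.mp h0 with h | h
    · exact h
    · exact absurd (sub_eq_zero.mp h) hx
  · intro hg y
    rw [comm_iff, hg, map_zero]
    ring

theorem mul_self_eq_one_iff (h2 : (2 : F) = 0) (g : UG σ hσ) : g * g = 1 ↔ g.a = 0 := by
  constructor
  · intro h
    have hb := congrArg UG.b h
    rw [mul_b, one_b] at hb
    have h0 : g.a * σ g.a = 0 := by linear_combination hb - g.b * h2
    rcases mul_eq_zero.mp h0 with h | h
    · exact h
    · exact (map_eq_zero σ).mp h
  · intro h
    apply ext'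
    · rw [mul_a, one_a, h]; ring
    · rw [mul_b, one_b, h]; linear_combination g.b * h2

theorem sq_a (h2 : (2 : F) = 0) (g : UG σ hσ) : (g * g).a = 0 := by
  rw [mul_a]; linear_combination g.a * h2

theorem isPGroup (h2 : (2 : F) = 0) : IsPGroup 2 (UG σ hσ) := by
  intro g
  refine ⟨2, ?_⟩
  have h3 : (g * g) * (g * g) = 1 := (mul_self_eq_one_iff h2 _).mpr (sq_a h2 g)
  rw [show (2 : ℕ) ^ 2 = 4 from rfl]
  calc g ^ 4 = (g * g) * (g * g) := by rw [show (4 : ℕ) = 2 + 2 from rfl, pow_add, pow_two]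
    _ = 1 := h3

theorem card_eq [Finite F] (h2 : (2 : F) = 0) (hs : ∀ t : F, σ t = t → ∃ b, b + σ b = t) :
    Nat.card (UG σ hσ) = Nat.card F * Nat.card {k : F // k + σ k = 0} := by
  have hs' : ∀ a : F, ∃ b, b + σ b = a * σ a := fun a => hs _ (by rw [map_mul, hσ]; ring)
  choose s hs'' using hs'
  rw [← Nat.card_prod]
  refine Nat.card_congr ⟨fun g => (g.a, ⟨g.b + s g.a, ?_⟩), fun p => ⟨p.1, p.2.1 + s p.1, ?_⟩,
    ?_, ?_⟩
  · rw [map_add]
    linear_combination g.h + hs'' g.a + (g.a * σ g.a) * h2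
  · rw [map_add]
    linear_combination p.2.2 + hs'' p.1
  · intro g
    apply ext'
    · rfl
    · show g.b + s g.a + s g.a = g.b
      linear_combination (s g.a) * h2
  · rintro ⟨a, k, hk⟩
    refine Prod.ext rfl (Subtype.ext ?_)
    show k + s a + s a = k
    linear_combination (s a) * h2

theorem card_center (h2 : (2 : F) = 0) (hx : ∃ x : F, σ x ≠ x)
    (hs : ∀ t : F, σ t = t → ∃ b, b + σ b = t) :
    Nat.card (Subgroup.center (UG σ hσ)) = Nat.card {k : F // k + σ k = 0} := by
  refine Nat.card_congr ⟨fun z => ⟨z.1.b, ?_⟩, fun k => ⟨⟨0, k.1, ?_⟩, ?_⟩, ?_, ?_⟩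
  · have := (mem_center_iff' h2 hx hs z.1).mp z.2
    have h := z.1.h
    rw [this] at h
    rw [h]
    ring
  · rw [k.2]
    ring
  · exact (mem_center_iff' h2 hx hs _).mpr rfl
  · intro z
    apply Subtype.ext
    apply ext'
    · exact ((mem_center_iff' h2 hx hs z.1).mp z.2).symm
    · rfl
  · intro k
    rfl

/-! ### the automorphisms `(a, b) ↦ (l a, l σ l b)` -/

def kapFun (l : F) (g : UG σ hσ) : UG σ hσ :=
  ⟨l * g.a, l * σ l * g.b, by
    simp only [map_mul, hσ]
    linear_combination (l * σ l) * g.h⟩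

theorem kapFun_a (l : F) (g : UG σ hσ) : (kapFun l g).a = l * g.a := rfl
theorem kapFun_b (l : F) (g : UG σ hσ) : (kapFun l g).b = l * σ l * g.b := rfl

theorem kapFun_mul (l : F) (g g' : UG σ hσ) : kapFun l (g * g') = kapFun l g * kapFun l g' := by
  apply ext'
  · simp only [kapFun_a, mul_a]; ring
  · simp only [kapFun_b, kapFun_a, mul_b, map_mul]; ring

theorem kapFun_comp (l m : F) (g : UG σ hσ) : kapFun l (kapFun m g) = kapFun (l * m) g := by
  apply ext'
  · simp only [kapFun_a]; ring
  · simp only [kapFun_b, map_mul]; ring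

theorem kapFun_one (g : UG σ hσ) : kapFun 1 g = g := by
  apply ext'
  · simp only [kapFun_a]; ring
  · simp only [kapFun_b, map_one]; ring

def kapEquiv (l : Fˣ) : UG σ hσ ≃* UG σ hσ where
  toFun := kapFun (l : F)
  invFun := kapFun ((l⁻¹ : Fˣ) : F)
  left_inv g := by
    rw [kapFun_comp, ← Units.val_mul, inv_mul_cancel, Units.val_one, kapFun_one]
  right_inv g := by
    rw [kapFun_comp, ← Units.val_mul, mul_inv_cancel, Units.val_one, kapFun_one]
  map_mul' := kapFun_mul _

def kap : Fˣ →* MulAut (UG σ hσ) where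
  toFun := kapEquiv
  map_one' := by
    apply MulEquiv.ext
    intro g
    exact kapFun_one g
  map_mul' l m := by
    apply MulEquiv.ext
    intro g
    show kapFun ((l * m : Fˣ) : F) g = kapFun (l : F) (kapFun (m : F) g)
    rw [kapFun_comp, Units.val_mul]

theorem kap_apply (l : Fˣ) (g : UG σ hσ) : (kap l : MulAut (UG σ hσ)) g = kapFun (l : F) g := rfl

def fixU (σ : F →+* F) : Subgroup Fˣ where
  carrier := {l | σ (l : F) = l}
  mul_mem' {a b} ha hb := by
    have ha' : σ (a : F) = a := ha
    have hb' : σ (b : F) = b := hb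
    show σ ((a * b : Fˣ) : F) = ((a * b : Fˣ) : F)
    rw [Units.val_mul, map_mul, ha', hb']
  one_mem' := by
    show σ ((1 : Fˣ) : F) = ((1 : Fˣ) : F)
    rw [Units.val_one, map_one]
  inv_mem' {a} ha := by
    have ha' : σ (a : F) = a := ha
    show σ ((a⁻¹ : Fˣ) : F) = ((a⁻¹ : Fˣ) : F)
    rw [Units.val_inv_eq_inv_val, map_inv₀, ha']

theorem suzuki [Finite F] (h2 : (2 : F) = 0) (hx : ∃ x : F, σ x ≠ x)
    (hs : ∀ t : F, σ t = t → ∃ b, b + σ b = t)
    (hk : ∃ k : F, σ k = k ∧ k ≠ 0 ∧ k ≠ 1)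
    (hsqrt : ∀ t : F, σ t = t → ∃ l, σ l = l ∧ l * l = t) :
    Cfsg.IsSuzukiTwoGroup (UG σ hσ) := by
  have hfix : ∀ t : F, t + σ t = 0 → σ t = t := by
    intro t ht
    linear_combination ht - t * h2
  have hinv : ∀ g : UG σ hσ, g ≠ 1 → g * g = 1 → g.a = 0 ∧ g.b ≠ 0 ∧ σ g.b = g.b := by
    intro g hg1 hgg
    have ha := (mul_self_eq_one_iff h2 g).mp hgg
    refine ⟨ha, ?_, ?_⟩
    · intro hb
      exact hg1 (ext' ha hb)
    · apply hfix
      have := g.h
      rw [ha] at this
      rw [this]
      ring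
  refine ⟨?_, isPGroup h2, ?_, ?_, ?_⟩
  · exact Finite.of_injective (fun g : UG σ hσ => (g.a, g.b)) (by
      intro g g' h
      have h1 := congrArg Prod.fst h
      have h2' := congrArg Prod.snd h
      exact ext' h1 h2')
  · obtain ⟨x, hx⟩ := hx
    obtain ⟨s1, hs1⟩ := hs 1 (map_one σ)
    obtain ⟨sx, hsx⟩ := hs (x * σ x) (by rw [map_mul, hσ]; ring)
    refine ⟨⟨1, s1, by rw [hs1, map_one, mul_one]⟩, ⟨x, sx, hsx⟩, ?_⟩
    intro h
    have := (comm_iff _ _).mp h
    dsimp only at this
    rw [map_one] at this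
    apply hx
    linear_combination -this
  · obtain ⟨k, hk1, hk0, hk1'⟩ := hk
    refine ⟨⟨0, 1, by rw [map_one, map_zero]; linear_combination h2⟩,
      ⟨0, k, by rw [hk1, map_zero]; linear_combination k * h2⟩, ?_, ?_, ?_, ?_, ?_⟩
    · intro h
      have := congrArg UG.b h
      dsimp only at this
      exact hk1' this.symm
    · intro h
      have := congrArg UG.b h
      rw [one_b] at this
      dsimp only at this
      exact one_ne_zero this
    · exact (mul_self_eq_one_iff h2 _).mpr rfl
    · intro h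
      have := congrArg UG.b h
      rw [one_b] at this
      dsimp only at this
      exact hk0 this
    · exact (mul_self_eq_one_iff h2 _).mpr rfl
  · refine ⟨(fixU σ).map (kap (σ := σ) (hσ := hσ)), ?_, ?_⟩
    · exact isCyclic_of_surjective ((kap (σ := σ) (hσ := hσ)).subgroupMap (fixU σ))
        (MonoidHom.subgroupMap_surjective _ _)
    · intro x y hx1 hxx hy1 hyy
      obtain ⟨hxa, hxb, hxσ⟩ := hinv x hx1 hxx
      obtain ⟨hya, hyb, hyσ⟩ := hinv y hy1 hyy
      obtain ⟨l, hlσ, hll⟩ := hsqrt (y.b / x.b) (by rw [map_div₀, hxσ, hyσ])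
      have hl0 : l ≠ 0 := by
        rintro rfl
        rw [mul_zero] at hll
        exact (div_ne_zero hyb hxb) hll.symm
      have hmem : Units.mk0 l hl0 ∈ fixU σ := hlσ
      refine ⟨⟨kap (Units.mk0 l hl0), Subgroup.mem_map_of_mem _ hmem⟩, ?_, ?_⟩
      · show kapFun l x = y
        apply ext'
        · rw [kapFun_a, hxa, hya, mul_zero]
        · rw [kapFun_b, hlσ, hll]
          exact div_mul_cancel₀ _ hxb
      · rintro ⟨k, hk⟩ hkxy
        obtain ⟨m, hm, rfl⟩ := Subgroup.mem_map.mp hk
        apply Subtype.ext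
        show kap m = kap (Units.mk0 l hl0)
        have hmσ : σ (m : F) = m := hm
        have hb := congrArg UG.b hkxy
        change (m : F) * σ (m : F) * x.b = y.b at hb
        rw [hmσ] at hb
        have hmm : (m : F) * m = l * l := by
          rw [hll, eq_div_iff hxb]
          exact hb
        have hml : (m : F) = l := by
          have h0 : ((m : F) + l) * ((m : F) + l) = 0 := by
            linear_combination hmm + (l * l + m * l) * h2
          have h1 : (m : F) + l = 0 := by
            rcases mul_eq_zero.mp h0 with h | h <;> exact h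
          linear_combination h1 - l * h2
        have : m = Units.mk0 l hl0 := Units.ext hml
        rw [this]

end UG

/-! ### transfer along isomorphisms -/

theorem suzuki_of_equiv {P P' : Type*} [Group P] [Group P'] (e : P ≃* P')
    (h : Cfsg.IsSuzukiTwoGroup P') : Cfsg.IsSuzukiTwoGroup P := by
  obtain ⟨hfin, hp, ⟨x, y, hxy⟩, ⟨u, v, huv, hu1, huu, hv1, hvv⟩, K, hKc, hK⟩ := h
  haveI := hfin
  refine ⟨Finite.of_injective e e.injective, hp.of_equiv e.symm, ⟨e.symm x, e.symm y, ?_⟩,
    ⟨e.symm u, e.symm v, ?_, ?_, ?_, ?_, ?_⟩, K.map (MulAut.congr e.symm).toMonoidHom, ?_, ?_⟩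
  · intro h
    apply hxy
    have := congrArg e h
    simpa using this
  · intro h
    exact huv (e.symm.injective h)
  · intro h
    apply hu1
    have := congrArg e h
    simpa using this
  · rw [← map_mul, huu, map_one]
  · intro h
    apply hv1
    have := congrArg e h
    simpa using this
  · rw [← map_mul, hvv, map_one]
  · haveI := hKc
    exact isCyclic_of_surjective ((MulAut.congr e.symm).toMonoidHom.subgroupMap K)
      (MonoidHom.subgroupMap_surjective _ _)
  · intro a b ha1 haa hb1 hbb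
    have ha1' : e a ≠ 1 := fun h => ha1 (by
      have := congrArg e.symm h
      simpa using this)
    have haa' : e a * e a = 1 := by rw [← map_mul, haa, map_one]
    have hb1' : e b ≠ 1 := fun h => hb1 (by
      have := congrArg e.symm h
      simpa using this)
    have hbb' : e b * e b = 1 := by rw [← map_mul, hbb, map_one]
    obtain ⟨k, hk, hku⟩ := hK (e a) (e b) ha1' haa' hb1' hbb'
    refine ⟨⟨MulAut.congr e.symm k.1, Subgroup.mem_map_of_mem _ k.2⟩, ?_, ?_⟩
    · show e.symm ((k : MulAut P') (e a)) = b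
      rw [hk, MulEquiv.symm_apply_apply]
    · rintro ⟨k₂, hk₂⟩ hk₂ab
      obtain ⟨k₂', hk₂', rfl⟩ := Subgroup.mem_map.mp hk₂
      have h' : e.symm ((k₂' : MulAut P') (e a)) = b := hk₂ab
      have : (⟨k₂', hk₂'⟩ : K) = k := by
        apply hku
        show (k₂' : MulAut P') (e a) = e b
        rw [← h', MulEquiv.apply_symm_apply]
      apply Subtype.ext
      show MulAut.congr e.symm k₂' = MulAut.congr e.symm k.1
      rw [← this]

section facts

variable {σ : F →+* F} {hσ : ∀ x, σ (σ x) = x}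

theorem center_iff_of_equiv {P : Type*} [Group P] (e : P ≃* UG σ hσ) (h2 : (2 : F) = 0)
    (hx : ∃ x : F, σ x ≠ x) (hs : ∀ t : F, σ t = t → ∃ b, b + σ b = t) (z : P) :
    z ∈ Subgroup.center P ↔ (e z).a = 0 := by
  rw [← UG.mem_center_iff' h2 hx hs, Subgroup.mem_center_iff, Subgroup.mem_center_iff]
  constructor
  · intro h g
    have := congrArg e (h (e.symm g))
    rw [map_mul, map_mul, MulEquiv.apply_symm_apply] at this
    exact this
  · intro h g
    apply e.injective
    rw [map_mul, map_mul]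
    exact h (e g)

theorem card_center_of_equiv {P : Type*} [Group P] (e : P ≃* UG σ hσ) (h2 : (2 : F) = 0)
    (hx : ∃ x : F, σ x ≠ x) (hs : ∀ t : F, σ t = t → ∃ b, b + σ b = t) :
    Nat.card (Subgroup.center P) = Nat.card {k : F // k + σ k = 0} := by
  rw [← UG.card_center (hσ := hσ) h2 hx hs]
  exact Nat.card_congr (Equiv.subtypeEquiv e.toEquiv (fun z =>
    (center_iff_of_equiv e h2 hx hs z).trans (UG.mem_center_iff' h2 hx hs _).symm))

theorem klein_facts {P : Type*} [Group P] (e : P ≃* UG σ hσ) (h2 : (2 : F) = 0)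
    (hx : ∃ x : F, σ x ≠ x) (hs : ∀ t : F, σ t = t → ∃ b, b + σ b = t)
    (hK4 : Nat.card {k : F // k + σ k = 0} = 4) :
    IsKleinFour (Subgroup.center P) ∧
    Subgroup.center P = Subgroup.closure {x : P | orderOf x = 2} ∧
    Subgroup.center P = commutator P ∧
    ∀ x : P ⧸ Subgroup.center P, x ^ 2 = 1 := by
  have hc := center_iff_of_equiv e h2 hx hs
  have hsq : ∀ z : P, (e z).a = 0 → z * z = 1 := by
    intro z hz
    apply e.injective
    rw [map_mul, map_one]
    exact (UG.mul_self_eq_one_iff h2 _).mpr hz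
  have hsq' : ∀ z : P, z * z = 1 → (e z).a = 0 := by
    intro z hz
    apply (UG.mul_self_eq_one_iff h2 _).mp
    rw [← map_mul, hz, map_one]
  have hcard : Nat.card (Subgroup.center P) = 4 := by
    rw [card_center_of_equiv e h2 hx hs, hK4]
  refine ⟨⟨hcard, ?_⟩, ?_, ?_, ?_⟩
  · have hdvd : Monoid.exponent (Subgroup.center P) ∣ 2 := by
      apply Monoid.exponent_dvd_of_forall_pow_eq_one
      intro z
      apply Subtype.ext
      rw [pow_two]
      exact hsq z.1 ((hc z.1).mp z.2)
    rcases (Nat.dvd_prime Nat.prime_two).mp hdvd with h | h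
    · exfalso
      haveI := Monoid.exp_eq_one_iff.mp h
      have := Nat.card_of_subsingleton (1 : Subgroup.center P)
      omega
    · exact h
  · apply le_antisymm
    · intro z hz
      by_cases hz1 : z = 1
      · rw [hz1]; exact Subgroup.one_mem _
      · apply Subgroup.subset_closure
        haveI : Fact (Nat.Prime 2) := ⟨Nat.prime_two⟩
        show orderOf z = 2
        apply orderOf_eq_prime
        · rw [pow_two]; exact hsq z ((hc z).mp hz)
        · exact hz1
    · rw [Subgroup.closure_le]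
      intro x hx2
      have hx2' : orderOf x = 2 := hx2
      show x ∈ Subgroup.center P
      rw [hc]
      apply hsq'
      rw [← pow_two, ← hx2']
      exact pow_orderOf_eq_one x
  · apply le_antisymm
    · intro z hz
      have hza := (hc z).mp hz
      have hzh := (e z).h
      rw [hza] at hzh
      have hσt : σ (e z).b = (e z).b := by linear_combination hzh - (e z).b * h2
      obtain ⟨a', ha'⟩ := hs _ hσt
      obtain ⟨s1, hs1⟩ := hs 1 (map_one σ)
      obtain ⟨sa, hsa⟩ := hs (a' * σ a') (by rw [map_mul, hσ]; ring)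
      obtain ⟨X, hX⟩ : ∃ X : UG σ hσ, X.a = 1 := ⟨⟨1, s1, by rw [hs1, map_one, mul_one]⟩, rfl⟩
      obtain ⟨Y, hY⟩ : ∃ Y : UG σ hσ, Y.a = a' := ⟨⟨a', sa, hsa⟩, rfl⟩
      have hez : e z = ⁅X, Y⁆ := by
        apply UG.ext'
        · rw [UG.comm_a, hza]
        · rw [UG.comm_b, hX, hY, map_one]
          linear_combination (-1 : F) * ha' + (σ a') * h2
      have hz' : z = ⁅e.symm X, e.symm Y⁆ := by
        apply e.injective
        rw [map_commutatorElement, MulEquiv.apply_symm_apply, MulEquiv.apply_symm_apply]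
        exact hez
      rw [hz', commutator_def]
      exact Subgroup.commutator_mem_commutator (Subgroup.mem_top _) (Subgroup.mem_top _)
    · rw [commutator_def, Subgroup.commutator_le]
      intro g₁ _ g₂ _
      rw [hc, map_commutatorElement]
      exact UG.comm_a _ _
  · intro x
    obtain ⟨y, rfl⟩ := QuotientGroup.mk_surjective x
    rw [← QuotientGroup.mk_pow, QuotientGroup.eq_one_iff, hc, pow_two, map_mul]
    exact UG.sq_a h2 _

end facts

end Cfsg.Agent.Helper6.SuzU
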