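import Mathlib
import Cfsg.Prelude.Def_Classical
import Cfsg.Agent.Helper6.GU2
import Cfsg.Agent.Helper6.SuzU
import Cfsg.Agent.Helper6.PSL3Inv

set_option autoImplicit false
set_option linter.unusedSimpArgs false
open scoped commutatorElement
open Matrix

namespace Cfsg.Agent.Helper6.SU3Syl

open Cfsg.Agent.Helper6.SuzU
open Cfsg.Agent.Helper6.PSL3Inv (ext3 fin3_cases)

variable {F : Type*} [Field F]

/-! ### field facts -/

theorem field_facts [Fintype F] (n q : ℕ) (hn : 1 ≤ n) (hq : q = 2 ^ n)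
    (hF : Fintype.card F = q ^ 2) :
    ∃ σ : F →+* F, (∀ x, σ x = x ^ q) ∧ (∀ x, σ (σ x) = x) ∧ (2 : F) = 0 ∧ (∃ x, σ x ≠ x) ∧
      (∀ t, σ t = t → ∃ b, b + σ b = t) ∧ (∀ t, σ t = t → ∃ l, σ l = l ∧ l * l = t) ∧
      Nat.card {k : F // k + σ k = 0} = q := by
  classical
  obtain ⟨σ, hσq, hσσ⟩ := Cfsg.Agent.Helper6.GU2.exists_sigma hF
  have h2 : (2 : F) = 0 := by
    have h := FiniteField.cast_card_eq_zero F
    rw [hF, hq] at h
    have h' : ((2 : F) ^ n) ^ 2 = 0 := by exact_mod_cast h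
    exact (pow_eq_zero_iff (by omega : n ≠ 0)).mp ((pow_eq_zero_iff (by norm_num : 2 ≠ 0)).mp h')
  have hq1 : 1 < q := by
    rw [hq]
    exact Nat.one_lt_two_pow (by omega)
  have hfix : ∀ t : F, t + σ t = 0 ↔ σ t = t := by
    intro t
    constructor
    · intro ht
      linear_combination ht - t * h2
    · intro ht
      rw [ht]
      linear_combination t * h2
  obtain ⟨T, hT⟩ : ∃ T : F →+ F, ∀ x, T x = x + σ x :=
    ⟨AddMonoidHom.mk' (fun x => x + σ x) (by intro a b; rw [map_add]; ring), fun x => rfl⟩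
  have hker : ∀ x, x ∈ T.ker ↔ x + σ x = 0 := fun x => by rw [AddMonoidHom.mem_ker, hT]
  have hrange : T.range ≤ T.ker := by
    rintro _ ⟨x, rfl⟩
    rw [hker, hT, map_add, hσσ]
    linear_combination (x + σ x) * h2
  have hKle : Nat.card T.ker ≤ q := by
    have hp0 : (Polynomial.X ^ q - Polynomial.X : Polynomial F) ≠ 0 :=
      FiniteField.X_pow_card_sub_X_ne_zero F hq1
    have hsub : ∀ x : T.ker,
        (x : F) ∈ (Polynomial.X ^ q - Polynomial.X : Polynomial F).roots.toFinset := by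
      intro x
      rw [Multiset.mem_toFinset, Polynomial.mem_roots hp0, Polynomial.IsRoot.def]
      simp only [Polynomial.eval_sub, Polynomial.eval_pow, Polynomial.eval_X]
      rw [← hσq, (hfix _).mp ((hker _).mp x.2), sub_self]
    have h1 : Nat.card T.ker ≤
        Nat.card ((Polynomial.X ^ q - Polynomial.X : Polynomial F).roots.toFinset) :=
      Nat.card_le_card_of_injective (fun x : T.ker =>
        (⟨(x : F), hsub x⟩ : ((Polynomial.X ^ q - Polynomial.X : Polynomial F).roots.toFinset)))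
        (by
          intro x y hxy
          have h3 : (x : F) = (y : F) := by simpa using hxy
          exact Subtype.ext h3)
    rw [Nat.card_eq_finsetCard] at h1
    calc Nat.card T.ker ≤ _ := h1
      _ ≤ Multiset.card (Polynomial.X ^ q - Polynomial.X : Polynomial F).roots :=
        Multiset.toFinset_card_le _
      _ ≤ (Polynomial.X ^ q - Polynomial.X : Polynomial F).natDegree := Polynomial.card_roots' _
      _ = q := FiniteField.X_pow_card_sub_X_natDegree_eq F hq1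
  have hmul : Nat.card T.ker * Nat.card T.range = q * q := by
    rw [← AddSubgroup.index_ker, AddSubgroup.card_mul_index, Nat.card_eq_fintype_card, hF, sq]
  have hrc : Nat.card T.range ≤ Nat.card T.ker := AddSubgroup.card_le_of_le hrange
  have hk : Nat.card T.ker = q := by
    apply le_antisymm hKle
    by_contra hlt
    have hlt' := not_le.mp hlt
    have : Nat.card T.ker * Nat.card T.range < q * q := by
      calc Nat.card T.ker * Nat.card T.range ≤ Nat.card T.ker * Nat.card T.ker :=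
            Nat.mul_le_mul_left _ hrc
        _ < q * q := Nat.mul_self_lt_mul_self hlt'
    omega
  have hr : Nat.card T.range = q := by
    have := hmul
    rw [hk] at this
    exact Nat.eq_of_mul_eq_mul_left (by omega) this
  have hrk : T.range = T.ker := AddSubgroup.eq_of_le_of_card_ge hrange (by rw [hk, hr])
  refine ⟨σ, hσq, hσσ, h2, ?_, ?_, ?_, ?_⟩
  · by_contra hall
    have hall' : ∀ x, σ x = x := by
      intro x
      by_contra hne
      exact hall ⟨x, hne⟩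
    have htop : T.ker = ⊤ := by
      ext x
      simp only [AddSubgroup.mem_top, iff_true]
      rw [hker, hfix]
      exact hall' x
    rw [htop, AddSubgroup.card_top, Nat.card_eq_fintype_card, hF] at hk
    nlinarith
  · intro t ht
    have : t ∈ T.range := by
      rw [hrk, hker, hfix]
      exact ht
    obtain ⟨b, hb⟩ := this
    exact ⟨b, by rw [← hT]; exact hb⟩
  · intro t ht
    refine ⟨t ^ 2 ^ (n - 1), ?_, ?_⟩
    · rw [map_pow, ht]
    · rw [← pow_add, ← two_mul, ← pow_succ', Nat.sub_add_cancel hn, ← hq, ← hσq, ht]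
  · rw [← hk]
    exact Nat.card_congr (Equiv.subtypeEquivRight (fun x => (hker x).symm))

/-! ### the matrices -/

variable {σ : F →+* F} {hσ : ∀ x, σ (σ x) = x}

def umat (g : UG σ hσ) : Matrix (Fin 3) (Fin 3) F :=
  !![1 + g.b, g.b, σ g.a; g.b, 1 + g.b, σ g.a; g.a, g.a, 1]

theorem umat_00 (g : UG σ hσ) : umat g 0 0 = 1 + g.b := rfl
theorem umat_01 (g : UG σ hσ) : umat g 0 1 = g.b := rfl
theorem umat_02 (g : UG σ hσ) : umat g 0 2 = σ g.a := rfl
theorem umat_10 (g : UG σ hσ) : umat g 1 0 = g.b := rfl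
theorem umat_11 (g : UG σ hσ) : umat g 1 1 = 1 + g.b := rfl
theorem umat_12 (g : UG σ hσ) : umat g 1 2 = σ g.a := rfl
theorem umat_20 (g : UG σ hσ) : umat g 2 0 = g.a := rfl
theorem umat_21 (g : UG σ hσ) : umat g 2 1 = g.a := rfl
theorem umat_22 (g : UG σ hσ) : umat g 2 2 = 1 := rfl

theorem umat_det (h2 : (2 : F) = 0) (g : UG σ hσ) : (umat g).det = 1 := by
  rw [Matrix.det_fin_three, umat_00, umat_01, umat_02, umat_10, umat_11, umat_12, umat_20,
    umat_21, umat_22]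
  linear_combination (g.b - σ g.a * g.a) * h2

theorem umat_mul (h2 : (2 : F) = 0) (g g' : UG σ hσ) : umat (g * g') = umat g * umat g' := by
  apply ext3
  all_goals rw [Matrix.mul_apply, Fin.sum_univ_three]
  all_goals simp only [umat_00, umat_01, umat_02, umat_10, umat_11, umat_12, umat_20, umat_21,
    umat_22, UG.mul_a, UG.mul_b, map_add]
  · linear_combination (-(g.b * g'.b)) * h2
  · linear_combination (-(g.b * g'.b)) * h2
  · linear_combination (-(g.b * σ g'.a)) * h2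
  · linear_combination (-(g.b * g'.b)) * h2
  · linear_combination (-(g.b * g'.b)) * h2
  · linear_combination (-(g.b * σ g'.a)) * h2
  · linear_combination (-(g.a * g'.b)) * h2
  · linear_combination (-(g.a * g'.b)) * h2
  · linear_combination (-(g.a * σ g'.a)) * h2

theorem umat_one : umat (1 : UG σ hσ) = 1 := by
  apply ext3 <;>
    simp [umat_00, umat_01, umat_02, umat_10, umat_11, umat_12, umat_20, umat_21, umat_22,
      UG.one_a, UG.one_b]

theorem umat_inj (g g' : UG σ hσ) (h : umat g = umat g') : g = g' := by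
  apply UG.ext'
  · have := congrFun (congrFun h 2) 0
    rwa [umat_20, umat_20] at this
  · have := congrFun (congrFun h 0) 1
    rwa [umat_01, umat_01] at this

def psi0 (h2 : (2 : F) = 0) : UG σ hσ →* Matrix.SpecialLinearGroup (Fin 3) F where
  toFun g := ⟨umat g, umat_det h2 g⟩
  map_one' := Subtype.ext umat_one
  map_mul' g g' := Subtype.ext (umat_mul h2 g g')

theorem herm3 {q : ℕ} (hσq : ∀ x, σ x = x ^ q) (u v : Fin 3 → F) :
    Cfsg.hermForm 3 F q u v = u 0 * σ (v 0) + u 1 * σ (v 1) + u 2 * σ (v 2) := by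
  unfold Cfsg.hermForm
  rw [Fin.sum_univ_three, hσq, hσq, hσq]

theorem mv3 (M : Matrix (Fin 3) (Fin 3) F) (u : Fin 3 → F) (i : Fin 3) :
    (M *ᵥ u) i = M i 0 * u 0 + M i 1 * u 1 + M i 2 * u 2 := by
  rw [Matrix.mulVec, dotProduct, Fin.sum_univ_three]

theorem mem_SU_iff {q : ℕ} (M : Matrix.SpecialLinearGroup (Fin 3) F) :
    M ∈ Cfsg.SU 3 F q ↔ ∀ u v, Cfsg.hermForm 3 F q ((M : Matrix (Fin 3) (Fin 3) F) *ᵥ u)
      ((M : Matrix (Fin 3) (Fin 3) F) *ᵥ v) = Cfsg.hermForm 3 F q u v := Iff.rfl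

theorem umat_unitary {q : ℕ} (hσq : ∀ x, σ x = x ^ q) (h2 : (2 : F) = 0) (g : UG σ hσ)
    (u v : Fin 3 → F) :
    Cfsg.hermForm 3 F q (umat g *ᵥ u) (umat g *ᵥ v) = Cfsg.hermForm 3 F q u v := by
  rw [herm3 hσq, herm3 hσq]
  simp only [mv3, umat_00, umat_01, umat_02, umat_10, umat_11, umat_12, umat_20, umat_21,
    umat_22, map_add, map_mul, map_one, hσ]
  linear_combination ((u 0 + u 1) * (σ (v 0) + σ (v 1))) * g.h +
    ((u 0 + u 1) * (σ (v 0) + σ (v 1)) * g.a * σ g.a + (u 0 + u 1) * g.a * σ (v 2) +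
      σ g.a * u 2 * (σ (v 0) + σ (v 1)) +
      (g.b * (u 0 + u 1) + σ g.a * u 2) * (σ g.b * (σ (v 0) + σ (v 1)) + g.a * σ (v 2))) * h2

def psi {q : ℕ} (hσq : ∀ x, σ x = x ^ q) (h2 : (2 : F) = 0) : UG σ hσ →* Cfsg.SU 3 F q :=
  (psi0 h2).codRestrict (Cfsg.SU 3 F q)
    (fun g => (mem_SU_iff _).mpr (fun u v => umat_unitary hσq h2 g u v))

theorem psi_val {q : ℕ} (hσq : ∀ x, σ x = x ^ q) (h2 : (2 : F) = 0) (g : UG σ hσ) :
    (((psi hσq h2 g : Cfsg.SU 3 F q) : Matrix.SpecialLinearGroup (Fin 3) F) :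
      Matrix (Fin 3) (Fin 3) F) = umat g := rfl

def f1 (F : Type*) [Field F] : Fin 3 → F := ![1, 1, 0]

theorem f1_0 : f1 F 0 = 1 := rfl
theorem f1_1 : f1 F 1 = 1 := rfl
theorem f1_2 : f1 F 2 = 0 := rfl

theorem umat_fix (h2 : (2 : F) = 0) (g : UG σ hσ) : umat g *ᵥ f1 F = f1 F := by
  funext i
  rw [mv3, f1_0, f1_1, f1_2]
  rcases fin3_cases i with rfl | rfl | rfl
  · rw [umat_00, umat_01, umat_02, f1_0]
    linear_combination g.b * h2
  · rw [umat_10, umat_11, umat_12, f1_1]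
    linear_combination g.b * h2
  · rw [umat_20, umat_21, umat_22, f1_2]
    linear_combination g.a * h2

theorem col_orth {q : ℕ} (hσq : ∀ x, σ x = x ^ q) (M : Matrix.SpecialLinearGroup (Fin 3) F)
    (hM : M ∈ Cfsg.SU 3 F q) (j k : Fin 3) :
    (M : Matrix (Fin 3) (Fin 3) F) 0 j * σ ((M : Matrix (Fin 3) (Fin 3) F) 0 k) +
      (M : Matrix (Fin 3) (Fin 3) F) 1 j * σ ((M : Matrix (Fin 3) (Fin 3) F) 1 k) +
      (M : Matrix (Fin 3) (Fin 3) F) 2 j * σ ((M : Matrix (Fin 3) (Fin 3) F) 2 k) =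
      if j = k then 1 else 0 := by
  have h := (mem_SU_iff M).mp hM (Pi.single j 1) (Pi.single k 1)
  have hcol : ∀ (j i : Fin 3), ((M : Matrix (Fin 3) (Fin 3) F) *ᵥ Pi.single j 1) i =
      (M : Matrix (Fin 3) (Fin 3) F) i j := by
    intro j i
    rw [Matrix.mulVec_single_one]
    rfl
  rw [herm3 hσq, herm3 hσq] at h
  simp only [hcol] at h
  rw [h]
  rcases fin3_cases j with rfl | rfl | rfl <;> rcases fin3_cases k with rfl | rfl | rfl <;>
    simp [Pi.single_apply]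

theorem exists_umat_of_fix {q : ℕ} (hσq : ∀ x, σ x = x ^ q) (h2 : (2 : F) = 0)
    (M : Matrix.SpecialLinearGroup (Fin 3) F) (hM : M ∈ Cfsg.SU 3 F q)
    (hfix : (M : Matrix (Fin 3) (Fin 3) F) *ᵥ f1 F = f1 F) :
    ∃ g : UG σ hσ, umat g = (M : Matrix (Fin 3) (Fin 3) F) := by
  obtain ⟨m, hm⟩ : ∃ m : Matrix (Fin 3) (Fin 3) F, m = (M : Matrix (Fin 3) (Fin 3) F) :=
    ⟨_, rfl⟩
  have hdet : m.det = 1 := by rw [hm]; exact M.2
  have co : ∀ j k : Fin 3, m 0 j * σ (m 0 k) + m 1 j * σ (m 1 k) + m 2 j * σ (m 2 k) =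
      if j = k then 1 else 0 := by
    intro j k
    rw [hm]
    exact col_orth hσq M hM j k
  have hfix' : ∀ i, m i 0 + m i 1 = f1 F i := by
    intro i
    have := congrFun hfix i
    rw [mv3, f1_0, f1_1, f1_2, ← hm] at this
    linear_combination this
  have r0 : m 0 0 + m 0 1 = 1 := hfix' 0
  have r1 : m 1 0 + m 1 1 = 1 := hfix' 1
  have r2 : m 2 0 + m 2 1 = 0 := hfix' 2
  have r0σ : σ (m 0 0) + σ (m 0 1) = 1 := by rw [← map_add, r0, map_one]
  have r1σ : σ (m 1 0) + σ (m 1 1) = 1 := by rw [← map_add, r1, map_one]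
  have r2σ : σ (m 2 0) + σ (m 2 1) = 0 := by rw [← map_add, r2, map_zero]
  have c00 : m 0 0 * σ (m 0 0) + m 1 0 * σ (m 1 0) + m 2 0 * σ (m 2 0) = 1 := by
    have := co 0 0
    rwa [if_pos rfl] at this
  have c01 : m 0 0 * σ (m 0 1) + m 1 0 * σ (m 1 1) + m 2 0 * σ (m 2 1) = 0 := by
    have := co 0 1
    rwa [if_neg (by decide)] at this
  have c10 : m 0 1 * σ (m 0 0) + m 1 1 * σ (m 1 0) + m 2 1 * σ (m 2 0) = 0 := by
    have := co 1 0
    rwa [if_neg (by decide)] at this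
  have c11 : m 0 1 * σ (m 0 1) + m 1 1 * σ (m 1 1) + m 2 1 * σ (m 2 1) = 1 := by
    have := co 1 1
    rwa [if_pos rfl] at this
  have c20 : m 0 2 * σ (m 0 0) + m 1 2 * σ (m 1 0) + m 2 2 * σ (m 2 0) = 0 := by
    have := co 2 0
    rwa [if_neg (by decide)] at this
  have c21 : m 0 2 * σ (m 0 1) + m 1 2 * σ (m 1 1) + m 2 2 * σ (m 2 1) = 0 := by
    have := co 2 1
    rwa [if_neg (by decide)] at this
  have c02 : m 0 0 * σ (m 0 2) + m 1 0 * σ (m 1 2) + m 2 0 * σ (m 2 2) = 0 := by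
    have := co 0 2
    rwa [if_neg (by decide)] at this
  have s0 : m 0 0 + m 1 0 = 1 := by
    linear_combination c00 + c01 - m 0 0 * r0σ - m 1 0 * r1σ - m 2 0 * r2σ
  have s1 : m 0 1 + m 1 1 = 1 := by
    linear_combination c10 + c11 - m 0 1 * r0σ - m 1 1 * r1σ - m 2 1 * r2σ
  have s2 : m 0 2 + m 1 2 = 0 := by
    linear_combination c20 + c21 - m 0 2 * r0σ - m 1 2 * r1σ - m 2 2 * r2σ
  have e00 : m 0 0 = 1 + m 0 1 := by linear_combination r0 - m 0 1 * h2
  have e10 : m 1 0 = m 0 1 := by linear_combination s0 - r0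
  have e11 : m 1 1 = 1 + m 0 1 := by linear_combination s1 - m 0 1 * h2
  have e21 : m 2 1 = m 2 0 := by linear_combination r2 - m 2 0 * h2
  have e12 : m 1 2 = m 0 2 := by linear_combination s2 - m 0 2 * h2
  have e22 : m 2 2 = 1 := by
    rw [Matrix.det_fin_three, e00, e10, e11, e21, e12] at hdet
    linear_combination hdet - (m 0 1 * m 2 2 - m 0 2 * m 2 0) * h2
  have hσd : σ (m 0 2) = m 2 0 := by
    have := c02
    rw [e00, e10, e12, e22, map_one] at this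
    linear_combination this - (m 0 1 * σ (m 0 2) + m 2 0) * h2
  have hd : m 0 2 = σ (m 2 0) := by rw [← hσd, hσ]
  have hb : m 0 1 + σ (m 0 1) = m 2 0 * σ (m 2 0) := by
    have := c00
    rw [e00, e10, map_add, map_one] at this
    linear_combination this - (m 0 1 * σ (m 0 1) + m 2 0 * σ (m 2 0)) * h2
  refine ⟨⟨m 2 0, m 0 1, hb⟩, ?_⟩
  rw [← hm]
  apply ext3
  · exact e00.symm
  · rfl
  · exact hd.symm
  · exact e10.symm
  · exact e11.symm
  · exact (e12.trans hd).symm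
  · rfl
  · exact e21.symm
  · exact e22.symm

theorem fix_line (h2 : (2 : F) = 0) (hs1 : ∃ s1 : F, s1 + σ s1 = 1) (x : Fin 3 → F)
    (hx : ∀ g : UG σ hσ, umat g *ᵥ x = x) : x 1 = x 0 ∧ x 2 = 0 := by
  obtain ⟨s1, hs1⟩ := hs1
  have h1 := congrFun (hx ⟨0, 1, by rw [map_one, map_zero]; linear_combination h2⟩) 0
  rw [mv3, umat_00, umat_01, umat_02] at h1
  dsimp only at h1
  rw [map_zero] at h1
  have e1 : x 1 = x 0 := by linear_combination h1 - (x 0) * h2
  have h2' := congrFun (hx ⟨1, s1, by rw [hs1, map_one, mul_one]⟩) 0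
  rw [mv3, umat_00, umat_01, umat_02] at h2'
  dsimp only at h2'
  rw [map_one, e1] at h2'
  refine ⟨e1, ?_⟩
  linear_combination h2' - (s1 * x 0) * h2

/-! ### the cyclic permutation matrix -/

def wmat (F : Type*) [Field F] : Matrix (Fin 3) (Fin 3) F := !![0, 0, 1; 1, 0, 0; 0, 1, 0]

theorem w_00 : wmat F 0 0 = 0 := rfl
theorem w_01 : wmat F 0 1 = 0 := rfl
theorem w_02 : wmat F 0 2 = 1 := rfl
theorem w_10 : wmat F 1 0 = 1 := rfl
theorem w_11 : wmat F 1 1 = 0 := rfl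
theorem w_12 : wmat F 1 2 = 0 := rfl
theorem w_20 : wmat F 2 0 = 0 := rfl
theorem w_21 : wmat F 2 1 = 1 := rfl
theorem w_22 : wmat F 2 2 = 0 := rfl

theorem wmat_det : (wmat F).det = 1 := by
  rw [Matrix.det_fin_three, w_00, w_01, w_02, w_10, w_11, w_12, w_20, w_21, w_22]
  ring

theorem wmat_unitary {q : ℕ} (hσq : ∀ x, σ x = x ^ q) (u v : Fin 3 → F) :
    Cfsg.hermForm 3 F q (wmat F *ᵥ u) (wmat F *ᵥ v) = Cfsg.hermForm 3 F q u v := by
  rw [herm3 hσq, herm3 hσq]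
  simp only [mv3, w_00, w_01, w_02, w_10, w_11, w_12, w_20, w_21, w_22, map_add, map_mul,
    map_one, map_zero]
  ring

theorem comm_w (g : UG σ hσ) (h : wmat F * umat g = umat g * wmat F) : g = 1 := by
  have e21 := congrFun (congrFun h 2) 1
  rw [Matrix.mul_apply, Matrix.mul_apply, Fin.sum_univ_three, Fin.sum_univ_three] at e21
  simp only [w_00, w_01, w_02, w_10, w_11, w_12, w_20, w_21, w_22, umat_00, umat_01, umat_02,
    umat_10, umat_11, umat_12, umat_20, umat_21, umat_22] at e21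
  have hb : g.b = 0 := by linear_combination e21
  have e00 := congrFun (congrFun h 0) 0
  rw [Matrix.mul_apply, Matrix.mul_apply, Fin.sum_univ_three, Fin.sum_univ_three] at e00
  simp only [w_00, w_01, w_02, w_10, w_11, w_12, w_20, w_21, w_22, umat_00, umat_01, umat_02,
    umat_10, umat_11, umat_12, umat_20, umat_21, umat_22] at e00
  have ha : g.a = 0 := by linear_combination e00 + hb
  exact UG.ext' ha hb

/-! ### the Sylow 2-subgroup -/

theorem not_dvd_SU [Finite F] {q : ℕ} (hσq : ∀ x, σ x = x ^ q) (h2 : (2 : F) = 0)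
    (hs1 : ∃ s1 : F, s1 + σ s1 = 1) (m : ℕ) (hcard : Nat.card (UG σ hσ) = 2 ^ m) :
    ¬ 2 ^ (m + 1) ∣ Nat.card (Cfsg.SU 3 F q) := by
  classical
  haveI : Fact (Nat.Prime 2) := ⟨Nat.prime_two⟩
  haveI : Fintype F := Fintype.ofFinite F
  intro hdvd
  have hinj : Function.Injective (psi (hσ := hσ) hσq h2) := by
    intro g g' h
    apply umat_inj
    rw [← psi_val hσq h2 g, ← psi_val hσq h2 g', h]
  obtain ⟨Q, hQ⟩ : ∃ Q : Subgroup (Cfsg.SU 3 F q), Q = (psi (hσ := hσ) hσq h2).range :=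
    ⟨_, rfl⟩
  have hQcard : Nat.card Q = 2 ^ m := by
    rw [← hcard, hQ]
    exact (Nat.card_congr (MonoidHom.ofInjective hinj).toEquiv).symm
  have hQmem : ∀ z, z ∈ Q → ∃ g, psi (hσ := hσ) hσq h2 g = z := by
    intro z hz
    rw [hQ] at hz
    exact hz
  have hQmem' : ∀ g, psi (hσ := hσ) hσq h2 g ∈ Q := by
    intro g
    rw [hQ]
    exact ⟨g, rfl⟩
  have hp : 2 ∣ Nat.card (↥(Subgroup.normalizer (Q : Set (Cfsg.SU 3 F q))) ⧸
      Q.subgroupOf (Subgroup.normalizer (Q : Set (Cfsg.SU 3 F q)))) :=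
    Sylow.prime_dvd_card_quotient_normalizer hdvd hQcard
  obtain ⟨xbar, hxbar⟩ := exists_prime_orderOf_dvd_card'
    (G := ↥(Subgroup.normalizer (Q : Set (Cfsg.SU 3 F q))) ⧸
      Q.subgroupOf (Subgroup.normalizer (Q : Set (Cfsg.SU 3 F q)))) 2 hp
  obtain ⟨x, rfl⟩ := QuotientGroup.mk_surjective xbar
  have hxQ : (x : Cfsg.SU 3 F q) ∉ Q := by
    intro hx
    have h1 : (QuotientGroup.mk x : ↥(Subgroup.normalizer (Q : Set (Cfsg.SU 3 F q))) ⧸
        Q.subgroupOf (Subgroup.normalizer (Q : Set (Cfsg.SU 3 F q)))) = 1 :=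
      (QuotientGroup.eq_one_iff x).mpr (Subgroup.mem_subgroupOf.mpr hx)
    rw [h1, orderOf_one] at hxbar
    omega
  have hxxQ : (x : Cfsg.SU 3 F q) * (x : Cfsg.SU 3 F q) ∈ Q := by
    have h1 := pow_orderOf_eq_one
      (QuotientGroup.mk x : ↥(Subgroup.normalizer (Q : Set (Cfsg.SU 3 F q))) ⧸
        Q.subgroupOf (Subgroup.normalizer (Q : Set (Cfsg.SU 3 F q))))
    rw [hxbar, ← QuotientGroup.mk_pow, QuotientGroup.eq_one_iff, Subgroup.mem_subgroupOf,
      pow_two] at h1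
    exact h1
  have hxN := x.2
  rw [Subgroup.mem_normalizer_iff''] at hxN
  obtain ⟨Y, hY⟩ : ∃ Y : Matrix (Fin 3) (Fin 3) F,
      Y = (((x : Cfsg.SU 3 F q) : Matrix.SpecialLinearGroup (Fin 3) F) :
        Matrix (Fin 3) (Fin 3) F) := ⟨_, rfl⟩
  have hconj : ∀ g : UG σ hσ, ∃ g' : UG σ hσ, umat g * Y = Y * umat g' := by
    intro g
    have h1 : (x : Cfsg.SU 3 F q)⁻¹ * psi hσq h2 g * (x : Cfsg.SU 3 F q) ∈ Q :=
      (hxN _).mp (hQmem' g)
    obtain ⟨g', hg'⟩ := hQmem _ h1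
    refine ⟨g', ?_⟩
    have h3 : psi hσq h2 g * (x : Cfsg.SU 3 F q) = (x : Cfsg.SU 3 F q) * psi hσq h2 g' := by
      rw [hg']; group
    rw [hY]
    exact congrArg (fun z : Cfsg.SU 3 F q =>
      ((z : Matrix.SpecialLinearGroup (Fin 3) F) : Matrix (Fin 3) (Fin 3) F)) h3
  have hv : ∀ g : UG σ hσ, umat g *ᵥ (Y *ᵥ f1 F) = Y *ᵥ f1 F := by
    intro g
    obtain ⟨g', hg'⟩ := hconj g
    rw [Matrix.mulVec_mulVec, hg', ← Matrix.mulVec_mulVec, umat_fix h2]
  obtain ⟨v, hvdef⟩ : ∃ v : Fin 3 → F, v = Y *ᵥ f1 F := ⟨_, rfl⟩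
  rw [← hvdef] at hv
  obtain ⟨e1, e2⟩ := fix_line h2 hs1 v hv
  have hv0 : v 0 = Y 0 0 + Y 0 1 := by
    rw [hvdef, mv3, f1_0, f1_1, f1_2]; ring
  obtain ⟨g0, hg0⟩ : ∃ g0 : UG σ hσ, umat g0 = Y * Y := by
    obtain ⟨g0, hg0⟩ := hQmem _ hxxQ
    refine ⟨g0, ?_⟩
    rw [hY]
    exact congrArg (fun z : Cfsg.SU 3 F q =>
      ((z : Matrix.SpecialLinearGroup (Fin 3) F) : Matrix (Fin 3) (Fin 3) F)) hg0
  have hYv : Y *ᵥ v = f1 F := by
    rw [hvdef, Matrix.mulVec_mulVec, ← hg0, umat_fix h2]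
  have h00 : v 0 * v 0 = 1 := by
    have := congrFun hYv 0
    rw [mv3, e1, e2, f1_0] at this
    linear_combination this + v 0 * hv0
  have hv1 : v 0 = 1 := by
    have h5 : (v 0 + 1) * (v 0 + 1) = 0 := by linear_combination h00 + (v 0 + 1) * h2
    have h6 := mul_self_eq_zero.mp h5
    linear_combination h6 - h2
  have hfix : Y *ᵥ f1 F = f1 F := by
    rw [← hvdef]
    funext i
    rcases fin3_cases i with rfl | rfl | rfl
    · rw [hv1, f1_0]
    · rw [e1, hv1, f1_1]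
    · rw [e2, f1_2]
  rw [hY] at hfix
  obtain ⟨g, hg⟩ := exists_umat_of_fix (hσ := hσ) hσq h2
    ((x : Cfsg.SU 3 F q) : Matrix.SpecialLinearGroup (Fin 3) F) (x : Cfsg.SU 3 F q).2 hfix
  apply hxQ
  have hgx : psi (hσ := hσ) hσq h2 g = (x : Cfsg.SU 3 F q) := Subtype.ext (Subtype.ext hg)
  rw [← hgx]
  exact hQmem' g

theorem sylow_equiv [Fintype F] (n q : ℕ) (hn : 1 ≤ n) (hq : q = 2 ^ n)
    (hF : Fintype.card F = q ^ 2) (S : Sylow 2 (Cfsg.PSU 3 F q)) :
    ∃ (σ : F →+* F) (hσ : ∀ x, σ (σ x) = x), (2 : F) = 0 ∧ (∃ x, σ x ≠ x) ∧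
      (∀ t, σ t = t → ∃ b, b + σ b = t) ∧ (∀ t, σ t = t → ∃ l, σ l = l ∧ l * l = t) ∧
      Nat.card {k : F // k + σ k = 0} = q ∧
      Nonempty (↥(S : Subgroup (Cfsg.PSU 3 F q)) ≃* UG σ hσ) := by
  classical
  haveI : Fact (Nat.Prime 2) := ⟨Nat.prime_two⟩
  obtain ⟨σ, hσq, hσ, h2, hx, hs, hsqrt, hK⟩ := field_facts n q hn hq hF
  refine ⟨σ, hσ, h2, hx, hs, hsqrt, hK, ?_⟩
  have hcard : Nat.card (UG σ hσ) = 2 ^ (3 * n) := by
    rw [UG.card_eq h2 hs, hK, Nat.card_eq_fintype_card, hF, hq]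
    ring
  have hnd := not_dvd_SU (hσ := hσ) hσq h2 (hs 1 (map_one σ)) (3 * n) hcard
  obtain ⟨ψb, hψb⟩ : ∃ ψb : UG σ hσ →* Cfsg.PSU 3 F q,
      ψb = (QuotientGroup.mk' (Subgroup.center (Cfsg.SU 3 F q))).comp (psi hσq h2) := ⟨_, rfl⟩
  obtain ⟨w, hw⟩ : ∃ w : Cfsg.SU 3 F q,
      ((w : Matrix.SpecialLinearGroup (Fin 3) F) : Matrix (Fin 3) (Fin 3) F) = wmat F :=
    ⟨⟨⟨wmat F, wmat_det⟩, (mem_SU_iff _).mpr (fun u v => wmat_unitary hσq u v)⟩, rfl⟩
  have hinj : Function.Injective ψb := by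
    rw [injective_iff_map_eq_one]
    intro g hg
    rw [hψb, MonoidHom.comp_apply, QuotientGroup.mk'_apply, QuotientGroup.eq_one_iff] at hg
    have h3 := Subgroup.mem_center_iff.mp hg w
    have h4 := congrArg (fun z : Cfsg.SU 3 F q =>
      ((z : Matrix.SpecialLinearGroup (Fin 3) F) : Matrix (Fin 3) (Fin 3) F)) h3
    apply comm_w
    rw [← hw]
    exact h4
  obtain ⟨Qb, hQb⟩ : ∃ Qb : Subgroup (Cfsg.PSU 3 F q), Qb = ψb.range := ⟨_, rfl⟩
  have hQbcard : Nat.card Qb = 2 ^ (3 * n) := by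
    rw [← hcard, hQb]
    exact (Nat.card_congr (MonoidHom.ofInjective hinj).toEquiv).symm
  have hndP : ¬ 2 ^ (3 * n + 1) ∣ Nat.card (Cfsg.PSU 3 F q) := by
    intro hd
    apply hnd
    rw [Subgroup.card_eq_card_quotient_mul_card_subgroup (Subgroup.center (Cfsg.SU 3 F q))]
    exact Dvd.dvd.mul_right hd _
  obtain ⟨S0, hS0⟩ := (IsPGroup.of_card hQbcard).exists_le_sylow
  obtain ⟨m, hm⟩ := IsPGroup.iff_card.mp S0.isPGroup'
  have hm1 : 3 * n ≤ m := by
    have h1 : Nat.card Qb ≤ Nat.card (S0 : Subgroup (Cfsg.PSU 3 F q)) :=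
      Subgroup.card_le_of_le hS0
    rw [hQbcard, hm] at h1
    exact (Nat.pow_le_pow_iff_right (by norm_num)).mp h1
  have hm2 : m ≤ 3 * n := by
    by_contra hlt
    apply hndP
    have h1 : 2 ^ m ∣ Nat.card (Cfsg.PSU 3 F q) := by
      rw [← hm]; exact Subgroup.card_subgroup_dvd_card _
    exact (pow_dvd_pow 2 (by omega)).trans h1
  have hm3 : m = 3 * n := le_antisymm hm2 hm1
  have hQS : Qb = (S0 : Subgroup (Cfsg.PSU 3 F q)) :=
    Subgroup.eq_of_le_of_card_ge hS0 (by rw [hQbcard, hm, hm3])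
  obtain ⟨g, hg⟩ := MulAction.exists_smul_eq (Cfsg.PSU 3 F q) S0 S
  subst hg
  exact ⟨(Sylow.equivSMul S0 g).symm.trans ((MulEquiv.subgroupCongr hQS.symm).trans
    ((MulEquiv.subgroupCongr hQb).trans (MonoidHom.ofInjective hinj).symm))⟩

end Cfsg.Agent.Helper6.SU3Syl
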