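import Mathlib
import Cfsg.Agent.Helper6.SU3Syl

set_option autoImplicit false
set_option linter.unusedSectionVars false
set_option linter.unusedSimpArgs false
set_option linter.unusedVariables false
open Matrix

/-!
# Matrix computations for `GU₂(q)` and `SU₃(q)`, `q` odd

Involutions of `GU₂(q)` are unitarily diagonalisable, elements of square `-1` are squares when
`q ≡ 1 (mod 4)`, and some explicit elements of `SU₃(q)`.
-/

namespace Cfsg.Agent.Helper6
namespace PSU3

open Cfsg.Agent.Helper6.PSL3Inv (ext3 ext2 fin3_cases iotaMat iotaMat_00 iotaMat_01 iotaMat_02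
  iotaMat_10 iotaMat_11 iotaMat_12 iotaMat_20 iotaMat_21 iotaMat_22 dvec dvec0 dvec1 dvec2)
open Cfsg.Agent.Helper6.GU2 (IsU)

variable {F : Type*} [Field F]

/-! ### 2 × 2 matrices -/

theorem m00 (x y z w : F) : (!![x, y; z, w] : Matrix (Fin 2) (Fin 2) F) 0 0 = x := rfl
theorem m01 (x y z w : F) : (!![x, y; z, w] : Matrix (Fin 2) (Fin 2) F) 0 1 = y := rfl
theorem m10 (x y z w : F) : (!![x, y; z, w] : Matrix (Fin 2) (Fin 2) F) 1 0 = z := rfl
theorem m11 (x y z w : F) : (!![x, y; z, w] : Matrix (Fin 2) (Fin 2) F) 1 1 = w := rfl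

theorem Y00 : (GL2.Ymat : Matrix (Fin 2) (Fin 2) F) 0 0 = 1 := rfl
theorem Y01 : (GL2.Ymat : Matrix (Fin 2) (Fin 2) F) 0 1 = 0 := rfl
theorem Y10 : (GL2.Ymat : Matrix (Fin 2) (Fin 2) F) 1 0 = 0 := rfl
theorem Y11 : (GL2.Ymat : Matrix (Fin 2) (Fin 2) F) 1 1 = -1 := rfl
theorem W00 : (GL2.Wmat : Matrix (Fin 2) (Fin 2) F) 0 0 = 0 := rfl
theorem W01 : (GL2.Wmat : Matrix (Fin 2) (Fin 2) F) 0 1 = 1 := rfl
theorem W10 : (GL2.Wmat : Matrix (Fin 2) (Fin 2) F) 1 0 = 1 := rfl
theorem W11 : (GL2.Wmat : Matrix (Fin 2) (Fin 2) F) 1 1 = 0 := rfl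

theorem mul2 (A B : Matrix (Fin 2) (Fin 2) F) (i j : Fin 2) :
    (A * B) i j = A i 0 * B 0 j + A i 1 * B 1 j := by
  rw [Matrix.mul_apply, Fin.sum_univ_two]

theorem one2_00 : (1 : Matrix (Fin 2) (Fin 2) F) 0 0 = 1 := Matrix.one_apply_eq 0
theorem one2_01 : (1 : Matrix (Fin 2) (Fin 2) F) 0 1 = 0 := Matrix.one_apply_ne (by decide)
theorem one2_10 : (1 : Matrix (Fin 2) (Fin 2) F) 1 0 = 0 := Matrix.one_apply_ne (by decide)
theorem one2_11 : (1 : Matrix (Fin 2) (Fin 2) F) 1 1 = 1 := Matrix.one_apply_eq 1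

theorem one_isU (σ : F →+* F) : IsU σ (1 : Matrix (Fin 2) (Fin 2) F) := by
  refine ⟨?_, ?_, ?_, ?_⟩
  all_goals simp only [one2_00, one2_01, one2_10, one2_11, map_one, map_zero]
  all_goals ring

theorem neg_one_isU (σ : F →+* F) : IsU σ (-1 : Matrix (Fin 2) (Fin 2) F) := by
  refine ⟨?_, ?_, ?_, ?_⟩
  all_goals simp only [Matrix.neg_apply, one2_00, one2_01, one2_10, one2_11, map_neg, map_one,
    map_zero, neg_zero]
  all_goals ring

theorem det_ne_zero_of_isU {σ : F →+* F} (hσσ : ∀ t, σ (σ t) = t)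
    {M : Matrix (Fin 2) (Fin 2) F} (h : IsU σ M) : M.det ≠ 0 := by
  intro h0
  rw [Matrix.det_fin_two] at h0
  have h1 := (GU2.isU_col hσσ h).2.2
  rw [h0, zero_mul] at h1
  exact zero_ne_one h1

theorem det_norm_of_isU {σ : F →+* F} (hσσ : ∀ t, σ (σ t) = t)
    {M : Matrix (Fin 2) (Fin 2) F} (h : IsU σ M) : (M.det)⁻¹ * σ ((M.det)⁻¹) = 1 := by
  have h1 := (GU2.isU_col hσσ h).2.2
  rw [← Matrix.det_fin_two] at h1
  rw [map_inv₀, ← mul_inv, h1, inv_one]

theorem det_negone : (-1 : Matrix (Fin 2) (Fin 2) F).det = 1 := by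
  rw [Matrix.det_fin_two]
  simp only [Matrix.neg_apply, one2_00, one2_01, one2_10, one2_11]
  ring

theorem det_Y : (GL2.Ymat : Matrix (Fin 2) (Fin 2) F).det = -1 := by
  rw [Matrix.det_fin_two, Y00, Y01, Y10, Y11]; ring

theorem det_W : (GL2.Wmat : Matrix (Fin 2) (Fin 2) F).det = -1 := by
  rw [Matrix.det_fin_two, W00, W01, W10, W11]; ring

theorem sq_entries {B : Matrix (Fin 2) (Fin 2) F} {e : F}
    (h : B * B = e • (1 : Matrix (Fin 2) (Fin 2) F)) :
    B 0 0 * B 0 0 + B 0 1 * B 1 0 = e ∧ B 0 0 * B 0 1 + B 0 1 * B 1 1 = 0 ∧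
    B 1 0 * B 0 0 + B 1 1 * B 1 0 = 0 ∧ B 1 0 * B 0 1 + B 1 1 * B 1 1 = e := by
  have k := fun i j => congrFun (congrFun h i) j
  refine ⟨?_, ?_, ?_, ?_⟩
  · have := k 0 0
    rw [mul2, Matrix.smul_apply, one2_00, smul_eq_mul, mul_one] at this
    exact this
  · have := k 0 1
    rw [mul2, Matrix.smul_apply, one2_01, smul_eq_mul, mul_zero] at this
    exact this
  · have := k 1 0
    rw [mul2, Matrix.smul_apply, one2_10, smul_eq_mul, mul_zero] at this
    exact this
  · have := k 1 1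
    rw [mul2, Matrix.smul_apply, one2_11, smul_eq_mul, mul_one] at this
    exact this

/-- a unitary matrix with `B² = e` satisfies `e σ(B) = Bᵀ`. -/
theorem sigma_of_sq {σ : F →+* F} {B : Matrix (Fin 2) (Fin 2) F} (hU : IsU σ B) {e : F}
    (k1 : B 0 0 * B 0 0 + B 0 1 * B 1 0 = e) (k2 : B 0 0 * B 0 1 + B 0 1 * B 1 1 = 0)
    (k3 : B 1 0 * B 0 0 + B 1 1 * B 1 0 = 0) (k4 : B 1 0 * B 0 1 + B 1 1 * B 1 1 = e) :
    e * σ (B 0 0) = B 0 0 ∧ e * σ (B 0 1) = B 1 0 ∧ e * σ (B 1 0) = B 0 1 ∧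
      e * σ (B 1 1) = B 1 1 := by
  obtain ⟨h1, h2, h3, h4⟩ := hU
  refine ⟨?_, ?_, ?_, ?_⟩
  · linear_combination B 0 0 * h1 + B 1 0 * h4 - σ (B 0 0) * k1 - σ (B 1 0) * k3
  · linear_combination B 0 0 * h3 + B 1 0 * h2 - σ (B 0 1) * k1 - σ (B 1 1) * k3
  · linear_combination B 0 1 * h1 + B 1 1 * h4 - σ (B 0 0) * k2 - σ (B 1 0) * k4
  · linear_combination B 0 1 * h3 + B 1 1 * h2 - σ (B 0 1) * k2 - σ (B 1 1) * k4

theorem sigma_two (σ : F →+* F) : σ 2 = 2 := map_ofNat σ 2

section field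

variable [Fintype F] {σ : F →+* F} {q : ℕ}

/-- an involution of `GU₂(q)` is `±1` or unitarily conjugate to `diag(1,-1)`. -/
theorem invol_cases (hF : Fintype.card F = q ^ 2) (hσq : ∀ t, σ t = t ^ q)
    (h2 : (2 : F) ≠ 0) {B : Matrix (Fin 2) (Fin 2) F} (hU : IsU σ B) (hB : B * B = 1) :
    B = 1 ∨ B = -1 ∨ ∃ g : Matrix (Fin 2) (Fin 2) F, IsU σ g ∧ B * g = g * GL2.Ymat := by
  classical
  obtain ⟨k1, k2, k3, k4⟩ := sq_entries (B := B) (e := (1 : F)) (by rw [one_smul]; exact hB)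
  obtain ⟨s1, s2, s3, s4⟩ := sigma_of_sq hU k1 k2 k3 k4
  rw [one_mul] at s1 s2 s3 s4
  set a := B 0 0 with ha
  set b := B 0 1 with hb
  set c := B 1 0 with hc
  set d := B 1 1 with hd
  by_cases hs : a + d = 0
  · have hd' : d = -a := by linear_combination hs
    right; right
    by_cases ha1 : 1 + a = 0
    · have hb0 : b = 0 := by
        have h : b * σ b = 0 := by rw [s2]; linear_combination k1 + (1 - a) * ha1
        rcases mul_eq_zero.1 h with h | h
        · exact h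
        · exact (map_eq_zero σ).1 h
      have hc0 : c = 0 := by rw [← s2, hb0, map_zero]
      refine ⟨GL2.Wmat, GU2.Wmat_isU σ, ?_⟩
      apply ext2
      all_goals rw [mul2, mul2]
      all_goals simp only [W00, W01, W10, W11, Y00, Y01, Y10, Y11, ← ha, ← hb, ← hc, ← hd]
      · linear_combination hb0
      · linear_combination ha1
      · linear_combination hd' - ha1
      · linear_combination hc0
    · have hne : (2 : F) * (1 + a) ≠ 0 := mul_ne_zero h2 ha1
      have hfix : σ ((2 * (1 + a))⁻¹) = (2 * (1 + a))⁻¹ := by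
        rw [map_inv₀, map_mul, map_add, map_one, s1, sigma_two]
      obtain ⟨l, hl⟩ := GU2.exists_norm hF hσq (inv_ne_zero hne) hfix
      have hl' : l * σ l * (2 * (1 + a)) = 1 := by rw [hl, inv_mul_cancel₀ hne]
      refine ⟨!![l * (1 + a), l * b; l * c, -(l * (1 + a))], ?_, ?_⟩
      · refine ⟨?_, ?_, ?_, ?_⟩
        all_goals simp only [m00, m01, m10, m11, map_neg, map_mul, map_add, map_one, s1, s2, s3]
        · linear_combination hl' + (l * σ l) * k1
        · linear_combination hl' + (l * σ l) * k1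
        · ring
        · ring
      · apply ext2
        all_goals rw [mul2, mul2]
        all_goals simp only [m00, m01, m10, m11, Y00, Y01, Y10, Y11, ← ha, ← hb, ← hc, ← hd]
        · linear_combination l * k1
        · ring
        · linear_combination (l * c) * hs
        · linear_combination l * k1 - l * (1 + a) * hs
  · have hb0 : b = 0 := by
      have h : b * (a + d) = 0 := by linear_combination k2
      exact (mul_eq_zero.1 h).resolve_right hs
    have hc0 : c = 0 := by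
      have h : c * (a + d) = 0 := by linear_combination k3
      exact (mul_eq_zero.1 h).resolve_right hs
    have ha2 : (a - 1) * (a + 1) = 0 := by linear_combination k1 - c * hb0
    have hd2 : (d - 1) * (d + 1) = 0 := by linear_combination k4 - c * hb0
    rcases mul_eq_zero.1 ha2 with h | h
    · have ha1 : a = 1 := by linear_combination h
      have hd1 : d = 1 := by
        rcases mul_eq_zero.1 hd2 with h' | h'
        · linear_combination h'
        · exfalso; apply hs; linear_combination h + h'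
      left
      apply ext2
      · rw [one2_00]; exact ha1
      · rw [one2_01]; exact hb0
      · rw [one2_10]; exact hc0
      · rw [one2_11]; exact hd1
    · have ha1 : a = -1 := by linear_combination h
      have hd1 : d = -1 := by
        rcases mul_eq_zero.1 hd2 with h' | h'
        · exfalso; apply hs; linear_combination h + h'
        · linear_combination h'
      right; left
      apply ext2
      · rw [Matrix.neg_apply, one2_00]; exact ha1
      · rw [Matrix.neg_apply, one2_01, neg_zero]; exact hb0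
      · rw [Matrix.neg_apply, one2_10, neg_zero]; exact hc0
      · rw [Matrix.neg_apply, one2_11]; exact hd1

theorem exists_scalars (hF : Fintype.card F = q ^ 2) (hσq : ∀ t, σ t = t ^ q)
    (h2 : (2 : F) ≠ 0) (hq4 : q % 4 = 1) :
    ∃ c e : F, e * e = 1 ∧ σ e = e ∧ 2 * e * (c * c) = 1 ∧ 2 * (c * σ c) = 1 := by
  classical
  obtain ⟨m, hm⟩ : ∃ m, q + 1 = 2 * m := ⟨(q + 1) / 2, by omega⟩
  have hnorm : ∀ t : F, t * σ t = t ^ (q + 1) := by intro t; rw [hσq, pow_succ']
  have h2inv : σ ((2 : F)⁻¹) = (2 : F)⁻¹ := by rw [map_inv₀, sigma_two]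
  obtain ⟨y, hy⟩ := GU2.exists_norm hF hσq (inv_ne_zero h2) h2inv
  obtain ⟨x, hx⟩ : ∃ x : F, x * x = (2 : F)⁻¹ := by
    refine ⟨y ^ m, ?_⟩
    rw [← pow_add, ← two_mul, ← hm, ← hnorm, hy]
  have hx2 : 2 * (x * x) = 1 := by rw [hx, mul_inv_cancel₀ h2]
  have hσx : σ x * σ x = x * x := by rw [← map_mul, hx, h2inv]
  have hpm : (σ x - x) * (σ x + x) = 0 := by linear_combination hσx
  rcases mul_eq_zero.1 hpm with h | h
  · have hx1 : σ x = x := by linear_combination h
    exact ⟨x, 1, by ring, map_one σ, by linear_combination hx2,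
      by rw [hx1]; linear_combination hx2⟩
  · have hx1 : σ x = -x := by linear_combination h
    have hneg : σ (-1 : F) = -1 := by rw [map_neg, map_one]
    obtain ⟨w, hw⟩ := GU2.exists_norm hF hσq (neg_ne_zero.2 one_ne_zero) hneg
    obtain ⟨i, hi⟩ : ∃ i : F, i * i = -1 := by
      refine ⟨w ^ m, ?_⟩
      rw [← pow_add, ← two_mul, ← hm, ← hnorm, hw]
    have hσi : σ i = i := by
      obtain ⟨k, hk⟩ : ∃ k, q = 4 * k + 1 := ⟨q / 4, by omega⟩
      have hi4 : i ^ 4 = 1 := by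
        have e : i ^ 4 = (i * i) * (i * i) := by ring
        rw [e, hi]; ring
      rw [hσq, hk, pow_succ, pow_mul, hi4, one_pow, one_mul]
    refine ⟨i * x, -1, by ring, hneg, ?_, ?_⟩
    · linear_combination hx2 - 2 * (x * x) * hi
    · rw [map_mul, hσi, hx1]
      linear_combination hx2 - 2 * (x * x) * hi

/-- for `q ≡ 1 (mod 4)`, a unitary matrix with `B² = -1` is the square of a unitary matrix. -/
theorem exists_sqrt (hF : Fintype.card F = q ^ 2) (hσq : ∀ t, σ t = t ^ q) (h2 : (2 : F) ≠ 0)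
    (hq4 : q % 4 = 1) {B : Matrix (Fin 2) (Fin 2) F} (hU : IsU σ B) (hB : B * B = -1) :
    ∃ s : Matrix (Fin 2) (Fin 2) F, IsU σ s ∧ s * s = B := by
  obtain ⟨k1, k2, k3, k4⟩ := sq_entries (B := B) (e := (-1 : F)) (by rw [neg_one_smul]; exact hB)
  obtain ⟨s1, s2, s3, s4⟩ := sigma_of_sq hU k1 k2 k3 k4
  obtain ⟨c, e, he, hσe, hc1, hc2⟩ := exists_scalars hF hσq h2 hq4
  set a := B 0 0 with ha
  set b := B 0 1 with hb
  set c' := B 1 0 with hc'
  set d := B 1 1 with hd
  have t1 : σ a = -a := by linear_combination -s1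
  have t2 : σ b = -c' := by linear_combination -s2
  have t3 : σ c' = -b := by linear_combination -s3
  have t4 : σ d = -d := by linear_combination -s4
  refine ⟨!![c * (1 + e * a), c * (e * b); c * (e * c'), c * (1 + e * d)], ?_, ?_⟩
  · refine ⟨?_, ?_, ?_, ?_⟩
    all_goals simp only [m00, m01, m10, m11, map_neg, map_mul, map_add, map_one, t1, t2, t3, t4,
      hσe]
    · linear_combination hc2 - (c * σ c) * k1 - (c * σ c) * (a * a + b * c') * he
    · linear_combination hc2 - (c * σ c) * k4 - (c * σ c) * (c' * b + d * d) * he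
    · linear_combination -(c * σ c * e * e) * k3
    · linear_combination -(c * σ c * e * e) * k2
  · apply ext2
    all_goals rw [mul2]
    all_goals simp only [m00, m01, m10, m11, ← ha, ← hb, ← hc', ← hd]
    · linear_combination a * hc1 + (c * c) * k1 + (c * c) * (a * a + b * c') * he
    · linear_combination b * hc1 + (c * c * e * e) * k2
    · linear_combination c' * hc1 + (c * c * e * e) * k3
    · linear_combination d * hc1 + (c * c) * k4 + (c * c) * (c' * b + d * d) * he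

end field

/-! ### 3 × 3 matrices -/

def pmat (F : Type*) [Field F] : Matrix (Fin 3) (Fin 3) F := !![0, 0, 1; 0, -1, 0; 1, 0, 0]

theorem p_00 : pmat F 0 0 = 0 := rfl
theorem p_01 : pmat F 0 1 = 0 := rfl
theorem p_02 : pmat F 0 2 = 1 := rfl
theorem p_10 : pmat F 1 0 = 0 := rfl
theorem p_11 : pmat F 1 1 = -1 := rfl
theorem p_12 : pmat F 1 2 = 0 := rfl
theorem p_20 : pmat F 2 0 = 1 := rfl
theorem p_21 : pmat F 2 1 = 0 := rfl
theorem p_22 : pmat F 2 2 = 0 := rfl

theorem pmat_det : (pmat F).det = 1 := by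
  rw [Matrix.det_fin_three, p_00, p_01, p_02, p_10, p_11, p_12, p_20, p_21, p_22]
  ring

theorem pmat_unitary {σ : F →+* F} {q : ℕ} (hσq : ∀ x, σ x = x ^ q) (u v : Fin 3 → F) :
    Cfsg.hermForm 3 F q (pmat F *ᵥ u) (pmat F *ᵥ v) = Cfsg.hermForm 3 F q u v := by
  rw [SU3Syl.herm3 hσq, SU3Syl.herm3 hσq]
  simp only [SU3Syl.mv3, p_00, p_01, p_02, p_10, p_11, p_12, p_20, p_21, p_22, map_add, map_mul,
    map_one, map_zero, map_neg]
  ring

def dvecY (F : Type*) [Field F] : Fin 3 → F := ![1, -1, -1]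

theorem dY0 : dvecY F 0 = 1 := rfl
theorem dY1 : dvecY F 1 = -1 := rfl
theorem dY2 : dvecY F 2 = -1 := rfl

theorem iotaMat_negone :
    iotaMat (-1 : Matrix (Fin 2) (Fin 2) F) = Matrix.diagonal (dvec F) := by
  apply ext3
  · rw [iotaMat_00, Matrix.neg_apply, one2_00, Matrix.diagonal_apply_eq, dvec0]
  · rw [iotaMat_01, Matrix.neg_apply, one2_01, neg_zero, Matrix.diagonal_apply_ne _ (by decide)]
  · rw [iotaMat_02, Matrix.diagonal_apply_ne _ (by decide)]
  · rw [iotaMat_10, Matrix.neg_apply, one2_10, neg_zero, Matrix.diagonal_apply_ne _ (by decide)]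
  · rw [iotaMat_11, Matrix.neg_apply, one2_11, Matrix.diagonal_apply_eq, dvec1]
  · rw [iotaMat_12, Matrix.diagonal_apply_ne _ (by decide)]
  · rw [iotaMat_20, Matrix.diagonal_apply_ne _ (by decide)]
  · rw [iotaMat_21, Matrix.diagonal_apply_ne _ (by decide)]
  · rw [iotaMat_22, det_negone, inv_one, Matrix.diagonal_apply_eq, dvec2]

theorem iotaMat_Y :
    iotaMat (GL2.Ymat : Matrix (Fin 2) (Fin 2) F) = Matrix.diagonal (dvecY F) := by
  apply ext3
  · rw [iotaMat_00, Y00, Matrix.diagonal_apply_eq, dY0]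
  · rw [iotaMat_01, Y01, Matrix.diagonal_apply_ne _ (by decide)]
  · rw [iotaMat_02, Matrix.diagonal_apply_ne _ (by decide)]
  · rw [iotaMat_10, Y10, Matrix.diagonal_apply_ne _ (by decide)]
  · rw [iotaMat_11, Y11, Matrix.diagonal_apply_eq, dY1]
  · rw [iotaMat_12, Matrix.diagonal_apply_ne _ (by decide)]
  · rw [iotaMat_20, Matrix.diagonal_apply_ne _ (by decide)]
  · rw [iotaMat_21, Matrix.diagonal_apply_ne _ (by decide)]
  · rw [iotaMat_22, det_Y, inv_neg_one, Matrix.diagonal_apply_eq, dY2]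

theorem pmat_conj :
    pmat F * Matrix.diagonal (dvecY F) = Matrix.diagonal (dvec F) * pmat F := by
  apply ext3
  all_goals rw [Matrix.mul_diagonal, Matrix.diagonal_mul]
  all_goals simp only [p_00, p_01, p_02, p_10, p_11, p_12, p_20, p_21, p_22, dvec0, dvec1, dvec2,
    dY0, dY1, dY2]
  all_goals ring

/-- the block embedding of a unitary matrix is unitary -/
theorem iota_mem {σ : F →+* F} {q : ℕ} (hσq : ∀ t, σ t = t ^ q) (hσσ : ∀ t, σ (σ t) = t)
    (g : GL (Fin 2) F) (hg : IsU σ (g : Matrix (Fin 2) (Fin 2) F)) :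
    PSL3Inv.iota F g ∈ Cfsg.SU 3 F q := by
  rw [SU3Syl.mem_SU_iff]
  intro u v
  have hδ := det_norm_of_isU hσσ hg
  obtain ⟨h1, h2, h3, h4⟩ := hg
  rw [SU3Syl.herm3 hσq, SU3Syl.herm3 hσq]
  simp only [SU3Syl.mv3, PSL3Inv.iota_val, iotaMat_00, iotaMat_01, iotaMat_02, iotaMat_10,
    iotaMat_11, iotaMat_12, iotaMat_20, iotaMat_21, iotaMat_22, map_add, map_mul, map_zero]
  linear_combination (u 0 * σ (v 0)) * h1 + (u 1 * σ (v 1)) * h2 + (u 0 * σ (v 1)) * h3 +
    (u 1 * σ (v 0)) * h4 + (u 2 * σ (v 2)) * hδ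

end PSU3
end Cfsg.Agent.Helper6
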