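import Mathlib
import Cfsg.Prelude.Def_Transfer

/-! Piece [h] of helper22's plan for S4553: counting the linear characters `μ` trivial on
`O^p(G)` with `μ (g ^ k) * μ₀ g = μ g`. -/

namespace Cfsg.Agent.Helper6.S4553h

theorem card_roots (p : ℕ) [Fact p.Prime] (w : ℂˣ) : Nat.card {z : ℂˣ // z ^ p = w} = p := by
  have hp : 0 < p := (Fact.out : p.Prime).pos
  haveI : NeZero p := ⟨hp.ne'⟩
  obtain ⟨z0c, hz0c⟩ := IsAlgClosed.exists_pow_nat_eq (w : ℂ) hp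
  have hz0ne : z0c ≠ 0 := by
    rintro rfl
    rw [zero_pow hp.ne'] at hz0c
    exact w.ne_zero hz0c.symm
  let z0 : ℂˣ := Units.mk0 z0c hz0ne
  have hz0 : z0 ^ p = w := by
    apply Units.ext
    rw [Units.val_pow_eq_pow_val]
    exact hz0c
  let e : {z : ℂˣ // z ^ p = w} ≃ rootsOfUnity p ℂ :=
    { toFun := fun z => ⟨z0⁻¹ * z.1, by
        rw [mem_rootsOfUnity, mul_pow, inv_pow, hz0, z.2, inv_mul_cancel]⟩
      invFun := fun ξ => ⟨z0 * ξ.1, by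
        have h := (mem_rootsOfUnity _ _).1 ξ.2
        rw [mul_pow, hz0, h, mul_one]⟩
      left_inv := fun z => Subtype.ext (by simp)
      right_inv := fun ξ => Subtype.ext (by simp) }
  rw [Nat.card_congr e, Complex.card_rootsOfUnity]

theorem hom_count {G : Type*} [Group G] [Finite G] (p : ℕ) [Fact p.Prime] (N : Subgroup G)
    [hN : N.Normal] (hNres : N = Cfsg.pResidual p G) (hcyc : IsCyclic (G ⧸ N)) (hnt : N ≠ ⊤)
    (k : ℕ) (hk₁ : ∀ g : G, (∃ j : ℕ, orderOf g = p ^ j) → g ^ k = g ^ (1 + p))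
    (hk₂ : ∀ g : G, Nat.Coprime (orderOf g) p → g ^ k = g) (d : ℕ) (hd : ¬ p ∣ d)
    (ε μ₀ : G →* ℂˣ) (hμ₀ : ∀ x ∈ N, μ₀ x = 1)
    (hdet : ∀ g : G, μ₀ g ^ d * ε g = ε (g ^ k)) :
    Nat.card {μ : G →* ℂˣ // (∀ x ∈ N, μ x = 1) ∧ ∀ g : G, μ (g ^ k) * μ₀ g = μ g} = p := by
  classical
  have hp : p.Prime := Fact.out
  have hNmem : ∀ y : G, Nat.Coprime (orderOf y) p → y ∈ N := by
    intro y hy
    rw [hNres]
    exact Subgroup.subset_closure hy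
  have hsplit : ∀ g : G, ∃ j m : ℕ, ¬ p ∣ m ∧ orderOf g = p ^ j * m := by
    intro g
    obtain ⟨j, m, hm, hjm⟩ :=
      Nat.exists_eq_pow_mul_and_not_dvd (orderOf_pos g).ne' p hp.ne_one
    exact ⟨j, m, hm, hjm⟩
  have hpow_mem : ∀ (g : G) (j m : ℕ), ¬ p ∣ m → orderOf g = p ^ j * m → g ^ (p ^ j) ∈ N := by
    intro g j m hm hjm
    apply hNmem
    have h1 : (g ^ (p ^ j)) ^ m = 1 := by rw [← pow_mul, ← hjm, pow_orderOf_eq_one]
    have h2 : orderOf (g ^ (p ^ j)) ∣ m := orderOf_dvd_of_pow_eq_one h1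
    have h3 : Nat.Coprime m p := ((Nat.Prime.coprime_iff_not_dvd hp).2 hm).symm
    exact Nat.Coprime.coprime_dvd_left h2 h3
  have hpow_p : ∀ (g : G) (j m : ℕ), orderOf g = p ^ j * m →
      ∃ i : ℕ, orderOf (g ^ m) = p ^ i := by
    intro g j m hjm
    have h1 : (g ^ m) ^ (p ^ j) = 1 := by
      rw [← pow_mul, mul_comm, ← hjm, pow_orderOf_eq_one]
    have h2 : orderOf (g ^ m) ∣ p ^ j := orderOf_dvd_of_pow_eq_one h1
    obtain ⟨i, -, hi⟩ := (Nat.dvd_prime_pow hp).1 h2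
    exact ⟨i, hi⟩
  -- Step C
  have hC : ∀ (χ : G →* ℂˣ), (∀ x ∈ N, χ x = 1) → ∀ g : G, χ (g ^ k) = χ g ^ (1 + p) := by
    intro χ hχ g
    obtain ⟨j, m, hm, hjm⟩ := hsplit g
    rw [map_pow]
    have h1 : χ g ^ (p ^ j) = 1 := by
      rw [← map_pow]; exact hχ _ (hpow_mem g j m hm hjm)
    have h2 : (χ g ^ m) ^ k = (χ g ^ m) ^ (1 + p) := by
      have h3 := congrArg χ (hk₁ (g ^ m) (hpow_p g j m hjm))
      simp only [map_pow] at h3
      exact h3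
    have h4 : (χ g ^ k * (χ g ^ (1 + p))⁻¹) ^ m = 1 := by
      rw [mul_pow, inv_pow, pow_right_comm (χ g) k m, pow_right_comm (χ g) (1 + p) m, h2,
        mul_inv_cancel]
    have h5 : (χ g ^ k * (χ g ^ (1 + p))⁻¹) ^ (p ^ j) = 1 := by
      rw [mul_pow, inv_pow, pow_right_comm (χ g) k (p ^ j),
        pow_right_comm (χ g) (1 + p) (p ^ j), h1, one_pow, one_pow, inv_one, mul_one]
    have h6 : orderOf (χ g ^ k * (χ g ^ (1 + p))⁻¹) ∣ Nat.gcd m (p ^ j) :=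
      Nat.dvd_gcd (orderOf_dvd_of_pow_eq_one h4) (orderOf_dvd_of_pow_eq_one h5)
    have h7 : Nat.gcd m (p ^ j) = 1 :=
      Nat.Coprime.pow_right j ((Nat.Prime.coprime_iff_not_dvd hp).2 hm).symm
    rw [h7, Nat.dvd_one, orderOf_eq_one_iff] at h6
    exact mul_inv_eq_one.1 h6
  -- Step D
  have hD : ∀ x ∈ N, (∃ j : ℕ, orderOf x = p ^ j) → ε x = 1 := by
    obtain ⟨e, m', hm', hem⟩ :=
      Nat.exists_eq_pow_mul_and_not_dvd (Nat.card_pos (α := G)).ne' p hp.ne_one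
    have hcop : Nat.Coprime m' p := ((Nat.Prime.coprime_iff_not_dvd hp).2 hm').symm
    have h1 : ∀ x ∈ N, ε x ^ m' = 1 := by
      intro x hx
      rw [hNres] at hx
      refine Subgroup.closure_induction (p := fun x _ => ε x ^ m' = 1) ?_ ?_ ?_ ?_ hx
      · intro y hy
        have hy' : Nat.Coprime (orderOf y) p := hy
        have h2 : orderOf y ∣ p ^ e * m' := by rw [← hem]; exact orderOf_dvd_natCard y
        have h3 : orderOf y ∣ m' := (Nat.Coprime.pow_right e hy').dvd_of_dvd_mul_left h2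
        rw [← map_pow, orderOf_dvd_iff_pow_eq_one.1 h3, map_one]
      · rw [map_one, one_pow]
      · intro a b _ _ ha hb
        rw [map_mul, mul_pow, ha, hb, mul_one]
      · intro a _ ha
        rw [map_inv, inv_pow, ha, inv_one]
    intro x hx ⟨j, hj⟩
    have h2 : ε x ^ (p ^ j) = 1 := by rw [← map_pow, ← hj, pow_orderOf_eq_one, map_one]
    have h3 : orderOf (ε x) ∣ Nat.gcd m' (p ^ j) :=
      Nat.dvd_gcd (orderOf_dvd_of_pow_eq_one (h1 x hx)) (orderOf_dvd_of_pow_eq_one h2)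
    have h4 : Nat.gcd m' (p ^ j) = 1 := Nat.Coprime.pow_right j hcop
    rw [h4, Nat.dvd_one, orderOf_eq_one_iff] at h3
    exact h3
  -- Step A
  obtain ⟨q0, hq0⟩ := hcyc.exists_generator
  obtain ⟨c0, rfl⟩ := QuotientGroup.mk_surjective q0
  obtain ⟨j0, m0, hm0, hjm0⟩ := hsplit c0
  obtain ⟨c, hc⟩ : ∃ c : G, c = c0 ^ m0 := ⟨_, rfl⟩
  obtain ⟨jc, hjc⟩ : ∃ i : ℕ, orderOf c = p ^ i := by
    rw [hc]; exact hpow_p c0 j0 m0 hjm0
  have hc0N : c0 ^ (p ^ j0) ∈ N := hpow_mem c0 j0 m0 hm0 hjm0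
  have hbez : ((p ^ j0 : ℕ) : ℤ) * (Nat.gcdA (p ^ j0) m0) + (m0 : ℤ) * (Nat.gcdB (p ^ j0) m0)
      = 1 := by
    have h := Nat.gcd_eq_gcd_ab (p ^ j0) m0
    have h1 : Nat.gcd (p ^ j0) m0 = 1 :=
      Nat.Coprime.pow_left j0 ((Nat.Prime.coprime_iff_not_dvd hp).2 hm0)
    rw [h1] at h
    rw [← h]
    rfl
  have h1Q : (QuotientGroup.mk c0 : G ⧸ N) =
      (QuotientGroup.mk c : G ⧸ N) ^ (Nat.gcdB (p ^ j0) m0) := by
    have h2 : c0 = (c0 ^ (p ^ j0)) ^ (Nat.gcdA (p ^ j0) m0) * c ^ (Nat.gcdB (p ^ j0) m0) := by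
      rw [hc, ← zpow_natCast c0 (p ^ j0), ← zpow_natCast c0 m0, ← zpow_mul, ← zpow_mul,
        ← zpow_add, hbez, zpow_one]
    have h3 : (QuotientGroup.mk ((c0 ^ (p ^ j0)) ^ (Nat.gcdA (p ^ j0) m0)) : G ⧸ N) = 1 :=
      (QuotientGroup.eq_one_iff _).2 (N.zpow_mem hc0N _)
    calc (QuotientGroup.mk c0 : G ⧸ N)
        = QuotientGroup.mk ((c0 ^ (p ^ j0)) ^ (Nat.gcdA (p ^ j0) m0) *
            c ^ (Nat.gcdB (p ^ j0) m0)) := congrArg _ h2
      _ = (QuotientGroup.mk c : G ⧸ N) ^ (Nat.gcdB (p ^ j0) m0) := by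
          rw [QuotientGroup.mk_mul, h3, one_mul, QuotientGroup.mk_zpow]
  have hgen : ∀ g : G, ∃ t : ℤ, ∃ n ∈ N, g = c ^ t * n := by
    intro g
    obtain ⟨z, hz⟩ := Subgroup.mem_zpowers_iff.1 (hq0 (QuotientGroup.mk g))
    have h4 : (QuotientGroup.mk g : G ⧸ N) =
        QuotientGroup.mk (c ^ (Nat.gcdB (p ^ j0) m0 * z)) := by
      rw [← hz, h1Q, ← zpow_mul, QuotientGroup.mk_zpow]
    refine ⟨Nat.gcdB (p ^ j0) m0 * z, (c ^ (Nat.gcdB (p ^ j0) m0 * z))⁻¹ * g,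
      QuotientGroup.eq.1 h4.symm, ?_⟩
    rw [mul_inv_cancel_left]
  -- Step B
  have hB : ∀ χ₁ χ₂ : G →* ℂˣ, (∀ x ∈ N, χ₁ x = 1) → (∀ x ∈ N, χ₂ x = 1) → χ₁ c = χ₂ c →
      χ₁ = χ₂ := by
    intro χ₁ χ₂ h1 h2 h
    refine MonoidHom.ext fun g => ?_
    obtain ⟨t, n, hn, rfl⟩ := hgen g
    rw [map_mul, map_mul, map_zpow, map_zpow, h1 n hn, h2 n hn, h]
  -- Step E
  have hcnotN : c ∉ N := by
    intro hcN
    apply hnt
    rw [eq_top_iff]
    intro g _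
    obtain ⟨t, n, hn, rfl⟩ := hgen g
    exact N.mul_mem (N.zpow_mem hcN t) hn
  obtain ⟨A, hA⟩ : ∃ A : ℕ, A = orderOf (QuotientGroup.mk c : G ⧸ N) := ⟨_, rfl⟩
  have hcA : c ^ A ∈ N :=
    (QuotientGroup.eq_one_iff _).1 (by rw [QuotientGroup.mk_pow, hA, pow_orderOf_eq_one])
  have hAdvd : A ∣ p ^ jc := by
    rw [hA]
    apply orderOf_dvd_of_pow_eq_one
    rw [← QuotientGroup.mk_pow, ← hjc, pow_orderOf_eq_one]
    rfl
  obtain ⟨a, -, ha⟩ := (Nat.dvd_prime_pow hp).1 hAdvd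
  have ha0 : a ≠ 0 := by
    rintro rfl
    apply hcnotN
    have h1 : c ^ A ∈ N := hcA
    rw [ha, pow_zero, pow_one] at h1
    exact h1
  obtain ⟨a', rfl⟩ := Nat.exists_eq_succ_of_ne_zero ha0
  have hζd : μ₀ c ^ d = ε c ^ p := by
    have h1 := hdet c
    rw [hk₁ c ⟨jc, hjc⟩, map_pow, pow_add, pow_one] at h1
    rw [mul_comm (ε c) (ε c ^ p)] at h1
    exact mul_right_cancel h1
  have hεcA : ε (c ^ A) = 1 := by
    apply hD _ hcA
    have h1 : (c ^ A) ^ (p ^ jc) = 1 := by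
      rw [← pow_mul, mul_comm, pow_mul, ← hjc, pow_orderOf_eq_one, one_pow]
    obtain ⟨i, -, hi⟩ := (Nat.dvd_prime_pow hp).1 (orderOf_dvd_of_pow_eq_one h1)
    exact ⟨i, hi⟩
  have hζ1 : μ₀ c ^ (d * p ^ a') = 1 := by
    rw [pow_mul, hζd, ← pow_mul, ← pow_succ', ← ha, ← map_pow, hεcA]
  have hζ2 : μ₀ c ^ (p ^ (a' + 1)) = 1 := by
    rw [← ha, ← map_pow]; exact hμ₀ _ hcA
  have hζ3 : μ₀ c ^ (p ^ a') = 1 := by
    have h1 : orderOf (μ₀ c) ∣ Nat.gcd (d * p ^ a') (p ^ (a' + 1)) :=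
      Nat.dvd_gcd (orderOf_dvd_of_pow_eq_one hζ1) (orderOf_dvd_of_pow_eq_one hζ2)
    have h2 : Nat.gcd (d * p ^ a') (p ^ (a' + 1)) = p ^ a' := by
      have h3 : Nat.gcd d p = 1 := ((Nat.Prime.coprime_iff_not_dvd hp).2 hd).symm
      rw [pow_succ', Nat.gcd_mul_right, h3, one_mul]
    rw [h2] at h1
    exact orderOf_dvd_iff_pow_eq_one.1 h1
  -- Step F
  have hkey : ∀ μ : G →* ℂˣ, (∀ x ∈ N, μ x = 1) →
      ((∀ g : G, μ (g ^ k) * μ₀ g = μ g) ↔ μ c ^ p = (μ₀ c)⁻¹) := by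
    intro μ hμ
    constructor
    · intro h
      have h1 := h c
      rw [hC μ hμ c, pow_add, pow_one] at h1
      have h2 : μ c ^ p * μ₀ c = 1 := by
        have h3 : μ c * (μ c ^ p * μ₀ c) = μ c * 1 := by rw [← mul_assoc, h1, mul_one]
        exact mul_left_cancel h3
      exact eq_inv_of_mul_eq_one_left h2
    · intro h g
      rw [hC μ hμ g, pow_add, pow_one]
      obtain ⟨t, n, hn, rfl⟩ := hgen g
      have h2 : μ (c ^ t * n) ^ p * μ₀ (c ^ t * n) = 1 := by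
        rw [map_mul, map_mul, hμ n hn, hμ₀ n hn, mul_one, mul_one, map_zpow, map_zpow,
          ← zpow_natCast, ← zpow_mul, mul_comm t (p : ℤ), zpow_mul, zpow_natCast, h, inv_zpow,
          inv_mul_cancel]
      rw [mul_assoc, h2, mul_one]
  let F : {μ : G →* ℂˣ // (∀ x ∈ N, μ x = 1) ∧ ∀ g : G, μ (g ^ k) * μ₀ g = μ g} →
      {z : ℂˣ // z ^ p = (μ₀ c)⁻¹} := fun μ => ⟨μ.1 c, (hkey μ.1 μ.2.1).1 μ.2.2⟩
  have hFinj : Function.Injective F := by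
    intro μ ν h
    apply Subtype.ext
    exact hB μ.1 ν.1 μ.2.1 ν.2.1 (congrArg Subtype.val h)
  have hFsurj : Function.Surjective F := by
    rintro ⟨z, hz⟩
    have hzA : z ^ A = 1 := by
      rw [ha, pow_succ', pow_mul, hz, inv_pow, hζ3, inv_one]
    have hgenQ : ∀ x : G ⧸ N, x ∈ Subgroup.zpowers (QuotientGroup.mk c : G ⧸ N) := by
      intro x
      obtain ⟨g, rfl⟩ := QuotientGroup.mk_surjective x
      obtain ⟨t, n, hn, rfl⟩ := hgen g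
      refine Subgroup.mem_zpowers_iff.2 ⟨t, ?_⟩
      rw [QuotientGroup.mk_mul, (QuotientGroup.eq_one_iff n).2 hn, mul_one,
        QuotientGroup.mk_zpow]
    have hord : orderOf z ∣ orderOf (QuotientGroup.mk c : G ⧸ N) := by
      rw [← hA]; exact orderOf_dvd_of_pow_eq_one hzA
    let ψ : G ⧸ N →* ℂˣ := monoidHomOfForallMemZpowers hgenQ hord
    let μ : G →* ℂˣ := ψ.comp (QuotientGroup.mk' N)
    have hμN : ∀ x ∈ N, μ x = 1 := by
      intro x hx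
      show ψ (QuotientGroup.mk x) = 1
      rw [(QuotientGroup.eq_one_iff x).2 hx, map_one]
    have hμc : μ c = z := monoidHomOfForallMemZpowers_apply_gen hgenQ hord
    refine ⟨⟨μ, hμN, (hkey μ hμN).2 (by rw [hμc]; exact hz)⟩, ?_⟩
    exact Subtype.ext hμc
  rw [Nat.card_congr (Equiv.ofBijective F ⟨hFinj, hFsurj⟩)]
  exact card_roots p _

end Cfsg.Agent.Helper6.S4553h
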