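import Mathlib
import Cfsg.Agent.Helper12.SylowB
import Cfsg.Agent.Helper12.SL2Orders
import Cfsg.Agent.Helper12.SL2Gen
import Cfsg.Agent.Helper6.SzSchur2

/-!
# The Schur multiplier of `SL₂(q)`, `q ≠ 4, 9`, is trivial

Prime by prime: cyclic tori for the odd primes away from the characteristic, the generalized
quaternion Sylow 2-subgroup for odd `q`, and for the characteristic a torus-invariant
alternating form on the unipotent subgroup.
-/

set_option autoImplicit false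

namespace Cfsg.Agent.Helper6.SL2Schur

open Cfsg Cfsg.Agent.Helper12 Cfsg.Agent.Helper6.SzSchur

section generic

variable {G : Type*} [Group G] {Γ : Type*} [Group Γ]

/-- a "dicyclic" subgroup: the commutators of its lifts lie in a subgroup meeting the kernel
trivially -/
theorem sch_dic (σ : Γ →* G) (hs : Function.Surjective σ) (hc : σ.ker ≤ Subgroup.center Γ)
    (P : Subgroup G) (x y : G) (hyx : y * x * y⁻¹ = x⁻¹)
    (hP : ∀ g ∈ P, g ∈ Subgroup.zpowers x ∨ g * y⁻¹ ∈ Subgroup.zpowers x)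
    (hinv : ∀ a ∈ Subgroup.zpowers x, a * a = 1 → a = 1 ∨ a = y * y) :
    ∃ W : Subgroup Γ, (∀ g h : Γ, σ g ∈ P → σ h ∈ P → g * h * g⁻¹ * h⁻¹ ∈ W) ∧
      ∀ w ∈ W, σ w = 1 → w = 1 := by
  obtain ⟨Y, hY⟩ := hs y
  have hcen : ∀ k : Γ, σ k = 1 → ∀ g : Γ, g * k = k * g := fun k hk g =>
    Subgroup.mem_center_iff.mp (hc (MonoidHom.mem_ker.mpr hk)) g
  have hAc : ∀ u v : Γ, σ u ∈ Subgroup.zpowers x → σ v ∈ Subgroup.zpowers x → u * v = v * u :=
    fun u v hu hv => Cfsg.Agent.Helper17.J1.comm_of_zpowers σ hs hc x hu hv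
  have hyA : ∀ a ∈ Subgroup.zpowers x, y * a * y⁻¹ = a⁻¹ := by
    intro a ha
    obtain ⟨n, rfl⟩ := Subgroup.mem_zpowers_iff.mp ha
    rw [← conj_zpow, hyx, inv_zpow]
  have hYA : ∀ u : Γ, σ u ∈ Subgroup.zpowers x → σ (Y * u * Y⁻¹) ∈ Subgroup.zpowers x := by
    intro u hu
    rw [map_mul, map_mul, map_inv, hY, hyA _ hu]
    exact Subgroup.inv_mem _ hu
  have hφA : ∀ u : Γ, σ u ∈ Subgroup.zpowers x → σ (cm u Y) ∈ Subgroup.zpowers x := by
    intro u hu
    have e : cm u Y = u * (Y * u⁻¹ * Y⁻¹) := by unfold cm; group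
    rw [e, map_mul]
    exact Subgroup.mul_mem _ hu (hYA _ (by rw [map_inv]; exact Subgroup.inv_mem _ hu))
  have hφmul : ∀ u v : Γ, σ u ∈ Subgroup.zpowers x → σ v ∈ Subgroup.zpowers x →
      cm (u * v) Y = cm u Y * cm v Y := by
    intro u v hu hv
    rw [cm_mul_left]
    have h1 : u * cm v Y = cm v Y * u := hAc _ _ hu (hφA v hv)
    rw [h1, mul_inv_cancel_right]
    exact hAc _ _ (hφA v hv) (hφA u hu)
  have hφone : cm (1 : Γ) Y = 1 := by unfold cm; group
  have hφinv : ∀ u : Γ, σ u ∈ Subgroup.zpowers x → cm u⁻¹ Y = (cm u Y)⁻¹ := by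
    intro u hu
    have h := hφmul u u⁻¹ hu (by rw [map_inv]; exact Subgroup.inv_mem _ hu)
    rw [mul_inv_cancel, hφone] at h
    exact eq_inv_of_mul_eq_one_right h.symm
  obtain ⟨W, hWmem⟩ : ∃ W : Subgroup Γ, ∀ w, w ∈ W ↔
      ∃ u : Γ, σ u ∈ Subgroup.zpowers x ∧ w = cm u Y :=
    ⟨{ carrier := {w | ∃ u : Γ, σ u ∈ Subgroup.zpowers x ∧ w = cm u Y}
       mul_mem' := by
         rintro a b ⟨u, hu, rfl⟩ ⟨v, hv, rfl⟩
         exact ⟨u * v, by rw [map_mul]; exact Subgroup.mul_mem _ hu hv, (hφmul u v hu hv).symm⟩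
       one_mem' := ⟨1, by rw [map_one]; exact Subgroup.one_mem _, hφone.symm⟩
       inv_mem' := by
         rintro a ⟨u, hu, rfl⟩
         exact ⟨u⁻¹, by rw [map_inv]; exact Subgroup.inv_mem _ hu, (hφinv u hu).symm⟩ },
     fun w => Iff.rfl⟩
  refine ⟨W, ?_, ?_⟩
  · intro g h hg hh
    show cm g h ∈ W
    have hcase : ∀ t : Γ, σ t ∈ P →
        σ t ∈ Subgroup.zpowers x ∨ σ (t * Y⁻¹) ∈ Subgroup.zpowers x := by
      intro t ht
      rcases hP _ ht with h1 | h1
      · exact Or.inl h1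
      · right; rw [map_mul, map_inv, hY]; exact h1
    have k2 : ∀ a v : Γ, σ a ∈ Subgroup.zpowers x → σ v ∈ Subgroup.zpowers x →
        cm a (v * Y) = cm a Y := by
      intro a v ha hv
      rw [cm_mul_right, cm_eq_one_of_comm (hAc a v ha hv), one_mul,
        hAc v _ hv (hφA a ha), mul_inv_cancel_right]
    rcases hcase g hg with h1 | h1 <;> rcases hcase h hh with h2 | h2
    · rw [cm_eq_one_of_comm (hAc g h h1 h2)]; exact W.one_mem
    · have e : cm g h = cm g (h * Y⁻¹ * Y) := by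
        congr 1; group
      rw [e, k2 g _ h1 h2]
      exact (hWmem _).mpr ⟨g, h1, rfl⟩
    · have e : cm h g = cm h (g * Y⁻¹ * Y) := by
        congr 1; group
      have h3 : cm g h = (cm h g)⁻¹ := eq_inv_of_mul_eq_one_left (cm_swap g h)
      rw [h3]
      apply W.inv_mem
      rw [e, k2 h _ h2 h1]
      exact (hWmem _).mpr ⟨h, h2, rfl⟩
    · obtain ⟨u, hu⟩ : ∃ u, u = g * Y⁻¹ := ⟨_, rfl⟩
      obtain ⟨v, hv⟩ : ∃ v, v = h * Y⁻¹ := ⟨_, rfl⟩
      rw [← hu] at h1
      rw [← hv] at h2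
      have eg : g = u * Y := by rw [hu]; group
      have eh : h = v * Y := by rw [hv]; group
      have hvu : σ (v * u⁻¹) ∈ Subgroup.zpowers x := by
        rw [map_mul, map_inv]; exact Subgroup.mul_mem _ h2 (Subgroup.inv_mem _ h1)
      have huv : σ (u * v⁻¹) ∈ Subgroup.zpowers x := by
        rw [map_mul, map_inv]; exact Subgroup.mul_mem _ h1 (Subgroup.inv_mem _ h2)
      have key : cm (u * Y) (v * Y) = cm (v * u⁻¹)⁻¹ Y := by
        have e1 : cm (u * Y) (v * Y) = u * (Y * (v * u⁻¹) * Y⁻¹) * v⁻¹ := by unfold cm; group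
        have e2 : cm (v * u⁻¹)⁻¹ Y = u * v⁻¹ * (Y * (v * u⁻¹) * Y⁻¹) := by unfold cm; group
        have hcomm := hAc (u * v⁻¹) (Y * (v * u⁻¹) * Y⁻¹) huv (hYA _ hvu)
        rw [e1, e2, hAc u _ h1 (hYA _ hvu), mul_assoc]
        exact hcomm.symm
      rw [eg, eh, key]
      exact (hWmem _).mpr ⟨(v * u⁻¹)⁻¹, by rw [map_inv]; exact Subgroup.inv_mem _ hvu, rfl⟩
  · intro w hw hσw
    obtain ⟨u, hu, rfl⟩ := (hWmem w).mp hw
    have h1 : σ u * σ u = 1 := by
      have h2 : σ (cm u Y) = σ u * (y * (σ u)⁻¹ * y⁻¹) := by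
        have e : cm u Y = u * (Y * u⁻¹ * Y⁻¹) := by unfold cm; group
        rw [e]; simp only [map_mul, map_inv, hY]
      rw [h2, hyA _ (Subgroup.inv_mem _ hu), inv_inv] at hσw
      exact hσw
    rcases hinv _ hu h1 with h | h
    · exact cm_central_left (hcen u h) Y
    · have hk : σ ((Y * Y)⁻¹ * u) = 1 := by
        rw [map_mul, map_inv, map_mul, hY, h, inv_mul_cancel]
      have e : cm u Y = cm ((Y * Y) * ((Y * Y)⁻¹ * u)) Y := by
        congr 1; group
      rw [e, cm_mul_left, cm_central_left (hcen _ hk)]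
      unfold cm; group

end generic

variable {F : Type*} [Field F]

/-- an alternating biadditive form on `F`, invariant under multiplication by squares,
vanishes -/
theorem sch_form {M : Type*} [Group M] (φ : F → F → M)
    (h1 : ∀ a a' b, φ (a + a') b = φ a b * φ a' b)
    (h2 : ∀ a b b', φ a (b + b') = φ a b * φ a b')
    (h3 : ∀ t a b, t ≠ 0 → φ (t ^ 2 * a) (t ^ 2 * b) = φ a b)
    {lam mu : F} (hlam : lam ≠ 0) (hmu : mu ≠ 0) (hrel : mu ^ 2 = lam ^ 2 + 1)
    (hne : lam ^ 4 + lam ^ 2 + 1 ≠ 0) (a b : F) : φ a b = 1 := by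
  have hl2 : lam ^ 2 ≠ 0 := pow_ne_zero 2 hlam
  have hm2 : mu ^ 2 ≠ 0 := pow_ne_zero 2 hmu
  have h3' : ∀ t a b, t ≠ 0 → φ (t ^ 2 * a) b = φ a ((t ^ 2)⁻¹ * b) := by
    intro t a b ht
    have h := h3 t a ((t ^ 2)⁻¹ * b) ht
    rwa [← mul_assoc, mul_inv_cancel₀ (pow_ne_zero 2 ht), one_mul] at h
  have hsub : ∀ a c c', φ a c = φ a c' → φ a (c - c') = 1 := by
    intro a c c' h
    have h4 := h2 a (c - c') c'
    rw [sub_add_cancel, h] at h4
    have h5 : 1 * φ a c' = φ a (c - c') * φ a c' := by rw [one_mul]; exact h4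
    exact (mul_right_cancel h5).symm
  have key : ∀ a b, φ a (((mu ^ 2)⁻¹ - ((lam ^ 2)⁻¹ + 1)) * b) = 1 := by
    intro a b
    have e1 : φ (mu ^ 2 * a) b = φ a ((mu ^ 2)⁻¹ * b) := h3' mu a b hmu
    have e2 : φ (mu ^ 2 * a) b = φ a ((lam ^ 2)⁻¹ * b + b) := by
      rw [hrel, add_mul, one_mul, h1, h3' lam a b hlam, h2]
    have e3 : ((mu ^ 2)⁻¹ - ((lam ^ 2)⁻¹ + 1)) * b =
        (mu ^ 2)⁻¹ * b - ((lam ^ 2)⁻¹ * b + b) := by ring
    rw [e3]
    exact hsub a _ _ (e1.symm.trans e2)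
  have hδ : (mu ^ 2)⁻¹ - ((lam ^ 2)⁻¹ + 1) ≠ 0 := by
    intro h
    apply hne
    have e : ((mu ^ 2)⁻¹ - ((lam ^ 2)⁻¹ + 1)) * (lam ^ 2 * mu ^ 2) =
        (mu ^ 2)⁻¹ * mu ^ 2 * lam ^ 2 - (lam ^ 2)⁻¹ * lam ^ 2 * mu ^ 2 - lam ^ 2 * mu ^ 2 := by
      ring
    rw [h, zero_mul, inv_mul_cancel₀ hm2, inv_mul_cancel₀ hl2] at e
    linear_combination e + (-1 - lam ^ 2) * hrel
  have e : b = ((mu ^ 2)⁻¹ - ((lam ^ 2)⁻¹ + 1)) *
      (((mu ^ 2)⁻¹ - ((lam ^ 2)⁻¹ + 1))⁻¹ * b) := by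
    rw [← mul_assoc, mul_inv_cancel₀ hδ, one_mul]
  rw [e]; exact key a _

theorem sch_notroot [Fintype F] (p : Polynomial F) (hp : p ≠ 0)
    (hdeg : p.natDegree < Fintype.card F) : ∃ x : F, p.eval x ≠ 0 := by
  classical
  by_contra hall
  push_neg at hall
  apply hp
  apply Polynomial.eq_zero_of_natDegree_lt_card_of_eval_eq_zero' p Finset.univ
    (fun x _ => hall x)
  rwa [Finset.card_univ]

theorem sch_even [Fintype F] (two : (2 : F) = 0) (hq : 4 < Fintype.card F) :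
    ∃ lam mu : F, lam ≠ 0 ∧ mu ≠ 0 ∧ mu ^ 2 = lam ^ 2 + 1 ∧ lam ^ 4 + lam ^ 2 + 1 ≠ 0 := by
  obtain ⟨p, hp⟩ : ∃ p : Polynomial F, p = Polynomial.X * (Polynomial.X + 1) *
      (Polynomial.X ^ 2 + Polynomial.X + 1) := ⟨_, rfl⟩
  have hdeg : p.natDegree = 4 := by rw [hp]; compute_degree!
  have hp0 : p ≠ 0 := by
    intro h
    rw [h, Polynomial.natDegree_zero] at hdeg
    exact absurd hdeg (by norm_num)
  obtain ⟨lam, hlam⟩ := sch_notroot p hp0 (by rw [hdeg]; exact hq)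
  have hev : p.eval lam = lam * (lam + 1) * (lam ^ 2 + lam + 1) := by
    rw [hp]
    simp only [Polynomial.eval_mul, Polynomial.eval_add, Polynomial.eval_pow, Polynomial.eval_X,
      Polynomial.eval_one]
  rw [hev] at hlam
  have h1 : lam ≠ 0 := fun h => hlam (by rw [h]; ring)
  have h2 : lam + 1 ≠ 0 := fun h => hlam (by rw [h]; ring)
  have h3 : lam ^ 2 + lam + 1 ≠ 0 := fun h => hlam (by rw [h]; ring)
  refine ⟨lam, lam + 1, h1, h2, by linear_combination lam * two, ?_⟩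
  intro h
  apply h3
  have h5 : (lam ^ 2 + lam + 1) ^ 2 = 0 := by
    linear_combination h + (lam ^ 3 + lam ^ 2 + lam) * two
  exact (pow_eq_zero_iff two_ne_zero).mp h5

theorem sch_odd [Fintype F] (two : (2 : F) ≠ 0) (hq : 13 < Fintype.card F) :
    ∃ lam mu : F, lam ≠ 0 ∧ mu ≠ 0 ∧ mu ^ 2 = lam ^ 2 + 1 ∧ lam ^ 4 + lam ^ 2 + 1 ≠ 0 := by
  obtain ⟨p, hp⟩ : ∃ p : Polynomial F, p = Polynomial.X * (Polynomial.X ^ 2 - 1) *
      (Polynomial.X ^ 2 + 1) * ((1 - Polynomial.X ^ 2) ^ 4 +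
        4 * Polynomial.X ^ 2 * (1 - Polynomial.X ^ 2) ^ 2 + 16 * Polynomial.X ^ 4) := ⟨_, rfl⟩
  have hdeg : p.natDegree = 13 := by rw [hp]; compute_degree!
  have hp0 : p ≠ 0 := by
    intro h
    rw [h, Polynomial.natDegree_zero] at hdeg
    exact absurd hdeg (by norm_num)
  obtain ⟨u, hu⟩ := sch_notroot p hp0 (by rw [hdeg]; exact hq)
  have hev : p.eval u = u * (u ^ 2 - 1) * (u ^ 2 + 1) *
      ((1 - u ^ 2) ^ 4 + 4 * u ^ 2 * (1 - u ^ 2) ^ 2 + 16 * u ^ 4) := by
    rw [hp]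
    simp only [Polynomial.eval_mul, Polynomial.eval_add, Polynomial.eval_sub,
      Polynomial.eval_pow, Polynomial.eval_X, Polynomial.eval_one, Polynomial.eval_ofNat]
  rw [hev] at hu
  have hu0 : u ≠ 0 := fun h => hu (by rw [h]; ring)
  have hu1 : u ^ 2 - 1 ≠ 0 := fun h => hu (by rw [h]; ring)
  have hu2 : u ^ 2 + 1 ≠ 0 := fun h => hu (by rw [h]; ring)
  have hu3 : (1 - u ^ 2) ^ 4 + 4 * u ^ 2 * (1 - u ^ 2) ^ 2 + 16 * u ^ 4 ≠ 0 :=
    fun h => hu (by rw [h]; ring)
  obtain ⟨v, hv⟩ : ∃ v : F, u * v = 1 := ⟨u⁻¹, mul_inv_cancel₀ hu0⟩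
  obtain ⟨hf, hh⟩ : ∃ hf : F, 2 * hf = 1 := ⟨2⁻¹, mul_inv_cancel₀ two⟩
  obtain ⟨lam, hlamdef⟩ : ∃ lam : F, lam = hf * (v - u) := ⟨_, rfl⟩
  obtain ⟨mu, hmudef⟩ : ∃ mu : F, mu = hf * (v + u) := ⟨_, rfl⟩
  have hw : 2 * u * lam = 1 - u ^ 2 := by
    rw [hlamdef]; linear_combination (u * v - u ^ 2) * hh + hv
  have hw2 : 2 * u * mu = 1 + u ^ 2 := by
    rw [hmudef]; linear_combination (u * v + u ^ 2) * hh + hv
  refine ⟨lam, mu, ?_, ?_, ?_, ?_⟩
  · intro h
    apply hu1
    rw [h, mul_zero] at hw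
    linear_combination hw
  · intro h
    apply hu2
    rw [h, mul_zero] at hw2
    linear_combination -hw2
  · rw [hlamdef, hmudef]
    linear_combination (u * v * (2 * hf + 1)) * hh + hv
  · intro h
    apply hu3
    rw [← hw]
    linear_combination (16 * u ^ 4) * h

theorem sch_diag_conj (t : Fˣ) (a : F) :
    sl2diag t * sl2U a * (sl2diag t)⁻¹ = sl2U ((t : F) ^ 2 * a) := by
  rw [mul_inv_eq_iff_eq_mul]
  apply Subtype.ext
  rw [Matrix.SpecialLinearGroup.coe_mul, Matrix.SpecialLinearGroup.coe_mul, sl2diag_val,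
    sl2U_val, sl2U_val, Matrix.mul_fin_two, Matrix.mul_fin_two]
  have ht : (t : F) * ((t⁻¹ : Fˣ) : F) = 1 := by
    rw [← Units.val_mul, mul_inv_cancel, Units.val_one]
  ext i j
  fin_cases i <;> fin_cases j
  · show (t : F) * 1 + 0 * 0 = 1 * (t : F) + (t : F) ^ 2 * a * 0
    ring
  · show (t : F) * a + 0 * 1 = 1 * 0 + (t : F) ^ 2 * a * ((t⁻¹ : Fˣ) : F)
    linear_combination (-(t : F) * a) * ht
  · show (0 : F) * 1 + ((t⁻¹ : Fˣ) : F) * 0 = 0 * (t : F) + 1 * 0
    ring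
  · show (0 : F) * a + ((t⁻¹ : Fˣ) : F) * 1 = 0 * 0 + 1 * ((t⁻¹ : Fˣ) : F)
    ring

/-- the lifts of the unipotent subgroup commute -/
theorem sch_unip {lam mu : F} (hlam : lam ≠ 0) (hmu : mu ≠ 0) (hrel : mu ^ 2 = lam ^ 2 + 1)
    (hne : lam ^ 4 + lam ^ 2 + 1 ≠ 0) {Γ : Type*} [Group Γ]
    (σ : Γ →* Matrix.SpecialLinearGroup (Fin 2) F) (hs : Function.Surjective σ)
    (hc : σ.ker ≤ Subgroup.center Γ) :
    ∀ x y : Γ, σ x ∈ (sl2UHom (F := F)).range → σ y ∈ (sl2UHom (F := F)).range →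
      x * y = y * x := by
  have hcen : ∀ k : Γ, σ k = 1 → ∀ g : Γ, g * k = k * g := fun k hk g =>
    Subgroup.mem_center_iff.mp (hc (MonoidHom.mem_ker.mpr hk)) g
  have hcong : ∀ {x x' y y' : Γ}, σ x = σ x' → σ y = σ y' → cm x y = cm x' y' := by
    intro x x' y y' hx hy
    have hk : σ (x⁻¹ * x') = 1 := by rw [map_mul, map_inv, hx, inv_mul_cancel]
    have hl : σ (y⁻¹ * y') = 1 := by rw [map_mul, map_inv, hy, inv_mul_cancel]
    have ex : cm x' y' = cm (x * (x⁻¹ * x')) (y * (y⁻¹ * y')) := by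
      congr 1 <;> group
    rw [ex, cm_mul_left, cm_central_left (hcen _ hk), cm_mul_right,
      cm_central_right (hcen _ hl)]
    group
  choose ut hut using fun a : F => hs (sl2U a)
  obtain ⟨φ, hφ⟩ : ∃ φ : F → F → Γ, ∀ a b, φ a b = cm (ut a) (ut b) := ⟨_, fun _ _ => rfl⟩
  have hφc : ∀ a b, ∀ g : Γ, g * φ a b = φ a b * g := by
    intro a b
    apply hcen
    rw [hφ, map_cm, hut, hut]
    apply cm_eq_one_of_comm
    rw [sl2U_mul, sl2U_mul, add_comm]
  have h1 : ∀ a a' b, φ (a + a') b = φ a b * φ a' b := by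
    intro a a' b
    have e : cm (ut (a + a')) (ut b) = cm (ut a * ut a') (ut b) :=
      hcong (by rw [hut, map_mul, hut, hut, sl2U_mul]) rfl
    rw [hφ (a + a') b, e, cm_mul_left, ← hφ a' b, ← hφ a b, hφc a' b (ut a),
      mul_inv_cancel_right]
    exact hφc a b (φ a' b)
  have h2 : ∀ a b b', φ a (b + b') = φ a b * φ a b' := by
    intro a b b'
    have e : cm (ut a) (ut (b + b')) = cm (ut a) (ut b * ut b') :=
      hcong rfl (by rw [hut, map_mul, hut, hut, sl2U_mul])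
    rw [hφ a (b + b'), e, cm_mul_right, ← hφ a b, ← hφ a b', hφc a b' (ut b),
      mul_inv_cancel_right]
  have h3 : ∀ t a b, t ≠ 0 → φ (t ^ 2 * a) (t ^ 2 * b) = φ a b := by
    intro t a b ht
    obtain ⟨T, hT⟩ := hs (sl2diag (Units.mk0 t ht))
    have hconj : ∀ c : F, σ (T * ut c * T⁻¹) = σ (ut (t ^ 2 * c)) := by
      intro c
      simp only [map_mul, map_inv, hT, hut, sch_diag_conj, Units.val_mk0]
    have e : cm (T * ut a * T⁻¹) (T * ut b * T⁻¹) = cm (ut (t ^ 2 * a)) (ut (t ^ 2 * b)) :=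
      hcong (hconj a) (hconj b)
    rw [hφ (t ^ 2 * a) (t ^ 2 * b), ← e, ← cm_conj, ← hφ a b, hφc a b T, mul_inv_cancel_right]
  intro x y hx hy
  obtain ⟨a, ha⟩ := MonoidHom.mem_range.mp hx
  obtain ⟨b, hb⟩ := MonoidHom.mem_range.mp hy
  apply comm_of_cm_eq_one
  have e : cm x y = cm (ut (Multiplicative.toAdd a)) (ut (Multiplicative.toAdd b)) :=
    hcong ((ha.symm.trans (sl2UHom_apply a)).trans (hut _).symm)
      ((hb.symm.trans (sl2UHom_apply b)).trans (hut _).symm)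
  rw [e, ← hφ]
  exact sch_form φ h1 h2 h3 hlam hmu hrel hne _ _

/-- every finite stem extension of `SL₂(q)`, `q ≠ 4, 9`, is an isomorphism -/
theorem sch_stem [Fintype F] (h4 : Fintype.card F ≠ 4) (h9 : Fintype.card F ≠ 9)
    {Γ : Type*} [Group Γ] [Finite Γ] (σ : Γ →* Matrix.SpecialLinearGroup (Fin 2) F)
    (hσ : Cfsg.IsStemExtension σ) : σ.ker = ⊥ := by
  classical
  apply Cfsg.Agent.Helper17.J1.ker_eq_bot_of_pow σ hσ
  intro r hr hrdvd z hz
  obtain ⟨hs, hc, hd⟩ := hσ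
  obtain ⟨p, hpF⟩ := CharP.exists F
  haveI := hpF
  haveI : Fact p.Prime := ⟨CharP.char_is_prime F p⟩
  have hp : p.Prime := Fact.out
  obtain ⟨n, -, hn⟩ := FiniteField.card F p
  obtain ⟨q, hq⟩ : ∃ q, q = Fintype.card F := ⟨_, rfl⟩
  rw [← hq] at hn h4 h9
  have hq2 : 2 ≤ q := by rw [hq]; exact Fintype.one_lt_card
  obtain ⟨k, hk⟩ : ∃ k, q = k + 1 := ⟨q - 1, by omega⟩
  have hsq : q ^ 2 - 1 = k * (k + 2) := by
    rw [hk]; exact Nat.sub_eq_of_eq_add (by ring)
  have hcard : Nat.card (Matrix.SpecialLinearGroup (Fin 2) F) = q * (k * (k + 2)) := by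
    rw [sl2_card, ← hq, hsq]
  rw [hcard] at hrdvd
  have hn0 : (n : ℕ) ≠ 0 := n.pos.ne'
  have hpq : p ∣ q := by rw [hn]; exact dvd_pow_self p hn0
  have hfin : ∀ (T : Subgroup (Matrix.SpecialLinearGroup (Fin 2) F)) (_ : IsCyclic T) (N : ℕ),
      Nat.card T * N = q * (k * (k + 2)) → ¬ r ∣ N → ∃ m, ¬ r ∣ m ∧ z ^ m = 1 := by
    intro T hT N hN hrN
    have hidx := Subgroup.card_mul_index T
    rw [hcard, ← hN] at hidx
    have hT0 : 0 < Nat.card T := Nat.card_pos
    have hidx' : T.index = N := Nat.eq_of_mul_eq_mul_left hT0 hidx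
    refine ⟨T.index, by rw [hidx']; exact hrN, ?_⟩
    exact cyc_kill σ ⟨hs, hc, hd⟩ T hT hz
  by_cases hrp : r = p
  · have hrN : ¬ r ∣ k * (k + 2) := by
      rw [hrp, ← hsq]
      intro h
      have h1 : p ∣ q ^ 2 := dvd_pow hpq two_ne_zero
      have h0 : q ^ 2 - 1 + 1 = q ^ 2 := Nat.sub_add_cancel (Nat.one_le_pow _ _ (by omega))
      rw [← h0] at h1
      have h2 : p ∣ 1 := (Nat.dvd_add_right h).mp h1
      exact hp.one_lt.ne' (Nat.dvd_one.mp h2)
    by_cases hn1 : (n : ℕ) = 1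
    · have hqp : q = p := by rw [hn, hn1, pow_one]
      refine hfin (Subgroup.zpowers (sl2U (1 : F))) inferInstance _ ?_ hrN
      rw [Nat.card_zpowers, orderOf_sl2U p one_ne_zero, hqp]
    · have hn2 : 2 ≤ (n : ℕ) := by omega
      have hex : ∃ lam mu : F, lam ≠ 0 ∧ mu ≠ 0 ∧ mu ^ 2 = lam ^ 2 + 1 ∧
          lam ^ 4 + lam ^ 2 + 1 ≠ 0 := by
        by_cases hp2 : p = 2
        · have two : (2 : F) = 0 := by
            have h := CharP.cast_eq_zero F p
            rw [hp2] at h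
            exact_mod_cast h
          apply sch_even two
          rw [← hq, hn, hp2]
          have h3 : 3 ≤ (n : ℕ) := by
            by_contra hcon
            have h2' : (n : ℕ) = 2 := by omega
            apply h4; rw [hn, hp2, h2']; norm_num
          calc 4 < 2 ^ 3 := by norm_num
            _ ≤ 2 ^ (n : ℕ) := Nat.pow_le_pow_right (by norm_num) h3
        · have two : (2 : F) ≠ 0 := by
            intro h
            have h' : ((2 : ℕ) : F) = 0 := by exact_mod_cast h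
            rw [CharP.cast_eq_zero_iff F p] at h'
            exact hp2 ((Nat.prime_dvd_prime_iff_eq hp Nat.prime_two).mp h')
          apply sch_odd two
          rw [← hq, hn]
          have hp3 : 3 ≤ p := by
            have := hp.two_le
            omega
          by_cases hp3' : p = 3
          · have h3 : 3 ≤ (n : ℕ) := by
              by_contra hcon
              have h2' : (n : ℕ) = 2 := by omega
              apply h9; rw [hn, hp3', h2']; norm_num
            rw [hp3']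
            calc 13 < 3 ^ 3 := by norm_num
              _ ≤ 3 ^ (n : ℕ) := Nat.pow_le_pow_right (by norm_num) h3
          · have hp5 : 5 ≤ p := by
              by_contra hcon
              have hp4 : p = 4 := by omega
              have hp' := hp
              rw [hp4] at hp'
              exact absurd hp' (by norm_num)
            calc 13 < 5 ^ 2 := by norm_num
              _ ≤ p ^ 2 := Nat.pow_le_pow_left hp5 2
              _ ≤ p ^ (n : ℕ) := Nat.pow_le_pow_right (by omega) hn2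
      obtain ⟨lam, mu, hlam, hmu, hrel, hne⟩ := hex
      have hcomm := sch_unip hlam hmu hrel hne σ hs hc
      have hidxU : (sl2UHom (F := F)).range.index = k * (k + 2) := by
        have hidx := Subgroup.card_mul_index (sl2UHom (F := F)).range
        rw [hcard, sl2UHom_range_card, ← hq] at hidx
        exact Nat.eq_of_mul_eq_mul_left (by omega) hidx
      refine ⟨(sl2UHom (F := F)).range.index, by rw [hidxU]; exact hrN, ?_⟩
      exact Cfsg.Agent.Helper17.J1.pow_index_eq_one σ hs _ hcomm (hc hz) (hd hz)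
  · have hrq : ¬ r ∣ q := by
      intro h
      rw [hn] at h
      exact hrp ((Nat.prime_dvd_prime_iff_eq hr hp).mp (hr.dvd_of_dvd_pow h))
    have hrkk : r ∣ k * (k + 2) := by
      rcases (Nat.Prime.dvd_mul hr).mp hrdvd with h | h
      · exact absurd h hrq
      · exact h
    by_cases hr2 : r = 2
    · have hpodd : p ≠ 2 := fun h => hrp (by rw [hr2, h])
      have hodd : Odd (Fintype.card F) := by
        rw [← hq, hn]; exact (hp.odd_of_ne_two hpodd).pow
      obtain ⟨P⟩ : Nonempty (Sylow 2 (Matrix.SpecialLinearGroup (Fin 2) F)) := inferInstance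
      obtain ⟨k', x, y, hk', hxP, hyP, hxo, hPc, hyx, hxk, hdich⟩ :=
        Cfsg.Agent.Helper12.TB.sylow2_struct' hodd P
      have hxne : x ≠ x⁻¹ := by
        intro h
        have h1 : x ^ 2 = 1 := by
          rw [pow_two]; nth_rewrite 2 [h]; exact mul_inv_cancel x
        have h2 := orderOf_dvd_of_pow_eq_one h1
        rw [hxo] at h2
        have h3 := Nat.le_of_dvd (by norm_num) h2
        have h4' : 4 ≤ 2 ^ (k' + 1) := by
          calc 4 = 2 ^ 2 := by norm_num
            _ ≤ 2 ^ (k' + 1) := Nat.pow_le_pow_right (by norm_num) (by omega)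
        omega
      have hyA : ∀ a ∈ Subgroup.zpowers x, y * a * y⁻¹ = a⁻¹ := by
        intro a ha
        obtain ⟨j, rfl⟩ := Subgroup.mem_zpowers_iff.mp ha
        rw [← conj_zpow, hyx, inv_zpow]
      have hcentral : ∀ g ∈ (P : Subgroup (Matrix.SpecialLinearGroup (Fin 2) F)),
          g * x * g⁻¹ = x → g ∈ Subgroup.zpowers x := by
        intro g hg hgx
        rcases hdich g hg with h | h
        · exact h
        · exact absurd (hgx.symm.trans h) hxne
      have hyinv : y⁻¹ * x * y = x⁻¹ := by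
        have h : x = y⁻¹ * x⁻¹ * y := by rw [← hyx]; group
        calc y⁻¹ * x * y = (y⁻¹ * x⁻¹ * y)⁻¹ := by group
          _ = x⁻¹ := by rw [← h]
      have hP' : ∀ g ∈ (P : Subgroup (Matrix.SpecialLinearGroup (Fin 2) F)),
          g ∈ Subgroup.zpowers x ∨ g * y⁻¹ ∈ Subgroup.zpowers x := by
        intro g hg
        rcases hdich g hg with h | h
        · exact Or.inl h
        · right
          apply hcentral _ (Subgroup.mul_mem _ hg (Subgroup.inv_mem _ hyP))
          calc g * y⁻¹ * x * (g * y⁻¹)⁻¹ = g * (y⁻¹ * x * y) * g⁻¹ := by group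
            _ = g * x⁻¹ * g⁻¹ := by rw [hyinv]
            _ = (g * x * g⁻¹)⁻¹ := by group
            _ = x := by rw [h, inv_inv]
      have hinvA : ∀ a ∈ Subgroup.zpowers x, a * a = 1 →
          a = 1 ∨ a = (sl2NegOne : Matrix.SpecialLinearGroup (Fin 2) F) := by
        intro a ha haa
        obtain ⟨j, rfl⟩ := Subgroup.mem_zpowers_iff.mp ha
        rw [← zpow_add] at haa
        have h1 := orderOf_dvd_iff_zpow_eq_one.mpr haa
        rw [hxo] at h1
        have h2 : ((2 : ℤ) ^ k') ∣ j := by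
          push_cast at h1
          obtain ⟨c, hc'⟩ := h1
          refine ⟨c, ?_⟩
          have h2k : (2 : ℤ) ^ (k' + 1) = 2 * 2 ^ k' := by ring
          rw [h2k] at hc'
          linarith
        obtain ⟨i, rfl⟩ := h2
        have e0 : x ^ ((2 : ℤ) ^ k') = sl2NegOne := by
          rw [← hxk, ← zpow_natCast]; push_cast; rfl
        have e : x ^ ((2 : ℤ) ^ k' * i) = sl2NegOne ^ i := by rw [zpow_mul, e0]
        rw [e]
        rcases Int.even_or_odd' i with ⟨c, hc' | hc'⟩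
        · left
          rw [hc', zpow_mul, zpow_two, sl2NegOne_mul_self, one_zpow]
        · right
          rw [hc', zpow_add, zpow_mul, zpow_two, sl2NegOne_mul_self, one_zpow, one_mul,
            zpow_one]
      have hyy : y * y = sl2NegOne := by
        have hw : y * y ∈ Subgroup.zpowers x := by
          apply hcentral _ (Subgroup.mul_mem _ hyP hyP)
          calc y * y * x * (y * y)⁻¹ = y * (y * x * y⁻¹) * y⁻¹ := by group
            _ = y * x⁻¹ * y⁻¹ := by rw [hyx]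
            _ = (y * x * y⁻¹)⁻¹ := by group
            _ = x := by rw [hyx, inv_inv]
        have hinvw : y * (y * y) * y⁻¹ = (y * y)⁻¹ := hyA _ hw
        have hww : y * y * (y * y) = 1 := by
          have h : y * y = (y * y)⁻¹ := by
            calc y * y = y * (y * y) * y⁻¹ := by group
              _ = (y * y)⁻¹ := hinvw
          calc y * y * (y * y) = y * y * (y * y)⁻¹ := by rw [← h]
            _ = 1 := mul_inv_cancel _
        rcases hinvA _ hw hww with h | h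
        · exfalso
          have hcen := Cfsg.Agent.S0807.central_of_sq_one hodd y h
          have h1 : y * x * y⁻¹ = x := by
            rw [← Subgroup.mem_center_iff.mp hcen x, mul_inv_cancel_right]
          exact hxne (h1.symm.trans hyx)
        · exact h
      obtain ⟨W, hW1, hW2⟩ := sch_dic σ hs hc
        (P : Subgroup (Matrix.SpecialLinearGroup (Fin 2) F)) x y hyx hP'
        (fun a ha haa => by rw [hyy]; exact hinvA a ha haa)
      refine ⟨(P : Subgroup (Matrix.SpecialLinearGroup (Fin 2) F)).index, ?_, ?_⟩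
      · rw [hr2]; exact P.not_dvd_index
      · have h1 := Cfsg.Agent.Helper17.J1.pow_index_mem σ hs
          (P : Subgroup (Matrix.SpecialLinearGroup (Fin 2) F)) W hW1 (hc hz) (hd hz)
        apply hW2 _ h1
        rw [map_pow, MonoidHom.mem_ker.mp hz, one_pow]
    · have hrk : r ∣ k ∨ r ∣ k + 2 := (Nat.Prime.dvd_mul hr).mp hrkk
      have hnot : ¬ (r ∣ k ∧ r ∣ k + 2) := by
        rintro ⟨h1, h2⟩
        have h3 : r ∣ 2 := (Nat.dvd_add_right h1).mp h2
        exact hr2 ((Nat.prime_dvd_prime_iff_eq hr Nat.prime_two).mp h3)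
      rcases hrk with h | h
      · obtain ⟨u, hu⟩ := sl2_exists_orderOf_card_sub_one (F := F)
        refine hfin (Subgroup.zpowers (sl2diag u)) inferInstance (q * (k + 2)) ?_ ?_
        · rw [Nat.card_zpowers, hu, ← hq, hk, Nat.add_sub_cancel]; ring
        · intro h'
          rcases (Nat.Prime.dvd_mul hr).mp h' with h1 | h1
          · exact hrq h1
          · exact hnot ⟨h, h1⟩
      · obtain ⟨X, hX⟩ := sl2_exists_orderOf_card_add_one (F := F) p
        refine hfin (Subgroup.zpowers X) inferInstance (q * k) ?_ ?_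
        · rw [Nat.card_zpowers, hX, ← hq, hk]; ring
        · intro h'
          rcases (Nat.Prime.dvd_mul hr).mp h' with h1 | h1
          · exact hrq h1
          · exact hnot ⟨h1, h⟩

/-- `S2117`: the Schur multiplier of `SL₂(q)` is trivial for `q ≠ 4, 9`. -/
theorem schur_sl2 [Fintype F] (h4 : Fintype.card F ≠ 4) (h9 : Fintype.card F ≠ 9) :
    Cfsg.HasCyclicSchurMultiplier (Matrix.SpecialLinearGroup (Fin 2) F) 1 := by
  apply Cfsg.Agent.Helper17.J1.hasCyclicSchurMultiplier_one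
  intro Γ _ _ σ hσ
  exact sch_stem h4 h9 σ hσ

end Cfsg.Agent.Helper6.SL2Schur
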