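import Mathlib
import Cfsg.Agent.Helper6.SzLie
import Cfsg.Agent.Helper6.SzTori

set_option autoImplicit false

/-!
Groups of arbitrarily large order with the prime graph of `Sz(q)`: the semidirect products
`V ^ k ⋊ Sz(q)` with `V` the natural module, on which elements of odd prime order act without
nonzero fixed vectors.
-/

namespace Cfsg.Agent.Helper6.Sz

open Matrix

variable {F : Type*} [Field F] [Fintype F] {s : ℕ}

/-- a copy of `Fin n` without its arithmetic -/
def FinCopy (n : ℕ) : Type := Fin n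

instance fintypeFinCopy (n : ℕ) : Fintype (FinCopy n) := inferInstanceAs (Fintype (Fin n))

/-- A finite group is isomorphic to a group living in `Type`. -/
theorem exists_small (X : Type*) [Group X] [Finite X] :
    ∃ (H : Type) (_ : Group H) (_ : Fintype H), Nonempty (X ≃* H) := by
  classical
  haveI := Fintype.ofFinite X
  let e : FinCopy (Fintype.card X) ≃ X := (Fintype.equivFin X).symm
  letI : Group (FinCopy (Fintype.card X)) := e.group
  exact ⟨FinCopy (Fintype.card X), e.group, inferInstance,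
    ⟨MulEquiv.symm ⟨e, fun a b => e.apply_symm_apply _⟩⟩⟩

/-- Elements of order `r * t` in a semidirect product with an elementary abelian `2`-group on
which elements of odd prime order act fixed-point-freely come from the complement. -/
theorem semi_order {N G : Type*} [CommGroup N] [Group G] (φ : G →* MulAut N)
    (h2 : ∀ n : N, n * n = 1)
    (hfix : ∀ (p : ℕ) (x : G), p.Prime → p ≠ 2 → orderOf x = p → ∀ n : N, φ x n = n → n = 1)
    {r t : ℕ} (hr : r.Prime) (ht : t.Prime) (hrt : r ≠ t) (y : N ⋊[φ] G)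
    (hy : orderOf y = r * t) : ∃ x : G, orderOf x = r * t := by
  classical
  set n := orderOf y.right with hn
  have hnd : n ∣ r * t := by
    rw [← hy]
    exact orderOf_map_dvd SemidirectProduct.rightHom y
  have hpos : 0 < r * t := Nat.mul_pos hr.pos ht.pos
  have hn0 : 0 < n := Nat.pos_of_dvd_of_pos hnd hpos
  have hzr : (y ^ n).right = 1 := by
    have h1 : (y ^ n).right = y.right ^ n := map_pow SemidirectProduct.rightHom y n
    rw [h1, hn, pow_orderOf_eq_one]
  have hz2 : (y ^ n) * (y ^ n) = 1 := by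
    apply SemidirectProduct.ext
    · rw [SemidirectProduct.mul_left, hzr, map_one, MulAut.one_apply, SemidirectProduct.one_left]
      exact h2 _
    · rw [SemidirectProduct.mul_right, hzr, mul_one, SemidirectProduct.one_right]
  have hdvd : r * t ∣ 2 * n := by
    rw [← hy]
    apply orderOf_dvd_of_pow_eq_one
    rw [mul_comm, pow_mul, pow_two]; exact hz2
  by_cases hnrt : n = r * t
  · exact ⟨y.right, hnrt⟩
  · exfalso
    obtain ⟨d, hd⟩ := hnd
    have hd2 : d ∣ 2 := by
      rw [hd, mul_comm 2 n] at hdvd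
      exact Nat.dvd_of_mul_dvd_mul_left hn0 hdvd
    have hd' : d = 2 := by
      rcases (Nat.dvd_prime Nat.prime_two).mp hd2 with h | h
      · exfalso; apply hnrt; rw [hd, h, mul_one]
      · exact h
    rw [hd'] at hd
    have hnp : n.Prime ∧ n ≠ 2 := by
      have h2rt : 2 ∣ r * t := ⟨n, by rw [hd, mul_comm]⟩
      rcases (Nat.Prime.dvd_mul Nat.prime_two).mp h2rt with h | h
      · have hr2 : r = 2 := ((Nat.prime_dvd_prime_iff_eq Nat.prime_two hr).mp h).symm
        have hnt : n = t := by rw [hr2] at hd; omega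
        refine ⟨by rw [hnt]; exact ht, fun h' => hrt ?_⟩
        rw [hr2, ← hnt, h']
      · have ht2 : t = 2 := ((Nat.prime_dvd_prime_iff_eq Nat.prime_two ht).mp h).symm
        have hnr : n = r := by rw [ht2] at hd; omega
        refine ⟨by rw [hnr]; exact hr, fun h' => hrt ?_⟩
        rw [ht2, ← hnr, h']
    have hz1 : y ^ n ≠ 1 := pow_ne_one_of_lt_orderOf hn0.ne' (by rw [hy, hd]; omega)
    have hcomm : y * y ^ n = y ^ n * y := (pow_succ' y n).symm.trans (pow_succ y n)
    have hl := congrArg SemidirectProduct.left hcomm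
    rw [SemidirectProduct.mul_left, SemidirectProduct.mul_left, hzr, map_one, MulAut.one_apply,
      mul_comm (y ^ n).left] at hl
    have hfx : φ y.right (y ^ n).left = (y ^ n).left := mul_left_cancel hl
    have hzl : (y ^ n).left = 1 := hfix n y.right hnp.1 hnp.2 hn.symm _ hfx
    exact hz1 (SemidirectProduct.ext (hzl.trans SemidirectProduct.one_left.symm)
      (hzr.trans SemidirectProduct.one_right.symm))

omit [Fintype F] in
/-- The entries of a torus matrix acting on a vector. -/
theorem hM_mulVec (c : F) (w : Fin 4 → F) :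
    hM s c *ᵥ w = ![c ^ (s + 2) * w 0, c ^ s * w 1, c⁻¹ ^ s * w 2, c⁻¹ ^ (s + 2) * w 3] := by
  funext i
  fin_cases i <;> simp [hM, Matrix.mulVec, dotProduct, Fin.sum_univ_four]

/-- A nontrivial torus element fixes no nonzero vector. -/
theorem torus_no_fixed (D : SzData F s) {c : Fˣ} (hc : c ≠ 1) {w : Fin 4 → F}
    (hw : hM s (c : F) *ᵥ w = w) : w = 0 := by
  rw [hM_mulVec] at hw
  have hc1 : (c : F) ≠ 1 := fun h => hc (Units.ext h)
  have hci1 : (c : F)⁻¹ ≠ 1 := fun h => hc1 (inv_eq_one.mp h)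
  have e1 : ∀ d : F, d ≠ 1 → d ^ s ≠ 1 := fun d hd h => hd (D.one_of_pow_s h)
  have e2 : ∀ d : F, d ≠ 1 → d ^ (s + 2) ≠ 1 := by
    intro d hd h
    have h1 : (d ^ s) ^ s = d ^ 2 := D.sq d
    have h2 : (d ^ (s + 2)) ^ s = 1 := by rw [h, one_pow]
    have h3 : (d ^ (s + 1)) ^ 2 = 1 := by
      calc (d ^ (s + 1)) ^ 2 = (d ^ s) ^ s * (d ^ s) ^ 2 := by rw [h1]; ring
        _ = (d ^ (s + 2)) ^ s := by ring
        _ = 1 := h2
    exact hd (D.one_of_pow_succ (D.one_of_sq h3))
  have key : ∀ d x : F, d ≠ 1 → d * x = x → x = 0 := by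
    intro d x hd h
    have h' : (d - 1) * x = 0 := by linear_combination h
    rcases mul_eq_zero.mp h' with h0 | h0
    · exact absurd (sub_eq_zero.mp h0) hd
    · exact h0
  have h0 : (c : F) ^ (s + 2) * w 0 = w 0 := congrFun hw 0
  have h1 : (c : F) ^ s * w 1 = w 1 := congrFun hw 1
  have h2 : (c : F)⁻¹ ^ s * w 2 = w 2 := congrFun hw 2
  have h3 : (c : F)⁻¹ ^ (s + 2) * w 3 = w 3 := congrFun hw 3
  funext i
  fin_cases i
  · exact key _ _ (e2 _ hc1) h0
  · exact key _ _ (e1 _ hc1) h1
  · exact key _ _ (e1 _ hci1) h2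
  · exact key _ _ (e2 _ hci1) h3

/-- Elements of odd prime order of `Sz(q)` fix no nonzero vector of the natural module. -/
theorem odd_no_fixed (D : SzData F s) {p : ℕ} (hp : p.Prime) (hp2 : p ≠ 2) {x : SL4 F}
    (hx : x ∈ SzG F s) (hxp : orderOf x = p) {v : Fin 4 → F}
    (hv : (x : Matrix (Fin 4) (Fin 4) F) *ᵥ v = v) : v = 0 := by
  haveI : Fact p.Prime := ⟨hp⟩
  have hxpow : x ^ p = 1 := by rw [← hxp]; exact pow_orderOf_eq_one x
  have hx1 : x ≠ 1 := by
    rintro rfl
    rw [orderOf_one] at hxp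
    exact hp.one_lt.ne hxp
  rcases odd_cases D hp2 hx hxpow hx1 with hdvd | ⟨k, hk, c, hc, hkc⟩
  · refine no_fixed_vec hp2 hdvd (M := (x : Matrix (Fin 4) (Fin 4) F)) ?_ ?_ hv
    · rw [← Matrix.SpecialLinearGroup.coe_pow, hxpow, Matrix.SpecialLinearGroup.coe_one]
    · intro h
      exact hx1 (Subtype.ext h)
  · have hmat : (k : Matrix (Fin 4) (Fin 4) F) * (x : Matrix (Fin 4) (Fin 4) F)
        = hM s (c : F) * (k : Matrix (Fin 4) (Fin 4) F) := by
      have h1 : k * x = hS s c * k := by rw [← hkc]; group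
      have h2 : ((k * x : SL4 F) : Matrix (Fin 4) (Fin 4) F)
          = ((hS s c * k : SL4 F) : Matrix (Fin 4) (Fin 4) F) := by rw [h1]
      rw [Matrix.SpecialLinearGroup.coe_mul, Matrix.SpecialLinearGroup.coe_mul] at h2
      exact h2
    have hfix : hM s (c : F) *ᵥ ((k : Matrix (Fin 4) (Fin 4) F) *ᵥ v)
        = (k : Matrix (Fin 4) (Fin 4) F) *ᵥ v := by
      rw [Matrix.mulVec_mulVec, ← hmat, ← Matrix.mulVec_mulVec, hv]
    have h0 := torus_no_fixed D hc hfix
    have hinv : ((k⁻¹ : SL4 F) : Matrix (Fin 4) (Fin 4) F) * (k : Matrix (Fin 4) (Fin 4) F)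
        = 1 := by
      rw [← Matrix.SpecialLinearGroup.coe_mul, inv_mul_cancel, Matrix.SpecialLinearGroup.coe_one]
    calc v = (1 : Matrix (Fin 4) (Fin 4) F) *ᵥ v := (Matrix.one_mulVec v).symm
      _ = ((k⁻¹ : SL4 F) : Matrix (Fin 4) (Fin 4) F) *ᵥ ((k : Matrix (Fin 4) (Fin 4) F) *ᵥ v) := by
          rw [Matrix.mulVec_mulVec, hinv]
      _ = 0 := by rw [h0, Matrix.mulVec_zero]

/-- the matrix of an element of `SzG` -/
def mv (g : SzG F s) : Matrix (Fin 4) (Fin 4) F := ((g : SL4 F) : Matrix (Fin 4) (Fin 4) F)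

omit [Fintype F] in
theorem mv_one : mv (1 : SzG F s) = 1 := Matrix.SpecialLinearGroup.coe_one

omit [Fintype F] in
theorem mv_mul (g h : SzG F s) : mv (g * h) = mv g * mv h :=
  Matrix.SpecialLinearGroup.coe_mul _ _

/-- `Sz(q)` acting on `k` copies of its natural module, written multiplicatively. -/
def vkAut (F : Type*) [Field F] (s k : ℕ) :
    SzG F s →* MulAut (Multiplicative (Fin k → Fin 4 → F)) where
  toFun g :=
    { toFun := fun v => Multiplicative.ofAdd fun i => mv g *ᵥ Multiplicative.toAdd v i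
      invFun := fun v => Multiplicative.ofAdd fun i => mv g⁻¹ *ᵥ Multiplicative.toAdd v i
      left_inv := fun v => by
        apply Multiplicative.toAdd.injective
        funext i
        show mv g⁻¹ *ᵥ (mv g *ᵥ Multiplicative.toAdd v i) = Multiplicative.toAdd v i
        rw [Matrix.mulVec_mulVec, ← mv_mul, inv_mul_cancel, mv_one, Matrix.one_mulVec]
      right_inv := fun v => by
        apply Multiplicative.toAdd.injective
        funext i
        show mv g *ᵥ (mv g⁻¹ *ᵥ Multiplicative.toAdd v i) = Multiplicative.toAdd v i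
        rw [Matrix.mulVec_mulVec, ← mv_mul, mul_inv_cancel, mv_one, Matrix.one_mulVec]
      map_mul' := fun v w => by
        apply Multiplicative.toAdd.injective
        funext i
        show mv g *ᵥ (Multiplicative.toAdd v i + Multiplicative.toAdd w i)
          = mv g *ᵥ Multiplicative.toAdd v i + mv g *ᵥ Multiplicative.toAdd w i
        exact Matrix.mulVec_add _ _ _ }
  map_one' := by
    apply MulEquiv.ext
    intro v
    apply Multiplicative.toAdd.injective
    funext i
    show mv (1 : SzG F s) *ᵥ Multiplicative.toAdd v i = Multiplicative.toAdd v i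
    rw [mv_one, Matrix.one_mulVec]
  map_mul' g h := by
    apply MulEquiv.ext
    intro v
    apply Multiplicative.toAdd.injective
    funext i
    show mv (g * h) *ᵥ Multiplicative.toAdd v i = mv g *ᵥ (mv h *ᵥ Multiplicative.toAdd v i)
    rw [mv_mul, Matrix.mulVec_mulVec]

omit [Fintype F] in
theorem vkAut_apply (k : ℕ) (g : SzG F s) (v : Multiplicative (Fin k → Fin 4 → F)) (i : Fin k) :
    Multiplicative.toAdd (vkAut F s k g v) i = mv g *ᵥ Multiplicative.toAdd v i := rfl

/-- the group `V ^ k ⋊ Sz(q)` -/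
abbrev VkSz (F : Type*) [Field F] (s k : ℕ) :=
  Multiplicative (Fin k → Fin 4 → F) ⋊[vkAut F s k] SzG F s

instance finiteVkSz (k : ℕ) : Finite (VkSz F s k) :=
  Finite.of_equiv _ SemidirectProduct.equivProd.symm

theorem card_VkSz (k : ℕ) :
    Nat.card (VkSz F s k) = (Fintype.card F ^ 4) ^ k * Nat.card (SzG F s) := by
  rw [SemidirectProduct.card]
  congr 1
  rw [Nat.card_congr (Multiplicative.toAdd (α := Fin k → Fin 4 → F)), Nat.card_fun, Nat.card_fun,
    Nat.card_fin, Nat.card_fin, Nat.card_eq_fintype_card]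

/-- `V ^ k ⋊ Sz(q)` has the prime graph of `Sz(q)`. -/
theorem graph_aux (D : SzData F s) (k : ℕ) :
    (∀ r : ℕ, r.Prime → (r ∣ Nat.card (SzG F s) ↔ r ∣ Nat.card (VkSz F s k))) ∧
      (∀ r t : ℕ, r.Prime → t.Prime → r ≠ t →
        ((∃ x : SzG F s, orderOf x = r * t) ↔ (∃ y : VkSz F s k, orderOf y = r * t))) := by
  refine ⟨fun r hr => ?_, fun r t hr ht hrt => ?_⟩
  · rw [card_VkSz]
    constructor
    · intro h; exact Dvd.dvd.mul_left h _
    · intro h
      rcases (Nat.Prime.dvd_mul hr).mp h with h1 | h1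
      · have h2 : r ∣ Fintype.card F := hr.dvd_of_dvd_pow (hr.dvd_of_dvd_pow h1)
        rw [card_SzG D]
        exact Dvd.dvd.mul_right (Dvd.dvd.mul_right (Dvd.dvd.pow h2 (by norm_num)) _) _
      · exact h1
  · constructor
    · rintro ⟨x, hx⟩
      exact ⟨SemidirectProduct.inr x,
        by rw [orderOf_injective _ SemidirectProduct.inr_injective]; exact hx⟩
    · rintro ⟨y, hy⟩
      refine semi_order (vkAut F s k) ?_ ?_ hr ht hrt y hy
      · intro n
        apply Multiplicative.toAdd.injective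
        funext i j
        show Multiplicative.toAdd n i j + Multiplicative.toAdd n i j = 0
        exact D.add_self _
      · intro p x hp hp2 hxp n hn
        apply Multiplicative.toAdd.injective
        funext i
        show Multiplicative.toAdd n i = 0
        have hx' : orderOf (x : SL4 F) = p := by rw [Subgroup.orderOf_coe]; exact hxp
        refine odd_no_fixed D hp hp2 x.2 hx' ?_
        have h1 := congrFun (congrArg Multiplicative.toAdd hn) i
        rw [vkAut_apply] at h1
        exact h1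

/-- There are groups of arbitrarily large order with the prime graph of `Sz(q)`. -/
theorem prime_graph {m : ℕ} (hm : 1 ≤ m) (hF : Fintype.card F = 2 ^ (2 * m + 1)) (N : ℕ) :
    ∃ (H : Type) (_ : Group H) (_ : Fintype H), N < Fintype.card H ∧
      ((∀ r : ℕ, r.Prime → (r ∣ Nat.card ↥(Cfsg.Lie.Sz F (2 ^ (m + 1))) ↔ r ∣ Nat.card H)) ∧
      (∀ r s : ℕ, r.Prime → s.Prime → r ≠ s →
        ((∃ x : ↥(Cfsg.Lie.Sz F (2 ^ (m + 1))), orderOf x = r * s) ↔
          (∃ y : H, orderOf y = r * s)))) := by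
  have D := szData hm hF
  obtain ⟨hk2, hk3⟩ := graph_aux D N
  have hk1 : N < Nat.card (VkSz F (2 ^ (m + 1)) N) := by
    rw [card_VkSz]
    have hq : 2 ≤ Fintype.card F := Fintype.one_lt_card
    have h1 : 2 ≤ Fintype.card F ^ 4 := le_trans hq (Nat.le_self_pow (by norm_num) _)
    have h2 : 2 ^ N ≤ (Fintype.card F ^ 4) ^ N := Nat.pow_le_pow_left h1 N
    have h3 : 0 < Nat.card (SzG F (2 ^ (m + 1))) := Nat.card_pos
    calc N < 2 ^ N := Nat.lt_two_pow_self
      _ ≤ (Fintype.card F ^ 4) ^ N := h2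
      _ ≤ (Fintype.card F ^ 4) ^ N * Nat.card (SzG F (2 ^ (m + 1))) := Nat.le_mul_of_pos_right _ h3
  obtain ⟨H, hG, hFin, ⟨e⟩⟩ := exists_small (VkSz F (2 ^ (m + 1)) N)
  refine ⟨H, hG, hFin, ?_, ?_, ?_⟩
  · rw [← Nat.card_eq_fintype_card, ← Nat.card_congr e.toEquiv]; exact hk1
  · intro r hr
    rw [← Nat.card_congr e.toEquiv, ← Nat.card_congr (lieEquiv D).toEquiv]
    exact hk2 r hr
  · intro r t hr ht hrt
    constructor
    · rintro ⟨x, hx⟩
      obtain ⟨y, hy⟩ := (hk3 r t hr ht hrt).mp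
        ⟨(lieEquiv D).symm x, by rw [MulEquiv.orderOf_eq]; exact hx⟩
      exact ⟨e y, by rw [MulEquiv.orderOf_eq]; exact hy⟩
    · rintro ⟨y, hy⟩
      obtain ⟨x, hx⟩ := (hk3 r t hr ht hrt).mpr ⟨e.symm y, by rw [MulEquiv.orderOf_eq]; exact hy⟩
      exact ⟨lieEquiv D x, by rw [MulEquiv.orderOf_eq]; exact hx⟩

end Cfsg.Agent.Helper6.Sz
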