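import Mathlib
import Cfsg.Agent.Helper6.SzLie
import Cfsg.Agent.Helper24.CharDecomp

/-!
# The minimal degree of a nontrivial complex representation of `Sz(q)`

Restriction to the Sylow 2-subgroup `U` and its centre `Z`: the nontrivial characters of `Z` are
permuted transitively by the torus, and every irreducible character of `U` that is nontrivial on
`Z` has degree at least `2 ^ m`.
-/

set_option autoImplicit false

namespace Cfsg.Agent.Helper6.SzRep

open Cfsg Cfsg.Agent.Helper6.Sz Cfsg.Agent.Helper24 Representation Module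

variable {F : Type*} [Field F] [Fintype F] {s : ℕ}

/-- a `±1`-valued additive character of `F` -/
structure PM (ω : F → ℂ) : Prop where
  pm : ∀ b, ω b = 1 ∨ ω b = -1
  add : ∀ b d, ω (b + d) = ω b * ω d

namespace PM

variable {ω ω' : F → ℂ}

theorem sq (h : PM ω) (b : F) : ω b * ω b = 1 := by
  rcases h.pm b with h1 | h1 <;> rw [h1] <;> norm_num

theorem zero (h : PM ω) : ω 0 = 1 := by
  have h1 := h.add 0 0
  rw [add_zero] at h1
  rcases h.pm 0 with h2 | h2
  · exact h2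
  · rw [h2] at h1; norm_num at h1

theorem mul (h : PM ω) (h' : PM ω') : PM (fun b => ω b * ω' b) := by
  refine ⟨fun b => ?_, fun b d => ?_⟩
  · rcases h.pm b with h1 | h1 <;> rcases h'.pm b with h2 | h2 <;> simp [h1, h2]
  · show ω (b + d) * ω' (b + d) = ω b * ω' b * (ω d * ω' d)
    rw [h.add, h'.add]; ring

theorem ne_one (h : PM ω) {b : F} (hb : ω b ≠ 1) : ω b = -1 := (h.pm b).resolve_left hb

theorem sum_zero (h : PM ω) {b₀ : F} (hb₀ : ω b₀ = -1) : ∑ b : F, ω b = 0 := by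
  have h1 : ∑ b : F, ω (b + b₀) = ∑ b : F, ω b := Equiv.sum_comp (Equiv.addRight b₀) ω
  have h2 : ∑ b : F, ω (b + b₀) = -∑ b : F, ω b := by
    rw [← Finset.sum_neg_distrib]
    exact Finset.sum_congr rfl fun b _ => by rw [h.add, hb₀]; ring
  have h3 : (∑ b : F, ω b) = -∑ b : F, ω b := h1.symm.trans h2
  linear_combination (1 / 2 : ℂ) * h3

theorem sum_cases (h : PM ω) : ∃ e : ℕ, ∑ b : F, ω b = (Fintype.card F : ℂ) * e ∧
    ((∀ b, ω b = 1) → e = 1) := by
  by_cases hall : ∀ b, ω b = 1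
  · refine ⟨1, ?_, fun _ => rfl⟩
    simp [hall]
  · push_neg at hall
    obtain ⟨b₀, hb₀⟩ := hall
    exact ⟨0, by rw [h.sum_zero (h.ne_one hb₀)]; simp, fun hh => absurd (hh b₀) hb₀⟩

end PM

/-! ### the radical of the commutator form -/

theorem fiber_two (D : SzData F s) {a : F} (ha : a ≠ 0) {y₀ : F}
    (hy₀ : ∀ c : F, a ^ s * c + c ^ s * a ≠ y₀) (y : F) :
    (∃ c : F, a ^ s * c + c ^ s * a = y) ∨ (∃ c : F, a ^ s * c + c ^ s * a = y + y₀) := by
  classical
  obtain ⟨f, hf⟩ : ∃ f : F → F, ∀ c, f c = a ^ s * c + c ^ s * a := ⟨_, fun _ => rfl⟩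
  simp only [← hf] at hy₀ ⊢
  have hadd : ∀ c c', f (c + c') = f c + f c' := by
    intro c c'
    rw [hf, hf, hf, D.add]; ring
  have hfa : f a = 0 := by
    rw [hf]
    exact D.add_self _
  have hker : ∀ c, f c = 0 → c = 0 ∨ c = a := by
    intro c hc
    by_cases hc0 : c = 0
    · exact Or.inl hc0
    right
    rw [hf] at hc
    have E1 : a ^ s * c = c ^ s * a := by
      have h' : a ^ s * c = -(c ^ s * a) := eq_neg_of_add_eq_zero_left hc
      rw [h', D.neg]
    have E2 : a ^ 2 * c ^ s = c ^ 2 * a ^ s := by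
      have h := congrArg (fun x => x ^ s) E1
      simp only [mul_pow, D.sq] at h
      exact h
    have h3 : a ^ s * c * (a - c) = 0 := by linear_combination a * E1 + E2
    rcases mul_eq_zero.mp h3 with h4 | h4
    · rcases mul_eq_zero.mp h4 with h5 | h5
      · exact absurd ((pow_eq_zero_iff D.s_ne).mp h5) ha
      · exact absurd h5 hc0
    · exact (sub_eq_zero.mp h4).symm
  have hfib : ∀ c₀ : F, Finset.univ.filter (fun c => f c = f c₀) = {c₀, c₀ + a} := by
    intro c₀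
    ext c
    simp only [Finset.mem_filter, Finset.mem_univ, true_and, Finset.mem_insert,
      Finset.mem_singleton]
    constructor
    · intro h
      have h0 : f (c + c₀) = 0 := by rw [hadd, h]; exact D.add_self _
      rcases hker _ h0 with h1 | h1
      · left
        have h2 : c = -c₀ := eq_neg_of_add_eq_zero_left h1
        rw [h2, D.neg]
      · right
        have h2 : c = a - c₀ := eq_sub_of_add_eq h1
        rw [h2, D.sub]; ring
    · rintro (rfl | rfl)
      · rfl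
      · rw [hadd, hfa, add_zero]
  have hcard2 : ∀ y ∈ Finset.univ.image f, (Finset.univ.filter (fun c => f c = y)).card = 2 := by
    intro y hy
    obtain ⟨c₀, -, rfl⟩ := Finset.mem_image.mp hy
    rw [hfib, Finset.card_pair]
    intro h
    exact ha (by simpa using h)
  have hq : Fintype.card F = 2 * (Finset.univ.image f).card := by
    rw [← Finset.card_univ, Finset.card_eq_sum_card_image f Finset.univ,
      Finset.sum_congr rfl hcard2]
    simp [mul_comm]
  obtain ⟨S, hS⟩ : ∃ S : Finset F, S = Finset.univ.image f := ⟨_, rfl⟩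
  rw [← hS] at hq
  have hSmem : ∀ z, z ∈ S ↔ ∃ c, f c = z := by
    intro z; rw [hS]; simp
  have hdisj : Disjoint S (S.image (· + y₀)) := by
    rw [Finset.disjoint_left]
    intro z hz hz'
    obtain ⟨c, rfl⟩ := (hSmem z).mp hz
    obtain ⟨w, hw, hw'⟩ := Finset.mem_image.mp hz'
    obtain ⟨c', rfl⟩ := (hSmem w).mp hw
    apply hy₀ (c + c')
    have h2 := D.add_self (f c')
    rw [hadd, ← hw']
    linear_combination h2
  have hunion : S ∪ S.image (· + y₀) = Finset.univ := by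
    apply Finset.eq_univ_of_card
    rw [Finset.card_union_of_disjoint hdisj,
      Finset.card_image_of_injective _ (add_left_injective y₀), hq]
    ring
  have hy : y ∈ S ∪ S.image (· + y₀) := by rw [hunion]; exact Finset.mem_univ y
  rcases Finset.mem_union.mp hy with h | h
  · exact Or.inl ((hSmem y).mp h)
  · obtain ⟨w, hw, hw'⟩ := Finset.mem_image.mp h
    obtain ⟨c, rfl⟩ := (hSmem w).mp hw
    refine Or.inr ⟨c, ?_⟩
    have h2 := D.add_self y₀
    rw [← hw']
    linear_combination -h2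

theorem rad_unique (D : SzData F s) {ω : F → ℂ} (hω : PM ω) {b₀ : F} (hb₀ : ω b₀ = -1)
    {a a' : F} (ha : a ≠ 0) (ha' : a' ≠ 0)
    (hR : ∀ c, ω (a ^ s * c + c ^ s * a) = 1) (hR' : ∀ c, ω (a' ^ s * c + c ^ s * a') = 1) :
    a = a' := by
  have hm1 : (-1 : ℂ) ≠ 1 := by norm_num
  have hnot : ∀ c : F, a ^ s * c + c ^ s * a ≠ b₀ := by
    intro c h
    have h1 := hR c
    rw [h, hb₀] at h1
    exact hm1 h1
  have hH := fiber_two D ha hnot
  obtain ⟨t, ht⟩ : ∃ t : F, t = a' / a := ⟨_, rfl⟩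
  have ht0 : t ≠ 0 := by rw [ht]; exact div_ne_zero ha' ha
  have hta : a' = t * a := by rw [ht]; field_simp
  obtain ⟨v, hv⟩ : ∃ v : F, v = t ^ (s + 1) := ⟨_, rfl⟩
  have hv0 : v ≠ 0 := by rw [hv]; exact pow_ne_zero _ ht0
  have hR2 : ∀ c, ω (v * (a ^ s * c + c ^ s * a)) = 1 := by
    intro c
    have h := hR' (t * c)
    rw [hta] at h
    have e : (t * a) ^ s * (t * c) + (t * c) ^ s * (t * a) = v * (a ^ s * c + c ^ s * a) := by
      rw [hv, mul_pow, mul_pow]; ring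
    rw [e] at h; exact h
  have e₁ : v * (b₀ / v) = b₀ := by field_simp
  have hvb₀ : ω (v * b₀) = -1 := by
    rcases hH (b₀ / v) with ⟨c, hc⟩ | ⟨c, hc⟩
    · exfalso
      have h1 := hR2 c
      rw [hc, e₁, hb₀] at h1
      exact hm1 h1
    · have h1 := hR2 c
      rw [hc, mul_add, hω.add, e₁, hb₀] at h1
      linear_combination -h1
  have hsame : ∀ y, ω (v * y) = ω y := by
    intro y
    rcases hH y with ⟨c, hc⟩ | ⟨c, hc⟩
    · rw [← hc, hR2 c, hR c]
    · have h1 := hR2 c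
      rw [hc, mul_add, hω.add, hvb₀] at h1
      have h2 := hR c
      rw [hc, hω.add, hb₀] at h2
      linear_combination h2 - h1
  have hv1 : v = 1 := by
    by_contra hne
    have h1v : (1 + v) ≠ 0 := by
      intro h
      apply hne
      have h' : v = -1 := eq_neg_of_add_eq_zero_right h
      rw [h', D.neg]
    have e₂ : (1 + v) * (b₀ / (1 + v)) = b₀ := by field_simp
    have h2 : ω ((1 + v) * (b₀ / (1 + v))) = 1 := by
      rw [add_mul, one_mul, hω.add, hsame]
      exact hω.sq _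
    rw [e₂, hb₀] at h2
    exact hm1 h2
  rw [hv] at hv1
  have ht1 : t = 1 := D.one_of_pow_succ hv1
  rw [hta, ht1, one_mul]

/-! ### irreducible characters of the Sylow subgroup -/

theorem smul_id_inj {n : ℕ} (hn : 0 < n) {c c' : ℂ}
    (h : c • (LinearMap.id : (Fin n → ℂ) →ₗ[ℂ] (Fin n → ℂ)) = c' • LinearMap.id) : c = c' := by
  have h1 := congrArg (fun T : (Fin n → ℂ) →ₗ[ℂ] (Fin n → ℂ) => T (fun _ => 1) ⟨0, hn⟩) h
  simpa using h1

theorem tU_zz (D : SzData F s) (b d : F) : tU D 0 b * tU D 0 d = tU D 0 (b + d) := by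
  rw [tU_mul]
  have e1 : (0 : F) + 0 = 0 := add_zero 0
  have e2 : b + d + (0 : F) ^ s * 0 = b + d := by ring
  rw [e1, e2]

theorem tU_central (D : SzData F s) (b : F) (g : Usub D) : tU D 0 b * g = g * tU D 0 b := by
  have h := (mem_center_U D (tU D 0 b)).mpr ⟨b, rfl⟩
  exact (Subgroup.mem_center_iff.mp h g).symm

theorem tG_00 (D : SzData F s) : tG D 0 0 = 1 := Subtype.ext (tS_zero D)

theorem tU_conj (D : SzData F s) (a b c : F) :
    tU D c 0 * tU D a b * (tU D c 0)⁻¹ = tU D a b * tU D 0 (a ^ s * c + c ^ s * a) := by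
  rw [mul_inv_eq_iff_eq_mul, tU_mul, tU_mul, tU_mul]
  have e0 : (a + 0) ^ s = a ^ s := by rw [add_zero]
  have e1 : c + a = a + 0 + c := by ring
  have e2 : 0 + b + c ^ s * a =
      b + (a ^ s * c + c ^ s * a) + a ^ s * 0 + 0 + (a + 0) ^ s * c := by
    rw [e0]; linear_combination (-(a ^ s * c)) * D.two
  rw [e1, e2]

theorem irr_central (D : SzData F s) (ξ : IrrCharacter (Usub D)) :
    ∃ (n : ℕ) (ω : F → ℂ), 0 < n ∧ (ξ : Usub D → ℂ) 1 = n ∧ PM ω ∧
      (∀ (u : Usub D) (b : F), (ξ : Usub D → ℂ) (u * tU D 0 b) = ω b * (ξ : Usub D → ℂ) u) ∧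
      (∀ u : Usub D, ‖(ξ : Usub D → ℂ) u‖ ≤ n) := by
  obtain ⟨n, τ, hτ, hξ⟩ := ξ.2
  haveI := hτ
  have hfr : finrank ℂ (Fin n → ℂ) = n := Module.finrank_fin_fun ℂ
  have hn : 0 < n := by
    have h := finrank_pos_of_irreducible τ
    rwa [hfr] at h
  obtain ⟨ω, hωdef⟩ : ∃ ω : F → ℂ, ∀ b, ω b =
      LinearMap.trace ℂ (Fin n → ℂ) (τ (tU D 0 b)) / (finrank ℂ (Fin n → ℂ) : ℂ) :=
    ⟨_, fun _ => rfl⟩
  have hid : ∀ b, τ (tU D 0 b) = ω b • LinearMap.id := by
    intro b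
    rw [hωdef]
    refine eq_smul_of_comm_of_irreducible τ (τ (tU D 0 b)) (fun g => ?_)
    show τ (tU D 0 b) * τ g = τ g * τ (tU D 0 b)
    rw [← map_mul, ← map_mul, tU_central]
  have hadd : ∀ b d, ω (b + d) = ω b * ω d := by
    intro b d
    apply smul_id_inj hn
    rw [← hid, ← tU_zz, map_mul, hid, hid]
    exact LinearMap.ext fun x => by simp [Module.End.mul_apply, smul_smul, mul_comm]
  have hzero : ω 0 = 1 := by
    apply smul_id_inj hn
    rw [← hid, tU_one, map_one, one_smul]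
    rfl
  have hpm : ∀ b, ω b = 1 ∨ ω b = -1 := by
    intro b
    have h1 : ω b * ω b = 1 := by rw [← hadd, D.add_self, hzero]
    have h2 : (ω b - 1) * (ω b + 1) = 0 := by linear_combination h1
    rcases mul_eq_zero.mp h2 with h | h
    · exact Or.inl (sub_eq_zero.mp h)
    · exact Or.inr (eq_neg_of_add_eq_zero_left h)
  refine ⟨n, ω, hn, ?_, ⟨hpm, hadd⟩, ?_, ?_⟩
  · rw [← hξ]; exact char_one_fin τ
  · intro u b
    rw [← hξ]
    show LinearMap.trace ℂ (Fin n → ℂ) (τ (u * tU D 0 b)) =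
      ω b * LinearMap.trace ℂ (Fin n → ℂ) (τ u)
    rw [map_mul, hid]
    have e : τ u * (ω b • LinearMap.id) = ω b • τ u :=
      LinearMap.ext fun x => by simp [Module.End.mul_apply]
    rw [e, map_smul, smul_eq_mul]
  · intro u
    rw [← hξ]
    have h := norm_char_le τ u
    rw [hfr] at h
    exact h

theorem irr_degree (D : SzData F s) (ξ : IrrCharacter (Usub D)) (n : ℕ) (ω : F → ℂ)
    (hω : PM ω)
    (hc : ∀ (u : Usub D) (b : F), (ξ : Usub D → ℂ) (u * tU D 0 b) = ω b * (ξ : Usub D → ℂ) u)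
    (hnorm : ∀ u : Usub D, ‖(ξ : Usub D → ℂ) u‖ ≤ n)
    {b₀ : F} (hb₀ : ω b₀ = -1) : Fintype.card F ≤ 2 * n ^ 2 := by
  classical
  letI : Fintype (Usub D) := Fintype.ofFinite _
  have hvan : ∀ a b c : F, ω (a ^ s * c + c ^ s * a) ≠ 1 →
      (ξ : Usub D → ℂ) (tU D a b) = 0 := by
    intro a b c hne
    have h1 := irr_conj ξ (tU D a b) (tU D c 0)
    rw [tU_conj, hc, hω.ne_one hne] at h1
    linear_combination (-1 / 2 : ℂ) * h1
  obtain ⟨R, hR⟩ : ∃ R : Finset F, R =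
      Finset.univ.filter (fun a : F => ∀ c : F, ω (a ^ s * c + c ^ s * a) = 1) := ⟨_, rfl⟩
  have hRmem : ∀ a, a ∈ R ↔ ∀ c : F, ω (a ^ s * c + c ^ s * a) = 1 := by
    intro a; rw [hR]; simp
  have hRcard : R.card ≤ 2 := by
    by_cases h : ∃ a₁ ∈ R, a₁ ≠ 0
    · obtain ⟨a₁, ha₁, ha₁0⟩ := h
      have hsub : R ⊆ {0, a₁} := by
        intro a ha
        by_cases ha0 : a = 0
        · rw [ha0]; exact Finset.mem_insert_self _ _
        · have h1 := rad_unique D hω hb₀ ha0 ha₁0 ((hRmem a).mp ha) ((hRmem a₁).mp ha₁)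
          rw [h1]; exact Finset.mem_insert_of_mem (Finset.mem_singleton_self _)
      exact (Finset.card_le_card hsub).trans Finset.card_le_two
    · push_neg at h
      have hsub : R ⊆ {0} := by
        intro a ha
        exact Finset.mem_singleton.mpr (h a ha)
      exact (Finset.card_le_card hsub).trans (by simp)
  have hq : 0 < Fintype.card F := Fintype.card_pos
  have hcardU : (Nat.card (Usub D) : ℂ) = (Fintype.card F : ℂ) ^ 2 := by
    rw [card_U]; push_cast; ring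
  have hq0 : (Fintype.card F : ℂ) ≠ 0 := Nat.cast_ne_zero.mpr hq.ne'
  have hsum : ∑ u : Usub D, (ξ : Usub D → ℂ) u * starRingEnd ℂ ((ξ : Usub D → ℂ) u) =
      (Fintype.card F : ℂ) ^ 2 := by
    have hinner := irr_inner_self ξ
    rw [classInner_def', hcardU] at hinner
    exact ((inv_mul_eq_one₀ (pow_ne_zero 2 hq0)).mp hinner).symm
  have hsumR : ∑ u : Usub D, ‖(ξ : Usub D → ℂ) u‖ ^ 2 = (Fintype.card F : ℝ) ^ 2 := by
    have h1 : ((∑ u : Usub D, ‖(ξ : Usub D → ℂ) u‖ ^ 2 : ℝ) : ℂ) =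
        (((Fintype.card F : ℝ) ^ 2 : ℝ) : ℂ) := by
      push_cast
      rw [← hsum]
      exact Finset.sum_congr rfl fun u _ => (Complex.mul_conj' _).symm
    exact_mod_cast h1
  have hbij : Function.Bijective (fun p : F × F => tU D p.1 p.2) := by
    constructor
    · rintro ⟨a, b⟩ ⟨a', b'⟩ h
      obtain ⟨h1, h2⟩ := tU_inj D h
      exact Prod.ext h1 h2
    · intro u
      obtain ⟨a, b, rfl⟩ := tU_surj D u
      exact ⟨(a, b), rfl⟩
  have hre : ∑ u : Usub D, ‖(ξ : Usub D → ℂ) u‖ ^ 2 =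
      ∑ a : F, ∑ b : F, ‖(ξ : Usub D → ℂ) (tU D a b)‖ ^ 2 := by
    have h1 := Fintype.sum_bijective (fun p : F × F => tU D p.1 p.2) hbij
      (fun p => ‖(ξ : Usub D → ℂ) (tU D p.1 p.2)‖ ^ 2)
      (fun u => ‖(ξ : Usub D → ℂ) u‖ ^ 2) (fun _ => rfl)
    rw [← h1, Fintype.sum_prod_type]
  have hbound : ∀ a b : F, ‖(ξ : Usub D → ℂ) (tU D a b)‖ ^ 2 ≤
      if a ∈ R then (n : ℝ) ^ 2 else 0 := by
    intro a b
    by_cases ha : a ∈ R
    · rw [if_pos ha]
      exact pow_le_pow_left₀ (norm_nonneg _) (hnorm _) 2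
    · rw [if_neg ha]
      have h1 : ¬ ∀ c : F, ω (a ^ s * c + c ^ s * a) = 1 := fun h => ha ((hRmem a).mpr h)
      push_neg at h1
      obtain ⟨c, hc'⟩ := h1
      rw [hvan a b c hc']; simp
  have hle : (Fintype.card F : ℝ) ^ 2 ≤ (Fintype.card F : ℝ) * (2 * (n : ℝ) ^ 2) := by
    rw [← hsumR, hre]
    have h2 : ∑ a : F, (if a ∈ R then (n : ℝ) ^ 2 else 0) = (R.card : ℝ) * (n : ℝ) ^ 2 := by
      rw [Finset.sum_ite_mem, Finset.univ_inter, Finset.sum_const, nsmul_eq_mul]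
    calc ∑ a : F, ∑ b : F, ‖(ξ : Usub D → ℂ) (tU D a b)‖ ^ 2
        ≤ ∑ a : F, ∑ _b : F, (if a ∈ R then (n : ℝ) ^ 2 else 0) :=
          Finset.sum_le_sum fun a _ => Finset.sum_le_sum fun b _ => hbound a b
      _ = (Fintype.card F : ℝ) * ((R.card : ℝ) * (n : ℝ) ^ 2) := by
          simp only [Finset.sum_const, Finset.card_univ, nsmul_eq_mul]
          rw [← Finset.mul_sum, h2]
      _ ≤ (Fintype.card F : ℝ) * (2 * (n : ℝ) ^ 2) := by
          have h3 : (R.card : ℝ) ≤ 2 := by exact_mod_cast hRcard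
          gcongr
  have hqR : (0 : ℝ) < Fintype.card F := by exact_mod_cast hq
  have hfin : (Fintype.card F : ℝ) ≤ 2 * (n : ℝ) ^ 2 := by
    have h := hle
    rw [pow_two] at h
    exact le_of_mul_le_mul_left h hqR
  exact_mod_cast hfin

/-! ### the main bound -/

theorem min_degree (D : SzData F s) {m : ℕ} (hF : Fintype.card F = 2 ^ (2 * m + 1)) (k : ℕ)
    (ρ : Representation ℂ (SzG F s) (Fin k → ℂ)) (hρ : ρ.IsIrreducible) (hk : 2 ≤ k) :
    2 ^ m * (2 ^ (2 * m + 1) - 1) ≤ k := by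
  classical
  haveI := hρ
  letI : Fintype (SzG F s) := Fintype.ofFinite _
  letI : Fintype (Usub D) := Fintype.ofFinite _
  have hfr : finrank ℂ (Fin k → ℂ) = k := Module.finrank_fin_fun ℂ
  have hχ1 : ρ.character 1 = k := char_one_fin ρ
  -- faithfulness
  have hfaith : ∀ g : SzG F s, ρ g = 1 → g = 1 := by
    haveI := Cfsg.Agent.Helper6.Sz.simple D
    rcases (MonoidHom.normal_ker ρ).eq_bot_or_eq_top with h | h
    · intro g hg
      have hmem : g ∈ MonoidHom.ker ρ := MonoidHom.mem_ker.mpr hg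
      rw [h] at hmem
      exact Subgroup.mem_bot.mp hmem
    · exfalso
      have hall : ∀ g : SzG F s, ρ.character g = k := by
        intro g
        have hg : ρ g = 1 := MonoidHom.mem_ker.mp (by rw [h]; exact Subgroup.mem_top g)
        rw [← hχ1]
        show LinearMap.trace ℂ (Fin k → ℂ) (ρ g) = LinearMap.trace ℂ (Fin k → ℂ) (ρ 1)
        rw [hg, map_one ρ]
      have h1 := char_orthonormal_fin ρ ρ
      rw [if_pos rfl, classInner_def'] at h1
      simp only [hall, Complex.conj_natCast, Finset.sum_const, Finset.card_univ,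
        nsmul_eq_mul] at h1
      have hne : (Nat.card (SzG F s) : ℂ) ≠ 0 := Nat.cast_ne_zero.mpr Nat.card_pos.ne'
      rw [← Nat.card_eq_fintype_card, ← mul_assoc, inv_mul_cancel₀ hne, one_mul] at h1
      have h2 : k * k = 1 := by exact_mod_cast h1
      nlinarith
  -- the character is constant on the nonidentity central elements
  have hκ : ∀ b : F, b ≠ 0 → ρ.character (tG D 0 b) = ρ.character (tG D 0 1) := by
    intro b hb
    obtain ⟨y, hy⟩ := D.sqrt b
    have hy0 : y ≠ 0 := by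
      rintro rfl
      apply hb; rw [← hy]; simp
    obtain ⟨c, hc⟩ := D.exists_root hy0
    have hc0 : c ≠ 0 := by
      rintro rfl
      apply hy0; rw [← hc]; simp
    have h := hG_conj_tG D (Units.mk0 c hc0) 0 1
    have e1 : ((Units.mk0 c hc0 : Fˣ) : F) ^ 2 * 0 = 0 := mul_zero _
    have e2 : ((Units.mk0 c hc0 : Fˣ) : F) ^ (2 * s + 2) * 1 = b := by
      rw [mul_one, Units.val_mk0, ← hy, ← hc]; ring
    rw [e1, e2] at h
    rw [← h]
    exact char_conj ρ _ _
  -- restriction to `U`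
  have hres : IsCharacter (Usub D) (fun u : Usub D => ρ.character (u : SzG F s)) :=
    ⟨k, MonoidHom.comp ρ (Usub D).subtype, rfl⟩
  choose cf hcf using fun ξ : IrrCharacter (Usub D) => isCharacter_inner_irr hres ξ
  have hdec := classFunction_eq_sum_irr _ (isCharacter_isClassFunction hres)
  simp only [hcf] at hdec
  have hval : ∀ u : Usub D, ρ.character (u : SzG F s) =
      ∑ ξ : IrrCharacter (Usub D), (cf ξ : ℂ) * (ξ : Usub D → ℂ) u := by
    intro u
    have h := congrFun hdec u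
    simpa [Finset.sum_apply] using h
  choose n ω hnpos hn1 hω hcen hnorm using fun ξ : IrrCharacter (Usub D) => irr_central D ξ
  have hz : ∀ (ξ : IrrCharacter (Usub D)) (b : F),
      (ξ : Usub D → ℂ) (tU D 0 b) = ω ξ b * n ξ := by
    intro ξ b
    have h := hcen ξ 1 b
    rw [one_mul, hn1] at h
    exact h
  have hχz : ∀ b : F, ρ.character (tG D 0 b) =
      ∑ ξ : IrrCharacter (Usub D), (cf ξ : ℂ) * (n ξ * ω ξ b) := by
    intro b
    have h : ρ.character (tG D 0 b) =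
        ∑ ξ : IrrCharacter (Usub D), (cf ξ : ℂ) * (ξ : Usub D → ℂ) (tU D 0 b) := hval (tU D 0 b)
    rw [h]
    exact Finset.sum_congr rfl fun ξ _ => by rw [hz]; ring
  -- some constituent is nontrivial on the centre
  have hex : ∃ ξ₁ : IrrCharacter (Usub D), cf ξ₁ ≠ 0 ∧ ∃ b₀ : F, ω ξ₁ b₀ = -1 := by
    by_contra hno
    push_neg at hno
    have h1 : ρ.character (tG D 0 1) = k := by
      rw [← hχ1, ← tG_00 D, hχz, hχz]
      refine Finset.sum_congr rfl fun ξ _ => ?_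
      by_cases hc0 : cf ξ = 0
      · rw [hc0]; simp
      · have ha : ∀ b, ω ξ b = 1 := fun b => ((hω ξ).pm b).resolve_right (hno ξ hc0 b)
        rw [ha, ha]
    have h2 : ρ (tG D 0 1) = LinearMap.id := (char_eq_finrank_iff ρ _).mp (by rw [h1, hfr])
    have h3 := hfaith _ h2
    have h4 : tS s (0 : F) 1 = tS s 0 0 := by
      have h5 : tG D 0 (1 : F) = tG D 0 0 := by rw [h3, tG_00]
      exact congrArg Subtype.val h5
    exact one_ne_zero (tS_inj D h4).2
  obtain ⟨ξ₁, hc1, b₀, hb₀⟩ := hex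
  have hlam := hω ξ₁
  choose e hesum hetriv using fun ξ : IrrCharacter (Usub D) => (hlam.mul (hω ξ)).sum_cases
  choose e0 he0sum he0triv using fun ξ : IrrCharacter (Usub D) => (hω ξ).sum_cases
  obtain ⟨κ, hκdef⟩ : ∃ κ : ℂ, κ = ρ.character (tG D 0 1) := ⟨_, rfl⟩
  have hχb : ∀ b : F, ρ.character (tG D 0 b) = κ + if b = 0 then ((k : ℂ) - κ) else 0 := by
    intro b
    by_cases hb : b = 0
    · rw [if_pos hb, hb, tG_00, hχ1]; ring
    · rw [if_neg hb, add_zero, hκdef]; exact hκ b hb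
  have hq0 : (Fintype.card F : ℂ) ≠ 0 := Nat.cast_ne_zero.mpr Fintype.card_pos.ne'
  obtain ⟨M1, hM1⟩ : ∃ M1 : ℕ, M1 = ∑ ξ : IrrCharacter (Usub D), cf ξ * n ξ * e ξ := ⟨_, rfl⟩
  obtain ⟨M0, hM0⟩ : ∃ M0 : ℕ, M0 = ∑ ξ : IrrCharacter (Usub D), cf ξ * n ξ * e0 ξ := ⟨_, rfl⟩
  have hS1 : ∑ b : F, ω ξ₁ b * ρ.character (tG D 0 b) = (Fintype.card F : ℂ) * (M1 : ℂ) := by
    rw [hM1]
    simp only [hχz, Finset.mul_sum]
    rw [Finset.sum_comm]
    push_cast
    rw [Finset.mul_sum]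
    refine Finset.sum_congr rfl fun ξ _ => ?_
    have h := hesum ξ
    calc ∑ b : F, ω ξ₁ b * ((cf ξ : ℂ) * ((n ξ : ℂ) * ω ξ b))
        = (cf ξ : ℂ) * n ξ * ∑ b : F, ω ξ₁ b * ω ξ b := by
          rw [Finset.mul_sum]; exact Finset.sum_congr rfl fun b _ => by ring
      _ = (Fintype.card F : ℂ) * ((cf ξ : ℂ) * n ξ * e ξ) := by rw [h]; ring
  have hsumlam : ∑ b : F, ω ξ₁ b = 0 := hlam.sum_zero hb₀
  have hS1' : ∑ b : F, ω ξ₁ b * ρ.character (tG D 0 b) = (k : ℂ) - κ := by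
    have h1 : ∀ b : F, ω ξ₁ b * ρ.character (tG D 0 b) =
        ω ξ₁ b * κ + if b = 0 then ω ξ₁ 0 * ((k : ℂ) - κ) else 0 := by
      intro b
      rw [hχb, mul_add]
      by_cases hb : b = 0
      · rw [if_pos hb, if_pos hb, hb]
      · rw [if_neg hb, if_neg hb, mul_zero]
    simp only [h1]
    rw [Finset.sum_add_distrib, ← Finset.sum_mul, hsumlam, zero_mul, zero_add,
      Finset.sum_ite_eq', if_pos (Finset.mem_univ _), hlam.zero, one_mul]
  have hS0 : ∑ b : F, ρ.character (tG D 0 b) = (Fintype.card F : ℂ) * (M0 : ℂ) := by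
    rw [hM0]
    simp only [hχz]
    rw [Finset.sum_comm]
    push_cast
    rw [Finset.mul_sum]
    refine Finset.sum_congr rfl fun ξ _ => ?_
    have h := he0sum ξ
    calc ∑ b : F, (cf ξ : ℂ) * ((n ξ : ℂ) * ω ξ b)
        = (cf ξ : ℂ) * n ξ * ∑ b : F, ω ξ b := by
          rw [Finset.mul_sum]; exact Finset.sum_congr rfl fun b _ => by ring
      _ = (Fintype.card F : ℂ) * ((cf ξ : ℂ) * n ξ * e0 ξ) := by rw [h]; ring
  have hS0' : ∑ b : F, ρ.character (tG D 0 b) =
      (k : ℂ) + ((Fintype.card F : ℂ) - 1) * κ := by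
    simp only [hχb]
    rw [Finset.sum_add_distrib, Finset.sum_const, Finset.card_univ, nsmul_eq_mul,
      Finset.sum_ite_eq', if_pos (Finset.mem_univ _)]
    ring
  have hkey : (k : ℂ) = ((Fintype.card F : ℂ) - 1) * M1 + M0 := by
    have e1 : (Fintype.card F : ℂ) * M1 = (k : ℂ) - κ := hS1.symm.trans hS1'
    have e0' : (Fintype.card F : ℂ) * M0 = (k : ℂ) + ((Fintype.card F : ℂ) - 1) * κ :=
      hS0.symm.trans hS0'
    have h : (Fintype.card F : ℂ) * (k : ℂ) =
        (Fintype.card F : ℂ) * (((Fintype.card F : ℂ) - 1) * M1 + M0) := by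
      linear_combination (-((Fintype.card F : ℂ) - 1)) * e1 - e0'
    exact mul_left_cancel₀ hq0 h
  have hqpos : 1 ≤ Fintype.card F := Fintype.card_pos
  have hkeyN : k = (Fintype.card F - 1) * M1 + M0 := by
    have h1 : ((Fintype.card F : ℂ) - 1) = ((Fintype.card F - 1 : ℕ) : ℂ) := by
      rw [Nat.cast_sub hqpos, Nat.cast_one]
    rw [h1] at hkey
    exact_mod_cast hkey
  have hdeg := irr_degree D ξ₁ (n ξ₁) (ω ξ₁) hlam (hcen ξ₁) (hnorm ξ₁) hb₀
  have hn_ge : 2 ^ m ≤ n ξ₁ := by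
    rw [hF] at hdeg
    have h0 : 2 ^ (2 * m + 1) = 2 * (2 ^ m) ^ 2 := by ring
    have h2 : 2 * (2 ^ m) ^ 2 ≤ 2 * (n ξ₁) ^ 2 := by rw [← h0]; exact hdeg
    have h1 : (2 ^ m) ^ 2 ≤ (n ξ₁) ^ 2 := Nat.le_of_mul_le_mul_left h2 (by norm_num)
    exact (Nat.pow_le_pow_iff_left (by norm_num : (2 : ℕ) ≠ 0)).mp h1
  have hM1_ge : 2 ^ m ≤ M1 := by
    have he1 : e ξ₁ = 1 := hetriv ξ₁ (fun b => hlam.sq b)
    have hcf1 : 1 ≤ cf ξ₁ := Nat.one_le_iff_ne_zero.mpr hc1
    have hle : cf ξ₁ * n ξ₁ * e ξ₁ ≤ M1 := by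
      rw [hM1]
      exact Finset.single_le_sum (f := fun ξ => cf ξ * n ξ * e ξ) (fun _ _ => Nat.zero_le _)
        (Finset.mem_univ ξ₁)
    rw [he1, mul_one] at hle
    calc 2 ^ m ≤ n ξ₁ := hn_ge
      _ = 1 * n ξ₁ := (one_mul _).symm
      _ ≤ cf ξ₁ * n ξ₁ := Nat.mul_le_mul_right _ hcf1
      _ ≤ M1 := hle
  rw [hkeyN, ← hF]
  calc 2 ^ m * (Fintype.card F - 1) ≤ M1 * (Fintype.card F - 1) :=
        Nat.mul_le_mul_right _ hM1_ge
    _ = (Fintype.card F - 1) * M1 := mul_comm _ _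
    _ ≤ (Fintype.card F - 1) * M1 + M0 := Nat.le_add_right _ _

end Cfsg.Agent.Helper6.SzRep
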