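import Mathlib
import Cfsg.Agent.Helper6.SzFix

set_option autoImplicit false

/-!
Solubilizers in the Suzuki groups, part 1: generic counting lemmas, the structure of the
normalisers of the cyclic self-centralising subgroups, and the criterion for two elements to
generate a solvable subgroup.
-/

namespace Cfsg.Agent.Helper6.SzSol

open Matrix Cfsg.Agent.Helper6.Sz Cfsg.Agent.Helper6.SzOut Cfsg.Agent.Helper6.SzSub
  Cfsg.Agent.Helper6.SzSg Cfsg.Agent.Helper6.SzFix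
open scoped Pointwise

section counting

theorem ncard_double {α β : Type*} [Finite α] [Finite β] (A : Set α) (B : Set β)
    (R : α → β → Prop) (m n : ℕ)
    (hm : ∀ a ∈ A, {b | b ∈ B ∧ R a b}.ncard = m)
    (hn : ∀ b ∈ B, {a | a ∈ A ∧ R a b}.ncard = n) :
    A.ncard * m = B.ncard * n := by
  classical
  letI : Fintype α := Fintype.ofFinite α
  letI : Fintype β := Fintype.ofFinite β
  have hA : A.ncard = (Finset.univ.filter (· ∈ A)).card := by
    rw [← Set.ncard_coe_finset]; congr 1; ext x; simp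
  have hB : B.ncard = (Finset.univ.filter (· ∈ B)).card := by
    rw [← Set.ncard_coe_finset]; congr 1; ext x; simp
  rw [hA, hB]
  refine Finset.card_mul_eq_card_mul R ?_ ?_
  · intro a ha
    have ha' : a ∈ A := by simpa using ha
    rw [← hm a ha', ← Set.ncard_coe_finset]
    congr 1; ext b; simp [Finset.bipartiteAbove]
  · intro b hb
    have hb' : b ∈ B := by simpa using hb
    rw [← hn b hb', ← Set.ncard_coe_finset]
    congr 1; ext a; simp [Finset.bipartiteBelow]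

theorem ncard_fib {α β : Type*} [Finite α] [Finite β] (S : Set α) (B : Set β) (f : α → β)
    (n : ℕ) (hmaps : ∀ y ∈ S, f y ∈ B) (hfib : ∀ b ∈ B, {y | y ∈ S ∧ f y = b}.ncard = n) :
    S.ncard = B.ncard * n := by
  have h := ncard_double S B (fun y b => f y = b) 1 n ?_ hfib
  · rw [mul_one] at h; exact h
  · intro a ha
    have hset : {b | b ∈ B ∧ f a = b} = {f a} := by
      ext b; constructor
      · rintro ⟨-, h⟩; exact h.symm
      · rintro rfl; exact ⟨hmaps a ha, rfl⟩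
    rw [hset, Set.ncard_singleton]

end counting

section grp

variable {G : Type*} [Group G]

theorem cent_inv_eq (u : G) :
    Subgroup.centralizer ({u⁻¹} : Set G) = Subgroup.centralizer ({u} : Set G) := by
  ext e
  rw [Subgroup.mem_centralizer_singleton_iff, Subgroup.mem_centralizer_singleton_iff]
  constructor
  · intro h
    calc e * u = u * (u⁻¹ * e) * u := by group
      _ = u * (e * u⁻¹) * u := by rw [h]
      _ = u * e := by group
  · intro h
    calc e * u⁻¹ = u⁻¹ * (u * e) * u⁻¹ := by group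
      _ = u⁻¹ * (e * u) * u⁻¹ := by rw [h]
      _ = u⁻¹ * e := by group

theorem mem_norm_cent_conj (k y g : G) :
    k * y * k⁻¹ ∈ Subgroup.normalizer
        ((Subgroup.centralizer ({k * g * k⁻¹} : Set G) : Subgroup G) : Set G) ↔
      y ∈ Subgroup.normalizer ((Subgroup.centralizer ({g} : Set G) : Subgroup G) : Set G) := by
  rw [Subgroup.mem_normalizer_iff, Subgroup.mem_normalizer_iff]
  constructor
  · intro h e
    have h1 := h (k * e * k⁻¹)
    rw [← GrpClass.cent_conj_iff k e g] at h1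
    have e2 : k * y * k⁻¹ * (k * e * k⁻¹) * (k * y * k⁻¹)⁻¹ = k * (y * e * y⁻¹) * k⁻¹ := by group
    rw [e2, ← GrpClass.cent_conj_iff k (y * e * y⁻¹) g] at h1
    exact h1
  · intro h e'
    have h1 := h (k⁻¹ * e' * k)
    rw [GrpClass.cent_conj_iff k (k⁻¹ * e' * k) g,
      GrpClass.cent_conj_iff k (y * (k⁻¹ * e' * k) * y⁻¹) g] at h1
    have e1 : k * (k⁻¹ * e' * k) * k⁻¹ = e' := by group
    have e2 : k * (y * (k⁻¹ * e' * k) * y⁻¹) * k⁻¹ = k * y * k⁻¹ * e' * (k * y * k⁻¹)⁻¹ := by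
      group
    rw [e1, e2] at h1
    exact h1

theorem card_norm_cent_conj (k g : G) :
    Nat.card (Subgroup.normalizer
        ((Subgroup.centralizer ({k * g * k⁻¹} : Set G) : Subgroup G) : Set G)) =
      Nat.card (Subgroup.normalizer
        ((Subgroup.centralizer ({g} : Set G) : Subgroup G) : Set G)) :=
  (Nat.card_congr (Equiv.subtypeEquiv (MulAut.conj k).toEquiv
    (fun y => (mem_norm_cent_conj k y g).symm))).symm

/-- the number of elements generating a solvable subgroup with a given one is invariant under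
isomorphisms -/
theorem sol_equiv {H : Type*} [Group H] (e : G ≃* H) (x : G) :
    Nat.card {y : H // Group.IsSolvable (Subgroup.closure ({e x, y} : Set H))} =
      Nat.card {y : G // Group.IsSolvable (Subgroup.closure ({x, y} : Set G))} := by
  have key : ∀ y : G, Group.IsSolvable (Subgroup.closure ({x, y} : Set G)) ↔
      Group.IsSolvable (Subgroup.closure ({e x, e y} : Set H)) := by
    intro y
    have hmap : (Subgroup.closure ({x, y} : Set G)).map e.toMonoidHom =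
        Subgroup.closure ({e x, e y} : Set H) := by
      rw [MonoidHom.map_closure, Set.image_pair]
      rfl
    rw [← hmap]
    constructor
    · intro h
      exact Group.isSolvable_of_surjective (e.toMonoidHom.subgroupMap_surjective _)
    · intro h
      exact Group.isSolvable_of_isSolvable_injective
        (f := ((Subgroup.closure ({x, y} : Set G)).equivMapOfInjective e.toMonoidHom
          e.injective).toMonoidHom) (MulEquiv.injective _)
  exact (Nat.card_congr (Equiv.subtypeEquiv e.toEquiv key)).symm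

end grp

variable {F : Type*} [Field F] [Fintype F] {s : ℕ}

/-! ### the cyclic self-centralising subgroups and their normalisers -/

theorem t3_odd (D : SzData F s) {r : ℕ} (hqr : Fintype.card F = 2 * r ^ 2)
    {T : Subgroup (SzG F s)} (hT : Tor3 s r T) : ¬ 2 ∣ Nat.card T ∧ 1 < Nat.card T := by
  have hq := D.eight_le
  have hr : 2 ≤ r := by
    by_contra h
    have h1 : r ≤ 1 := by omega
    have h2 : r ^ 2 ≤ 1 := by nlinarith
    omega
  have hr2 : 2 * r ≤ r ^ 2 := by nlinarith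
  have h := hT.2.1
  generalize r ^ 2 = R at hqr hr2
  rcases h with h | h | h
  · constructor <;> omega
  · constructor <;> omega
  · constructor <;> omega

theorem t3_ne_one (D : SzData F s) {r : ℕ} (hqr : Fintype.card F = 2 * r ^ 2)
    {T : Subgroup (SzG F s)} (hT : Tor3 s r T) : ∃ u ∈ T, u ≠ 1 := by
  have h1 := (t3_odd D hqr hT).2
  have hne : T ≠ ⊥ := (Subgroup.one_lt_card_iff_ne_bot T).mp h1
  obtain ⟨⟨u, hu⟩, hu1⟩ := (Subgroup.ne_bot_iff_exists_ne_one).mp hne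
  exact ⟨u, hu, fun h => hu1 (Subtype.ext h)⟩

theorem t3_comm {r : ℕ} {T : Subgroup (SzG F s)} (hT : Tor3 s r T) :
    ∀ a ∈ T, ∀ b ∈ T, a * b = b * a := by
  intro a ha b hb
  haveI := hT.1
  letI : CommGroup ↥T := IsCyclic.commGroup
  exact congrArg Subtype.val (mul_comm (⟨a, ha⟩ : ↥T) ⟨b, hb⟩)

theorem t3_odd_mem (D : SzData F s) {r : ℕ} (hqr : Fintype.card F = 2 * r ^ 2)
    (h3 : ¬ 3 ∣ Nat.card (SzG F s)) {T : Subgroup (SzG F s)} (hT : Tor3 s r T) {g : SzG F s}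
    (hg : g ∈ Subgroup.normalizer (T : Set (SzG F s))) (hodd : ¬ 2 ∣ orderOf g) : g ∈ T := by
  obtain ⟨u, hu, hu1⟩ := t3_ne_one D hqr hT
  have hu4 := (pow_four_ne (t3_odd D hqr hT).1 hu hu1).2
  have hc : g * u * g⁻¹ ∈ T := (Subgroup.mem_normalizer_iff.mp hg u).mp hu
  have hcomm := comm_of_normalizes D h3 u hu4 g hodd (t3_comm hT _ hc _ hu)
  rw [← hT.2.2 u hu hu1, Subgroup.mem_centralizer_singleton_iff]
  exact hcomm

theorem t3_two_not_mem (D : SzData F s) {r : ℕ} (hqr : Fintype.card F = 2 * r ^ 2)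
    {T : Subgroup (SzG F s)} (hT : Tor3 s r T) {y : SzG F s} (hy4 : y ^ 4 = 1) (hy1 : y ≠ 1) :
    y ∉ T :=
  fun hy => (pow_four_ne (t3_odd D hqr hT).1 hy hy1).2 hy4

theorem pow4 {G : Type*} [Group G] (t : G) : t ^ 4 = (t * t) * (t * t) := by
  rw [show (4 : ℕ) = 2 + 2 from rfl, pow_add, pow_two]

theorem sq_pow_four {G : Type*} [Group G] {t : G} (h : t * t = 1) : t ^ 4 = 1 := by
  rw [pow4, h, one_mul]

/-- an involution normalising a cyclic self-centralising subgroup inverts it -/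
theorem t3_inverts (D : SzData F s) {r : ℕ} (hqr : Fintype.card F = 2 * r ^ 2)
    {T : Subgroup (SzG F s)} (hT : Tor3 s r T) {t : SzG F s}
    (ht : t ∈ Subgroup.normalizer (T : Set (SzG F s))) (ht2 : t * t = 1) (ht1 : t ≠ 1) :
    ∀ v ∈ T, t * v * t = v⁻¹ := by
  have hti : t⁻¹ = t := inv_eq_of_mul_eq_one_right ht2
  have htT : t ∉ T := t3_two_not_mem D hqr hT (sq_pow_four ht2) ht1
  have hconj : ∀ u ∈ T, t * u * t⁻¹ ∈ T :=
    fun u hu => (Subgroup.mem_normalizer_iff.mp ht u).mp hu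
  let f : ↥T → ↥T := fun u =>
    ⟨(u : SzG F s)⁻¹ * (t * (u : SzG F s) * t⁻¹), mul_mem (inv_mem u.2) (hconj _ u.2)⟩
  have hinj : Function.Injective f := by
    rintro ⟨u, hu⟩ ⟨u', hu'⟩ h
    have h' : u⁻¹ * (t * u * t⁻¹) = u'⁻¹ * (t * u' * t⁻¹) := congrArg Subtype.val h
    by_contra hne
    have hw1 : u' * u⁻¹ ≠ 1 := by
      intro h1
      apply hne
      apply Subtype.ext
      exact (mul_inv_eq_one.mp h1).symm
    have hwT : u' * u⁻¹ ∈ T := mul_mem hu' (inv_mem hu)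
    have e1 : t * u' * t⁻¹ = u' * (u⁻¹ * (t * u * t⁻¹)) := by
      rw [h']; group
    have e2 : t * (u' * u⁻¹) * t⁻¹ = u' * u⁻¹ := by
      calc t * (u' * u⁻¹) * t⁻¹ = (t * u' * t⁻¹) * (t * u * t⁻¹)⁻¹ := by group
        _ = u' * (u⁻¹ * (t * u * t⁻¹)) * (t * u * t⁻¹)⁻¹ := by rw [e1]
        _ = u' * u⁻¹ := by group
    have e3 : t * (u' * u⁻¹) = (u' * u⁻¹) * t := by
      calc t * (u' * u⁻¹) = (t * (u' * u⁻¹) * t⁻¹) * t := by group
        _ = (u' * u⁻¹) * t := by rw [e2]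
    apply htT
    rw [← hT.2.2 _ hwT hw1, Subgroup.mem_centralizer_singleton_iff]
    exact e3
  have hsurj : Function.Surjective f := Finite.injective_iff_surjective.mp hinj
  intro v hv
  obtain ⟨⟨u, hu⟩, huv⟩ := hsurj ⟨v, hv⟩
  have hv' : u⁻¹ * (t * u * t⁻¹) = v := congrArg Subtype.val huv
  rw [← hv']
  have e : t * (u⁻¹ * (t * u * t⁻¹)) * t⁻¹ =
      (t * u * t⁻¹)⁻¹ * ((t * t) * u * (t * t)⁻¹) := by group
  rw [ht2] at e
  calc t * (u⁻¹ * (t * u * t⁻¹)) * t = t * (u⁻¹ * (t * u * t⁻¹)) * t⁻¹ := by rw [hti]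
    _ = (t * u * t⁻¹)⁻¹ * (1 * u * 1⁻¹) := e
    _ = (u⁻¹ * (t * u * t⁻¹))⁻¹ := by group

theorem two_conj (D : SzData F s) {y : SzG F s} {k : ℕ} (h : y ^ 2 ^ k = 1) (hy1 : y ≠ 1) :
    ∃ K : SzG F s, ∃ a b : F, ¬ (a = 0 ∧ b = 0) ∧ K * y * K⁻¹ = tG D a b := by
  have hpow' : (y : SL4 F) ^ 2 ^ k = 1 := by
    have h' : ((y ^ 2 ^ k : SzG F s) : SL4 F) = 1 := by rw [h]; rfl
    rw [Subgroup.coe_pow] at h'
    exact h'
  have hy1' : (y : SL4 F) ≠ 1 := fun h => hy1 (Subtype.ext h)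
  obtain ⟨K, hK, a, b, hab, hKy⟩ := two_elt_conj D y.2 hpow' hy1'
  exact ⟨⟨K, hK⟩, a, b, hab, Subtype.ext hKy⟩

theorem two_pow_four (D : SzData F s) {y : SzG F s} {k : ℕ} (h : y ^ 2 ^ k = 1) : y ^ 4 = 1 := by
  by_cases hy1 : y = 1
  · rw [hy1, one_pow]
  obtain ⟨K, a, b, -, hKy⟩ := two_conj D h hy1
  have h4 : (K * y * K⁻¹) ^ 4 = 1 := by rw [hKy]; exact tG_pow_four D a b
  rw [conj_pow] at h4
  exact conj_eq_one_iff.mp h4

/-- elements of the normaliser outside the cyclic subgroup are `2`-elements -/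
theorem t3_out_pow_four (D : SzData F s) {r : ℕ} (hqr : Fintype.card F = 2 * r ^ 2)
    (h3 : ¬ 3 ∣ Nat.card (SzG F s)) {T : Subgroup (SzG F s)} (hT : Tor3 s r T) {y : SzG F s}
    (hy : y ∈ Subgroup.normalizer (T : Set (SzG F s))) (hyT : y ∉ T) : y ^ 4 = 1 := by
  have hn0 : orderOf y ≠ 0 := (orderOf_pos y).ne'
  obtain ⟨k, m', hm', hn⟩ := Nat.exists_eq_two_pow_mul_odd hn0
  have hyo : y ^ (2 ^ k) ∈ Subgroup.normalizer (T : Set (SzG F s)) := pow_mem hy _
  have hpow : (y ^ (2 ^ k)) ^ m' = 1 := by rw [← pow_mul, ← hn, pow_orderOf_eq_one]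
  have hodd : ¬ 2 ∣ orderOf (y ^ (2 ^ k)) := by
    intro h2
    exact hm'.not_two_dvd_nat (h2.trans (orderOf_dvd_of_pow_eq_one hpow))
  have hmem := t3_odd_mem D hqr h3 hT hyo hodd
  have h1 : y ^ (2 ^ k) = 1 := by
    by_contra hne
    apply hyT
    rw [← hT.2.2 _ hmem hne, Subgroup.mem_centralizer_singleton_iff]
    exact (pow_mul_comm' y (2 ^ k)).symm
  exact two_pow_four D h1

/-- the product of two involutions of the normaliser lies in the cyclic subgroup -/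
theorem t3_inv_mul (D : SzData F s) {r : ℕ} (hqr : Fintype.card F = 2 * r ^ 2)
    {T : Subgroup (SzG F s)} (hT : Tor3 s r T) {t t' : SzG F s}
    (ht : t ∈ Subgroup.normalizer (T : Set (SzG F s))) (ht2 : t * t = 1) (ht1 : t ≠ 1)
    (ht' : t' ∈ Subgroup.normalizer (T : Set (SzG F s))) (ht'2 : t' * t' = 1) (ht'1 : t' ≠ 1) :
    t * t' ∈ T := by
  obtain ⟨u, hu, hu1⟩ := t3_ne_one D hqr hT
  have hti : t⁻¹ = t := inv_eq_of_mul_eq_one_right ht2
  have ht'i : t'⁻¹ = t' := inv_eq_of_mul_eq_one_right ht'2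
  have h1 : t' * u * t' = u⁻¹ := t3_inverts D hqr hT ht' ht'2 ht'1 u hu
  have h2 : t * u⁻¹ * t = u⁻¹⁻¹ := t3_inverts D hqr hT ht ht2 ht1 _ (inv_mem hu)
  rw [← hT.2.2 u hu hu1, Subgroup.mem_centralizer_singleton_iff]
  calc (t * t') * u = t * (t' * u * t') * t'⁻¹ := by group
    _ = t * u⁻¹ * t'⁻¹ := by rw [h1]
    _ = (t * u⁻¹ * t) * t⁻¹ * t'⁻¹ := by group
    _ = u * t⁻¹ * t'⁻¹ := by rw [h2, inv_inv]
    _ = u * (t * t') := by rw [hti, ht'i, mul_assoc]

theorem t3_inv_sq (D : SzData F s) {r : ℕ} (hqr : Fintype.card F = 2 * r ^ 2)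
    {T : Subgroup (SzG F s)} (hT : Tor3 s r T) {t : SzG F s}
    (ht : t ∈ Subgroup.normalizer (T : Set (SzG F s))) (ht2 : t * t = 1) (ht1 : t ≠ 1)
    {v : SzG F s} (hv : v ∈ T) : (v * t) * (v * t) = 1 := by
  calc (v * t) * (v * t) = v * (t * v * t) := by group
    _ = v * v⁻¹ := by rw [t3_inverts D hqr hT ht ht2 ht1 v hv]
    _ = 1 := mul_inv_cancel v

theorem fpf_pow_four_ne (D : SzData F s) {g : SzG F s} (hf : Fpf s (g : SL4 F)) : g ^ 4 ≠ 1 := by
  intro h4
  have hg1 : g ≠ 1 := fun h => fpf_ne_one hf (by rw [h]; rfl)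
  have hpow : g ^ 2 ^ 2 = 1 := h4
  obtain ⟨K, a, b, -, hK⟩ := two_conj D hpow hg1
  apply hf (K⁻¹ • Pinf F) (smul_ov K⁻¹ inf_mem)
  show g • (K⁻¹ • Pinf F) = K⁻¹ • Pinf F
  have e : g = K⁻¹ * tG D a b * K := by rw [← hK]; group
  rw [e, mul_smul, mul_smul, smul_inv_smul, tG_inf]

theorem norm_card_four (D : SzData F s) {r : ℕ} (hqr : Fintype.card F = 2 * r ^ 2)
    {g : SzG F s} (hf : Fpf s (g : SL4 F)) :
    Nat.card (Subgroup.normalizer
        ((Subgroup.centralizer ({g} : Set (SzG F s)) : Subgroup (SzG F s)) : Set (SzG F s))) =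
      4 * Nat.card (Subgroup.centralizer ({g} : Set (SzG F s))) := by
  obtain ⟨A₁, A₂, hA₁, hA₂, hc₁, hc₂, hn₁, hn₂, hsub⟩ := tori D hqr
  have main : ∀ A : Subgroup (SzG F s), IsTor s A →
      Nat.card (Subgroup.normalizer (A : Set (SzG F s))) = 4 * Nat.card A → g ∈ XA A →
      Nat.card (Subgroup.normalizer
        ((Subgroup.centralizer ({g} : Set (SzG F s)) : Subgroup (SzG F s)) : Set (SzG F s))) =
      4 * Nat.card (Subgroup.centralizer ({g} : Set (SzG F s))) := by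
    rintro A hA hn ⟨hg1, k, hk⟩
    have hk1 : k * g * k⁻¹ ≠ 1 := fun h => hg1 (conj_eq_one_iff.mp h)
    have hC : Subgroup.centralizer ({k * g * k⁻¹} : Set (SzG F s)) = A := tor_TI D hA _ hk hk1
    rw [← card_norm_cent_conj k g, ← GrpClass.card_cent_conj k g, hC]
    exact hn
  rcases hsub hf with h | h
  · exact main A₁ hA₁ hn₁ h
  · exact main A₂ hA₂ hn₂ h

theorem order_four {G : Type*} [Group G] {c : G} (hc4 : c ^ 4 = 1) (hc2 : c * c ≠ 1) :
    orderOf c = 4 := by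
  have hd : orderOf c ∣ 4 := orderOf_dvd_of_pow_eq_one hc4
  have h2 : ¬ orderOf c ∣ 2 := by
    intro h
    apply hc2
    have h' := orderOf_dvd_iff_pow_eq_one.mp h
    rwa [pow_two] at h'
  have hpos : 0 < orderOf c := Nat.pos_of_dvd_of_pos hd (by norm_num)
  have hle : orderOf c ≤ 4 := Nat.le_of_dvd (by norm_num) hd
  rcases Nat.lt_or_ge (orderOf c) 4 with hlt | hge
  · exfalso
    have h123 : orderOf c = 1 ∨ orderOf c = 2 ∨ orderOf c = 3 := by omega
    rcases h123 with h | h | h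
    · exact h2 (by rw [h]; norm_num)
    · exact h2 (by rw [h])
    · rw [h] at hd; norm_num at hd
  · omega

/-- the normaliser of a non-split torus is the union of four cosets -/
theorem norm_cosets (D : SzData F s) {r : ℕ} (hqr : Fintype.card F = 2 * r ^ 2)
    {g : SzG F s} (hf : Fpf s (g : SL4 F)) {c : SzG F s}
    (hc : c ∈ Subgroup.normalizer
      ((Subgroup.centralizer ({g} : Set (SzG F s)) : Subgroup (SzG F s)) : Set (SzG F s)))
    (hc4 : c ^ 4 = 1) (hc2 : c * c ≠ 1) :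
    ∀ y ∈ Subgroup.normalizer
      ((Subgroup.centralizer ({g} : Set (SzG F s)) : Subgroup (SzG F s)) : Set (SzG F s)),
      ∃ v ∈ Subgroup.centralizer ({g} : Set (SzG F s)), ∃ i : ℕ, i < 4 ∧ y = v * c ^ i := by
  have hT := tor3_cent D hqr g (fpf_pow_four_ne D hf)
  have ho : orderOf c = 4 := order_four hc4 hc2
  let φ : Fin 4 × ↥(Subgroup.centralizer ({g} : Set (SzG F s))) →
      ↥(Subgroup.normalizer
        ((Subgroup.centralizer ({g} : Set (SzG F s)) : Subgroup (SzG F s)) : Set (SzG F s))) :=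
    fun p => ⟨(p.2 : SzG F s) * c ^ (p.1 : ℕ),
      mul_mem (Subgroup.le_normalizer p.2.2) (pow_mem hc _)⟩
  have hinj : Function.Injective φ := by
    rintro ⟨i, ⟨v, hv⟩⟩ ⟨j, ⟨v', hv'⟩⟩ h
    have h' : v * c ^ (i : ℕ) = v' * c ^ (j : ℕ) := congrArg Subtype.val h
    have hd : c ^ (j : ℕ) * (c ^ (i : ℕ))⁻¹ = v'⁻¹ * v := by
      calc c ^ (j : ℕ) * (c ^ (i : ℕ))⁻¹ = v'⁻¹ * (v' * c ^ (j : ℕ)) * (c ^ (i : ℕ))⁻¹ := by
            group
        _ = v'⁻¹ * (v * c ^ (i : ℕ)) * (c ^ (i : ℕ))⁻¹ := by rw [h']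
        _ = v'⁻¹ * v := by group
    have hdT : c ^ (j : ℕ) * (c ^ (i : ℕ))⁻¹ ∈ Subgroup.centralizer ({g} : Set (SzG F s)) := by
      rw [hd]; exact mul_mem (inv_mem hv') hv
    have hd4 : (c ^ (j : ℕ) * (c ^ (i : ℕ))⁻¹) ^ 4 = 1 := by
      have hz : c ^ (j : ℕ) * (c ^ (i : ℕ))⁻¹ ∈ Subgroup.zpowers c :=
        mul_mem (pow_mem (Subgroup.mem_zpowers c) _)
          (inv_mem (pow_mem (Subgroup.mem_zpowers c) _))
      have hdv := orderOf_dvd_of_mem_zpowers hz
      rw [ho] at hdv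
      exact orderOf_dvd_iff_pow_eq_one.mp hdv
    have hd1 : c ^ (j : ℕ) * (c ^ (i : ℕ))⁻¹ = 1 := by
      by_contra hne
      exact t3_two_not_mem D hqr hT hd4 hne hdT
    have hij : c ^ (j : ℕ) = c ^ (i : ℕ) := mul_inv_eq_one.mp hd1
    have hij' : (j : ℕ) = (i : ℕ) :=
      pow_injOn_Iio_orderOf (by rw [Set.mem_Iio, ho]; exact j.2)
        (by rw [Set.mem_Iio, ho]; exact i.2) hij
    have hij'' : i = j := Fin.ext hij'.symm
    subst hij''
    have hv_eq : v = v' := mul_right_cancel h'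
    subst hv_eq
    rfl
  have hle : Nat.card ↥(Subgroup.normalizer
        ((Subgroup.centralizer ({g} : Set (SzG F s)) : Subgroup (SzG F s)) : Set (SzG F s))) ≤
      Nat.card (Fin 4 × ↥(Subgroup.centralizer ({g} : Set (SzG F s)))) := by
    rw [Nat.card_prod, Nat.card_eq_fintype_card (α := Fin 4), Fintype.card_fin]
    exact norm_le D hf
  have hsurj := (hinj.bijective_of_nat_card_le hle).2
  intro y hy
  obtain ⟨⟨i, v⟩, hφ⟩ := hsurj ⟨y, hy⟩
  exact ⟨v, v.2, i, i.2, (congrArg Subtype.val hφ).symm⟩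

theorem t3_psi_inj (D : SzData F s) {r : ℕ} (hqr : Fintype.card F = 2 * r ^ 2)
    {T : Subgroup (SzG F s)} (hT : Tor3 s r T) {c : SzG F s}
    (hc : c ∈ Subgroup.normalizer (T : Set (SzG F s))) (hc4 : c ^ 4 = 1) (hc2 : c * c ≠ 1)
    {u u' : SzG F s} (hu : u ∈ T) (hu' : u' ∈ T)
    (h : u * (c * u * c⁻¹) = u' * (c * u' * c⁻¹)) : u = u' := by
  have hcu' : c * u' * c⁻¹ ∈ T := (Subgroup.mem_normalizer_iff.mp hc u').mp hu'
  have ht : c * c ∈ Subgroup.normalizer (T : Set (SzG F s)) := mul_mem hc hc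
  have ht2 : (c * c) * (c * c) = 1 := by
    rw [← pow4]; exact hc4
  have hwT : u'⁻¹ * u ∈ T := mul_mem (inv_mem hu') hu
  have E' : c * u * c⁻¹ = u⁻¹ * u' * (c * u' * c⁻¹) := by
    calc c * u * c⁻¹ = u⁻¹ * (u * (c * u * c⁻¹)) := by group
      _ = u⁻¹ * (u' * (c * u' * c⁻¹)) := by rw [h]
      _ = u⁻¹ * u' * (c * u' * c⁻¹) := by group
  have hcomm : (u⁻¹ * u') * (c * u' * c⁻¹) = (c * u' * c⁻¹) * (u⁻¹ * u') :=
    t3_comm hT _ (mul_mem (inv_mem hu) hu') _ hcu'
  have e1 : c * (u'⁻¹ * u) * c⁻¹ = (u'⁻¹ * u)⁻¹ := by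
    calc c * (u'⁻¹ * u) * c⁻¹ = (c * u' * c⁻¹)⁻¹ * (c * u * c⁻¹) := by group
      _ = (c * u' * c⁻¹)⁻¹ * (u⁻¹ * u' * (c * u' * c⁻¹)) := by rw [E']
      _ = (c * u' * c⁻¹)⁻¹ * ((c * u' * c⁻¹) * (u⁻¹ * u')) := by rw [hcomm]
      _ = (u'⁻¹ * u)⁻¹ := by group
  have hti : (c * c)⁻¹ = c * c := inv_eq_of_mul_eq_one_right ht2
  have e2 : (c * c) * (u'⁻¹ * u) * (c * c) = u'⁻¹ * u := by
    calc (c * c) * (u'⁻¹ * u) * (c * c) = (c * c) * (u'⁻¹ * u) * (c * c)⁻¹ := by rw [hti]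
      _ = c * (c * (u'⁻¹ * u) * c⁻¹) * c⁻¹ := by group
      _ = c * (u'⁻¹ * u)⁻¹ * c⁻¹ := by rw [e1]
      _ = (c * (u'⁻¹ * u) * c⁻¹)⁻¹ := by group
      _ = u'⁻¹ * u := by rw [e1, inv_inv]
  have e3 := t3_inverts D hqr hT ht ht2 hc2 _ hwT
  rw [e2] at e3
  have hw2 : (u'⁻¹ * u) * (u'⁻¹ * u) = 1 := by
    calc (u'⁻¹ * u) * (u'⁻¹ * u) = (u'⁻¹ * u) * (u'⁻¹ * u)⁻¹ := by rw [← e3]
      _ = 1 := mul_inv_cancel _
  have hw1 : u'⁻¹ * u = 1 := by
    by_contra hne
    exact t3_two_not_mem D hqr hT (sq_pow_four hw2) hne hwT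
  exact (inv_mul_eq_one.mp hw1).symm

/-- an involution of the normaliser of a non-split torus has exactly two square roots in it -/
theorem sq_roots (D : SzData F s) {r : ℕ} (hqr : Fintype.card F = 2 * r ^ 2)
    (h3 : ¬ 3 ∣ Nat.card (SzG F s)) {g : SzG F s} (hf : Fpf s (g : SL4 F)) {t' : SzG F s}
    (ht' : t' ∈ Subgroup.normalizer
      ((Subgroup.centralizer ({g} : Set (SzG F s)) : Subgroup (SzG F s)) : Set (SzG F s)))
    (ht'2 : t' * t' = 1) (ht'1 : t' ≠ 1) :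
    {y : SzG F s | y ∈ Subgroup.normalizer
      ((Subgroup.centralizer ({g} : Set (SzG F s)) : Subgroup (SzG F s)) : Set (SzG F s)) ∧
      y * y = t'}.ncard = 2 := by
  have hT := tor3_cent D hqr g (fpf_pow_four_ne D hf)
  have ht'T : t' ∉ Subgroup.centralizer ({g} : Set (SzG F s)) :=
    t3_two_not_mem D hqr hT (sq_pow_four ht'2) ht'1
  -- an element of order four
  obtain ⟨c, hc, hc4, hc2⟩ : ∃ c ∈ Subgroup.normalizer
      ((Subgroup.centralizer ({g} : Set (SzG F s)) : Subgroup (SzG F s)) : Set (SzG F s)),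
      c ^ 4 = 1 ∧ c * c ≠ 1 := by
    by_contra hno
    have hall : ∀ y ∈ Subgroup.normalizer
        ((Subgroup.centralizer ({g} : Set (SzG F s)) : Subgroup (SzG F s)) : Set (SzG F s)),
        y ∉ Subgroup.centralizer ({g} : Set (SzG F s)) → y * y = 1 := by
      intro y hy hyT
      by_contra h
      exact hno ⟨y, hy, t3_out_pow_four D hqr h3 hT hy hyT, h⟩
    have hmemT : ∀ y ∈ Subgroup.normalizer
        ((Subgroup.centralizer ({g} : Set (SzG F s)) : Subgroup (SzG F s)) : Set (SzG F s)),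
        y ∉ Subgroup.centralizer ({g} : Set (SzG F s)) →
        t' * y ∈ Subgroup.centralizer ({g} : Set (SzG F s)) := by
      intro y hy hyT
      have hy1 : y ≠ 1 := by rintro rfl; exact hyT (one_mem _)
      exact t3_inv_mul D hqr hT ht' ht'2 ht'1 hy (hall y hy hyT) hy1
    classical
    let ψ : ↥(Subgroup.normalizer
        ((Subgroup.centralizer ({g} : Set (SzG F s)) : Subgroup (SzG F s)) : Set (SzG F s))) →
        Bool × ↥(Subgroup.centralizer ({g} : Set (SzG F s))) := fun y =>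
      if h : (y : SzG F s) ∈ Subgroup.centralizer ({g} : Set (SzG F s)) then (false, ⟨y, h⟩)
      else (true, ⟨t' * y, hmemT y y.2 h⟩)
    have hψinj : Function.Injective ψ := by
      rintro ⟨y, hy⟩ ⟨y', hy'⟩ h
      by_cases h1 : y ∈ Subgroup.centralizer ({g} : Set (SzG F s)) <;>
        by_cases h2 : y' ∈ Subgroup.centralizer ({g} : Set (SzG F s))
      · simp only [ψ, dif_pos h1, dif_pos h2, Prod.mk.injEq, Subtype.mk.injEq, true_and] at h
        exact Subtype.ext h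
      · simp only [ψ, dif_pos h1, dif_neg h2, Prod.mk.injEq] at h
        exact absurd h.1 (by decide)
      · simp only [ψ, dif_neg h1, dif_pos h2, Prod.mk.injEq] at h
        exact absurd h.1 (by decide)
      · simp only [ψ, dif_neg h1, dif_neg h2, Prod.mk.injEq, Subtype.mk.injEq, true_and] at h
        exact Subtype.ext (mul_left_cancel h)
    have hle := Nat.card_le_card_of_injective ψ hψinj
    rw [Nat.card_prod, Nat.card_eq_fintype_card (α := Bool), Fintype.card_bool,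
      norm_card_four D hqr hf] at hle
    have hpos : 0 < Nat.card (Subgroup.centralizer ({g} : Set (SzG F s))) := Nat.card_pos
    omega
  have ht : c * c ∈ Subgroup.normalizer
      ((Subgroup.centralizer ({g} : Set (SzG F s)) : Subgroup (SzG F s)) : Set (SzG F s)) :=
    mul_mem hc hc
  have ht2 : (c * c) * (c * c) = 1 := by
    rw [← pow4]; exact hc4
  have hv₀ : t' * (c * c) ∈ Subgroup.centralizer ({g} : Set (SzG F s)) :=
    t3_inv_mul D hqr hT ht' ht'2 ht'1 ht ht2 hc2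
  let ψ : ↥(Subgroup.centralizer ({g} : Set (SzG F s))) →
      ↥(Subgroup.centralizer ({g} : Set (SzG F s))) := fun u =>
    ⟨(u : SzG F s) * (c * (u : SzG F s) * c⁻¹),
      mul_mem u.2 ((Subgroup.mem_normalizer_iff.mp hc _).mp u.2)⟩
  have hψinj : Function.Injective ψ := by
    rintro ⟨u, hu⟩ ⟨u', hu'⟩ h
    exact Subtype.ext (t3_psi_inj D hqr hT hc hc4 hc2 hu hu' (congrArg Subtype.val h))
  obtain ⟨⟨u₀, hu₀⟩, hu₀eq⟩ := (Finite.injective_iff_surjective.mp hψinj) ⟨t' * (c * c), hv₀⟩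
  have hu₀' : u₀ * (c * u₀ * c⁻¹) = t' * (c * c) := congrArg Subtype.val hu₀eq
  have hy₁' : (u₀ * c) * (u₀ * c) = t' := by
    calc (u₀ * c) * (u₀ * c) = (u₀ * (c * u₀ * c⁻¹)) * (c * c) := by group
      _ = t' * (c * c) * (c * c) := by rw [hu₀']
      _ = t' := by rw [mul_assoc, ht2, mul_one]
  have hy₁N' : u₀ * c ∈ Subgroup.normalizer
      ((Subgroup.centralizer ({g} : Set (SzG F s)) : Subgroup (SzG F s)) : Set (SzG F s)) :=
    mul_mem (Subgroup.le_normalizer hu₀) hc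
  obtain ⟨y₁, hy₁N, hy₁⟩ : ∃ y₁ ∈ Subgroup.normalizer
      ((Subgroup.centralizer ({g} : Set (SzG F s)) : Subgroup (SzG F s)) : Set (SzG F s)),
      y₁ * y₁ = t' := ⟨_, hy₁N', hy₁'⟩
  have hy₁4 : y₁ ^ 4 = 1 := by
    rw [pow4, hy₁, ht'2]
  have hy₁2 : y₁ * y₁ ≠ 1 := by rw [hy₁]; exact ht'1
  have hy₁3 : y₁ ^ 3 * y₁ ^ 3 = t' := by
    calc y₁ ^ 3 * y₁ ^ 3 = y₁ ^ 4 * (y₁ * y₁) := by group
      _ = t' := by rw [hy₁4, one_mul, hy₁]
  have hy₁34 : (y₁ ^ 3) ^ 4 = 1 := by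
    calc (y₁ ^ 3) ^ 4 = (y₁ ^ 4) ^ 3 := by group
      _ = 1 := by rw [hy₁4, one_pow]
  have key : ∀ c' : SzG F s, c' ∈ Subgroup.normalizer
      ((Subgroup.centralizer ({g} : Set (SzG F s)) : Subgroup (SzG F s)) : Set (SzG F s)) →
      c' ^ 4 = 1 → c' * c' = t' → ∀ v ∈ Subgroup.centralizer ({g} : Set (SzG F s)),
      (v * c') * (v * c') = t' → v = 1 := by
    intro c' hc' hc'4 hc'2 v hv hsq
    have h1 : (v * (c' * v * c'⁻¹)) * (c' * c') = 1 * (c' * c') := by
      calc (v * (c' * v * c'⁻¹)) * (c' * c') = (v * c') * (v * c') := by group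
        _ = t' := hsq
        _ = 1 * (c' * c') := by rw [one_mul, hc'2]
    have h2 : v * (c' * v * c'⁻¹) = 1 * (c' * 1 * c'⁻¹) := by
      rw [mul_right_cancel h1]; group
    exact t3_psi_inj D hqr hT hc' hc'4 (by rw [hc'2]; exact ht'1) hv (one_mem _) h2
  have hset : {y : SzG F s | y ∈ Subgroup.normalizer
      ((Subgroup.centralizer ({g} : Set (SzG F s)) : Subgroup (SzG F s)) : Set (SzG F s)) ∧
      y * y = t'} = {y₁, y₁ ^ 3} := by
    ext y
    constructor
    · rintro ⟨hy, hyy⟩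
      obtain ⟨v, hv, i, hi, rfl⟩ := norm_cosets D hqr hf hy₁N hy₁4 hy₁2 y hy
      interval_cases i
      · exfalso
        rw [pow_zero, mul_one] at hyy
        apply ht'T
        rw [← hyy]
        exact mul_mem hv hv
      · rw [pow_one] at hyy
        have hv1 := key y₁ hy₁N hy₁4 hy₁ v hv hyy
        rw [hv1, one_mul, pow_one]
        exact Or.inl rfl
      · exfalso
        rw [pow_two, hy₁] at hyy
        rw [t3_inv_sq D hqr hT ht' ht'2 ht'1 hv] at hyy
        exact ht'1 hyy.symm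
      · have hv1 := key (y₁ ^ 3) (pow_mem hy₁N 3) hy₁34 hy₁3 v hv hyy
        rw [hv1, one_mul]
        exact Or.inr rfl
    · rintro (rfl | rfl)
      · exact ⟨hy₁N, hy₁⟩
      · exact ⟨pow_mem hy₁N 3, hy₁3⟩
  rw [hset, Set.ncard_pair]
  intro h
  apply hy₁2
  have h' : 1 * y₁ = (y₁ * y₁) * y₁ := by
    rw [one_mul]
    calc y₁ = y₁ ^ 3 := h
      _ = (y₁ * y₁) * y₁ := by rw [pow_succ, pow_two]
  exact (mul_right_cancel h').symm

/-! ### split tori -/

theorem norm_torus (D : SzData F s) {c : Fˣ} (hc : c ≠ 1) {y : SzG F s}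
    (h : ∃ c' : Fˣ, y * hG D c * y⁻¹ = hG D c') :
    (∃ c'' : Fˣ, y = hG D c'') ∨ (∃ c'' : Fˣ, y = wG D * hG D c'') := by
  obtain ⟨c', hc'⟩ := h
  have hc'1 : c' ≠ 1 := by
    rintro rfl
    rw [map_one] at hc'
    have h1 := conj_eq_one_iff.mp hc'
    exact hc ((hG_inj D) (by rw [h1, map_one]))
  have hfix : ∀ p : Projectivization F (Fin 4 → F), hG D c • p = p →
      hG D c' • (y • p) = y • p := by
    intro p hp
    rw [← hc', mul_smul, mul_smul, inv_smul_smul, hp]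
  have h1 := torusFixG D hc'1 (smul_ov y inf_mem) (hfix _ (hG_inf D c))
  have h2 := torusFixG D hc'1 (smul_ov y (zero_mem D)) (hfix _ (hG_zero D c))
  have hne : y • Pinf F ≠ y • P0 F := fun h => P0_ne_inf (MulAction.injective y h).symm
  rcases h1 with h1 | h1
  · rcases h2 with h2 | h2
    · exact absurd (h1.trans h2.symm) hne
    · left; exact stab2G D y h1 h2
  · rcases h2 with h2 | h2
    · right; exact swapG D y h1 h2
    · exact absurd (h1.trans h2.symm) hne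

theorem w_sq (D : SzData F s) (c : Fˣ) : (wG D * hG D c) * (wG D * hG D c) = 1 := by
  calc (wG D * hG D c) * (wG D * hG D c) = (wG D * hG D c * wG D) * hG D c := by group
    _ = 1 := by rw [wG_hG, ← map_mul, inv_mul_cancel, map_one]

/-- squares of elements normalising a split torus lie in the torus -/
theorem split_sq_mem (D : SzData F s) {u : SzG F s} (hu4 : u ^ 4 ≠ 1)
    (hnf : ¬ Fpf s (u : SL4 F)) {y : SzG F s}
    (hy : y ∈ Subgroup.normalizer
      ((Subgroup.centralizer ({u} : Set (SzG F s)) : Subgroup (SzG F s)) : Set (SzG F s))) :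
    y * y ∈ Subgroup.centralizer ({u} : Set (SzG F s)) := by
  have hu1 : u ≠ 1 := by rintro rfl; exact hu4 (one_pow 4)
  obtain ⟨a, ha, hfix⟩ : ∃ a ∈ ov F s, u • a = a := by
    by_contra h
    apply hnf
    intro a ha hfix
    exact h ⟨a, ha, hfix⟩
  obtain ⟨k, h | ⟨c, hc⟩⟩ := fixCasesG D u ha hfix
  · exfalso
    obtain ⟨a', b', hk⟩ := h
    apply hu4
    have h4 : (k * u * k⁻¹) ^ 4 = 1 := by rw [hk]; exact tG_pow_four D a' b'
    rw [conj_pow] at h4
    exact conj_eq_one_iff.mp h4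
  · have hc1 : c ≠ 1 := by
      rintro rfl
      rw [map_one] at hc
      exact hu1 (conj_eq_one_iff.mp hc)
    have hCeq := cent_hconj D k hc1 u hc
    have hmem : ∀ e : SzG F s, e ∈ Subgroup.centralizer ({u} : Set (SzG F s)) ↔
        ∃ c' : Fˣ, k * e * k⁻¹ = hG D c' := by
      intro e
      rw [hCeq]
      show (k * e * k⁻¹) ∈ (hG D).range ↔ _
      constructor
      · rintro ⟨c', hc'⟩; exact ⟨c', hc'.symm⟩
      · rintro ⟨c', hc'⟩; exact ⟨c', hc'.symm⟩
    have huT : u ∈ Subgroup.centralizer ({u} : Set (SzG F s)) :=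
      Subgroup.mem_centralizer_singleton_iff.mpr rfl
    have h1 : y * u * y⁻¹ ∈ Subgroup.centralizer ({u} : Set (SzG F s)) :=
      (Subgroup.mem_normalizer_iff.mp hy u).mp huT
    obtain ⟨c', hc'⟩ := (hmem _).mp h1
    have h2 : (k * y * k⁻¹) * hG D c * (k * y * k⁻¹)⁻¹ = hG D c' := by
      rw [← hc', ← hc]; group
    rw [hmem]
    rcases norm_torus D hc1 ⟨c', h2⟩ with ⟨c'', h3⟩ | ⟨c'', h3⟩
    · refine ⟨c'' * c'', ?_⟩
      calc k * (y * y) * k⁻¹ = (k * y * k⁻¹) * (k * y * k⁻¹) := by group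
        _ = hG D (c'' * c'') := by rw [h3, map_mul]
    · refine ⟨1, ?_⟩
      calc k * (y * y) * k⁻¹ = (k * y * k⁻¹) * (k * y * k⁻¹) := by group
        _ = hG D 1 := by rw [h3, w_sq, map_one]

end Cfsg.Agent.Helper6.SzSol
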