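import Mathlib
import Cfsg.Agent.Helper6.SzSol1

set_option autoImplicit false

/-!
Solubilizers in the Suzuki groups, part 2: two elements of `Sz(q)`, `q = 2^(2m+1)` with `2m+1`
prime, generate a solvable subgroup iff they fix a common point of the ovoid or normalise a common
cyclic self-centralising subgroup.
-/

namespace Cfsg.Agent.Helper6.SzSol

open Matrix Cfsg.Agent.Helper6.Sz Cfsg.Agent.Helper6.SzOut Cfsg.Agent.Helper6.SzSub
  Cfsg.Agent.Helper6.SzSg Cfsg.Agent.Helper6.SzFix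
open scoped Pointwise

variable {F : Type*} [Field F] [Fintype F] {s : ℕ}

theorem tor3_conj_back {r : ℕ} (g : SzG F s) (M T : Subgroup (SzG F s)) (hT : Tor3 s r T)
    (hM : M.map (MulAut.conj g).toMonoidHom ≤ Subgroup.normalizer (T : Set (SzG F s))) :
    ∃ T' : Subgroup (SzG F s), Tor3 s r T' ∧
      M ≤ Subgroup.normalizer (T' : Set (SzG F s)) := by
  have hmem : ∀ y : SzG F s, y ∈ T.map (MulAut.conj g⁻¹).toMonoidHom ↔ g * y * g⁻¹ ∈ T := by
    intro y
    constructor
    · rintro ⟨t', ht', rfl⟩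
      show g * (g⁻¹ * t' * g⁻¹⁻¹) * g⁻¹ ∈ T
      have e : g * (g⁻¹ * t' * g⁻¹⁻¹) * g⁻¹ = t' := by group
      rw [e]; exact ht'
    · intro h
      exact ⟨g * y * g⁻¹, h, by show g⁻¹ * (g * y * g⁻¹) * g⁻¹⁻¹ = y; group⟩
  have hcard : Nat.card (T.map (MulAut.conj g⁻¹).toMonoidHom) = Nat.card T :=
    (Nat.card_congr (T.equivMapOfInjective _ (MulAut.conj g⁻¹).injective).toEquiv).symm
  refine ⟨T.map (MulAut.conj g⁻¹).toMonoidHom, ⟨?_, ?_, ?_⟩, ?_⟩
  · haveI := hT.1
    exact isCyclic_of_surjective ((MulAut.conj g⁻¹).toMonoidHom.subgroupMap T)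
      ((MulAut.conj g⁻¹).toMonoidHom.subgroupMap_surjective T)
  · rw [hcard]; exact hT.2.1
  · intro u hu hu1
    have hu' := (hmem u).mp hu
    have hu1' : g * u * g⁻¹ ≠ 1 := fun h => hu1 (conj_eq_one_iff.mp h)
    have hC := hT.2.2 _ hu' hu1'
    ext e
    rw [hmem, ← hC]
    exact GrpClass.cent_conj_iff g e u
  · intro x hx
    have h1 : g * x * g⁻¹ ∈ Subgroup.normalizer (T : Set (SzG F s)) := hM ⟨x, hx, rfl⟩
    rw [Subgroup.mem_set_normalizer_iff] at h1 ⊢
    intro t
    show t ∈ T.map (MulAut.conj g⁻¹).toMonoidHom ↔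
      x * t * x⁻¹ ∈ T.map (MulAut.conj g⁻¹).toMonoidHom
    rw [hmem, hmem]
    have h2 := h1 (g * t * g⁻¹)
    have e : g * x * g⁻¹ * (g * t * g⁻¹) * (g * x * g⁻¹)⁻¹ = g * (x * t * x⁻¹) * g⁻¹ := by
      group
    rw [e] at h2
    exact h2

/-- every proper subgroup fixes a point of the ovoid or normalises a cyclic self-centralising
subgroup, unless there is a proper subfield -/
theorem sub_refined {m : ℕ} (hm : 1 ≤ m) (hF : Fintype.card F = 2 ^ (2 * m + 1))
    (M : Subgroup (SzG F (2 ^ (m + 1)))) (hM : M ≠ ⊤) :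
    (∃ a ∈ ov F (2 ^ (m + 1)), ∀ g ∈ M, g • a = a) ∨
    (∃ T : Subgroup (SzG F (2 ^ (m + 1))), Tor3 (2 ^ (m + 1)) (2 ^ m) T ∧
      M ≤ Subgroup.normalizer (T : Set (SzG F (2 ^ (m + 1))))) ∨
    (∃ k : ℕ, 1 ≤ k ∧ k < m ∧ 2 * k + 1 ∣ 2 * m + 1) := by
  have D := szData hm hF
  have hqr : Fintype.card F = 2 * (2 ^ m) ^ 2 := by rw [hF]; ring
  have h3 := three_not_dvd hF D
  by_cases hfixpt : ∃ a ∈ ov F (2 ^ (m + 1)), ∀ g ∈ M, g • a = a
  · exact Or.inl hfixpt
  right
  have hmove : ∀ a ∈ ov F (2 ^ (m + 1)), ∃ g ∈ M, g • a ≠ a := by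
    intro a ha
    by_contra hcon
    apply hfixpt
    refine ⟨a, ha, fun g hg => ?_⟩
    by_contra hne
    exact hcon ⟨g, hg, hne⟩
  by_cases heven : 2 ∣ Nat.card M
  · obtain ⟨k', t, htM, b, hb0, hkt'⟩ := exists_inv_conj D M heven
    have hbM' : tG D 0 b ∈ M.map (MulAut.conj k').toMonoidHom := ⟨t, htM, hkt'⟩
    obtain ⟨g, hg, hgp⟩ := hmove (k'⁻¹ • Pinf F) (smul_ov k'⁻¹ inf_mem)
    have hg' : k' * g * k'⁻¹ ∈ M.map (MulAut.conj k').toMonoidHom := ⟨g, hg, rfl⟩
    have hgp' : (k' * g * k'⁻¹) • Pinf F ≠ Pinf F := by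
      intro h
      apply hgp
      rw [mul_smul, mul_smul, ← eq_inv_smul_iff] at h
      exact h
    by_cases huniq : ∀ z : F, z ≠ 0 → tG D 0 z ∈ M.map (MulAut.conj k').toMonoidHom → z = b
    · left
      obtain ⟨T, hT, hTle⟩ := uniq_case D hqr h3 (M.map (MulAut.conj k').toMonoidHom) hb0 hbM'
        huniq ⟨_, hg', hgp'⟩
      exact tor3_conj_back k' M T hT hTle
    · right
      obtain ⟨z, hz⟩ := not_forall.mp huniq
      obtain ⟨hz0, hz'⟩ := Classical.not_imp.mp hz
      obtain ⟨hzM', hzb⟩ := Classical.not_imp.mp hz'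
      obtain ⟨k₂, hN⟩ := nrm_reduce D (M.map (MulAut.conj k').toMonoidHom) hb0 hz0
        (Ne.symm hzb) hbM' hzM' hg' hgp'
      have hM'' := map_conj_ne_top k₂ _ (map_conj_ne_top k' M hM)
      obtain ⟨K, iK, iK', k, hk1, hkm, hK, hdiv, S, ⟨e⟩, hS⟩ := nrm_main hF D hN hM''
      exact ⟨k, hk1, hkm, hdiv⟩
  · left
    have hMbot : M ≠ ⊥ := by
      intro hbot
      obtain ⟨g, hg, hgp⟩ := hmove (Pinf F) inf_mem
      rw [hbot, Subgroup.mem_bot] at hg
      rw [hg, one_smul] at hgp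
      exact hgp rfl
    exact tor_of_odd_normal D hqr h3 M M heven hMbot
      (fun g hg x hx => mul_mem (mul_mem hg hx) (inv_mem hg))

/-! ### solvability of the point stabilisers and of the torus normalisers -/

theorem borel_c_unique (D : SzData F s) {a b a' b' : F} {c c' : Fˣ}
    (h : tG D a b * hG D c = tG D a' b' * hG D c') : c = c' := by
  have h1 : (tG D a b * hG D c) • P0 F = (tG D a' b' * hG D c') • P0 F := by rw [h]
  rw [mul_smul, mul_smul, hG_zero, hG_zero, tG_zero', tG_zero'] at h1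
  obtain ⟨rfl, rfl⟩ := Paff_inj h1
  exact hG_inj D (mul_left_cancel h)

theorem borel_mul (D : SzData F s) (a b a' b' : F) (c c' : Fˣ) :
    ∃ a'' b'' : F, (tG D a b * hG D c) * (tG D a' b' * hG D c') =
      tG D a'' b'' * hG D (c * c') := by
  have e := hG_conj_tG D c a' b'
  refine ⟨a + (c : F) ^ 2 * a', b + (c : F) ^ (2 * s + 2) * b' + a ^ s * ((c : F) ^ 2 * a'), ?_⟩
  calc (tG D a b * hG D c) * (tG D a' b' * hG D c')
      = tG D a b * (hG D c * tG D a' b' * (hG D c)⁻¹) * (hG D c * hG D c') := by group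
    _ = tG D (a + (c : F) ^ 2 * a') (b + (c : F) ^ (2 * s + 2) * b' + a ^ s * ((c : F) ^ 2 * a')) *
        hG D (c * c') := by rw [e, tG_mul, map_mul]

theorem stabC (D : SzData F s) (g : SzG F s) (h : g • Pinf F = Pinf F) :
    ∃ c : Fˣ, ∃ a b : F, g = tG D a b * hG D c := by
  obtain ⟨a, b, c, hg⟩ := stabG D g h
  exact ⟨c, a, b, hg⟩

theorem exists_kap (D : SzData F s) :
    ∃ κ : MulAction.stabilizer (SzG F s) (Pinf F) →* Fˣ,
      ∀ g : MulAction.stabilizer (SzG F s) (Pinf F),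
        ∃ a b : F, (g : SzG F s) = tG D a b * hG D (κ g) := by
  choose c hc using fun g : MulAction.stabilizer (SzG F s) (Pinf F) => stabC D g.1 g.2
  refine ⟨⟨⟨c, ?_⟩, ?_⟩, hc⟩
  · obtain ⟨a, b, hab⟩ := hc 1
    have h1 : tG D a b * hG D (c 1) = tG D 0 0 * hG D 1 := by
      rw [← hab, tG_zero_zero, map_one, mul_one]; rfl
    exact borel_c_unique D h1
  · intro g₁ g₂
    obtain ⟨a₁, b₁, h₁⟩ := hc g₁
    obtain ⟨a₂, b₂, h₂⟩ := hc g₂
    obtain ⟨a₃, b₃, h₃⟩ := hc (g₁ * g₂)
    obtain ⟨a₄, b₄, h₄⟩ := borel_mul D a₁ b₁ a₂ b₂ (c g₁) (c g₂)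
    have h5 : tG D a₃ b₃ * hG D (c (g₁ * g₂)) = tG D a₄ b₄ * hG D (c g₁ * c g₂) := by
      rw [← h₃, ← h₄, ← h₁, ← h₂]; rfl
    exact borel_c_unique D h5

theorem solvable_stab_inf (D : SzData F s) :
    Group.IsSolvable (MulAction.stabilizer (SzG F s) (Pinf F)) := by
  obtain ⟨κ, hκ⟩ := exists_kap D
  haveI : Fact (Nat.Prime 2) := ⟨Nat.prime_two⟩
  have hp : IsPGroup 2 κ.ker := by
    intro g
    refine ⟨2, ?_⟩
    obtain ⟨a, b, hab⟩ := hκ (g : MulAction.stabilizer (SzG F s) (Pinf F))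
    have hg1 : κ (g : MulAction.stabilizer (SzG F s) (Pinf F)) = 1 := g.2
    rw [hg1, map_one, mul_one] at hab
    apply Subtype.ext
    apply Subtype.ext
    rw [Subgroup.coe_pow, Subgroup.coe_pow, Subgroup.coe_one, Subgroup.coe_one, hab]
    exact tG_pow_four D a b
  haveI : Group.IsNilpotent κ.ker := hp.isNilpotent
  exact Group.isSolvable_of_ker_le_range κ.ker.subtype κ (by rw [Subgroup.range_subtype])

theorem solvable_stab (D : SzData F s) {p : Projectivization F (Fin 4 → F)} (hp : p ∈ ov F s) :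
    Group.IsSolvable (MulAction.stabilizer (SzG F s) p) := by
  obtain ⟨k, hk, hkp⟩ := exists_to_inf D hp
  haveI := solvable_stab_inf D
  have hK : (⟨k, hk⟩ : SzG F s) • p = Pinf F := hkp
  generalize (⟨k, hk⟩ : SzG F s) = K at hK
  let f : MulAction.stabilizer (SzG F s) p →* MulAction.stabilizer (SzG F s) (Pinf F) :=
    ((MulAut.conj K).toMonoidHom.comp (MulAction.stabilizer (SzG F s) p).subtype).codRestrict
      (MulAction.stabilizer (SzG F s) (Pinf F)) (by
        intro g
        show (K * (g : SzG F s) * K⁻¹) • Pinf F = Pinf F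
        have hg : (g : SzG F s) • p = p := g.2
        rw [← hK, mul_smul, mul_smul, inv_smul_smul, hg])
  have hinj : Function.Injective f := by
    intro a b h
    have h' : K * (a : SzG F s) * K⁻¹ = K * (b : SzG F s) * K⁻¹ := congrArg Subtype.val h
    exact Subtype.ext (mul_left_cancel (mul_right_cancel h'))
  exact Group.isSolvable_of_isSolvable_injective hinj

theorem solvable_norm (D : SzData F s) {r : ℕ} (hqr : Fintype.card F = 2 * r ^ 2)
    {T : Subgroup (SzG F s)} (hT : Tor3 s r T) :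
    Group.IsSolvable (Subgroup.normalizer (T : Set (SzG F s))) := by
  obtain ⟨u, hu, hu1⟩ := t3_ne_one D hqr hT
  haveI hcyc : IsCyclic (T.subgroupOf (Subgroup.normalizer (T : Set (SzG F s)))) := by
    haveI := hT.1
    exact isCyclic_of_surjective
      (Subgroup.subgroupOfEquivOfLe (Subgroup.le_normalizer (H := T))).symm.toMonoidHom
      (Subgroup.subgroupOfEquivOfLe (Subgroup.le_normalizer (H := T))).symm.surjective
  haveI hsolA : Group.IsSolvable
      (MulAut (T.subgroupOf (Subgroup.normalizer (T : Set (SzG F s))))) :=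
    Group.isSolvable_of_isSolvable_injective
      (f := (IsCyclic.mulAutMulEquiv
        (T.subgroupOf (Subgroup.normalizer (T : Set (SzG F s))))).toMonoidHom)
      (MulEquiv.injective _)
  let φ : Subgroup.normalizer (T : Set (SzG F s)) →*
      MulAut (T.subgroupOf (Subgroup.normalizer (T : Set (SzG F s)))) := MulAut.conjNormal
  have hcent : ∀ z : SzG F s, z * u * z⁻¹ = u → z ∈ T := by
    intro z hz
    rw [← hT.2.2 u hu hu1, Subgroup.mem_centralizer_singleton_iff]
    calc z * u = (z * u * z⁻¹) * z := by group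
      _ = u * z := by rw [hz]
  have hker : ∀ a : φ.ker, ((a : Subgroup.normalizer (T : Set (SzG F s))) : SzG F s) ∈ T := by
    intro a
    have ha : φ (a : Subgroup.normalizer (T : Set (SzG F s))) = 1 := a.2
    have h1 := congrArg (fun ψ : MulAut (T.subgroupOf (Subgroup.normalizer (T : Set (SzG F s)))) =>
      ((ψ ⟨⟨u, Subgroup.le_normalizer hu⟩, hu⟩ :
        T.subgroupOf (Subgroup.normalizer (T : Set (SzG F s)))) :
        Subgroup.normalizer (T : Set (SzG F s)))) ha
    have h2 : ((a : Subgroup.normalizer (T : Set (SzG F s))) : SzG F s) * u *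
        ((a : Subgroup.normalizer (T : Set (SzG F s))) : SzG F s)⁻¹ = u := by
      have h3 := congrArg (fun z : Subgroup.normalizer (T : Set (SzG F s)) => (z : SzG F s)) h1
      simpa [φ, MulAut.conjNormal_apply] using h3
    exact hcent _ h2
  haveI hsolK : Group.IsSolvable φ.ker := by
    apply Group.isSolvable_of_comm
    intro a b
    apply Subtype.ext
    apply Subtype.ext
    exact t3_comm hT _ (hker a) _ (hker b)
  exact Group.isSolvable_of_ker_le_range φ.ker.subtype φ (by rw [Subgroup.range_subtype])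

/-! ### the criterion -/

/-- two elements fix a common point of the ovoid or normalise a common cyclic self-centralising
subgroup -/
def Good (s r : ℕ) (x y : SzG F s) : Prop :=
  (∃ p ∈ ov F s, x • p = p ∧ y • p = p) ∨
  (∃ T : Subgroup (SzG F s), Tor3 s r T ∧ x ∈ Subgroup.normalizer (T : Set (SzG F s)) ∧
    y ∈ Subgroup.normalizer (T : Set (SzG F s)))

theorem solvable_iff_good {m : ℕ} (hm : 1 ≤ m) (hp : (2 * m + 1).Prime)
    (hF : Fintype.card F = 2 ^ (2 * m + 1)) (x y : SzG F (2 ^ (m + 1))) :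
    Group.IsSolvable (Subgroup.closure ({x, y} : Set (SzG F (2 ^ (m + 1))))) ↔
      Good (2 ^ (m + 1)) (2 ^ m) x y := by
  have D := szData hm hF
  have hqr : Fintype.card F = 2 * (2 ^ m) ^ 2 := by rw [hF]; ring
  constructor
  · intro hsol
    have hne : Subgroup.closure ({x, y} : Set (SzG F (2 ^ (m + 1)))) ≠ ⊤ := by
      intro htop
      haveI : Group.IsSolvable (⊤ : Subgroup (SzG F (2 ^ (m + 1)))) := by
        rw [← htop]; exact hsol
      have hG : Group.IsSolvable (SzG F (2 ^ (m + 1))) :=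
        Group.isSolvable_of_surjective (f := (⊤ : Subgroup (SzG F (2 ^ (m + 1)))).subtype)
          (fun g => ⟨⟨g, Subgroup.mem_top g⟩, rfl⟩)
      haveI := simple D
      have hcomm := IsSimpleGroup.comm_iff_isSolvable.mpr hG
      obtain ⟨ε, hε0, hε1⟩ := D.exists_ne
      have h1 := hcomm (tG D 1 0) (tG D ε 0)
      rw [tG_mul, tG_mul] at h1
      have h2 := (tG_inj D h1).2
      rw [one_pow, one_mul, mul_one, zero_add, zero_add, zero_add] at h2
      exact D.pow_ne_self hε0 hε1 h2.symm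
    have hxm : x ∈ Subgroup.closure ({x, y} : Set (SzG F (2 ^ (m + 1)))) :=
      Subgroup.subset_closure (Set.mem_insert _ _)
    have hym : y ∈ Subgroup.closure ({x, y} : Set (SzG F (2 ^ (m + 1)))) :=
      Subgroup.subset_closure (Set.mem_insert_of_mem _ rfl)
    rcases sub_refined hm hF _ hne with ⟨a, ha, hfix⟩ | ⟨T, hT, hle⟩ | ⟨k, hk1, hkm, hdiv⟩
    · exact Or.inl ⟨a, ha, hfix x hxm, hfix y hym⟩
    · exact Or.inr ⟨T, hT, hle hxm, hle hym⟩
    · exfalso
      rcases (Nat.dvd_prime hp).mp hdiv with h | h <;> omega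
  · rintro (⟨p, hp', hx, hy⟩ | ⟨T, hT, hx, hy⟩)
    · haveI := solvable_stab D hp'
      have hle : Subgroup.closure ({x, y} : Set (SzG F (2 ^ (m + 1)))) ≤
          MulAction.stabilizer (SzG F (2 ^ (m + 1))) p := by
        rw [Subgroup.closure_le]
        rintro z (rfl | rfl)
        · exact hx
        · exact hy
      exact Group.isSolvable_of_isSolvable_injective (Subgroup.inclusion_injective hle)
    · haveI := solvable_norm D hqr hT
      have hle : Subgroup.closure ({x, y} : Set (SzG F (2 ^ (m + 1)))) ≤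
          Subgroup.normalizer (T : Set (SzG F (2 ^ (m + 1)))) := by
        rw [Subgroup.closure_le]
        rintro z (rfl | rfl)
        · exact hx
        · exact hy
      exact Group.isSolvable_of_isSolvable_injective (Subgroup.inclusion_injective hle)

end Cfsg.Agent.Helper6.SzSol
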