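import Mathlib
import Cfsg.Agent.Helper6.SzSol2

set_option autoImplicit false

/-!
Solubilizers in the Suzuki groups, part 3: counting involutions according to the type of their
product with a fixed involution, and an additive Hilbert 90 statement.
-/

namespace Cfsg.Agent.Helper6.SzSol

open Matrix Cfsg.Agent.Helper6.Sz Cfsg.Agent.Helper6.SzOut Cfsg.Agent.Helper6.SzSub
  Cfsg.Agent.Helper6.SzSg Cfsg.Agent.Helper6.SzFix
open scoped Pointwise

variable {F : Type*} [Field F] [Fintype F] {s : ℕ}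

theorem inv_at_inf (D : SzData F s) {e : SzG F s} (he2 : e * e = 1)
    (hinf : e • Pinf F = Pinf F) : ∃ z : F, e = tG D 0 z := by
  obtain ⟨a, b, c, rfl⟩ := stabG D e hinf
  obtain ⟨a'', b'', h⟩ := borel_mul D a b a b c c
  rw [he2] at h
  have h1 : tG D a'' b'' * hG D (c * c) = tG D 0 0 * hG D 1 := by
    rw [← h, tG_zero_zero, map_one, mul_one]
  have hcc : c * c = 1 := borel_c_unique D h1
  have hc : c = 1 := D.unit_two_pow 1 c (by rw [pow_one, pow_two]; exact hcc)
  rw [hc, map_one, mul_one] at he2 ⊢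
  rw [tG_sq] at he2
  have ha0 : a = 0 := (pow_eq_zero_iff (by omega : s + 1 ≠ 0)).mp (tG_eq_one D he2).2
  exact ⟨b, by rw [ha0]⟩

theorem inv_conj (D : SzData F s) {x' : SzG F s} (h2 : x' * x' = 1) (h1 : x' ≠ 1) :
    ∃ K : SzG F s, ∃ b : F, b ≠ 0 ∧ K * x' * K⁻¹ = tG D 0 b := by
  have hpow : x' ^ 2 ^ 1 = 1 := by rw [pow_one, pow_two]; exact h2
  obtain ⟨K, a, b, hab, hK⟩ := two_conj D hpow h1
  have hsq : tG D a b * tG D a b = 1 := by
    rw [← hK]
    calc K * x' * K⁻¹ * (K * x' * K⁻¹) = K * (x' * x') * K⁻¹ := by group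
      _ = 1 := by rw [h2]; group
  rw [tG_sq] at hsq
  have ha0 : a = 0 := (pow_eq_zero_iff (by omega : s + 1 ≠ 0)).mp (tG_eq_one D hsq).2
  rw [ha0] at hK
  exact ⟨K, b, fun h => hab ⟨ha0, h⟩, hK⟩

theorem inv_only (D : SzData F s) {K x' : SzG F s} {b : F} (hb : b ≠ 0)
    (hK : K * x' * K⁻¹ = tG D 0 b) {q : Projectivization F (Fin 4 → F)} (hq : q ∈ ov F s)
    (h : x' • q = q) : q = K⁻¹ • Pinf F := by
  have h1 : tG D 0 b • (K • q) = K • q := by
    rw [← hK, mul_smul, mul_smul, inv_smul_smul, h]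
  have h2 := unipFixG D (fun hh => hb hh.2) (smul_ov K hq) h1
  rw [← h2, inv_smul_smul]

theorem inv_fixes (D : SzData F s) {K x' : SzG F s} {b : F} (hK : K * x' * K⁻¹ = tG D 0 b) :
    x' • (K⁻¹ • Pinf F) = K⁻¹ • Pinf F := by
  have e : x' = K⁻¹ * tG D 0 b * K := by rw [← hK]; group
  rw [e, mul_smul, mul_smul, smul_inv_smul, tG_inf]

theorem odd_four {G : Type*} [Group G] {u : G} (ho : ¬ 2 ∣ orderOf u) (hu1 : u ≠ 1) :
    u ^ 4 ≠ 1 := by
  intro h
  have hd : orderOf u ∣ 4 := orderOf_dvd_of_pow_eq_one h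
  have h2c : Nat.Coprime 2 (orderOf u) := (Nat.Prime.coprime_iff_not_dvd Nat.prime_two).mpr ho
  have h4c : Nat.Coprime (2 ^ 2) (orderOf u) := Nat.Coprime.pow_left 2 h2c
  have h1 : orderOf u = 1 := (Nat.coprime_comm.mp h4c).eq_one_of_dvd hd
  exact hu1 (orderOf_eq_one_iff.mp h1)

/-- the product of a central involution at `∞` with an involution not fixing `∞` -/
theorem prod_facts (D : SzData F s) {z : F} (hz : z ≠ 0) {x' : SzG F s} (h2 : x' * x' = 1)
    (hinf : x' • Pinf F ≠ Pinf F) :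
    (tG D 0 z * x') ^ 4 ≠ 1 ∧ ¬ 2 ∣ orderOf (tG D 0 z * x') ∧
    tG D 0 z ∈ Subgroup.normalizer
      ((Subgroup.centralizer ({tG D 0 z * x'} : Set (SzG F s)) : Subgroup (SzG F s)) :
        Set (SzG F s)) ∧
    x' ∈ Subgroup.normalizer
      ((Subgroup.centralizer ({tG D 0 z * x'} : Set (SzG F s)) : Subgroup (SzG F s)) :
        Set (SzG F s)) := by
  have hx1 : x' ≠ 1 := by rintro rfl; exact hinf (one_smul _ _)
  obtain ⟨K, b, hb, hK⟩ := inv_conj D h2 hx1
  have hp : K⁻¹ • Pinf F ∈ ov F s := smul_ov K⁻¹ inf_mem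
  have hfix := inv_fixes D hK
  have hp1 : K⁻¹ • Pinf F ≠ Pinf F := by
    intro h
    rw [h] at hfix
    exact hinf hfix
  have hodd := odd_prod D hz x' h2 hp hp1 hfix (fun q hq h => inv_only D hb hK hq h)
  have ht2 : tG D 0 z * tG D 0 z = 1 := tG_zero_sq D z
  have hti : (tG D 0 z)⁻¹ = tG D 0 z := inv_eq_of_mul_eq_one_right ht2
  have hxi : x'⁻¹ = x' := inv_eq_of_mul_eq_one_right h2
  have hu1 : tG D 0 z * x' ≠ 1 := by
    intro h
    have hxt : x' = tG D 0 z := by
      rw [← hti]; exact eq_inv_of_mul_eq_one_right h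
    rw [hxt] at hinf
    exact hinf (tG_inf D 0 z)
  have hinv : (tG D 0 z * x')⁻¹ = x' * tG D 0 z := by rw [_root_.mul_inv_rev, hti, hxi]
  refine ⟨odd_four hodd hu1, hodd, ?_, ?_⟩
  · apply normalizes_cent
    have e : tG D 0 z * (tG D 0 z * x') * (tG D 0 z)⁻¹ = (tG D 0 z * x')⁻¹ := by
      rw [hinv, hti, ← mul_assoc, ht2, one_mul]
    rw [e, cent_inv_eq]
  · apply normalizes_cent
    have e : x' * (tG D 0 z * x') * x'⁻¹ = (tG D 0 z * x')⁻¹ := by
      rw [hinv, hxi]
      calc x' * (tG D 0 z * x') * x' = x' * tG D 0 z * (x' * x') := by simp only [mul_assoc]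
        _ = x' * tG D 0 z := by rw [h2, mul_one]
    rw [e, cent_inv_eq]

theorem card_aff :
    {p : Projectivization F (Fin 4 → F) | p ∈ ov F s ∧ p ≠ Pinf F}.ncard =
      Fintype.card F ^ 2 := by
  have h1 : {p : Projectivization F (Fin 4 → F) | p ∈ ov F s ∧ p ≠ Pinf F} =
      ov F s \ {Pinf F} := by
    ext p
    exact Iff.rfl
  rw [h1, Set.ncard_sdiff_singleton_of_mem inf_mem, ← Nat.card_coe_set_eq, card_ov,
    Nat.add_sub_cancel]

/-- the number of involutions not fixing `∞` -/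
theorem card_inv' (D : SzData F s) :
    {y : SzG F s | y * y = 1 ∧ y • Pinf F ≠ Pinf F}.ncard =
      Fintype.card F ^ 2 * (Fintype.card F - 1) := by
  have h := ncard_double {y : SzG F s | y * y = 1 ∧ y • Pinf F ≠ Pinf F}
    {p : Projectivization F (Fin 4 → F) | p ∈ ov F s ∧ p ≠ Pinf F}
    (fun x' p => x' • p = p) 1 (Fintype.card F - 1) ?_ ?_
  · rw [mul_one, card_aff] at h; exact h
  · rintro x' ⟨h2, hinf⟩
    have hx1 : x' ≠ 1 := by rintro rfl; exact hinf (one_smul _ _)
    obtain ⟨K, b, hb, hK⟩ := inv_conj D h2 hx1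
    have hfix := inv_fixes D hK
    have hset : {p : Projectivization F (Fin 4 → F) |
        p ∈ {p : Projectivization F (Fin 4 → F) | p ∈ ov F s ∧ p ≠ Pinf F} ∧ x' • p = p} =
        {K⁻¹ • Pinf F} := by
      ext p
      constructor
      · rintro ⟨⟨hp, -⟩, hfp⟩
        exact inv_only D hb hK hp hfp
      · rintro rfl
        refine ⟨⟨smul_ov K⁻¹ inf_mem, ?_⟩, hfix⟩
        intro h
        rw [h] at hfix
        exact hinf hfix
    rw [hset, Set.ncard_singleton]
  · rintro p ⟨hp, hp1⟩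
    obtain ⟨k, hk, hkp⟩ := exists_to_inf D hp
    have hK : (⟨k, hk⟩ : SzG F s) • p = Pinf F := hkp
    generalize (⟨k, hk⟩ : SzG F s) = K at hK
    have hK' : K⁻¹ • Pinf F = p := by rw [← hK, inv_smul_smul]
    have hset : {x' : SzG F s |
        x' ∈ {y : SzG F s | y * y = 1 ∧ y • Pinf F ≠ Pinf F} ∧ x' • p = p} =
        Set.range (fun c : Fˣ => K⁻¹ * tG D 0 (c : F) * K) := by
      ext x'
      constructor
      · rintro ⟨⟨h2, hinf⟩, hfp⟩
        have he2 : (K * x' * K⁻¹) * (K * x' * K⁻¹) = 1 := by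
          calc (K * x' * K⁻¹) * (K * x' * K⁻¹) = K * (x' * x') * K⁻¹ := by group
            _ = 1 := by rw [h2]; group
        have heinf : (K * x' * K⁻¹) • Pinf F = Pinf F := by
          rw [mul_smul, mul_smul, hK', hfp, hK]
        obtain ⟨z, hz⟩ := inv_at_inf D he2 heinf
        have hz0 : z ≠ 0 := by
          rintro rfl
          rw [tG_zero_zero] at hz
          have hx1 : x' = 1 := conj_eq_one_iff.mp hz
          rw [hx1] at hinf
          exact hinf (one_smul _ _)
        refine ⟨Units.mk0 z hz0, ?_⟩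
        show K⁻¹ * tG D 0 z * K = x'
        rw [← hz]; group
      · rintro ⟨c, rfl⟩
        refine ⟨⟨?_, ?_⟩, ?_⟩
        · calc (K⁻¹ * tG D 0 (c : F) * K) * (K⁻¹ * tG D 0 (c : F) * K)
              = K⁻¹ * (tG D 0 (c : F) * tG D 0 (c : F)) * K := by group
            _ = 1 := by rw [tG_zero_sq]; group
        · intro h
          rw [mul_smul, mul_smul, inv_smul_eq_iff] at h
          have h2 := unipFixG D (fun hh => c.ne_zero hh.2) (smul_ov K inf_mem) h
          apply hp1
          rw [← hK', inv_smul_eq_iff, h2]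
        · rw [mul_smul, mul_smul, hK, tG_inf, hK']
    rw [hset, Set.ncard_range_of_injective, Nat.card_units, Nat.card_eq_fintype_card]
    intro c c' h
    have h' : K⁻¹ * tG D 0 (c : F) * K = K⁻¹ * tG D 0 (c' : F) * K := h
    have h'' : tG D 0 (c : F) = tG D 0 (c' : F) := mul_left_cancel (mul_right_cancel h')
    exact Units.ext (tG_zero_inj D h'')

/-- the number of involutions swapping two given points -/
theorem swap_count (D : SzData F s) {p p₂ : Projectivization F (Fin 4 → F)} (hp : p ∈ ov F s)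
    (hp₂ : p₂ ∈ ov F s) (hne : p ≠ p₂) :
    {x' : SzG F s | x' * x' = 1 ∧ x' • p = p₂}.ncard = Fintype.card F - 1 := by
  obtain ⟨g, hg, hg1, hg2⟩ := two_trans D hp hp₂ inf_mem (zero_mem D) hne (Ne.symm P0_ne_inf)
  have hK1 : (⟨g, hg⟩ : SzG F s) • p = Pinf F := hg1
  have hK2 : (⟨g, hg⟩ : SzG F s) • p₂ = P0 F := hg2
  generalize (⟨g, hg⟩ : SzG F s) = K at hK1 hK2
  have hK1' : K⁻¹ • Pinf F = p := by rw [← hK1, inv_smul_smul]
  have hK2' : K⁻¹ • P0 F = p₂ := by rw [← hK2, inv_smul_smul]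
  have hset : {x' : SzG F s | x' * x' = 1 ∧ x' • p = p₂} =
      Set.range (fun c : Fˣ => K⁻¹ * (wG D * hG D c) * K) := by
    ext x'
    constructor
    · rintro ⟨h2, hx⟩
      have hxx : x' • p₂ = p := by rw [← hx, ← mul_smul, h2, one_smul]
      have h1 : (K * x' * K⁻¹) • Pinf F = P0 F := by rw [mul_smul, mul_smul, hK1', hx, hK2]
      have h2' : (K * x' * K⁻¹) • P0 F = Pinf F := by
        rw [mul_smul, mul_smul, hK2', hxx, hK1]
      obtain ⟨c, hc⟩ := swapG D _ h1 h2'
      exact ⟨c, by show K⁻¹ * (wG D * hG D c) * K = x'; rw [← hc]; group⟩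
    · rintro ⟨c, rfl⟩
      constructor
      · calc (K⁻¹ * (wG D * hG D c) * K) * (K⁻¹ * (wG D * hG D c) * K)
            = K⁻¹ * ((wG D * hG D c) * (wG D * hG D c)) * K := by group
          _ = 1 := by rw [w_sq]; group
      · rw [mul_smul, mul_smul, hK1, mul_smul, hG_inf, wG_inf, hK2']
  rw [hset, Set.ncard_range_of_injective, Nat.card_units, Nat.card_eq_fintype_card]
  intro c c' h
  have h' : K⁻¹ * (wG D * hG D c) * K = K⁻¹ * (wG D * hG D c') * K := h
  exact hG_inj D (mul_left_cancel (mul_left_cancel (mul_right_cancel h')))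

theorem split_conj (D : SzData F s) {u : SzG F s} (hu4 : u ^ 4 ≠ 1)
    (hnf : ¬ Fpf s (u : SL4 F)) : ∃ K : SzG F s, ∃ c : Fˣ, c ≠ 1 ∧ K * u * K⁻¹ = hG D c := by
  have hu1 : u ≠ 1 := by rintro rfl; exact hu4 (one_pow 4)
  obtain ⟨a, ha, hfix⟩ : ∃ a ∈ ov F s, u • a = a := by
    by_contra h
    apply hnf
    intro a ha hfix
    exact h ⟨a, ha, hfix⟩
  obtain ⟨k, h | ⟨c, hc⟩⟩ := fixCasesG D u ha hfix
  · exfalso
    obtain ⟨a', b', hk⟩ := h
    apply hu4
    have h4 : (k * u * k⁻¹) ^ 4 = 1 := by rw [hk]; exact tG_pow_four D a' b'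
    rw [conj_pow] at h4
    exact conj_eq_one_iff.mp h4
  · refine ⟨k, c, ?_, hc⟩
    rintro rfl
    rw [map_one] at hc
    exact hu1 (conj_eq_one_iff.mp hc)

/-- involutions whose product with a fixed central involution has a fixed point -/
theorem card_invH (D : SzData F s) {z : F} (hz : z ≠ 0) :
    2 * {x' : SzG F s | x' * x' = 1 ∧ x' • Pinf F ≠ Pinf F ∧
      ¬ Fpf s ((tG D 0 z * x' : SzG F s) : SL4 F)}.ncard =
      Fintype.card F ^ 2 * (Fintype.card F - 2) := by
  have ht2 : tG D 0 z * tG D 0 z = 1 := tG_zero_sq D z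
  have h := ncard_double {p : Projectivization F (Fin 4 → F) | p ∈ ov F s ∧ p ≠ Pinf F}
    {x' : SzG F s | x' * x' = 1 ∧ x' • Pinf F ≠ Pinf F ∧
      ¬ Fpf s ((tG D 0 z * x' : SzG F s) : SL4 F)}
    (fun p x' => x' • p = tG D 0 z • p) (Fintype.card F - 2) 2 ?_ ?_
  · rw [card_aff] at h; rw [h]; ring
  · rintro p ⟨hp, hp1⟩
    have hp₂ : tG D 0 z • p ∈ ov F s := smul_ov _ hp
    have hne : p ≠ tG D 0 z • p :=
      fun h => hp1 (unipFixG D (fun hh => hz hh.2) hp h.symm)
    have hset : {x' : SzG F s | x' ∈ {x' : SzG F s | x' * x' = 1 ∧ x' • Pinf F ≠ Pinf F ∧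
        ¬ Fpf s ((tG D 0 z * x' : SzG F s) : SL4 F)} ∧ x' • p = tG D 0 z • p} =
        {x' : SzG F s | x' * x' = 1 ∧ x' • p = tG D 0 z • p} \ {tG D 0 z} := by
      ext x'
      constructor
      · rintro ⟨⟨h2, hinf, -⟩, hx⟩
        refine ⟨⟨h2, hx⟩, ?_⟩
        intro hxt
        have hxt' : x' = tG D 0 z := hxt
        rw [hxt'] at hinf
        exact hinf (tG_inf D 0 z)
      · rintro ⟨⟨h2, hx⟩, hxt⟩
        have hxt' : x' ≠ tG D 0 z := hxt
        refine ⟨⟨h2, ?_, ?_⟩, hx⟩
        · intro hinf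
          obtain ⟨z', rfl⟩ := inv_at_inf D h2 hinf
          apply hxt'
          rcases mem_ov.mp hp with rfl | ⟨a, b, rfl⟩
          · exact absurd rfl hp1
          · rw [tG_aff, tG_aff] at hx
            have h3 := (Paff_inj hx).2
            have hzz : z' = z := by linear_combination h3
            rw [hzz]
        · intro hf
          apply hf p hp
          show (tG D 0 z * x') • p = p
          rw [mul_smul, hx, ← mul_smul, ht2, one_smul]
    have hmem : tG D 0 z ∈ {x' : SzG F s | x' * x' = 1 ∧ x' • p = tG D 0 z • p} := ⟨ht2, rfl⟩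
    rw [hset, Set.ncard_sdiff_singleton_of_mem hmem, swap_count D hp hp₂ hne]
    omega
  · rintro x' ⟨h2, hinf, hnf⟩
    obtain ⟨hu4, hodd, -, -⟩ := prod_facts D hz h2 hinf
    obtain ⟨K, c, hc1, hK⟩ := split_conj D hu4 hnf
    have hfixes : ∀ q : Projectivization F (Fin 4 → F), q ∈ ov F s →
        ((tG D 0 z * x') • q = q ↔ q = K⁻¹ • Pinf F ∨ q = K⁻¹ • P0 F) := by
      intro q hq
      constructor
      · intro h
        have h1 : hG D c • (K • q) = K • q := by
          rw [← hK, mul_smul, mul_smul, inv_smul_smul, h]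
        rcases torusFixG D hc1 (smul_ov K hq) h1 with h2 | h2
        · left; rw [← h2, inv_smul_smul]
        · right; rw [← h2, inv_smul_smul]
      · have e : tG D 0 z * x' = K⁻¹ * hG D c * K := by rw [← hK]; group
        rintro (rfl | rfl)
        · rw [e, mul_smul, mul_smul, smul_inv_smul, hG_inf]
        · rw [e, mul_smul, mul_smul, smul_inv_smul, hG_zero]
    have hset : {p : Projectivization F (Fin 4 → F) |
        p ∈ {p : Projectivization F (Fin 4 → F) | p ∈ ov F s ∧ p ≠ Pinf F} ∧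
          x' • p = tG D 0 z • p} = {K⁻¹ • Pinf F, K⁻¹ • P0 F} := by
      ext p
      constructor
      · rintro ⟨⟨hp, -⟩, hx⟩
        have hfx : (tG D 0 z * x') • p = p := by rw [mul_smul, hx, ← mul_smul, ht2, one_smul]
        exact (hfixes p hp).mp hfx
      · intro hp'
        have hp : p ∈ ov F s := by
          rcases hp' with rfl | rfl
          · exact smul_ov K⁻¹ inf_mem
          · exact smul_ov K⁻¹ (zero_mem D)
        have hfx : (tG D 0 z * x') • p = p := (hfixes p hp).mpr hp'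
        have hx : x' • p = tG D 0 z • p := by
          rw [mul_smul] at hfx
          calc x' • p = (tG D 0 z * tG D 0 z) • (x' • p) := by rw [ht2, one_smul]
            _ = tG D 0 z • p := by rw [mul_smul, hfx]
        refine ⟨⟨hp, ?_⟩, hx⟩
        intro hpinf
        rw [hpinf, tG_inf] at hx
        exact hinf hx
    rw [hset, Set.ncard_pair]
    intro h
    exact P0_ne_inf (MulAction.injective K⁻¹ h).symm

/-- involutions whose product with a fixed central involution is fixed-point-free -/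
theorem card_invA (D : SzData F s) {z : F} (hz : z ≠ 0) :
    2 * {x' : SzG F s | x' * x' = 1 ∧ x' • Pinf F ≠ Pinf F ∧
      Fpf s ((tG D 0 z * x' : SzG F s) : SL4 F)}.ncard = Fintype.card F ^ 3 := by
  have hH := card_invH D hz
  have hI := card_inv' D
  have hunion : {y : SzG F s | y * y = 1 ∧ y • Pinf F ≠ Pinf F} =
      {x' : SzG F s | x' * x' = 1 ∧ x' • Pinf F ≠ Pinf F ∧
        Fpf s ((tG D 0 z * x' : SzG F s) : SL4 F)} ∪
      {x' : SzG F s | x' * x' = 1 ∧ x' • Pinf F ≠ Pinf F ∧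
        ¬ Fpf s ((tG D 0 z * x' : SzG F s) : SL4 F)} := by
    ext x'
    constructor
    · rintro ⟨h2, hinf⟩
      by_cases hf : Fpf s ((tG D 0 z * x' : SzG F s) : SL4 F)
      · exact Or.inl ⟨h2, hinf, hf⟩
      · exact Or.inr ⟨h2, hinf, hf⟩
    · rintro (⟨h2, hinf, -⟩ | ⟨h2, hinf, -⟩) <;> exact ⟨h2, hinf⟩
  have hdisj : Disjoint
      {x' : SzG F s | x' * x' = 1 ∧ x' • Pinf F ≠ Pinf F ∧
        Fpf s ((tG D 0 z * x' : SzG F s) : SL4 F)}
      {x' : SzG F s | x' * x' = 1 ∧ x' • Pinf F ≠ Pinf F ∧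
        ¬ Fpf s ((tG D 0 z * x' : SzG F s) : SL4 F)} := by
    rw [Set.disjoint_left]
    rintro x' ⟨-, -, hf⟩ ⟨-, -, hnf⟩
    exact hnf hf
  rw [hunion, Set.ncard_union_eq hdisj] at hI
  have hq := D.eight_le
  obtain ⟨k, hk⟩ : ∃ k, Fintype.card F = k + 2 := ⟨Fintype.card F - 2, by omega⟩
  rw [hk] at hH hI ⊢
  have e1 : k + 2 - 2 = k := by omega
  have e2 : k + 2 - 1 = k + 1 := by omega
  rw [e1] at hH
  rw [e2] at hI
  nlinarith [hH, hI]

/-- an additive form of Hilbert 90 for the Frobenius twist -/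
theorem artin (D : SzData F s) (β : F) : ∃ l : F, l ^ s + l = β ∨ l ^ s + l = β + 1 := by
  have hadd : ∀ x y : F, (x + y) ^ s + (x + y) = (x ^ s + x) + (y ^ s + y) := by
    intro x y; rw [D.add]; ring
  have hker : ∀ x : F, x ^ s + x = 0 → x = 0 ∨ x = 1 := by
    intro x hx
    have h1 : x ^ s = x := by linear_combination hx - x * D.two
    have h2 : x ^ 2 = x := by rw [← D.sq, h1, h1]
    have h3 : x * (x - 1) = 0 := by linear_combination h2
    rcases mul_eq_zero.mp h3 with h | h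
    · exact Or.inl h
    · exact Or.inr (sub_eq_zero.mp h)
  have hnot1 : ∀ x : F, x ^ s + x ≠ 1 := by
    intro x hx
    have h1 : x ^ s = x + 1 := by linear_combination hx - x * D.two
    have h2 : x ^ 2 = x := by
      rw [← D.sq, h1, D.add, one_pow, h1]
      linear_combination D.two
    have h3 : x * (x - 1) = 0 := by linear_combination h2
    rcases mul_eq_zero.mp h3 with h | h
    · rw [h, zero_pow D.s_ne, add_zero] at hx; exact zero_ne_one hx
    · rw [sub_eq_zero.mp h, one_pow] at hx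
      have h10 : (1 : F) = 0 := by linear_combination hx
      exact one_ne_zero h10
  have hI : (Set.univ : Set F).ncard = (Set.range (fun l : F => l ^ s + l)).ncard * 2 := by
    apply ncard_fib Set.univ (Set.range (fun l : F => l ^ s + l)) (fun l : F => l ^ s + l) 2
    · intro y _; exact ⟨y, rfl⟩
    · rintro b ⟨l, rfl⟩
      have hset : {y : F | y ∈ Set.univ ∧ y ^ s + y = l ^ s + l} = {l, l + 1} := by
        ext y
        constructor
        · rintro ⟨-, hy⟩
          have hy' : y ^ s + y = l ^ s + l := hy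
          have h0 : (y + l) ^ s + (y + l) = 0 := by
            rw [hadd, hy']; exact D.add_self _
          rcases hker _ h0 with h | h
          · left
            show y = l
            linear_combination h - l * D.two
          · right
            show y = l + 1
            linear_combination h - l * D.two
        · rintro (rfl | rfl)
          · exact ⟨Set.mem_univ _, rfl⟩
          · refine ⟨Set.mem_univ _, ?_⟩
            show (l + 1) ^ s + (l + 1) = l ^ s + l
            rw [hadd, one_pow]; linear_combination D.two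
      have hset' : {y : F | y ∈ Set.univ ∧ (fun l : F => l ^ s + l) y =
          (fun l : F => l ^ s + l) l} = {l, l + 1} := hset
      rw [hset', Set.ncard_pair]
      intro h
      have h10 : (1 : F) = 0 := by linear_combination (-1 : F) * h
      exact one_ne_zero h10
  have hJ : ((fun y : F => y + 1) '' Set.range (fun l : F => l ^ s + l)).ncard =
      (Set.range (fun l : F => l ^ s + l)).ncard :=
    Set.ncard_image_of_injective _ (add_left_injective 1)
  have hdisj : Disjoint (Set.range (fun l : F => l ^ s + l))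
      ((fun y : F => y + 1) '' Set.range (fun l : F => l ^ s + l)) := by
    rw [Set.disjoint_left]
    rintro y ⟨l, rfl⟩ ⟨y', ⟨l', rfl⟩, h⟩
    have h' : l' ^ s + l' + 1 = l ^ s + l := h
    apply hnot1 (l + l')
    rw [hadd]
    linear_combination (-1 : F) * h' + (l' ^ s + l') * D.two
  have hunion : (Set.range (fun l : F => l ^ s + l) ∪
      (fun y : F => y + 1) '' Set.range (fun l : F => l ^ s + l)).ncard =
      (Set.univ : Set F).ncard := by
    rw [Set.ncard_union_eq hdisj, hJ, hI]; ring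
  have huniv : Set.range (fun l : F => l ^ s + l) ∪
      (fun y : F => y + 1) '' Set.range (fun l : F => l ^ s + l) = Set.univ :=
    Set.eq_of_subset_of_ncard_le (Set.subset_univ _) hunion.ge
  have hβ : β ∈ Set.range (fun l : F => l ^ s + l) ∪
      (fun y : F => y + 1) '' Set.range (fun l : F => l ^ s + l) := by
    rw [huniv]; exact Set.mem_univ β
  rcases hβ with ⟨l, hl⟩ | ⟨y, ⟨l, rfl⟩, hy⟩
  · exact ⟨l, Or.inl hl⟩
  · refine ⟨l, Or.inr ?_⟩
    have hy' : l ^ s + l + 1 = β := hy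
    linear_combination hy' - D.two

end Cfsg.Agent.Helper6.SzSol
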