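import Mathlib
import Cfsg.Agent.Helper6.SzSol3

set_option autoImplicit false

/-!
Solubilizers in the Suzuki groups, part 4: the sizes of the solubilizers.
-/

namespace Cfsg.Agent.Helper6.SzSol

open Matrix Cfsg.Agent.Helper6.Sz Cfsg.Agent.Helper6.SzOut Cfsg.Agent.Helper6.SzSub
  Cfsg.Agent.Helper6.SzSg Cfsg.Agent.Helper6.SzFix
open scoped Pointwise

variable {F : Type*} [Field F] [Fintype F] {s : ℕ}

/-! ### involutions -/

theorem count_inv (D : SzData F s) {r : ℕ} (hqr : Fintype.card F = 2 * r ^ 2)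
    (h3 : ¬ 3 ∣ Nat.card (SzG F s)) {z : F} (hz : z ≠ 0) :
    {y : SzG F s | Good s r (tG D 0 z) y}.ncard =
      Fintype.card F ^ 2 * (4 * Fintype.card F - 3) := by
  have ht2 : tG D 0 z * tG D 0 z = 1 := tG_zero_sq D z
  have hti : (tG D 0 z)⁻¹ = tG D 0 z := inv_eq_of_mul_eq_one_right ht2
  have ht1 : tG D 0 z ≠ 1 := fun h => hz (tG_eq_one D h).2
  have htinf : tG D 0 z • Pinf F = Pinf F := tG_inf D 0 z
  have hset : {y : SzG F s | Good s r (tG D 0 z) y} =
      {y : SzG F s | y • Pinf F = Pinf F} ∪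
      ((fun x' : SzG F s => tG D 0 z * x') '' {y : SzG F s | y * y = 1 ∧ y • Pinf F ≠ Pinf F} ∪
       ({y : SzG F s | y * y = 1 ∧ y • Pinf F ≠ Pinf F} ∪
        {y : SzG F s | (y * y) ∈ {x' : SzG F s | x' * x' = 1 ∧ x' • Pinf F ≠ Pinf F ∧
            Fpf s ((tG D 0 z * x' : SzG F s) : SL4 F)} ∧
          y ∈ Subgroup.normalizer ((Subgroup.centralizer
            ({tG D 0 z * (y * y)} : Set (SzG F s)) : Subgroup (SzG F s)) : Set (SzG F s))})) := by
    ext y
    constructor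
    · rintro (⟨p, hp, hxp, hyp⟩ | ⟨T, hT, htN, hyN⟩)
      · left
        have hpinf := unipFixG D (fun hh => hz hh.2) hp hxp
        rw [hpinf] at hyp
        exact hyp
      · by_cases hinf : y • Pinf F = Pinf F
        · exact Or.inl hinf
        right
        by_cases hyT : y ∈ T
        · left
          have hinv := t3_inverts D hqr hT htN ht2 ht1 y hyT
          refine ⟨tG D 0 z * y, ⟨?_, ?_⟩, ?_⟩
          · calc (tG D 0 z * y) * (tG D 0 z * y) = (tG D 0 z * y * tG D 0 z) * y := by group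
              _ = 1 := by rw [hinv, inv_mul_cancel]
          · intro h
            rw [mul_smul] at h
            apply hinf
            calc y • Pinf F = (tG D 0 z * tG D 0 z) • (y • Pinf F) := by rw [ht2, one_smul]
              _ = Pinf F := by rw [mul_smul, h, htinf]
          · show tG D 0 z * (tG D 0 z * y) = y
            rw [← mul_assoc, ht2, one_mul]
        · right
          have hy4 := t3_out_pow_four D hqr h3 hT hyN hyT
          by_cases hy2 : y * y = 1
          · exact Or.inl ⟨hy2, hinf⟩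
          right
          have hx2 : (y * y) * (y * y) = 1 := by rw [← pow4]; exact hy4
          have hxN : y * y ∈ Subgroup.normalizer (T : Set (SzG F s)) := mul_mem hyN hyN
          have huT : tG D 0 z * (y * y) ∈ T := t3_inv_mul D hqr hT htN ht2 ht1 hxN hx2 hy2
          have hxinf : (y * y) • Pinf F ≠ Pinf F := by
            intro h
            obtain ⟨z', hz'⟩ := inv_at_inf D hx2 h
            have hu2 : (tG D 0 z * (y * y)) * (tG D 0 z * (y * y)) = 1 := by
              rw [hz', tG_zero_mul, tG_zero_sq]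
            have hu1 : tG D 0 z * (y * y) = 1 := by
              by_contra hne
              exact t3_two_not_mem D hqr hT (sq_pow_four hu2) hne huT
            have hyy : y * y = tG D 0 z := by
              rw [← hti]; exact eq_inv_of_mul_eq_one_right hu1
            have hcomm : tG D 0 z * y = y * tG D 0 z := by rw [← hyy]; group
            have hfix : tG D 0 z • (y • Pinf F) = y • Pinf F := by
              rw [← mul_smul, hcomm, mul_smul, htinf]
            exact hinf (unipFixG D (fun hh => hz hh.2) (smul_ov y inf_mem) hfix)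
          have hu1 : tG D 0 z * (y * y) ≠ 1 := by
            intro h
            have hyy : y * y = tG D 0 z := by
              rw [← hti]; exact eq_inv_of_mul_eq_one_right h
            rw [hyy] at hxinf
            exact hxinf htinf
          have hu4 := (pow_four_ne (t3_odd D hqr hT).1 huT hu1).2
          have hC := hT.2.2 _ huT hu1
          have hfpf : Fpf s ((tG D 0 z * (y * y) : SzG F s) : SL4 F) := by
            by_contra hnf
            have hyN' : y ∈ Subgroup.normalizer ((Subgroup.centralizer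
                ({tG D 0 z * (y * y)} : Set (SzG F s)) : Subgroup (SzG F s)) :
                Set (SzG F s)) := by
              rw [hC]; exact hyN
            have hmem := split_sq_mem D hu4 hnf hyN'
            rw [hC] at hmem
            exact t3_two_not_mem D hqr hT (sq_pow_four hx2) hy2 hmem
          refine ⟨⟨hx2, hxinf, hfpf⟩, ?_⟩
          rw [hC]; exact hyN
    · rintro (hy | ⟨x', ⟨h2, hinf⟩, rfl⟩ | ⟨h2, hinf⟩ | ⟨⟨h2, hinf, hf⟩, hyN⟩)
      · exact Or.inl ⟨Pinf F, inf_mem, htinf, hy⟩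
      · obtain ⟨hu4, -, htN, -⟩ := prod_facts D hz h2 hinf
        refine Or.inr ⟨_, tor3_cent D hqr _ hu4, htN, ?_⟩
        exact Subgroup.le_normalizer (Subgroup.mem_centralizer_singleton_iff.mpr rfl)
      · obtain ⟨hu4, -, htN, hxN⟩ := prod_facts D hz h2 hinf
        exact Or.inr ⟨_, tor3_cent D hqr _ hu4, htN, hxN⟩
      · obtain ⟨hu4, -, htN, -⟩ := prod_facts D hz h2 hinf
        exact Or.inr ⟨_, tor3_cent D hqr _ hu4, htN, hyN⟩
  have hBi : {y : SzG F s | y • Pinf F = Pinf F}.ncard =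
      Fintype.card F ^ 2 * (Fintype.card F - 1) := by
    rw [← Nat.card_coe_set_eq]
    exact card_stab D inf_mem
  have hS1 : ((fun x' : SzG F s => tG D 0 z * x') ''
      {y : SzG F s | y * y = 1 ∧ y • Pinf F ≠ Pinf F}).ncard =
      Fintype.card F ^ 2 * (Fintype.card F - 1) := by
    rw [Set.ncard_image_of_injective _ (mul_right_injective (tG D 0 z)), card_inv' D]
  have hS4 : {y : SzG F s | (y * y) ∈ {x' : SzG F s | x' * x' = 1 ∧ x' • Pinf F ≠ Pinf F ∧
        Fpf s ((tG D 0 z * x' : SzG F s) : SL4 F)} ∧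
      y ∈ Subgroup.normalizer ((Subgroup.centralizer
        ({tG D 0 z * (y * y)} : Set (SzG F s)) : Subgroup (SzG F s)) : Set (SzG F s))}.ncard =
      {x' : SzG F s | x' * x' = 1 ∧ x' • Pinf F ≠ Pinf F ∧
        Fpf s ((tG D 0 z * x' : SzG F s) : SL4 F)}.ncard * 2 := by
    apply ncard_fib _ _ (fun y : SzG F s => y * y) 2
    · rintro y ⟨hy, -⟩; exact hy
    · rintro x' ⟨h2, hinf, hf⟩
      obtain ⟨hu4, -, htN, hxN⟩ := prod_facts D hz h2 hinf
      have hx1 : x' ≠ 1 := by rintro rfl; exact hinf (one_smul _ _)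
      have hset' : {y : SzG F s | y ∈ {y : SzG F s | (y * y) ∈ {x' : SzG F s | x' * x' = 1 ∧
            x' • Pinf F ≠ Pinf F ∧ Fpf s ((tG D 0 z * x' : SzG F s) : SL4 F)} ∧
          y ∈ Subgroup.normalizer ((Subgroup.centralizer
            ({tG D 0 z * (y * y)} : Set (SzG F s)) : Subgroup (SzG F s)) : Set (SzG F s))} ∧
          (fun y : SzG F s => y * y) y = x'} =
          {y : SzG F s | y ∈ Subgroup.normalizer ((Subgroup.centralizer
            ({tG D 0 z * x'} : Set (SzG F s)) : Subgroup (SzG F s)) : Set (SzG F s)) ∧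
            y * y = x'} := by
        ext y
        constructor
        · rintro ⟨⟨-, hN⟩, hyy⟩
          have hyy' : y * y = x' := hyy
          rw [hyy'] at hN
          exact ⟨hN, hyy'⟩
        · rintro ⟨hN, hyy⟩
          refine ⟨⟨?_, ?_⟩, hyy⟩
          · rw [hyy]; exact ⟨h2, hinf, hf⟩
          · rw [hyy]; exact hN
      rw [hset']
      exact sq_roots D hqr h3 hf hxN h2 hx1
  have hd1 : Disjoint {y : SzG F s | y • Pinf F = Pinf F}
      ((fun x' : SzG F s => tG D 0 z * x') '' {y : SzG F s | y * y = 1 ∧ y • Pinf F ≠ Pinf F} ∪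
       ({y : SzG F s | y * y = 1 ∧ y • Pinf F ≠ Pinf F} ∪
        {y : SzG F s | (y * y) ∈ {x' : SzG F s | x' * x' = 1 ∧ x' • Pinf F ≠ Pinf F ∧
            Fpf s ((tG D 0 z * x' : SzG F s) : SL4 F)} ∧
          y ∈ Subgroup.normalizer ((Subgroup.centralizer
            ({tG D 0 z * (y * y)} : Set (SzG F s)) : Subgroup (SzG F s)) : Set (SzG F s))})) := by
    rw [Set.disjoint_left]
    rintro y hy (⟨x', ⟨h2, hinf⟩, rfl⟩ | ⟨-, hinf⟩ | ⟨⟨-, hinf, -⟩, -⟩)
    · apply hinf
      have hy' : (tG D 0 z * x') • Pinf F = Pinf F := hy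
      rw [mul_smul] at hy'
      calc x' • Pinf F = (tG D 0 z * tG D 0 z) • (x' • Pinf F) := by rw [ht2, one_smul]
        _ = Pinf F := by rw [mul_smul, hy', htinf]
    · exact hinf hy
    · apply hinf
      have hy' : y • Pinf F = Pinf F := hy
      rw [mul_smul, hy', hy']
  have hd2 : Disjoint
      ((fun x' : SzG F s => tG D 0 z * x') '' {y : SzG F s | y * y = 1 ∧ y • Pinf F ≠ Pinf F})
       ({y : SzG F s | y * y = 1 ∧ y • Pinf F ≠ Pinf F} ∪
        {y : SzG F s | (y * y) ∈ {x' : SzG F s | x' * x' = 1 ∧ x' • Pinf F ≠ Pinf F ∧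
            Fpf s ((tG D 0 z * x' : SzG F s) : SL4 F)} ∧
          y ∈ Subgroup.normalizer ((Subgroup.centralizer
            ({tG D 0 z * (y * y)} : Set (SzG F s)) : Subgroup (SzG F s)) : Set (SzG F s))}) := by
    rw [Set.disjoint_left]
    rintro y ⟨x', ⟨h2, hinf⟩, rfl⟩ h
    obtain ⟨hu4, -, -, -⟩ := prod_facts D hz h2 hinf
    apply hu4
    rcases h with ⟨hyy, -⟩ | ⟨⟨hyy, -, -⟩, -⟩
    · exact sq_pow_four hyy
    · rw [pow4]; exact hyy
  have hd3 : Disjoint {y : SzG F s | y * y = 1 ∧ y • Pinf F ≠ Pinf F}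
        {y : SzG F s | (y * y) ∈ {x' : SzG F s | x' * x' = 1 ∧ x' • Pinf F ≠ Pinf F ∧
            Fpf s ((tG D 0 z * x' : SzG F s) : SL4 F)} ∧
          y ∈ Subgroup.normalizer ((Subgroup.centralizer
            ({tG D 0 z * (y * y)} : Set (SzG F s)) : Subgroup (SzG F s)) : Set (SzG F s))} := by
    rw [Set.disjoint_left]
    rintro y ⟨hyy, -⟩ ⟨⟨-, hinf, -⟩, -⟩
    apply hinf
    rw [hyy, one_smul]
  rw [hset, Set.ncard_union_eq hd1, Set.ncard_union_eq hd2, Set.ncard_union_eq hd3, hBi, hS1,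
    card_inv' D, hS4]
  have hA := card_invA D hz
  have hq := D.eight_le
  obtain ⟨k, hk⟩ : ∃ k, Fintype.card F = k + 2 := ⟨Fintype.card F - 2, by omega⟩
  rw [hk] at hA ⊢
  have e1 : k + 2 - 1 = k + 1 := by omega
  have e2 : 4 * (k + 2) - 3 = 4 * k + 5 := by omega
  rw [e1, e2]
  nlinarith [hA]

/-! ### elements of order four -/

/-- fixed-point-free elements whose centraliser is normalised by `c` -/
def EN (s : ℕ) (c : SzG F s) : Set (SzG F s) :=
  {u | Fpf s (u : SL4 F) ∧ c ∈ Subgroup.normalizer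
    ((Subgroup.centralizer ({u} : Set (SzG F s)) : Subgroup (SzG F s)) : Set (SzG F s))}

theorem EN_conj (v x : SzG F s) : (EN s (v * x * v⁻¹)).ncard = (EN s x).ncard := by
  have hset : EN s (v * x * v⁻¹) = (fun u : SzG F s => v * u * v⁻¹) '' EN s x := by
    ext u'
    constructor
    · rintro ⟨hf, hN⟩
      refine ⟨v⁻¹ * u' * v, ⟨?_, ?_⟩, by group⟩
      · have h := fpf_conj (s := s) (inv_mem v.2) hf
        rw [inv_inv] at h
        exact h
      · have e : u' = v * (v⁻¹ * u' * v) * v⁻¹ := by group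
        rw [e] at hN
        exact (mem_norm_cent_conj v x _).mp hN
    · rintro ⟨u, ⟨hf, hN⟩, rfl⟩
      exact ⟨fpf_conj v.2 hf, (mem_norm_cent_conj v x u).mpr hN⟩
  rw [hset]
  apply Set.ncard_image_of_injective
  intro a b h
  have h' : v * a * v⁻¹ = v * b * v⁻¹ := h
  exact mul_left_cancel (mul_right_cancel h')

theorem EN_inv (c : SzG F s) : EN s c⁻¹ = EN s c := by
  ext u
  constructor
  · rintro ⟨hf, hN⟩
    have h := inv_mem hN
    rw [inv_inv] at h
    exact ⟨hf, h⟩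
  · rintro ⟨hf, hN⟩; exact ⟨hf, inv_mem hN⟩

theorem EN_card_eq (D : SzData F s) {a₀ : F} (ha₀ : a₀ ≠ 0) (b₀ b' : F) :
    (EN s (tG D a₀ b')).ncard = (EN s (tG D a₀ b₀)).ncard := by
  obtain ⟨l, hl⟩ := artin D ((b' + b₀) / a₀ ^ (s + 1))
  have hpow : a₀ ^ (s + 1) ≠ 0 := pow_ne_zero _ ha₀
  have hdiv : a₀ ^ (s + 1) * ((b' + b₀) / a₀ ^ (s + 1)) = b' + b₀ := by field_simp
  have hconj : tG D (l * a₀) 0 * tG D a₀ b₀ * (tG D (l * a₀) 0)⁻¹ =
      tG D a₀ (b₀ + a₀ ^ (s + 1) * (l ^ s + l)) := by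
    rw [mul_inv_eq_iff_eq_mul, tG_mul, tG_mul]
    congr 1
    · ring
    · linear_combination (-(a₀ ^ (s + 1) * l)) * D.two
  rcases hl with hl | hl
  · have hβ : b₀ + a₀ ^ (s + 1) * (l ^ s + l) = b' := by
      rw [hl, hdiv]
      linear_combination b₀ * D.two
    rw [hβ] at hconj
    rw [← hconj]
    exact EN_conj _ _
  · have hβ : b₀ + a₀ ^ (s + 1) * (l ^ s + l) = b' + a₀ ^ (s + 1) := by
      rw [hl, mul_add, hdiv, mul_one]
      linear_combination b₀ * D.two
    rw [hβ, ← tG_inv'] at hconj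
    rw [← EN_inv (tG D a₀ b'), ← hconj]
    exact EN_conj _ _

theorem card_roots (D : SzData F s) {a₀ : F} (ha₀ : a₀ ≠ 0) :
    {c : SzG F s | c * c = tG D 0 (a₀ ^ (s + 1))} = Set.range (fun b : F => tG D a₀ b) := by
  ext c
  constructor
  · intro hc
    have hc' : c * c = tG D 0 (a₀ ^ (s + 1)) := hc
    have hz : a₀ ^ (s + 1) ≠ 0 := pow_ne_zero _ ha₀
    have hcomm : c * tG D 0 (a₀ ^ (s + 1)) = tG D 0 (a₀ ^ (s + 1)) * c := by
      rw [← hc']; group
    obtain ⟨a', b', rfl⟩ := centUnipG D (fun hh => hz hh.2) c hcomm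
    rw [tG_sq] at hc'
    have h1 := (tG_inj D hc').2
    have h2 : a' = a₀ := pow_succ_inj D h1
    exact ⟨b', by rw [h2]⟩
  · rintro ⟨b, rfl⟩
    exact tG_sq D a₀ b

theorem pow_coset_inj (D : SzData F s) {r : ℕ} (hqr : Fintype.card F = 2 * r ^ 2)
    {T : Subgroup (SzG F s)} (hT : Tor3 s r T) {c : SzG F s} (hc4 : c ^ 4 = 1)
    (hc2 : c * c ≠ 1) {v v' : SzG F s} (hv : v ∈ T) (hv' : v' ∈ T) {i j : ℕ} (hi : i < 4)
    (hj : j < 4) (h : v * c ^ i = v' * c ^ j) : v = v' ∧ i = j := by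
  have ho := order_four hc4 hc2
  have hd : c ^ j * (c ^ i)⁻¹ = v'⁻¹ * v := by
    calc c ^ j * (c ^ i)⁻¹ = v'⁻¹ * (v' * c ^ j) * (c ^ i)⁻¹ := by group
      _ = v'⁻¹ * (v * c ^ i) * (c ^ i)⁻¹ := by rw [h]
      _ = v'⁻¹ * v := by group
  have hdT : c ^ j * (c ^ i)⁻¹ ∈ T := by rw [hd]; exact mul_mem (inv_mem hv') hv
  have hd4 : (c ^ j * (c ^ i)⁻¹) ^ 4 = 1 := by
    have hz : c ^ j * (c ^ i)⁻¹ ∈ Subgroup.zpowers c :=
      mul_mem (pow_mem (Subgroup.mem_zpowers c) _)
        (inv_mem (pow_mem (Subgroup.mem_zpowers c) _))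
    have hdv := orderOf_dvd_of_mem_zpowers hz
    rw [ho] at hdv
    exact orderOf_dvd_iff_pow_eq_one.mp hdv
  have hd1 : c ^ j * (c ^ i)⁻¹ = 1 := by
    by_contra hne
    exact t3_two_not_mem D hqr hT hd4 hne hdT
  have hij : c ^ j = c ^ i := mul_inv_eq_one.mp hd1
  have hij' : j = i :=
    pow_injOn_Iio_orderOf (by rw [Set.mem_Iio, ho]; exact hj)
      (by rw [Set.mem_Iio, ho]; exact hi) hij
  subst hij'
  exact ⟨mul_right_cancel h, rfl⟩

theorem count_four (D : SzData F s) {r : ℕ} (hqr : Fintype.card F = 2 * r ^ 2)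
    (h3 : ¬ 3 ∣ Nat.card (SzG F s)) {a₀ : F} (ha₀ : a₀ ≠ 0) (b₀ : F) :
    {y : SzG F s | Good s r (tG D a₀ b₀) y}.ncard =
      Fintype.card F ^ 2 * (Fintype.card F + 3) := by
  have hz : a₀ ^ (s + 1) ≠ 0 := pow_ne_zero _ ha₀
  have hxx : tG D a₀ b₀ * tG D a₀ b₀ = tG D 0 (a₀ ^ (s + 1)) := tG_sq D a₀ b₀
  have hx4 : tG D a₀ b₀ ^ 4 = 1 := tG_pow_four D a₀ b₀
  have ht1 : tG D 0 (a₀ ^ (s + 1)) ≠ 1 := fun h => hz (tG_eq_one D h).2
  have ht2 : tG D 0 (a₀ ^ (s + 1)) * tG D 0 (a₀ ^ (s + 1)) = 1 := tG_zero_sq D _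
  have hx2 : tG D a₀ b₀ * tG D a₀ b₀ ≠ 1 := by rw [hxx]; exact ht1
  have hxinf : tG D a₀ b₀ • Pinf F = Pinf F := tG_inf D a₀ b₀
  have hpowinf : ∀ i : ℕ, tG D a₀ b₀ ^ i • Pinf F = Pinf F := by
    intro i
    induction i with
    | zero => rw [pow_zero, one_smul]
    | succ n ih => rw [pow_succ, mul_smul, hxinf, ih]
  have hE : (EN s (tG D a₀ b₀)).ncard = Fintype.card F ^ 2 := by
    have hEt : EN s (tG D 0 (a₀ ^ (s + 1))) =
        (fun x' : SzG F s => tG D 0 (a₀ ^ (s + 1)) * x') ''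
          {x' : SzG F s | x' * x' = 1 ∧ x' • Pinf F ≠ Pinf F ∧
            Fpf s ((tG D 0 (a₀ ^ (s + 1)) * x' : SzG F s) : SL4 F)} := by
      ext u
      constructor
      · rintro ⟨hf, htN⟩
        have hT := tor3_cent D hqr u (fpf_pow_four_ne D hf)
        have huT : u ∈ Subgroup.centralizer ({u} : Set (SzG F s)) :=
          Subgroup.mem_centralizer_singleton_iff.mpr rfl
        have hinv := t3_inverts D hqr hT htN ht2 ht1 u huT
        have e : tG D 0 (a₀ ^ (s + 1)) * (tG D 0 (a₀ ^ (s + 1)) * u) = u := by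
          rw [← mul_assoc, ht2, one_mul]
        refine ⟨tG D 0 (a₀ ^ (s + 1)) * u, ⟨?_, ?_, ?_⟩, e⟩
        · calc (tG D 0 (a₀ ^ (s + 1)) * u) * (tG D 0 (a₀ ^ (s + 1)) * u)
              = (tG D 0 (a₀ ^ (s + 1)) * u * tG D 0 (a₀ ^ (s + 1))) * u := by group
            _ = 1 := by rw [hinv, inv_mul_cancel]
        · intro h
          rw [mul_smul] at h
          apply hf (Pinf F) inf_mem
          show u • Pinf F = Pinf F
          calc u • Pinf F = (tG D 0 (a₀ ^ (s + 1)) * tG D 0 (a₀ ^ (s + 1))) • (u • Pinf F) := by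
                rw [ht2, one_smul]
            _ = Pinf F := by rw [mul_smul, h, tG_inf]
        · rw [e]; exact hf
      · rintro ⟨x', ⟨h2, hinf, hf⟩, rfl⟩
        obtain ⟨-, -, htN, -⟩ := prod_facts D hz h2 hinf
        exact ⟨hf, htN⟩
    have hEtcard : 2 * (EN s (tG D 0 (a₀ ^ (s + 1)))).ncard = Fintype.card F ^ 3 := by
      rw [hEt, Set.ncard_image_of_injective _ (mul_right_injective _)]
      exact card_invA D hz
    have hdc := ncard_double (EN s (tG D 0 (a₀ ^ (s + 1))))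
      {c : SzG F s | c * c = tG D 0 (a₀ ^ (s + 1))}
      (fun u c => c ∈ Subgroup.normalizer
        ((Subgroup.centralizer ({u} : Set (SzG F s)) : Subgroup (SzG F s)) : Set (SzG F s)))
      2 (EN s (tG D a₀ b₀)).ncard ?_ ?_
    · rw [card_roots D ha₀, Set.ncard_range_of_injective (fun b b' h => (tG_inj D h).2),
        Nat.card_eq_fintype_card] at hdc
      have hq := D.eight_le
      have hmul : Fintype.card F * (EN s (tG D a₀ b₀)).ncard =
          Fintype.card F * Fintype.card F ^ 2 := by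
        calc Fintype.card F * (EN s (tG D a₀ b₀)).ncard
            = (EN s (tG D 0 (a₀ ^ (s + 1)))).ncard * 2 := hdc.symm
          _ = 2 * (EN s (tG D 0 (a₀ ^ (s + 1)))).ncard := mul_comm _ _
          _ = Fintype.card F ^ 3 := hEtcard
          _ = Fintype.card F * Fintype.card F ^ 2 := by ring
      exact Nat.eq_of_mul_eq_mul_left (by omega) hmul
    · rintro u ⟨hf, htN⟩
      have hset' : {c : SzG F s | c ∈ {c : SzG F s | c * c = tG D 0 (a₀ ^ (s + 1))} ∧
          c ∈ Subgroup.normalizer ((Subgroup.centralizer ({u} : Set (SzG F s)) :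
            Subgroup (SzG F s)) : Set (SzG F s))} =
          {y : SzG F s | y ∈ Subgroup.normalizer ((Subgroup.centralizer
            ({u} : Set (SzG F s)) : Subgroup (SzG F s)) : Set (SzG F s)) ∧
            y * y = tG D 0 (a₀ ^ (s + 1))} := by
        ext c; exact and_comm
      rw [hset']
      exact sq_roots D hqr h3 hf htN ht2 ht1
    · intro c hc
      have hc' : c * c = tG D 0 (a₀ ^ (s + 1)) := hc
      have hset' : {u : SzG F s | u ∈ EN s (tG D 0 (a₀ ^ (s + 1))) ∧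
          c ∈ Subgroup.normalizer ((Subgroup.centralizer ({u} : Set (SzG F s)) :
            Subgroup (SzG F s)) : Set (SzG F s))} = EN s c := by
        ext u
        constructor
        · rintro ⟨⟨hf, -⟩, hcN⟩; exact ⟨hf, hcN⟩
        · rintro ⟨hf, hcN⟩
          refine ⟨⟨hf, ?_⟩, hcN⟩
          rw [← hc']; exact mul_mem hcN hcN
      rw [hset']
      have hcr : c ∈ Set.range (fun b : F => tG D a₀ b) := by
        rw [← card_roots D ha₀]; exact hc'
      obtain ⟨b', rfl⟩ := hcr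
      exact EN_card_eq D ha₀ b₀ b'
  have hset : {y : SzG F s | Good s r (tG D a₀ b₀) y} =
      {y : SzG F s | y • Pinf F = Pinf F} ∪
      (fun p : SzG F s × Fin 4 => p.1 * tG D a₀ b₀ ^ (p.2 : ℕ)) ''
        (EN s (tG D a₀ b₀) ×ˢ (Set.univ : Set (Fin 4))) := by
    ext y
    constructor
    · rintro (⟨p, hp, hxp, hyp⟩ | ⟨T, hT, hxN, hyN⟩)
      · left
        have hpinf := unipFixG D (fun hh => ha₀ hh.1) hp hxp
        rw [hpinf] at hyp
        exact hyp
      · by_cases hinf : y • Pinf F = Pinf F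
        · exact Or.inl hinf
        right
        obtain ⟨u₀, hu₀, hu₀1⟩ := t3_ne_one D hqr hT
        have hu₀4 := (pow_four_ne (t3_odd D hqr hT).1 hu₀ hu₀1).2
        have hC := hT.2.2 u₀ hu₀ hu₀1
        have hxN' : tG D a₀ b₀ ∈ Subgroup.normalizer ((Subgroup.centralizer
            ({u₀} : Set (SzG F s)) : Subgroup (SzG F s)) : Set (SzG F s)) := by
          rw [hC]; exact hxN
        have hyN' : y ∈ Subgroup.normalizer ((Subgroup.centralizer
            ({u₀} : Set (SzG F s)) : Subgroup (SzG F s)) : Set (SzG F s)) := by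
          rw [hC]; exact hyN
        have hfu₀ : Fpf s (u₀ : SL4 F) := by
          by_contra hnf
          have hmem := split_sq_mem D hu₀4 hnf hxN'
          rw [hC, hxx] at hmem
          exact t3_two_not_mem D hqr hT (sq_pow_four ht2) ht1 hmem
        obtain ⟨v, hv, i, hi, rfl⟩ := norm_cosets D hqr hfu₀ hxN' hx4 hx2 y hyN'
        have hv1 : v ≠ 1 := by
          rintro rfl
          rw [one_mul] at hinf
          exact hinf (hpowinf i)
        have hfv : Fpf s (v : SL4 F) := fpf_of_cent D hfu₀ hv hv1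
        have hvT : v ∈ T := by rw [← hC]; exact hv
        have hCv := hT.2.2 v hvT hv1
        refine ⟨(v, ⟨i, hi⟩), ⟨⟨hfv, ?_⟩, Set.mem_univ _⟩, rfl⟩
        rw [hCv]; exact hxN
    · rintro (hy | ⟨⟨u, i⟩, ⟨⟨hf, hxN⟩, -⟩, rfl⟩)
      · exact Or.inl ⟨Pinf F, inf_mem, hxinf, hy⟩
      · refine Or.inr ⟨_, tor3_cent D hqr u (fpf_pow_four_ne D hf), hxN, ?_⟩
        exact mul_mem (Subgroup.le_normalizer (Subgroup.mem_centralizer_singleton_iff.mpr rfl))
          (pow_mem hxN _)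
  have hdisj : Disjoint {y : SzG F s | y • Pinf F = Pinf F}
      ((fun p : SzG F s × Fin 4 => p.1 * tG D a₀ b₀ ^ (p.2 : ℕ)) ''
        (EN s (tG D a₀ b₀) ×ˢ (Set.univ : Set (Fin 4)))) := by
    rw [Set.disjoint_left]
    rintro y hy ⟨⟨u, i⟩, ⟨⟨hf, -⟩, -⟩, rfl⟩
    apply hf (Pinf F) inf_mem
    have hy' : (u * tG D a₀ b₀ ^ (i : ℕ)) • Pinf F = Pinf F := hy
    rw [mul_smul, hpowinf] at hy'
    exact hy'
  have hinj : Set.InjOn (fun p : SzG F s × Fin 4 => p.1 * tG D a₀ b₀ ^ (p.2 : ℕ))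
      (EN s (tG D a₀ b₀) ×ˢ (Set.univ : Set (Fin 4))) := by
    rintro ⟨u, i⟩ ⟨⟨hf, hxN⟩, -⟩ ⟨u', j⟩ ⟨⟨hf', hxN'⟩, -⟩ h
    have h' : u * tG D a₀ b₀ ^ (i : ℕ) = u' * tG D a₀ b₀ ^ (j : ℕ) := h
    have hT := tor3_cent D hqr u (fpf_pow_four_ne D hf)
    have hT' := tor3_cent D hqr u' (fpf_pow_four_ne D hf')
    have huT : u ∈ Subgroup.centralizer ({u} : Set (SzG F s)) :=
      Subgroup.mem_centralizer_singleton_iff.mpr rfl
    have hu'T' : u' ∈ Subgroup.centralizer ({u'} : Set (SzG F s)) :=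
      Subgroup.mem_centralizer_singleton_iff.mpr rfl
    have hu'1 : u' ≠ 1 := fun h => fpf_ne_one hf' (by rw [h]; rfl)
    have hodd' := (pow_four_ne (t3_odd D hqr hT').1 hu'T' hu'1).1
    have hu'N : u' ∈ Subgroup.normalizer ((Subgroup.centralizer
        ({u} : Set (SzG F s)) : Subgroup (SzG F s)) : Set (SzG F s)) := by
      have e : u' = u * tG D a₀ b₀ ^ (i : ℕ) * (tG D a₀ b₀ ^ (j : ℕ))⁻¹ := by rw [h']; group
      rw [e]
      exact mul_mem (mul_mem (Subgroup.le_normalizer huT) (pow_mem hxN _))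
        (inv_mem (pow_mem hxN _))
    have hu'T : u' ∈ Subgroup.centralizer ({u} : Set (SzG F s)) :=
      t3_odd_mem D hqr h3 hT hu'N hodd'
    obtain ⟨huu, hij⟩ := pow_coset_inj D hqr hT hx4 hx2 huT hu'T i.2 j.2 h'
    exact Prod.ext huu (Fin.ext hij)
  have hBi : {y : SzG F s | y • Pinf F = Pinf F}.ncard =
      Fintype.card F ^ 2 * (Fintype.card F - 1) := by
    rw [← Nat.card_coe_set_eq]
    exact card_stab D inf_mem
  rw [hset, Set.ncard_union_eq hdisj, Set.InjOn.ncard_image hinj, Set.ncard_prod,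
    Set.ncard_univ, Nat.card_eq_fintype_card, Fintype.card_fin, hE, hBi]
  have hq := D.eight_le
  obtain ⟨k, hk⟩ : ∃ k, Fintype.card F = k + 1 := ⟨Fintype.card F - 1, by omega⟩
  rw [hk, Nat.add_sub_cancel]; ring

/-! ### elements of odd order -/

theorem w_norm (D : SzData F s) :
    wG D ∈ Subgroup.normalizer (((hG D).range : Subgroup (SzG F s)) : Set (SzG F s)) := by
  have hwinv : (wG D)⁻¹ = wG D := inv_eq_of_mul_eq_one_right (wG_sq D)
  rw [Subgroup.mem_normalizer_iff]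
  intro h
  constructor
  · rintro ⟨c', rfl⟩
    rw [hwinv, wG_hG]
    exact ⟨_, rfl⟩
  · rintro ⟨c', hc'⟩
    rw [hwinv] at hc'
    have e : h = wG D * hG D c' * wG D := by
      rw [hc']
      calc h = (wG D * wG D) * h * (wG D * wG D) := by rw [wG_sq]; group
        _ = wG D * (wG D * h * wG D) * wG D := by group
    rw [e, wG_hG]
    exact ⟨_, rfl⟩

theorem cent_torus (D : SzData F s) {c : Fˣ} (hc1 : c ≠ 1) :
    Subgroup.centralizer ({hG D c} : Set (SzG F s)) = (hG D).range := by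
  ext e
  rw [Subgroup.mem_centralizer_singleton_iff]
  constructor
  · intro h
    obtain ⟨c', hc'⟩ := centTorusG D hc1 e h
    exact ⟨c', hc'.symm⟩
  · rintro ⟨c', rfl⟩
    rw [← map_mul, ← map_mul, mul_comm]

theorem hG_pow_card (D : SzData F s) (c : Fˣ) : hG D c ^ (Fintype.card F - 1) = 1 := by
  classical
  rw [← map_pow, ← Fintype.card_units, pow_card_eq_one, map_one]

theorem count_split (D : SzData F s) {r : ℕ} (hqr : Fintype.card F = 2 * r ^ 2)
    (h3 : ¬ 3 ∣ Nat.card (SzG F s)) {c : Fˣ} (hc : c ≠ 1) :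
    {y : SzG F s | Good s r (hG D c) y}.ncard =
      2 * Fintype.card F ^ 2 * (Fintype.card F - 1) := by
  have hx1 : hG D c ≠ 1 := fun h => hc (hG_inj D (by rw [h, map_one]))
  have hx4 : hG D c ^ 4 ≠ 1 := by
    intro h
    rw [← map_pow] at h
    have h' : c ^ 4 = 1 := hG_inj D (by rw [h, map_one])
    exact hc (D.unit_two_pow 2 c h')
  have hCr := cent_torus D hc
  have hT := tor3_cent D hqr (hG D c) hx4
  have hxT : hG D c ∈ Subgroup.centralizer ({hG D c} : Set (SzG F s)) :=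
    Subgroup.mem_centralizer_singleton_iff.mpr rfl
  have hodd : ¬ 2 ∣ orderOf (hG D c) := (pow_four_ne (t3_odd D hqr hT).1 hxT hx1).1
  have hset : {y : SzG F s | Good s r (hG D c) y} =
      ({y : SzG F s | y • Pinf F = Pinf F} ∪ {y : SzG F s | y • P0 F = P0 F}) ∪
        Set.range (fun c' : Fˣ => wG D * hG D c') := by
    ext y
    constructor
    · rintro (⟨p, hp, hxp, hyp⟩ | ⟨T, hT', hxN, hyN⟩)
      · left
        rcases torusFixG D hc hp hxp with rfl | rfl
        · exact Or.inl hyp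
        · exact Or.inr hyp
      · have hxT' := t3_odd_mem D hqr h3 hT' hxN hodd
        have hC := hT'.2.2 _ hxT' hx1
        rw [← hC, hCr] at hyN
        have h1 : y * hG D c * y⁻¹ ∈ (hG D).range :=
          (Subgroup.mem_normalizer_iff.mp hyN _).mp ⟨c, rfl⟩
        obtain ⟨c', hc'⟩ := h1
        rcases norm_torus D hc ⟨c', hc'.symm⟩ with ⟨c'', rfl⟩ | ⟨c'', rfl⟩
        · left; left; exact hG_inf D c''
        · right; exact ⟨c'', rfl⟩
    · rintro ((hy | hy) | ⟨c', rfl⟩)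
      · exact Or.inl ⟨Pinf F, inf_mem, hG_inf D c, hy⟩
      · exact Or.inl ⟨P0 F, zero_mem D, hG_zero D c, hy⟩
      · refine Or.inr ⟨_, hT, Subgroup.le_normalizer hxT, ?_⟩
        rw [hCr]
        exact mul_mem (w_norm D) (Subgroup.le_normalizer ⟨c', rfl⟩)
  have hBi : {y : SzG F s | y • Pinf F = Pinf F}.ncard =
      Fintype.card F ^ 2 * (Fintype.card F - 1) := by
    rw [← Nat.card_coe_set_eq]
    exact card_stab D inf_mem
  have hB0 : {y : SzG F s | y • P0 F = P0 F}.ncard =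
      Fintype.card F ^ 2 * (Fintype.card F - 1) := by
    rw [← Nat.card_coe_set_eq]
    exact card_stab D (zero_mem D)
  have hInter : ({y : SzG F s | y • Pinf F = Pinf F} ∩ {y : SzG F s | y • P0 F = P0 F}).ncard =
      Fintype.card F - 1 := by
    rw [← Nat.card_coe_set_eq]
    exact card_stab2 D inf_mem (zero_mem D) (Ne.symm P0_ne_inf)
  have hW : (Set.range (fun c' : Fˣ => wG D * hG D c')).ncard = Fintype.card F - 1 := by
    rw [Set.ncard_range_of_injective, Nat.card_units, Nat.card_eq_fintype_card]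
    intro c₁ c₂ h
    have h' : wG D * hG D c₁ = wG D * hG D c₂ := h
    exact hG_inj D (mul_left_cancel h')
  have hdisj : Disjoint
      ({y : SzG F s | y • Pinf F = Pinf F} ∪ {y : SzG F s | y • P0 F = P0 F})
      (Set.range (fun c' : Fˣ => wG D * hG D c')) := by
    rw [Set.disjoint_left]
    rintro y (hy | hy) ⟨c', rfl⟩
    · have hy' : (wG D * hG D c') • Pinf F = Pinf F := hy
      rw [mul_smul, hG_inf, wG_inf] at hy'
      exact P0_ne_inf hy'
    · have hy' : (wG D * hG D c') • P0 F = P0 F := hy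
      rw [mul_smul, hG_zero, wG_zero] at hy'
      exact P0_ne_inf hy'.symm
  have hu := Set.ncard_union_add_ncard_inter {y : SzG F s | y • Pinf F = Pinf F}
    {y : SzG F s | y • P0 F = P0 F}
  rw [hInter, hBi, hB0] at hu
  rw [hset, Set.ncard_union_eq hdisj, hW, hu]
  ring

theorem count_fpf (D : SzData F s) {r : ℕ} (hqr : Fintype.card F = 2 * r ^ 2)
    (h3 : ¬ 3 ∣ Nat.card (SzG F s)) {x : SzG F s} (hf : Fpf s (x : SL4 F)) :
    {y : SzG F s | Good s r x y}.ncard =
      4 * Nat.card (Subgroup.centralizer ({x} : Set (SzG F s))) := by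
  have hT := tor3_cent D hqr x (fpf_pow_four_ne D hf)
  have hx1 : x ≠ 1 := fun h => fpf_ne_one hf (by rw [h]; rfl)
  have hxT : x ∈ Subgroup.centralizer ({x} : Set (SzG F s)) :=
    Subgroup.mem_centralizer_singleton_iff.mpr rfl
  have hodd : ¬ 2 ∣ orderOf x := (pow_four_ne (t3_odd D hqr hT).1 hxT hx1).1
  have hset : {y : SzG F s | Good s r x y} =
      ((Subgroup.normalizer ((Subgroup.centralizer ({x} : Set (SzG F s)) :
        Subgroup (SzG F s)) : Set (SzG F s)) : Subgroup (SzG F s)) : Set (SzG F s)) := by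
    ext y
    constructor
    · rintro (⟨p, hp, hxp, -⟩ | ⟨T, hT', hxN, hyN⟩)
      · exact absurd hxp (hf p hp)
      · have hxT' := t3_odd_mem D hqr h3 hT' hxN hodd
        have hC := hT'.2.2 _ hxT' hx1
        rw [hC]; exact hyN
    · intro hy
      exact Or.inr ⟨_, hT, Subgroup.le_normalizer hxT, hy⟩
  rw [hset, ← norm_card_four D hqr hf]
  exact (Nat.card_coe_set_eq _).symm

/-! ### the main statement -/

theorem order_dvd_cent {G : Type*} [Group G] [Finite G] (x : G) :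
    orderOf x ∣ Nat.card (Subgroup.centralizer ({x} : Set G)) := by
  have hx : x ∈ Subgroup.centralizer ({x} : Set G) :=
    Subgroup.mem_centralizer_singleton_iff.mpr rfl
  have h1 : orderOf (⟨x, hx⟩ : Subgroup.centralizer ({x} : Set G)) ∣
      Nat.card (Subgroup.centralizer ({x} : Set G)) := orderOf_dvd_natCard _
  have e : orderOf (⟨x, hx⟩ : Subgroup.centralizer ({x} : Set G)) = orderOf x :=
    (Subgroup.orderOf_coe (⟨x, hx⟩ : Subgroup.centralizer ({x} : Set G))).symm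
  rw [e] at h1
  exact h1

theorem odd_dvd_two_pow {d j : ℕ} (hodd : ¬ 2 ∣ d) (h : d ∣ 2 ^ j) : d = 1 := by
  obtain ⟨i, -, hi⟩ := (Nat.dvd_prime_pow Nat.prime_two).mp h
  rcases Nat.eq_zero_or_pos i with h0 | hpos
  · rw [hi, h0, pow_zero]
  · exfalso
    apply hodd
    rw [hi]
    exact dvd_pow_self 2 (by omega)

/-- The sizes of the solubilizers in `Sz(q)`, `q = 2^(2m+1)` with `2m+1` prime. -/
theorem sol_main {m : ℕ} (hm : 1 ≤ m) (hp : (2 * m + 1).Prime)
    (hF : Fintype.card F = 2 ^ (2 * m + 1)) (x : SzG F (2 ^ (m + 1))) :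
    (orderOf x = 2 → Nat.card {y : SzG F (2 ^ (m + 1)) // Group.IsSolvable
        (Subgroup.closure ({x, y} : Set (SzG F (2 ^ (m + 1)))))} =
      (2 ^ (2 * m + 1)) ^ 2 * (4 * 2 ^ (2 * m + 1) - 3)) ∧
    (orderOf x = 4 → Nat.card {y : SzG F (2 ^ (m + 1)) // Group.IsSolvable
        (Subgroup.closure ({x, y} : Set (SzG F (2 ^ (m + 1)))))} =
      (2 ^ (2 * m + 1)) ^ 2 * (2 ^ (2 * m + 1) + 3)) ∧
    (x ≠ 1 → orderOf x ∣ 2 ^ (2 * m + 1) - 1 →
      Nat.card {y : SzG F (2 ^ (m + 1)) // Group.IsSolvable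
        (Subgroup.closure ({x, y} : Set (SzG F (2 ^ (m + 1)))))} =
      2 * (2 ^ (2 * m + 1)) ^ 2 * (2 ^ (2 * m + 1) - 1)) ∧
    (x ≠ 1 → orderOf x ∣ 2 ^ (2 * m + 1) + 2 ^ (m + 1) + 1 →
      Nat.card {y : SzG F (2 ^ (m + 1)) // Group.IsSolvable
        (Subgroup.closure ({x, y} : Set (SzG F (2 ^ (m + 1)))))} =
      4 * (2 ^ (2 * m + 1) + 2 ^ (m + 1) + 1)) ∧
    (x ≠ 1 → orderOf x ∣ 2 ^ (2 * m + 1) - 2 ^ (m + 1) + 1 →
      Nat.card {y : SzG F (2 ^ (m + 1)) // Group.IsSolvable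
        (Subgroup.closure ({x, y} : Set (SzG F (2 ^ (m + 1)))))} =
      4 * (2 ^ (2 * m + 1) - 2 ^ (m + 1) + 1)) := by
  have D := szData hm hF
  have hqr : Fintype.card F = 2 * (2 ^ m) ^ 2 := by rw [hF]; ring
  have h3 := three_not_dvd hF D
  have h2r : 2 * 2 ^ m = 2 ^ (m + 1) := by ring
  have key : ∀ x' : SzG F (2 ^ (m + 1)),
      Nat.card {y : SzG F (2 ^ (m + 1)) // Group.IsSolvable
        (Subgroup.closure ({x', y} : Set (SzG F (2 ^ (m + 1)))))} =
        {y : SzG F (2 ^ (m + 1)) | Good (2 ^ (m + 1)) (2 ^ m) x' y}.ncard := by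
    intro x'
    rw [← Nat.card_coe_set_eq]
    exact Nat.card_congr (Equiv.subtypeEquiv (Equiv.refl _)
      (fun y => solvable_iff_good hm hp hF x' y))
  have conjk : ∀ K x' : SzG F (2 ^ (m + 1)),
      Nat.card {y : SzG F (2 ^ (m + 1)) // Group.IsSolvable
        (Subgroup.closure ({x', y} : Set (SzG F (2 ^ (m + 1)))))} =
      {y : SzG F (2 ^ (m + 1)) | Good (2 ^ (m + 1)) (2 ^ m) (K * x' * K⁻¹) y}.ncard := by
    intro K x'
    rw [← key]
    exact (sol_equiv (MulAut.conj K) x').symm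
  rw [← hF]
  have hq := D.eight_le
  have hqe : 2 ∣ Fintype.card F := D.two_dvd_card
  have hx4_of : ∀ N : ℕ, ¬ 2 ∣ N → x ≠ 1 → orderOf x ∣ N → x ^ 4 ≠ 1 := by
    intro N hN hx1 hdvd
    exact odd_four (fun h => hN (h.trans hdvd)) hx1
  have hsplit_dvd : x ^ 4 ≠ 1 → ¬ Fpf (2 ^ (m + 1)) (x : SL4 F) →
      orderOf x ∣ Fintype.card F - 1 := by
    intro hx4 hnf
    obtain ⟨K, c, hc1, hK⟩ := split_conj D hx4 hnf
    apply orderOf_dvd_of_pow_eq_one
    have h : (K * x * K⁻¹) ^ (Fintype.card F - 1) = 1 := by rw [hK]; exact hG_pow_card D c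
    rw [conj_pow] at h
    exact conj_eq_one_iff.mp h
  have hsq_of : orderOf x ∣ 2 → x ^ 4 = 1 := by
    intro h2
    have hx2 : x ^ 2 = 1 := orderOf_dvd_iff_pow_eq_one.mp h2
    rw [pow_two] at hx2
    rw [pow4, hx2, one_mul]
  obtain ⟨A₁, A₂, hA₁, hA₂, hc₁, hc₂, hn₁, hn₂, hsub⟩ := tori D hqr
  have hd₁ := tor_dvd D hA₁
  have hd₂ := tor_dvd D hA₂
  rw [h2r] at hc₁ hc₂
  have hodd₁ : ¬ 2 ∣ Nat.card A₁ := fun h => D.not_two_dvd (h.trans hd₁)
  have hodd₂ : ¬ 2 ∣ Nat.card A₂ := fun h => D.not_two_dvd (h.trans hd₂)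
  have hfpf_of : x ≠ 1 → x ^ 4 ≠ 1 → orderOf x ∣ Fintype.card F ^ 2 + 1 →
      Fpf (2 ^ (m + 1)) (x : SL4 F) := by
    intro hx1 hx4 hdvd
    by_contra hnf
    exact hx4 (hsq_of (dvd_two_of (by omega) (hsplit_dvd hx4 hnf) hdvd))
  have hcard_cent : Fpf (2 ^ (m + 1)) (x : SL4 F) →
      Nat.card (Subgroup.centralizer ({x} : Set (SzG F (2 ^ (m + 1))))) = Nat.card A₁ ∨
      Nat.card (Subgroup.centralizer ({x} : Set (SzG F (2 ^ (m + 1))))) = Nat.card A₂ := by
    intro hf
    rcases hsub hf with h | h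
    · exact Or.inl (card_cent_of_xa D hA₁ h)
    · exact Or.inr (card_cent_of_xa D hA₂ h)
  have hle : 2 ^ (m + 1) ≤ Fintype.card F := by
    rw [hF]; exact Nat.pow_le_pow_right (by norm_num) (by omega)
  have h22 : 2 ^ (m + 2) = 2 * 2 ^ (m + 1) := by ring
  have hA12 : Nat.card A₁ = Nat.card A₂ + 2 ^ (m + 2) := by omega
  refine ⟨?_, ?_, ?_, ?_, ?_⟩
  · intro ho
    have hx2 : x * x = 1 := by
      have h := pow_orderOf_eq_one x
      rw [ho, pow_two] at h
      exact h
    have hx1 : x ≠ 1 := by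
      intro h; rw [h, orderOf_one] at ho; omega
    obtain ⟨K, b, hb, hK⟩ := inv_conj D hx2 hx1
    rw [conjk K x, hK]
    exact count_inv D hqr h3 hb
  · intro ho
    have hx4 : x ^ 4 = 1 := by
      have h := pow_orderOf_eq_one x
      rw [ho] at h
      exact h
    have hx2 : x * x ≠ 1 := by
      intro h
      have hd := orderOf_dvd_of_pow_eq_one (show x ^ 2 = 1 by rw [pow_two]; exact h)
      rw [ho] at hd
      exact absurd hd (by norm_num)
    have hx1 : x ≠ 1 := by rintro rfl; exact hx2 (one_mul 1)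
    obtain ⟨K, a, b, hab, hK⟩ := two_conj D (show x ^ 2 ^ 2 = 1 from hx4) hx1
    have ha : a ≠ 0 := by
      rintro rfl
      apply hx2
      have h1 : (K * x * K⁻¹) * (K * x * K⁻¹) = 1 := by rw [hK]; exact tG_zero_sq D b
      have h2 : K * (x * x) * K⁻¹ = 1 := by rw [← h1]; group
      exact conj_eq_one_iff.mp h2
    rw [conjk K x, hK]
    exact count_four D hqr h3 ha b
  · intro hx1 hdvd
    have hoddN : ¬ 2 ∣ Fintype.card F - 1 := by omega
    have hx4 := hx4_of _ hoddN hx1 hdvd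
    have hnf : ¬ Fpf (2 ^ (m + 1)) (x : SL4 F) := by
      intro hf
      have h1 := (order_dvd_cent x).trans (card_cent_dvd D hf)
      exact hx4 (hsq_of (dvd_two_of (by omega) hdvd h1))
    obtain ⟨K, c, hc1, hK⟩ := split_conj D hx4 hnf
    rw [conjk K x, hK]
    exact count_split D hqr h3 hc1
  · intro hx1 hdvd
    rw [← hc₁] at hdvd ⊢
    have hx4 := hx4_of _ hodd₁ hx1 hdvd
    have hf := hfpf_of hx1 hx4 (hdvd.trans hd₁)
    rw [key x, count_fpf D hqr h3 hf]
    rcases hcard_cent hf with h | h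
    · rw [h]
    · exfalso
      have h1 : orderOf x ∣ Nat.card A₂ := by rw [← h]; exact order_dvd_cent x
      rw [hA12] at hdvd
      have h4 : orderOf x ∣ 2 ^ (m + 2) := (Nat.dvd_add_right h1).mp hdvd
      have h5 := odd_dvd_two_pow (fun hh => hodd₂ (hh.trans h1)) h4
      exact hx1 (orderOf_eq_one_iff.mp h5)
  · intro hx1 hdvd
    have hc₂' : Fintype.card F - 2 ^ (m + 1) + 1 = Nat.card A₂ := by omega
    rw [hc₂'] at hdvd ⊢
    have hx4 := hx4_of _ hodd₂ hx1 hdvd
    have hf := hfpf_of hx1 hx4 (hdvd.trans hd₂)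
    rw [key x, count_fpf D hqr h3 hf]
    rcases hcard_cent hf with h | h
    · exfalso
      have h1 : orderOf x ∣ Nat.card A₁ := by rw [← h]; exact order_dvd_cent x
      rw [hA12] at h1
      have h4 : orderOf x ∣ 2 ^ (m + 2) := (Nat.dvd_add_right hdvd).mp h1
      have h5 := odd_dvd_two_pow (fun hh => hodd₂ (hh.trans hdvd)) h4
      exact hx1 (orderOf_eq_one_iff.mp h5)
    · rw [h]

end Cfsg.Agent.Helper6.SzSol
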